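import Cfsg.Agent.Lib.MinE8.ArBase

/-! Arithmetic for `Ar.lean`: Bezout certificates (python-generated). -/

set_option autoImplicit false
set_option linter.unusedSectionVars false
set_option linter.unusedVariables false
set_option maxRecDepth 100000

namespace Cfsg.Agent.Lib.MinE8

open Cfsg.Agent.Lib.MinE6 (k0 gaussN)

namespace ArAux8

section sII_0

/-- The cofactor. -/
def QII_0 (z : ℤ) : ℤ := 2 + 2*z + 2*z^2 + 2*z^3 + 3*z^4 + 4*z^5 + 4*z^6 + 4*z^7 + 5*z^8 + 5*z^9 + 5*z^10 + 5*z^11 + 5*z^12 + 4*z^13 + 4*z^14 + 4*z^15 + 4*z^16 + 3*z^17 + 3*z^18 + 2*z^19 + 2*z^20 + 2*z^21 + 2*z^22 + 1*z^23 + 1*z^24 + 1*z^25 + 1*z^26 + 1*z^27 + 1*z^28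

lemma bII_0_1 (z : ℤ) : Bz (QII_0 z) (F1 z) 84 :=
  ⟨1, (-82) + (-80)*z + (-78)*z^2 + (-76)*z^3 + (-73)*z^4 + (-69)*z^5 + (-65)*z^6 + (-61)*z^7 + (-56)*z^8 + (-51)*z^9 + (-46)*z^10 + (-41)*z^11 + (-36)*z^12 + (-32)*z^13 + (-28)*z^14 + (-24)*z^15 + (-20)*z^16 + (-17)*z^17 + (-14)*z^18 + (-12)*z^19 + (-10)*z^20 + (-8)*z^21 + (-6)*z^22 + (-5)*z^23 + (-4)*z^24 + (-3)*z^25 + (-2)*z^26 + (-1)*z^27, by simp only [QII_0, F1]; ring⟩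

lemma bII_0_2 (z : ℤ) : Bz (QII_0 z) (F2 z) 4 :=
  ⟨1, 2 + (-4)*z + 2*z^2 + (-4)*z^3 + 1*z^4 + (-5)*z^5 + 1*z^6 + (-5)*z^7 + (-5)*z^9 + (-5)*z^11 + (-4)*z^13 + (-4)*z^15 + (-3)*z^17 + (-2)*z^19 + (-2)*z^21 + (-1)*z^23 + (-1)*z^25 + (-1)*z^27, by simp only [QII_0, F2]; ring⟩

lemma bII_0_3 (z : ℤ) : Bz (QII_0 z) (F3 z) 3 :=
  ⟨1 + (-1)*z, 1 + (-1)*z + 1*z^3 + (-2)*z^4 + 2*z^6 + (-2)*z^7 + (-1)*z^8 + 3*z^9 + (-2)*z^10 + (-1)*z^11 + 3*z^12 + (-1)*z^13 + (-2)*z^14 + 3*z^15 + (-1)*z^16 + (-1)*z^17 + 2*z^18 + (-2)*z^20 + 2*z^21 + (-1)*z^23 + 1*z^24 + (-1)*z^26 + 1*z^27, by simp only [QII_0, F3]; ring⟩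

lemma bII_0_4 (z : ℤ) : Bz (QII_0 z) (F4 z) 4 :=
  ⟨1 + (-1)*z, 2 + (-2)*z^2 + 1*z^4 + (-1)*z^5 + (-1)*z^6 + 1*z^7 + (-1)*z^9 + 1*z^11 + 1*z^17 + 1*z^23 + (-1)*z^25 + 1*z^27, by simp only [QII_0, F4]; ring⟩

lemma bII_0_5 (z : ℤ) : Bz (QII_0 z) (F5 z) 41 :=
  ⟨10 + (-13)*z + 3*z^2 + (-1)*z^3, 21 + (-15)*z + (-6)*z^2 + 2*z^3 + (-10)*z^4 + 24*z^5 + (-5)*z^6 + (-8)*z^7 + (-7)*z^8 + 3*z^9 + 21*z^10 + (-4)*z^11 + (-8)*z^12 + 3*z^13 + (-10)*z^14 + 24*z^15 + (-5)*z^16 + 2*z^17 + (-10)*z^18 + 3*z^19 + 10*z^20 + (-2)*z^21 + 1*z^22 + (-10)*z^24 + 13*z^25 + (-3)*z^26 + 1*z^27, by simp only [QII_0, F5]; ring⟩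

lemma bII_0_6 (z : ℤ) : Bz (QII_0 z) (F6 z) 1 :=
  ⟨(-1) + 1*z, 3 + 3*z + (-3)*z^3 + (-2)*z^4 + 2*z^5 + 4*z^6 + 2*z^7 + (-1)*z^8 + (-3)*z^9 + (-2)*z^10 + 1*z^11 + 3*z^12 + 1*z^13 + (-2)*z^14 + (-3)*z^15 + (-1)*z^16 + 1*z^17 + 2*z^18 + (-2)*z^20 + (-2)*z^21 + 1*z^23 + 1*z^24 + (-1)*z^26 + (-1)*z^27, by simp only [QII_0, F6]; ring⟩

lemma bII_0_7 (z : ℤ) : Bz (QII_0 z) (F7 z) 14 :=
  ⟨5 + (-4)*z + 1*z^2 + (-1)*z^3 + (-3)*z^4 + 2*z^5, 4 + (-6)*z + (-2)*z^2 + 2*z^3 + 1*z^4 + (-5)*z^5 + 3*z^6 + 4*z^7 + (-7)*z^8 + 3*z^9 + (-1)*z^10 + 2*z^11 + (-2)*z^12 + 6*z^13 + (-6)*z^15 + 2*z^16 + 1*z^17 + 4*z^19 + 1*z^20 + (-2)*z^21 + (-5)*z^22 + 4*z^23 + (-1)*z^24 + 1*z^25 + 3*z^26 + (-2)*z^27, by simp only [QII_0, F7]; ring⟩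

lemma bII_0_8 (z : ℤ) : Bz (QII_0 z) (F8 z) 2 :=
  ⟨1 + (-1)*z, (-1)*z^4 + (-1)*z^5 + 1*z^9 + 1*z^17 + 1*z^19 + (-1)*z^21 + 1*z^25, by simp only [QII_0, F8]; ring⟩

lemma bII_0_9 (z : ℤ) : Bz (QII_0 z) (F9 z) 57 :=
  ⟨28 + (-14)*z + 7*z^2 + (-4)*z^3 + 2*z^4 + (-1)*z^5, 1 + (-28)*z + (-42)*z^2 + (-35)*z^3 + (-38)*z^4 + (-36)*z^5 + (-37)*z^6 + (-8)*z^7 + (-22)*z^8 + (-15)*z^9 + (-47)*z^10 + (-31)*z^11 + (-39)*z^12 + (-7)*z^13 + (-23)*z^14 + (-15)*z^15 + (-19)*z^16 + 11*z^17 + (-4)*z^18 + 3*z^19 + (-29)*z^20 + (-13)*z^21 + (-21)*z^22 + 11*z^23 + (-5)*z^24 + 3*z^25 + (-1)*z^26 + 1*z^27, by simp only [QII_0, F9]; ring⟩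

lemma bII_0_10 (z : ℤ) : Bz (QII_0 z) (F10 z) 1 :=
  ⟨1*z + 1*z^2 + 1*z^3, 1 + (-1)*z + (-6)*z^2 + (-10)*z^3 + (-12)*z^4 + (-14)*z^5 + (-15)*z^6 + (-14)*z^7 + (-13)*z^8 + (-13)*z^9 + (-13)*z^10 + (-14)*z^11 + (-16)*z^12 + (-17)*z^13 + (-16)*z^14 + (-14)*z^15 + (-11)*z^16 + (-8)*z^17 + (-6)*z^18 + (-5)*z^19 + (-4)*z^20 + (-4)*z^21 + (-5)*z^22 + (-6)*z^23 + (-6)*z^24 + (-5)*z^25 + (-3)*z^26 + (-1)*z^27, by simp only [QII_0, F10]; ring⟩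

lemma bII_0_12 (z : ℤ) : Bz (QII_0 z) (F12 z) 1 :=
  ⟨1 + (-1)*z, (-1) + (-1)*z^2 + (-1)*z^4 + (-1)*z^5 + (-1)*z^7 + 1*z^11 + 2*z^13 + 1*z^15 + 1*z^23 + 1*z^25, by simp only [QII_0, F12]; ring⟩

lemma bII_0_14 (z : ℤ) : Bz (QII_0 z) (F14 z) 2 :=
  ⟨(-1)*z^2 + 1*z^3 + 1*z^5, 2 + 2*z + 2*z^2 + 2*z^3 + (-2)*z^5 + (-3)*z^6 + (-4)*z^7 + (-5)*z^8 + (-7)*z^9 + (-8)*z^10 + (-7)*z^11 + (-6)*z^12 + (-6)*z^13 + (-6)*z^14 + (-6)*z^15 + (-4)*z^16 + (-2)*z^17 + (-2)*z^18 + (-3)*z^19 + (-3)*z^20 + (-3)*z^21 + (-2)*z^22 + (-2)*z^23 + (-3)*z^24 + (-3)*z^25 + (-2)*z^26 + (-1)*z^27, by simp only [QII_0, F14]; ring⟩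

lemma bII_0_15 (z : ℤ) : Bz (QII_0 z) (F15 z) 61 :=
  ⟨12 + 4*z + (-15)*z^2 + (-8)*z^3 + 18*z^4 + (-25)*z^5 + 48*z^6 + (-9)*z^7, 37 + 5*z + 3*z^2 + (-20)*z^3 + (-22)*z^4 + (-57)*z^5 + (-124)*z^6 + (-132)*z^7 + (-175)*z^8 + (-151)*z^9 + (-180)*z^10 + (-117)*z^11 + (-155)*z^12 + (-92)*z^13 + (-130)*z^14 + (-79)*z^15 + (-133)*z^16 + (-71)*z^17 + (-90)*z^18 + (-22)*z^19 + (-33)*z^20 + (-7)*z^21 + (-74)*z^22 + (-70)*z^23 + (-85)*z^24 + (-44)*z^25 + (-30)*z^26 + 9*z^27, by simp only [QII_0, F15]; ring⟩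

lemma bII_0_18 (z : ℤ) : Bz (QII_0 z) (F18 z) 919 :=
  ⟨144 + (-250)*z + (-51)*z^2 + 136*z^3 + (-134)*z^4 + 105*z^5, 631 + 212*z + 314*z^2 + 673*z^3 + 378*z^4 + 376*z^5 + 405*z^6 + 444*z^7 + 194*z^8 + 143*z^9 + 423*z^10 + 39*z^11 + 93*z^12 + 373*z^13 + (-11)*z^14 + 43*z^15 + 179*z^16 + 189*z^17 + 44*z^18 + (-7)*z^19 + 273*z^20 + (-111)*z^21 + (-57)*z^22 + 223*z^23 + (-161)*z^24 + (-107)*z^25 + 29*z^26 + (-105)*z^27, by simp only [QII_0, F18]; ring⟩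

lemma bII_0_20 (z : ℤ) : Bz (QII_0 z) (F20 z) 461 :=
  ⟨318 + (-282)*z + (-181)*z^2 + 204*z^3 + 111*z^4 + (-255)*z^5 + 56*z^6 + 133*z^7, (-175) + (-72)*z + 115*z^2 + (-190)*z^3 + (-368)*z^4 + (-302)*z^5 + (-491)*z^6 + (-306)*z^7 + (-588)*z^8 + (-451)*z^9 + (-529)*z^10 + (-599)*z^11 + (-650)*z^12 + (-165)*z^13 + (-569)*z^14 + (-376)*z^15 + (-321)*z^16 + (-391)*z^17 + (-442)*z^18 + 43*z^19 + (-361)*z^20 + (-168)*z^21 + (-113)*z^22 + (-183)*z^23 + (-234)*z^24 + (-67)*z^25 + (-189)*z^26 + (-133)*z^27, by simp only [QII_0, F20]; ring⟩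

lemma bII_0_24 (z : ℤ) : Bz (QII_0 z) (F24 z) 97 :=
  ⟨13 + (-46)*z + 19*z^2 + (-5)*z^3 + 17*z^4 + 7*z^5 + (-5)*z^6 + (-14)*z^7, 71 + 66*z + 28*z^2 + 38*z^3 + 62*z^4 + 76*z^5 + 75*z^6 + 99*z^7 + 27*z^8 + 68*z^9 + 84*z^10 + 122*z^11 + 23*z^12 + 56*z^13 + 32*z^14 + 79*z^15 + 47*z^16 + 69*z^17 + (-10)*z^18 + 26*z^19 + 28*z^20 + 53*z^21 + 14*z^23 + (-5)*z^24 + 12*z^25 + 19*z^26 + 14*z^27, by simp only [QII_0, F24]; ring⟩

lemma bII_0_30 (z : ℤ) : Bz (QII_0 z) (F30 z) 30181 :=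
  ⟨13932 + (-9050)*z + (-2783)*z^2 + (-2552)*z^3 + (-3258)*z^4 + (-447)*z^5 + 2934*z^6 + 3789*z^7, 2317 + (-12081)*z + 7883*z^2 + (-4660)*z^3 + (-11614)*z^4 + (-765)*z^5 + (-12626)*z^6 + (-4858)*z^7 + (-17315)*z^8 + (-5635)*z^9 + (-17684)*z^10 + (-6859)*z^11 + (-15119)*z^12 + (-4294)*z^13 + (-12554)*z^14 + (-15661)*z^15 + (-939)*z^16 + (-10313)*z^17 + (-9754)*z^18 + 4560*z^19 + (-17891)*z^20 + 1861*z^21 + (-4024)*z^22 + (-3724)*z^23 + (-3465)*z^24 + (-3342)*z^25 + (-2934)*z^26 + (-3789)*z^27, by simp only [QII_0, F30]; ring⟩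

lemma bigII_0 (s : ℤ) (hs : 0 ≤ s) : (5469925636500967948089275117744299615300091904 : ℤ) < QII_0 (s + 43) := by
  have h : 0 ≤ 119097680679723280317615285883041551858318483 + 3636269323070047993522161941854163002413043420*s + 1140649561159533951669543298104368754546501648*s^2 + 229703226404159520654683134677864227970081381*s^3 + 33358784174558651935564945388100984278256084*s^4 + 3720616328381326284372404077939416026442603*s^5 + 331402091770432268483390304145243053232743*s^6 + 24201595204599742318732464851427594948117*s^7 + 1476174642678322890581754439925743080630*s^8 + 76223695546512725873803964941663974996*s^9 + 3365183168730587217548101348175789112*s^10 + 127954029256487858223064178662847162*s^11 + 4211990774196358649613856851029394*s^12 + 120456472755481315044773973082162*s^13 + 2998884886880125006822310501626*s^14 + 65037424068901940517271618154*s^15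 + 1227873962119226561263399762*s^16 + 20139724770479723909796518*s^17 + 285983814980846700618258*s^18 + 3497485520692624123264*s^19 + 36571000019477595544*s^20 + 323725008595871819*s^21 + 2393429601136015*s^22 + 14508197009523*s^23 + 70233110451*s^24 + 261115050*s^25 + 700084*s^26 + 1205*s^27 + 1*s^28 := by positivity
  have e : QII_0 (s + 43) - (5469925636500967948089275117744299615300091904 + 1) = 119097680679723280317615285883041551858318483 + 3636269323070047993522161941854163002413043420*s + 1140649561159533951669543298104368754546501648*s^2 + 229703226404159520654683134677864227970081381*s^3 + 33358784174558651935564945388100984278256084*s^4 + 3720616328381326284372404077939416026442603*s^5 + 331402091770432268483390304145243053232743*s^6 + 24201595204599742318732464851427594948117*s^7 + 1476174642678322890581754439925743080630*s^8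 + 76223695546512725873803964941663974996*s^9 + 3365183168730587217548101348175789112*s^10 + 127954029256487858223064178662847162*s^11 + 4211990774196358649613856851029394*s^12 + 120456472755481315044773973082162*s^13 + 2998884886880125006822310501626*s^14 + 65037424068901940517271618154*s^15 + 1227873962119226561263399762*s^16 + 20139724770479723909796518*s^17 + 285983814980846700618258*s^18 + 3497485520692624123264*s^19 + 36571000019477595544*s^20 + 323725008595871819*s^21 + 2393429601136015*s^22 + 14508197009523*s^23 + 70233110451*s^24 + 261115050*s^25 + 700084*s^26 + 1205*s^27 + 1*s^28 := by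
    simp only [QII_0]; ring
  linarith

set_option maxHeartbeats 4000000 in
theorem noII_0 {q : ℕ} (hq : IsPrimePow q) : ¬ (k08 q + a07 q + 0) ∣ NN8 q := by
  intro hd
  have hq2 : 2 ≤ q := hq.two_le
  have hz1 : 1 ≤ q := by omega
  by_cases hB : q < 43
  · refine chk_ok (g := fun q => k08' q + a07' q + 0) (B := 43) (by decide +kernel) hq2 hB ?_
    show k08' q + a07' q + 0 ∣ NN8 q
    rw [← k08_eq hz1, ← a07_eq hz1]
    exact hd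
  · obtain ⟨p, k, hp, hk, hpk⟩ := (isPrimePow_nat_iff q).mp hq
    have hd' : ((k08 q + a07 q + 0 : ℕ) : ℤ) ∣ (NN8 q : ℤ) := Int.natCast_dvd_natCast.mpr hd
    have e1 : ((k08 q + a07 q + 0 : ℕ) : ℤ) = ((-1) + 1*(q : ℤ)) * QII_0 (q : ℤ) := by
      push_cast
      rw [k08_cast hz1, a07_cast hz1]
      simp only [QII_0]
      ring
    rw [e1, NN8_cast hz1, NN8_fac] at hd'
    have hQ := Dvd.dvd.trans (Dvd.intro_left _ rfl) hd'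
    have hz : (q : ℤ) = (p : ℤ) ^ k := by rw [← hpk]; push_cast; rfl
    have hqB : (43 : ℤ) ≤ (q : ℤ) := by exact_mod_cast not_lt.mp hB
    have hR : QII_0 (q : ℤ) = (2 : ℤ) + (q : ℤ) * (2 + 2*(q : ℤ) + 2*(q : ℤ)^2 + 3*(q : ℤ)^3 + 4*(q : ℤ)^4 + 4*(q : ℤ)^5 + 4*(q : ℤ)^6 + 5*(q : ℤ)^7 + 5*(q : ℤ)^8 + 5*(q : ℤ)^9 + 5*(q : ℤ)^10 + 5*(q : ℤ)^11 + 4*(q : ℤ)^12 + 4*(q : ℤ)^13 + 4*(q : ℤ)^14 + 4*(q : ℤ)^15 + 3*(q : ℤ)^16 + 3*(q : ℤ)^17 + 2*(q : ℤ)^18 + 2*(q : ℤ)^19 + 2*(q : ℤ)^20 + 2*(q : ℤ)^21 + 1*(q : ℤ)^22 + 1*(q : ℤ)^23 + 1*(q : ℤ)^24 + 1*(q : ℤ)^25 + 1*(q : ℤ)^26 + 1*(q : ℤ)^27) := by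
      simp only [QII_0]; ring
    have hgo := cofree' hp hz hR (nd (c0 := 2) (by linarith) (by norm_num)).1 hQ
    have h1 : QII_0 (q : ℤ) ∣ 5469925636500967948089275117744299615300091904 := by
      have h2 := chainE (bII_0_1 _) (bII_0_2 _) (bII_0_3 _) (bII_0_4 _) (bII_0_5 _) (bII_0_6 _) (bII_0_7 _) (bII_0_8 _) (bII_0_9 _) (bII_0_10 _) (bII_0_12 _) (bII_0_14 _) (bII_0_15 _) (bII_0_18 _) (bII_0_20 _) (bII_0_24 _) (bII_0_30 _) hgo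
      have e2 : ((((((((((((((((((((2 : ℤ)) * 84^8) * 4^8) * 3^4) * 4^4) * 41^2) * 1^4) * 14^1) * 2^2) * 57^1) * 1^2) * 1^2) * 2^1) * 61^1) * 919^1) * 461^1) * 97^1) * 30181^1) * 1) = 5469925636500967948089275117744299615300091904 := by norm_num
      rwa [e2] at h2
    obtain ⟨s, rfl⟩ : ∃ s, q = s + 43 := ⟨q - 43, by omega⟩
    have hbig := bigII_0 (s : ℤ) (Int.natCast_nonneg s)
    have e3 : ((s + 43 : ℕ) : ℤ) = (s : ℤ) + 43 := by push_cast; ring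
    rw [e3] at h1
    have hle := Int.le_of_dvd (by norm_num) h1
    linarith

end sII_0

section sII_1

/-- The cofactor. -/
def QII_1 (z : ℤ) : ℤ := (-1) + (-1)*z^2 + (-1)*z^4 + (-1)*z^5 + (-1)*z^7 + 1*z^11 + 2*z^13 + 1*z^15 + 1*z^23 + 1*z^25

lemma bII_1_1 (z : ℤ) : Bz (QII_1 z) (F1 z) 1 :=
  ⟨1, (-2) + (-2)*z + (-3)*z^2 + (-3)*z^3 + (-4)*z^4 + (-5)*z^5 + (-5)*z^6 + (-6)*z^7 + (-6)*z^8 + (-6)*z^9 + (-6)*z^10 + (-5)*z^11 + (-5)*z^12 + (-3)*z^13 + (-3)*z^14 + (-2)*z^15 + (-2)*z^16 + (-2)*z^17 + (-2)*z^18 + (-2)*z^19 + (-2)*z^20 + (-2)*z^21 + (-2)*z^22 + (-1)*z^23 + (-1)*z^24, by simp only [QII_1, F1]; ring⟩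

lemma bII_1_2 (z : ℤ) : Bz (QII_1 z) (F2 z) 7 :=
  ⟨(-1), 6 + (-6)*z + 5*z^2 + (-5)*z^3 + 4*z^4 + (-5)*z^5 + 5*z^6 + (-6)*z^7 + 6*z^8 + (-6)*z^9 + 6*z^10 + (-5)*z^11 + 5*z^12 + (-3)*z^13 + 3*z^14 + (-2)*z^15 + 2*z^16 + (-2)*z^17 + 2*z^18 + (-2)*z^19 + 2*z^20 + (-2)*z^21 + 2*z^22 + (-1)*z^23 + 1*z^24, by simp only [QII_1, F2]; ring⟩

lemma bII_1_3 (z : ℤ) : Bz (QII_1 z) (F3 z) 1 :=
  ⟨(-1) + (-1)*z, (-1)*z + (-1)*z^4 + (-1)*z^5 + 1*z^6 + (-1)*z^7 + (-1)*z^8 + 2*z^9 + (-1)*z^10 + 2*z^12 + 1*z^15 + (-1)*z^17 + 1*z^18 + (-1)*z^20 + 1*z^21 + 1*z^24, by simp only [QII_1, F3]; ring⟩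

lemma bII_1_4 (z : ℤ) : Bz (QII_1 z) (F4 z) 1 :=
  ⟨(-1), (-1)*z^2 + (-1)*z^5 + 1*z^11 + 1*z^13 + 1*z^23, by simp only [QII_1, F4]; ring⟩

lemma bII_1_5 (z : ℤ) : Bz (QII_1 z) (F5 z) 61 :=
  ⟨4 + 23*z + 37*z^2 + 12*z^3, 65 + (-42)*z + 18*z^2 + (-6)*z^3 + 6*z^4 + 63*z^5 + (-21)*z^6 + 11*z^7 + (-24)*z^8 + 8*z^9 + 38*z^10 + (-37)*z^11 + (-8)*z^12 + (-46)*z^13 + (-5)*z^14 + 18*z^15 + (-6)*z^16 + 2*z^17 + (-21)*z^18 + 7*z^19 + 18*z^20 + (-6)*z^21 + 2*z^22 + (-25)*z^23 + (-12)*z^24, by simp only [QII_1, F5]; ring⟩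

lemma bII_1_6 (z : ℤ) : Bz (QII_1 z) (F6 z) 1 :=
  ⟨1 + (-1)*z, 2 + 1*z + (-2)*z^3 + (-1)*z^4 + 1*z^5 + 1*z^6 + 1*z^7 + (-1)*z^8 + (-2)*z^9 + (-1)*z^10 + 2*z^12 + (-1)*z^15 + 1*z^17 + 1*z^18 + (-1)*z^20 + (-1)*z^21 + 1*z^24, by simp only [QII_1, F6]; ring⟩

lemma bII_1_7 (z : ℤ) : Bz (QII_1 z) (F7 z) 43 :=
  ⟨(-11) + 16*z + 24*z^2 + 20*z^3 + 22*z^4 + 21*z^5, 32 + (-16)*z + (-3)*z^2 + 23*z^3 + (-1)*z^4 + 11*z^5 + 16*z^6 + 24*z^7 + (-12)*z^8 + 6*z^9 + (-3)*z^10 + (-9)*z^11 + (-17)*z^12 + 9*z^13 + (-26)*z^14 + (-19)*z^15 + (-12)*z^16 + 6*z^17 + (-3)*z^18 + 23*z^19 + 10*z^20 + (-5)*z^21 + (-19)*z^22 + (-1)*z^23 + (-21)*z^24, by simp only [QII_1, F7]; ring⟩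

lemma bII_1_8 (z : ℤ) : Bz (QII_1 z) (F8 z) 1 :=
  ⟨1*z^2, 1 + 1*z^2 + 1*z^7 + 1*z^9 + (-1)*z^11 + (-2)*z^13 + (-1)*z^15 + 1*z^17 + 1*z^19 + (-1)*z^21 + (-1)*z^23, by simp only [QII_1, F8]; ring⟩

lemma bII_1_9 (z : ℤ) : Bz (QII_1 z) (F9 z) 19 :=
  ⟨(-9) + (-7)*z + 3*z^2 + 6*z^3 + (-8)*z^4 + (-2)*z^5, 10 + (-7)*z + (-6)*z^2 + (-11)*z^3 + (-7)*z^4 + (-6)*z^5 + (-11)*z^6 + 12*z^7 + 3*z^8 + 15*z^9 + (-1)*z^10 + 4*z^11 + 1*z^12 + 4*z^13 + 1*z^14 + (-5)*z^15 + (-6)*z^16 + 8*z^17 + 2*z^18 + 10*z^19 + (-7)*z^20 + 3*z^21 + (-4)*z^22 + 8*z^23 + 2*z^24, by simp only [QII_1, F9]; ring⟩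

lemma bII_1_10 (z : ℤ) : Bz (QII_1 z) (F10 z) 31 :=
  ⟨(-8) + 9*z + (-13)*z^2 + (-2)*z^3, 23 + 32*z + (-12)*z^2 + (-14)*z^3 + (-14)*z^4 + (-45)*z^5 + (-37)*z^6 + (-15)*z^7 + (-2)*z^8 + 8*z^9 + 30*z^10 + 43*z^11 + 14*z^12 + 22*z^13 + 5*z^14 + (-12)*z^15 + (-14)*z^16 + (-6)*z^17 + (-7)*z^18 + (-3)*z^19 + 12*z^20 + 14*z^21 + 6*z^22 + 15*z^23 + 2*z^24, by simp only [QII_1, F10]; ring⟩

lemma bII_1_12 (z : ℤ) : Bz (QII_1 z) (F12 z) 1549 :=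
  ⟨34 + 281*z + 56*z^2 + (-175)*z^3, 1583 + 281*z + 1673*z^2 + 387*z^3 + 180*z^4 + 246*z^5 + (-1156)*z^6 + (-226)*z^7 + (-1230)*z^8 + (-416)*z^9 + (-249)*z^10 + (-224)*z^11 + 700*z^12 + 68*z^13 + 562*z^14 + 146*z^15 + (-69)*z^16 + 22*z^17 + (-456)*z^18 + (-124)*z^19 + (-387)*z^20 + (-146)*z^21 + 69*z^22 + (-56)*z^23 + 175*z^24, by simp only [QII_1, F12]; ring⟩

lemma bII_1_14 (z : ℤ) : Bz (QII_1 z) (F14 z) 7 :=
  ⟨(-5) + (-4)*z + 6*z^2 + 6*z^3 + (-4)*z^4 + (-5)*z^5, 2 + (-2)*z + (-3)*z^2 + 3*z^3 + (-1)*z^4 + (-11)*z^5 + (-10)*z^6 + (-2)*z^7 + 2*z^8 + (-2)*z^9 + (-5)*z^10 + 3*z^11 + 11*z^12 + 13*z^13 + 8*z^14 + (-3)*z^15 + (-4)*z^16 + 4*z^17 + 3*z^18 + (-3)*z^19 + (-4)*z^20 + (-3)*z^21 + 3*z^22 + 9*z^23 + 5*z^24, by simp only [QII_1, F14]; ring⟩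

lemma bII_1_15 (z : ℤ) : Bz (QII_1 z) (F15 z) 1 :=
  ⟨(-2) + (-3)*z + 1*z^2 + 1*z^3 + 1*z^4 + 1*z^5 + (-3)*z^6 + (-2)*z^7, (-1) + (-4)*z + (-5)*z^2 + (-6)*z^3 + (-3)*z^4 + (-4)*z^5 + (-3)*z^6 + (-3)*z^7 + (-3)*z^8 + (-1)*z^9 + 1*z^10 + 5*z^11 + 7*z^12 + 9*z^13 + 9*z^14 + 5*z^15 + (-5)*z^17 + (-7)*z^18 + (-4)*z^19 + 1*z^20 + 6*z^21 + 6*z^22 + 5*z^23 + 2*z^24, by simp only [QII_1, F15]; ring⟩

lemma bII_1_18 (z : ℤ) : Bz (QII_1 z) (F18 z) 271 :=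
  ⟨(-45) + 49*z + 43*z^2 + (-50)*z^3 + (-66)*z^4 + 108*z^5, 226 + 49*z + (-2)*z^2 + 225*z^3 + (-19)*z^4 + 60*z^5 + 25*z^6 + (-12)*z^7 + (-5)*z^8 + (-115)*z^9 + 65*z^10 + (-86)*z^11 + (-81)*z^12 + 124*z^13 + (-129)*z^14 + 59*z^15 + 2*z^16 + 46*z^17 + (-26)*z^18 + (-56)*z^19 + 67*z^20 + (-85)*z^21 + (-58)*z^22 + 66*z^23 + (-108)*z^24, by simp only [QII_1, F18]; ring⟩

lemma bII_1_20 (z : ℤ) : Bz (QII_1 z) (F20 z) 41 :=
  ⟨(-7) + (-15)*z + 10*z^2 + 39*z^3 + (-23)*z^4 + (-20)*z^5 + 11*z^6 + 6*z^7, 34 + (-15)*z + 37*z^2 + 9*z^3 + (-17)*z^4 + 21*z^5 + (-37)*z^6 + 25*z^7 + (-5)*z^8 + 1*z^9 + 8*z^10 + (-11)*z^11 + (-6)*z^12 + 7*z^13 + 15*z^14 + 4*z^15 + (-9)*z^16 + 10*z^17 + (-43)*z^18 + 25*z^19 + (-5)*z^20 + 1*z^21 + 8*z^22 + (-11)*z^23 + (-6)*z^24, by simp only [QII_1, F20]; ring⟩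

lemma bII_1_24 (z : ℤ) : Bz (QII_1 z) (F24 z) 7 :=
  ⟨(-1) + 5*z + 2*z^2 + (-4)*z^3 + (-4)*z^4 + (-1)*z^5 + 1*z^6 + 5*z^7, 6 + 5*z + 1*z^2 + 1*z^3 + 3*z^4 + 4*z^5 + 5*z^6 + 2*z^7 + (-5)*z^8 + 1*z^9 + 4*z^11 + (-9)*z^12 + (-2)*z^13 + (-6)*z^14 + 3*z^15 + 2*z^17 + (-5)*z^18 + 1*z^19 + 3*z^21 + (-4)*z^22 + (-1)*z^23 + (-5)*z^24, by simp only [QII_1, F24]; ring⟩

lemma bII_1_30 (z : ℤ) : Bz (QII_1 z) (F30 z) 2161 :=
  ⟨(-1170) + (-299)*z + 1111*z^2 + 511*z^3 + (-483)*z^4 + 305*z^5 + (-107)*z^6 + (-346)*z^7, 991 + (-1290)*z + 1231*z^2 + (-28)*z^3 + (-813)*z^4 + 1092*z^5 + (-957)*z^6 + 767*z^7 + (-595)*z^8 + 563*z^9 + (-155)*z^10 + 445*z^11 + 269*z^12 + 531*z^13 + 253*z^14 + (-435)*z^15 + 684*z^16 + (-77)*z^17 + (-639)*z^18 + 1124*z^19 + (-1365)*z^20 + 656*z^21 + 280*z^22 + (-239)*z^23 + 346*z^24, by simp only [QII_1, F30]; ring⟩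

lemma bigII_1 (s : ℤ) (hs : 0 ≤ s) : (47544059894492820745181752406183 : ℤ) < QII_1 (s + 19) := by
  have h : 0 ≤ 45790265421723841868162245673689 + 122781182823651217247702851320694*s + 77529583386007175348994976974075*s^2 + 31277526804794733547963946181942*s^3 + 9052269026572202599546492861009*s^4 + 2000659071009609629508720281316*s^5 + 350931349629575957180959814881*s^6 + 50124730719832040558174477973*s^7 + 5934892934827129214549400837*s^8 + 589931537156866005768944255*s^9 + 49671572178751283711949988*s^10 + 3564484975617768995722440*s^11 + 218845633815045973188121*s^12 + 11516915918069054445073*s^13 + 519507377172669391895*s^14 + 20049311419578481635*s^15 + 659462038283970548*s^16 + 18373746336618882*s^17 + 429767463192551*s^18 + 8332979517555*s^19 + 131567287159*s^20 + 1648651983*s^21 + 15776137*s^22 + 108301*s^23 + 475*s^24 + 1*s^25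 := by positivity
  have e : QII_1 (s + 19) - (47544059894492820745181752406183 + 1) = 45790265421723841868162245673689 + 122781182823651217247702851320694*s + 77529583386007175348994976974075*s^2 + 31277526804794733547963946181942*s^3 + 9052269026572202599546492861009*s^4 + 2000659071009609629508720281316*s^5 + 350931349629575957180959814881*s^6 + 50124730719832040558174477973*s^7 + 5934892934827129214549400837*s^8 + 589931537156866005768944255*s^9 + 49671572178751283711949988*s^10 + 3564484975617768995722440*s^11 + 218845633815045973188121*s^12 + 11516915918069054445073*s^13 + 519507377172669391895*s^14 + 20049311419578481635*s^15 + 659462038283970548*s^16 + 18373746336618882*s^17 + 429767463192551*s^18 + 8332979517555*s^19 + 131567287159*s^20 + 1648651983*s^21 + 15776137*s^22 + 108301*s^23 + 475*s^24 + 1*s^25 := by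
    simp only [QII_1]; ring
  linarith

set_option maxHeartbeats 4000000 in
theorem noII_1 {q : ℕ} (hq : IsPrimePow q) : ¬ (k08 q + a07 q + 1) ∣ NN8 q := by
  intro hd
  have hq2 : 2 ≤ q := hq.two_le
  have hz1 : 1 ≤ q := by omega
  by_cases hB : q < 19
  · refine chk_ok (g := fun q => k08' q + a07' q + 1) (B := 19) (by decide +kernel) hq2 hB ?_
    show k08' q + a07' q + 1 ∣ NN8 q
    rw [← k08_eq hz1, ← a07_eq hz1]
    exact hd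
  · obtain ⟨p, k, hp, hk, hpk⟩ := (isPrimePow_nat_iff q).mp hq
    have hd' : ((k08 q + a07 q + 1 : ℕ) : ℤ) ∣ (NN8 q : ℤ) := Int.natCast_dvd_natCast.mpr hd
    have e1 : ((k08 q + a07 q + 1 : ℕ) : ℤ) = (1 + (-1)*(q : ℤ)^2 + 1*(q : ℤ)^4) * QII_1 (q : ℤ) := by
      push_cast
      rw [k08_cast hz1, a07_cast hz1]
      simp only [QII_1]
      ring
    rw [e1, NN8_cast hz1, NN8_fac] at hd'
    have hQ := Dvd.dvd.trans (Dvd.intro_left _ rfl) hd'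
    have hz : (q : ℤ) = (p : ℤ) ^ k := by rw [← hpk]; push_cast; rfl
    have hqB : (19 : ℤ) ≤ (q : ℤ) := by exact_mod_cast not_lt.mp hB
    have hR : QII_1 (q : ℤ) = (-1 : ℤ) + (q : ℤ) * ((-1)*(q : ℤ) + (-1)*(q : ℤ)^3 + (-1)*(q : ℤ)^4 + (-1)*(q : ℤ)^6 + 1*(q : ℤ)^10 + 2*(q : ℤ)^12 + 1*(q : ℤ)^14 + 1*(q : ℤ)^22 + 1*(q : ℤ)^24) := by
      simp only [QII_1]; ring
    have hgo := cofree' hp hz hR (nd (c0 := 1) (by linarith) (by norm_num)).2 hQ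
    have h1 : QII_1 (q : ℤ) ∣ 47544059894492820745181752406183 := by
      have h2 := chainE (bII_1_1 _) (bII_1_2 _) (bII_1_3 _) (bII_1_4 _) (bII_1_5 _) (bII_1_6 _) (bII_1_7 _) (bII_1_8 _) (bII_1_9 _) (bII_1_10 _) (bII_1_12 _) (bII_1_14 _) (bII_1_15 _) (bII_1_18 _) (bII_1_20 _) (bII_1_24 _) (bII_1_30 _) hgo
      have e2 : ((((((((((((((((((((-1 : ℤ)) * 1^8) * 7^8) * 1^4) * 1^4) * 61^2) * 1^4) * 43^1) * 1^2) * 19^1) * 31^2) * 1549^2) * 7^1) * 1^1) * 271^1) * 41^1) * 7^1) * 2161^1) * 1) = -47544059894492820745181752406183 := by norm_num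
      rw [e2, dvd_neg] at h2
      exact h2
    obtain ⟨s, rfl⟩ : ∃ s, q = s + 19 := ⟨q - 19, by omega⟩
    have hbig := bigII_1 (s : ℤ) (Int.natCast_nonneg s)
    have e3 : ((s + 19 : ℕ) : ℤ) = (s : ℤ) + 19 := by push_cast; ring
    rw [e3] at h1
    have hle := Int.le_of_dvd (by norm_num) h1
    linarith

end sII_1

section sII_2

/-- The cofactor. -/
def QII_2 (z : ℤ) : ℤ := (-1) + (-1)*z + 1*z^5 + 1*z^13 + 1*z^15 + (-1)*z^17 + 1*z^21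

lemma bII_2_1 (z : ℤ) : Bz (QII_2 z) (F1 z) 1 :=
  ⟨1, (-2) + (-3)*z + (-3)*z^2 + (-3)*z^3 + (-3)*z^4 + (-2)*z^5 + (-2)*z^6 + (-2)*z^7 + (-2)*z^8 + (-2)*z^9 + (-2)*z^10 + (-2)*z^11 + (-2)*z^12 + (-1)*z^13 + (-1)*z^14 + (-1)*z^17 + (-1)*z^18 + (-1)*z^19 + (-1)*z^20, by simp only [QII_2, F1]; ring⟩

lemma bII_2_2 (z : ℤ) : Bz (QII_2 z) (F2 z) 3 :=
  ⟨(-1), 2 + (-3)*z + 3*z^2 + (-3)*z^3 + 3*z^4 + (-2)*z^5 + 2*z^6 + (-2)*z^7 + 2*z^8 + (-2)*z^9 + 2*z^10 + (-2)*z^11 + 2*z^12 + (-1)*z^13 + 1*z^14 + (-1)*z^17 + 1*z^18 + (-1)*z^19 + 1*z^20, by simp only [QII_2, F2]; ring⟩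

lemma bII_2_3 (z : ℤ) : Bz (QII_2 z) (F3 z) 1 :=
  ⟨1, 2 + (-1)*z + (-1)*z^2 + 2*z^3 + (-1)*z^4 + (-2)*z^5 + 3*z^6 + (-1)*z^7 + (-2)*z^8 + 3*z^9 + (-1)*z^10 + (-2)*z^11 + 3*z^12 + (-2)*z^13 + (-1)*z^14 + 2*z^15 + (-1)*z^16 + 1*z^18 + (-1)*z^19, by simp only [QII_2, F3]; ring⟩

lemma bII_2_4 (z : ℤ) : Bz (QII_2 z) (F4 z) 1 :=
  ⟨(-1), (-1)*z + 1*z^3 + 1*z^13 + (-1)*z^17 + 1*z^19, by simp only [QII_2, F4]; ring⟩

lemma bII_2_5 (z : ℤ) : Bz (QII_2 z) (F5 z) 11 :=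
  ⟨4 + 2*z + 3*z^2 + (-3)*z^3, 15 + (-9)*z + (-1)*z^2 + (-5)*z^3 + (-3)*z^4 + 14*z^5 + (-7)*z^6 + (-2)*z^7 + 1*z^8 + (-6)*z^9 + 14*z^10 + (-7)*z^11 + (-2)*z^12 + (-3)*z^13 + (-4)*z^14 + 9*z^15 + 1*z^16 + (-2)*z^17 + 1*z^18 + (-6)*z^19 + 3*z^20, by simp only [QII_2, F5]; ring⟩

lemma bII_2_6 (z : ℤ) : Bz (QII_2 z) (F6 z) 3 :=
  ⟨(-1), 2 + 1*z + (-1)*z^2 + (-2)*z^3 + (-1)*z^4 + 2*z^5 + 3*z^6 + 1*z^7 + (-2)*z^8 + (-3)*z^9 + (-1)*z^10 + 2*z^11 + 3*z^12 + 2*z^13 + (-1)*z^14 + (-2)*z^15 + (-1)*z^16 + 1*z^18 + 1*z^19, by simp only [QII_2, F6]; ring⟩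

lemma bII_2_7 (z : ℤ) : Bz (QII_2 z) (F7 z) 2 :=
  ⟨1*z + 1*z^3 + (-1)*z^4 + 1*z^5, 2 + (-1)*z + (-1)*z^4 + 2*z^7 + (-2)*z^8 + 2*z^9 + (-2)*z^10 + 1*z^14 + (-1)*z^15 + 1*z^17 + (-2)*z^18 + 2*z^19 + (-1)*z^20, by simp only [QII_2, F7]; ring⟩

lemma bII_2_8 (z : ℤ) : Bz (QII_2 z) (F8 z) 697 :=
  ⟨(-11) + 31*z + (-24)*z^2 + 131*z^3, 686 + 20*z + 7*z^2 + 107*z^3 + (-555)*z^4 + (-9)*z^5 + (-38)*z^6 + (-83)*z^7 + 424*z^8 + 9*z^9 + 38*z^10 + 83*z^11 + (-424)*z^12 + 2*z^13 + (-69)*z^14 + (-48)*z^15 + 262*z^16 + 11*z^17 + (-31)*z^18 + 24*z^19 + (-131)*z^20, by simp only [QII_2, F8]; ring⟩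

lemma bII_2_9 (z : ℤ) : Bz (QII_2 z) (F9 z) 1 :=
  ⟨1 + (-2)*z + 2*z^2 + (-1)*z^4 + 1*z^5, 2 + (-1)*z + (-1)*z^5 + 1*z^6 + (-1)*z^7 + 1*z^8 + (-1)*z^12 + 1*z^14 + (-2)*z^15 + 2*z^16 + (-1)*z^17 + 1*z^19 + (-1)*z^20, by simp only [QII_2, F9]; ring⟩

lemma bII_2_10 (z : ℤ) : Bz (QII_2 z) (F10 z) 131 :=
  ⟨(-34) + 2*z + (-9)*z^2 + (-13)*z^3, 97 + 65*z + (-39)*z^2 + (-29)*z^3 + (-35)*z^4 + (-76)*z^5 + (-33)*z^6 + 46*z^7 + 51*z^8 + 48*z^9 + 76*z^10 + 33*z^11 + (-46)*z^12 + (-17)*z^13 + (-16)*z^14 + (-35)*z^15 + 21*z^16 + 32*z^17 + 7*z^18 + 22*z^19 + 13*z^20, by simp only [QII_2, F10]; ring⟩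

lemma bII_2_12 (z : ℤ) : Bz (QII_2 z) (F12 z) 1 :=
  ⟨(-1), (-1)*z + (-1)*z^3 + 1*z^5 + 2*z^7 + 1*z^9 + (-1)*z^11 + (-1)*z^13 + 1*z^15 + 1*z^17, by simp only [QII_2, F12]; ring⟩

lemma bII_2_14 (z : ℤ) : Bz (QII_2 z) (F14 z) 2 :=
  ⟨(-1) + (-2)*z + 1*z^2 + 1*z^3 + 1*z^4 + (-2)*z^5, 1 + (-2)*z + (-4)*z^2 + 1*z^3 + 4*z^4 + 2*z^5 + (-2)*z^7 + 2*z^9 + (-2)*z^11 + (-2)*z^12 + 1*z^13 + 5*z^14 + 2*z^15 + (-1)*z^16 + (-2)*z^17 + (-2)*z^18 + 1*z^19 + 2*z^20, by simp only [QII_2, F14]; ring⟩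

lemma bII_2_15 (z : ℤ) : Bz (QII_2 z) (F15 z) 151 :=
  ⟨(-64) + (-12)*z + 99*z^2 + (-88)*z^3 + 35*z^4 + (-13)*z^5 + (-6)*z^6 + 38*z^7, 87 + 11*z + 98*z^2 + 22*z^3 + 45*z^4 + (-43)*z^5 + 15*z^6 + (-86)*z^7 + 30*z^8 + (-21)*z^9 + 60*z^10 + (-42)*z^11 + (-31)*z^12 + (-20)*z^13 + 14*z^14 + 24*z^15 + 104*z^16 + (-16)*z^17 + (-19)*z^18 + (-32)*z^19 + (-38)*z^20, by simp only [QII_2, F15]; ring⟩

lemma bII_2_18 (z : ℤ) : Bz (QII_2 z) (F18 z) 3 :=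
  ⟨(-1) + (-1)*z^4 + 1*z^5, 2 + (-1)*z + 2*z^3 + (-2)*z^4 + 1*z^5 + 1*z^6 + (-1)*z^7 + 1*z^8 + (-1)*z^12 + 2*z^13 + (-1)*z^14 + 2*z^16 + (-1)*z^17 + 1*z^19 + (-1)*z^20, by simp only [QII_2, F18]; ring⟩

lemma bII_2_20 (z : ℤ) : Bz (QII_2 z) (F20 z) 1 :=
  ⟨2 + (-2)*z + 1*z^4 + (-1)*z^5 + (-1)*z^6 + 2*z^7, 3 + 1*z^2 + (-1)*z^4 + (-2)*z^5 + 1*z^6 + (-1)*z^7 + 2*z^8 + (-2)*z^12 + (-1)*z^13 + 1*z^14 + (-2)*z^15 + 3*z^16 + (-1)*z^18 + 1*z^19 + (-2)*z^20, by simp only [QII_2, F20]; ring⟩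

lemma bII_2_24 (z : ℤ) : Bz (QII_2 z) (F24 z) 1 :=
  ⟨1 + (-1)*z + (-1)*z^3 + 1*z^5, 2 + (-1)*z^2 + (-1)*z^3 + 1*z^4 + 1*z^6 + (-1)*z^7 + 1*z^10 + (-1)*z^12 + (-1)*z^13 + 1*z^14 + 1*z^16 + (-1)*z^18, by simp only [QII_2, F24]; ring⟩

lemma bII_2_30 (z : ℤ) : Bz (QII_2 z) (F30 z) 31 :=
  ⟨16 + 22*z + (-15)*z^2 + (-10)*z^3 + (-43)*z^4 + (-5)*z^5 + 2*z^6 + 40*z^7, 47 + (-9)*z + 16*z^2 + 6*z^3 + (-21)*z^4 + 11*z^5 + (-23)*z^6 + 34*z^7 + (-26)*z^8 + 29*z^9 + (-24)*z^10 + 22*z^11 + (-15)*z^12 + (-10)*z^13 + 4*z^14 + (-30)*z^15 + 12*z^16 + 36*z^17 + (-33)*z^18 + 38*z^19 + (-40)*z^20, by simp only [QII_2, F30]; ring⟩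

lemma bigII_2 (s : ℤ) (hs : 0 ≤ s) : (30114001079576926012908 : ℤ) < QII_2 (s + 12) := by
  have h : 0 ≤ 15888915732700815230470 + 80505836183682036110591*s + 67088715805137888625536*s^2 + 35408164273555551290784*s^3 + 13278133847908382146620*s^4 + 3762154797916753428481*s^5 + 836037449137947082752*s^6 + 149292837660898639872*s^7 + 21771922159224935424*s^8 + 2620698966860532480*s^9 + 262070244366323328*s^10 + 21839208113410272*s^11 + 1516612699877340*s^12 + 87496925982481*s^13 + 4166521459380*s^14 + 162031416193*s^15 + 5063482164*s^16 + 124104959*s^17 + 2298240*s^18 + 30240*s^19 + 252*s^20 + 1*s^21 := by positivity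
  have e : QII_2 (s + 12) - (30114001079576926012908 + 1) = 15888915732700815230470 + 80505836183682036110591*s + 67088715805137888625536*s^2 + 35408164273555551290784*s^3 + 13278133847908382146620*s^4 + 3762154797916753428481*s^5 + 836037449137947082752*s^6 + 149292837660898639872*s^7 + 21771922159224935424*s^8 + 2620698966860532480*s^9 + 262070244366323328*s^10 + 21839208113410272*s^11 + 1516612699877340*s^12 + 87496925982481*s^13 + 4166521459380*s^14 + 162031416193*s^15 + 5063482164*s^16 + 124104959*s^17 + 2298240*s^18 + 30240*s^19 + 252*s^20 + 1*s^21 := by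
    simp only [QII_2]; ring
  linarith

set_option maxHeartbeats 4000000 in
theorem noII_2 {q : ℕ} (hq : IsPrimePow q) : ¬ (k08 q + a07 q + 2) ∣ NN8 q := by
  intro hd
  have hq2 : 2 ≤ q := hq.two_le
  have hz1 : 1 ≤ q := by omega
  by_cases hB : q < 12
  · refine chk_ok (g := fun q => k08' q + a07' q + 2) (B := 12) (by decide +kernel) hq2 hB ?_
    show k08' q + a07' q + 2 ∣ NN8 q
    rw [← k08_eq hz1, ← a07_eq hz1]
    exact hd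
  · obtain ⟨p, k, hp, hk, hpk⟩ := (isPrimePow_nat_iff q).mp hq
    have hd' : ((k08 q + a07 q + 2 : ℕ) : ℤ) ∣ (NN8 q : ℤ) := Int.natCast_dvd_natCast.mpr hd
    have e1 : ((k08 q + a07 q + 2 : ℕ) : ℤ) = (1*(q : ℤ)^4 + 1*(q : ℤ)^8) * QII_2 (q : ℤ) := by
      push_cast
      rw [k08_cast hz1, a07_cast hz1]
      simp only [QII_2]
      ring
    rw [e1, NN8_cast hz1, NN8_fac] at hd'
    have hQ := Dvd.dvd.trans (Dvd.intro_left _ rfl) hd'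
    have hz : (q : ℤ) = (p : ℤ) ^ k := by rw [← hpk]; push_cast; rfl
    have hqB : (12 : ℤ) ≤ (q : ℤ) := by exact_mod_cast not_lt.mp hB
    have hR : QII_2 (q : ℤ) = (-1 : ℤ) + (q : ℤ) * ((-1) + 1*(q : ℤ)^4 + 1*(q : ℤ)^12 + 1*(q : ℤ)^14 + (-1)*(q : ℤ)^16 + 1*(q : ℤ)^20) := by
      simp only [QII_2]; ring
    have hgo := cofree' hp hz hR (nd (c0 := 1) (by linarith) (by norm_num)).2 hQ
    have h1 : QII_2 (q : ℤ) ∣ 30114001079576926012908 := by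
      have h2 := chainE (bII_2_1 _) (bII_2_2 _) (bII_2_3 _) (bII_2_4 _) (bII_2_5 _) (bII_2_6 _) (bII_2_7 _) (bII_2_8 _) (bII_2_9 _) (bII_2_10 _) (bII_2_12 _) (bII_2_14 _) (bII_2_15 _) (bII_2_18 _) (bII_2_20 _) (bII_2_24 _) (bII_2_30 _) hgo
      have e2 : ((((((((((((((((((((-1 : ℤ)) * 1^8) * 3^8) * 1^4) * 1^4) * 11^2) * 3^4) * 2^1) * 697^2) * 1^1) * 131^2) * 1^2) * 2^1) * 151^1) * 3^1) * 1^1) * 1^1) * 31^1) * 1) = -30114001079576926012908 := by norm_num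
      rw [e2, dvd_neg] at h2
      exact h2
    obtain ⟨s, rfl⟩ : ∃ s, q = s + 12 := ⟨q - 12, by omega⟩
    have hbig := bigII_2 (s : ℤ) (Int.natCast_nonneg s)
    have e3 : ((s + 12 : ℕ) : ℤ) = (s : ℤ) + 12 := by push_cast; ring
    rw [e3] at h1
    have hle := Int.le_of_dvd (by norm_num) h1
    linarith

end sII_2

section sII_3

/-- The cofactor. -/
def QII_3 (z : ℤ) : ℤ := 1 + (-1)*z + 1*z^3 + (-2)*z^4 + 2*z^6 + (-2)*z^7 + (-1)*z^8 + 3*z^9 + (-2)*z^10 + (-1)*z^11 + 3*z^12 + (-1)*z^13 + (-2)*z^14 + 3*z^15 + (-1)*z^16 + (-1)*z^17 + 2*z^18 + (-2)*z^20 + 2*z^21 + (-1)*z^23 + 1*z^24 + (-1)*z^26 + 1*z^27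

lemma bII_3_1 (z : ℤ) : Bz (QII_3 z) (F1 z) 1 :=
  ⟨1, (-1)*z + (-1)*z^2 + (-2)*z^4 + (-2)*z^5 + (-2)*z^7 + (-3)*z^8 + (-2)*z^10 + (-3)*z^11 + (-1)*z^13 + (-3)*z^14 + (-1)*z^16 + (-2)*z^17 + (-2)*z^20 + (-1)*z^23 + (-1)*z^26, by simp only [QII_3, F1]; ring⟩

lemma bII_3_2 (z : ℤ) : Bz (QII_3 z) (F2 z) 5 :=
  ⟨(-1), 6 + (-7)*z + 7*z^2 + (-6)*z^3 + 4*z^4 + (-4)*z^5 + 6*z^6 + (-8)*z^7 + 7*z^8 + (-4)*z^9 + 2*z^10 + (-3)*z^11 + 6*z^12 + (-7)*z^13 + 5*z^14 + (-2)*z^15 + 1*z^16 + (-2)*z^17 + 4*z^18 + (-4)*z^19 + 2*z^20 + (-1)*z^23 + 2*z^24 + (-2)*z^25 + 1*z^26, by simp only [QII_3, F2]; ring⟩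

lemma bII_3_3 (z : ℤ) : Bz (QII_3 z) (F3 z) 28 :=
  ⟨1, 27 + (-26)*z + (-1)*z^2 + 26*z^3 + (-23)*z^4 + (-3)*z^5 + 24*z^6 + (-19)*z^7 + (-4)*z^8 + 20*z^9 + (-14)*z^10 + (-5)*z^11 + 16*z^12 + (-10)*z^13 + (-4)*z^14 + 11*z^15 + (-6)*z^16 + (-4)*z^17 + 8*z^18 + (-4)*z^19 + (-2)*z^20 + 4*z^21 + (-2)*z^22 + (-1)*z^23 + 2*z^24 + (-1)*z^25, by simp only [QII_3, F3]; ring⟩

lemma bII_3_4 (z : ℤ) : Bz (QII_3 z) (F4 z) 1 :=
  ⟨(-1)*z, 1 + 1*z + (-2)*z^2 + (-1)*z^3 + 3*z^4 + (-1)*z^5 + (-3)*z^6 + 3*z^7 + 1*z^8 + (-4)*z^9 + 2*z^10 + 2*z^11 + (-3)*z^12 + 1*z^13 + 2*z^14 + (-3)*z^15 + 1*z^16 + 2*z^17 + (-2)*z^18 + 2*z^20 + (-2)*z^21 + 2*z^23 + (-1)*z^24 + (-1)*z^25 + 1*z^26, by simp only [QII_3, F4]; ring⟩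

lemma bII_3_5 (z : ℤ) : Bz (QII_3 z) (F5 z) 1 :=
  ⟨1*z^3, 1 + (-1)*z + (-1)*z^3 + 2*z^4 + (-2)*z^6 + 3*z^7 + (-3)*z^8 + 4*z^10 + (-3)*z^11 + (-1)*z^12 + 2*z^13 + (-1)*z^14 + 1*z^16 + (-3)*z^18 + 3*z^19 + (-2)*z^21 + 2*z^22 + (-1)*z^23 + (-1)*z^24 + 2*z^25 + (-1)*z^26, by simp only [QII_3, F5]; ring⟩

lemma bII_3_6 (z : ℤ) : Bz (QII_3 z) (F6 z) 2 :=
  ⟨1*z, 2 + 1*z + (-1)*z^3 + (-2)*z^4 + 1*z^5 + 3*z^6 + (-1)*z^8 + (-2)*z^10 + 3*z^12 + (-2)*z^14 + (-1)*z^16 + 2*z^18 + (-2)*z^20 + 1*z^24 + (-1)*z^26, by simp only [QII_3, F6]; ring⟩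

lemma bII_3_7 (z : ℤ) : Bz (QII_3 z) (F7 z) 29 :=
  ⟨5 + (-2)*z + 2*z^2 + (-21)*z^3 + (-12)*z^4 + (-13)*z^5, 24 + (-17)*z + (-11)*z^2 + 22*z^3 + (-15)*z^4 + (-8)*z^5 + 7*z^6 + 6*z^7 + (-15)*z^8 + 6*z^9 + 19*z^10 + (-39)*z^11 + 28*z^12 + (-11)*z^13 + 8*z^14 + (-3)*z^15 + 15*z^16 + (-16)*z^17 + (-5)*z^18 + 7*z^19 + 6*z^20 + (-1)*z^21 + 13*z^22 + (-19)*z^23 + 10*z^24 + (-14)*z^25 + 13*z^26, by simp only [QII_3, F7]; ring⟩

lemma bII_3_8 (z : ℤ) : Bz (QII_3 z) (F8 z) 1 :=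
  ⟨1 + 1*z + 1*z^2, 1*z^4 + 1*z^5 + (-1)*z^9 + (-1)*z^17 + (-1)*z^19 + 1*z^21 + (-1)*z^25, by simp only [QII_3, F8]; ring⟩

lemma bII_3_9 (z : ℤ) : Bz (QII_3 z) (F9 z) 1 :=
  ⟨1, 1*z + (-1)*z^3 + 1*z^4 + (-1)*z^6 + 1*z^8 + (-1)*z^9 + 1*z^10 + (-1)*z^12 + 1*z^14 + (-1)*z^15 + 1*z^20 + (-1)*z^21, by simp only [QII_3, F9]; ring⟩

lemma bII_3_10 (z : ℤ) : Bz (QII_3 z) (F10 z) 355 :=
  ⟨128 + 84*z + 134*z^2 + (-17)*z^3, 227 + 271*z + (-6)*z^2 + (-27)*z^3 + 178*z^4 + (-38)*z^5 + (-208)*z^6 + 89*z^7 + 109*z^8 + (-148)*z^9 + 144*z^10 + 189*z^11 + (-193)*z^12 + (-114)*z^13 + 45*z^14 + (-254)*z^15 + (-93)*z^16 + 96*z^17 + (-97)*z^18 + (-83)*z^19 + 174*z^20 + 10*z^21 + (-50)*z^22 + 23*z^23 + (-101)*z^24 + (-134)*z^25 + 17*z^26, by simp only [QII_3, F10]; ring⟩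

lemma bII_3_12 (z : ℤ) : Bz (QII_3 z) (F12 z) 2 :=
  ⟨1 + 1*z + 1*z^2, 1 + 1*z^2 + 1*z^4 + 1*z^5 + 1*z^7 + (-1)*z^11 + (-2)*z^13 + (-1)*z^15 + (-1)*z^23 + (-1)*z^25, by simp only [QII_3, F12]; ring⟩

lemma bII_3_14 (z : ℤ) : Bz (QII_3 z) (F14 z) 113 :=
  ⟨35 + 58*z + 18*z^2 + (-13)*z^3 + (-6)*z^4 + 33*z^5, 78 + 55*z + 17*z^2 + 36*z^3 + 1*z^4 + 64*z^5 + 71*z^6 + (-132)*z^7 + (-51)*z^8 + 134*z^9 + (-55)*z^10 + (-95)*z^11 + 30*z^12 + (-79)*z^13 + (-14)*z^14 + 129*z^15 + (-71)*z^16 + (-102)*z^17 + 69*z^18 + 9*z^19 + (-32)*z^20 + 29*z^21 + (-65)*z^22 + (-57)*z^23 + 46*z^24 + 6*z^25 + (-33)*z^26, by simp only [QII_3, F14]; ring⟩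

lemma bII_3_15 (z : ℤ) : Bz (QII_3 z) (F15 z) 61 :=
  ⟨6 + 23*z + 40*z^2 + (-4)*z^3 + (-5)*z^4 + (-8)*z^5 + 2*z^6 + 24*z^7, 55 + 38*z + 21*z^2 + 4*z^3 + 11*z^4 + (-18)*z^5 + 23*z^6 + (-9)*z^7 + (-7)*z^8 + (-1)*z^9 + (-3)*z^10 + (-39)*z^11 + 7*z^12 + (-11)*z^13 + (-31)*z^14 + 5*z^15 + 20*z^16 + 1*z^17 + 3*z^18 + (-16)*z^19 + (-45)*z^20 + (-16)*z^21 + 4*z^22 + 5*z^23 + 8*z^24 + (-2)*z^25 + (-24)*z^26, by simp only [QII_3, F15]; ring⟩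

lemma bII_3_18 (z : ℤ) : Bz (QII_3 z) (F18 z) 73 :=
  ⟨(-9) + (-2)*z + 32*z^2 + 8*z^3 + 18*z^4 + 4*z^5, 82 + (-7)*z + (-34)*z^2 + 115*z^3 + (-33)*z^4 + (-56)*z^5 + 111*z^6 + (-42)*z^7 + (-67)*z^8 + 77*z^9 + (-9)*z^10 + (-84)*z^11 + 57*z^12 + 28*z^13 + (-101)*z^14 + 37*z^15 + 56*z^16 + (-102)*z^17 + 44*z^18 + 26*z^19 + (-69)*z^20 + 27*z^21 + 6*z^22 + (-32)*z^23 + 10*z^24 + (-14)*z^25 + (-4)*z^26, by simp only [QII_3, F18]; ring⟩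

lemma bII_3_20 (z : ℤ) : Bz (QII_3 z) (F20 z) 41 :=
  ⟨20 + 18*z + 29*z^2 + (-19)*z^3 + (-34)*z^4 + (-6)*z^5 + 32*z^6 + 37*z^7, 21 + 2*z + 10*z^2 + 30*z^3 + 26*z^4 + 7*z^5 + 36*z^6 + (-26)*z^7 + (-28)*z^8 + 5*z^9 + 24*z^10 + (-24)*z^11 + 25*z^12 + (-19)*z^13 + (-55)*z^14 + (-7)*z^15 + 26*z^16 + (-14)*z^17 + 13*z^18 + (-17)*z^19 + (-45)*z^20 + (-19)*z^21 + 28*z^22 + (-4)*z^23 + 1*z^24 + 5*z^25 + (-37)*z^26, by simp only [QII_3, F20]; ring⟩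

lemma bII_3_24 (z : ℤ) : Bz (QII_3 z) (F24 z) 14 :=
  ⟨2 + 1*z + 5*z^2 + (-6)*z^3 + (-3)*z^4 + 2*z^5 + 3*z^6 + 9*z^7, 12 + 1*z + (-4)*z^2 + 9*z^3 + 12*z^4 + (-7)*z^5 + 7*z^6 + (-4)*z^7 + (-5)*z^8 + 10*z^9 + 8*z^10 + (-22)*z^11 + 1*z^12 + 8*z^13 + (-6)*z^14 + 2*z^15 + (-1)*z^16 + (-14)*z^17 + 2*z^18 + 10*z^19 + (-8)*z^20 + (-4)*z^21 + (-4)*z^23 + 1*z^24 + 6*z^25 + (-9)*z^26, by simp only [QII_3, F24]; ring⟩

lemma bII_3_30 (z : ℤ) : Bz (QII_3 z) (F30 z) 1 :=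
  ⟨(-1)*z + 1*z^4, 1 + (-1)*z^2 + 2*z^3 + (-1)*z^4 + 1*z^6 + (-1)*z^7 + 1*z^8 + (-1)*z^9 + 1*z^10 + (-1)*z^11 + 1*z^12 + (-1)*z^13 + 1*z^14 + (-1)*z^15 + 1*z^17 + (-1)*z^18 + 1*z^20 + (-2)*z^21 + 2*z^22 + (-1)*z^23, by simp only [QII_3, F30]; ring⟩

lemma bigII_3 (s : ℤ) (hs : 0 ≤ s) : (16220710342842792640000000000 : ℤ) < QII_3 (s + 12) := by
  have h : 0 ≤ 109775252130871323246112572596 + 284427170195892307924280966063*s + 309145098860473254176388366180*s^2 + 215390351733456240089399494561*s^3 + 108048753834339609565326248542*s^4 + 41554393553568530965863696624*s^5 + 12738689986227523621775067290*s^6 + 3195062769061252337037909598*s^7 + 667805055636799013162655203*s^8 + 117865843199944319870651427*s^9 + 17737175598509106836471386*s^10 + 2291719497949439789765327*s^11 + 255456915560775524100807*s^12 + 24642212193372927696863*s^13 + 2060110015538798082202*s^14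 + 149262176308898708163*s^15 + 9358683955070314835*s^16 + 506242639693845935*s^17 + 23511631427240258*s^18 + 931031843242848*s^19 + 31132474642870*s^20 + 867516415922*s^21 + 19778243628*s^22 + 359424287*s^23 + 5007601*s^24 + 50232*s^25 + 323*s^26 + 1*s^27 := by positivity
  have e : QII_3 (s + 12) - (16220710342842792640000000000 + 1) = 109775252130871323246112572596 + 284427170195892307924280966063*s + 309145098860473254176388366180*s^2 + 215390351733456240089399494561*s^3 + 108048753834339609565326248542*s^4 + 41554393553568530965863696624*s^5 + 12738689986227523621775067290*s^6 + 3195062769061252337037909598*s^7 + 667805055636799013162655203*s^8 + 117865843199944319870651427*s^9 + 17737175598509106836471386*s^10 + 2291719497949439789765327*s^11 + 255456915560775524100807*s^12 + 24642212193372927696863*s^13 + 2060110015538798082202*s^14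 + 149262176308898708163*s^15 + 9358683955070314835*s^16 + 506242639693845935*s^17 + 23511631427240258*s^18 + 931031843242848*s^19 + 31132474642870*s^20 + 867516415922*s^21 + 19778243628*s^22 + 359424287*s^23 + 5007601*s^24 + 50232*s^25 + 323*s^26 + 1*s^27 := by
    simp only [QII_3]; ring
  linarith

set_option maxHeartbeats 4000000 in
theorem noII_3 {q : ℕ} (hq : IsPrimePow q) : ¬ (k08 q + a07 q + 3) ∣ NN8 q := by
  intro hd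
  have hq2 : 2 ≤ q := hq.two_le
  have hz1 : 1 ≤ q := by omega
  by_cases hB : q < 12
  · refine chk_ok (g := fun q => k08' q + a07' q + 3) (B := 12) (by decide +kernel) hq2 hB ?_
    show k08' q + a07' q + 3 ∣ NN8 q
    rw [← k08_eq hz1, ← a07_eq hz1]
    exact hd
  · obtain ⟨p, k, hp, hk, hpk⟩ := (isPrimePow_nat_iff q).mp hq
    have hd' : ((k08 q + a07 q + 3 : ℕ) : ℤ) ∣ (NN8 q : ℤ) := Int.natCast_dvd_natCast.mpr hd
    have e1 : ((k08 q + a07 q + 3 : ℕ) : ℤ) = (1 + 1*(q : ℤ) + 1*(q : ℤ)^2) * QII_3 (q : ℤ) := by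
      push_cast
      rw [k08_cast hz1, a07_cast hz1]
      simp only [QII_3]
      ring
    rw [e1, NN8_cast hz1, NN8_fac] at hd'
    have hQ := Dvd.dvd.trans (Dvd.intro_left _ rfl) hd'
    have hz : (q : ℤ) = (p : ℤ) ^ k := by rw [← hpk]; push_cast; rfl
    have hqB : (12 : ℤ) ≤ (q : ℤ) := by exact_mod_cast not_lt.mp hB
    have hR : QII_3 (q : ℤ) = (1 : ℤ) + (q : ℤ) * ((-1) + 1*(q : ℤ)^2 + (-2)*(q : ℤ)^3 + 2*(q : ℤ)^5 + (-2)*(q : ℤ)^6 + (-1)*(q : ℤ)^7 + 3*(q : ℤ)^8 + (-2)*(q : ℤ)^9 + (-1)*(q : ℤ)^10 + 3*(q : ℤ)^11 + (-1)*(q : ℤ)^12 + (-2)*(q : ℤ)^13 + 3*(q : ℤ)^14 + (-1)*(q : ℤ)^15 + (-1)*(q : ℤ)^16 + 2*(q : ℤ)^17 + (-2)*(q : ℤ)^19 + 2*(q : ℤ)^20 + (-1)*(q : ℤ)^22 + 1*(q : ℤ)^23 + (-1)*(q : ℤ)^25 + 1*(q : ℤ)^26) := by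
      simp only [QII_3]; ring
    have hgo := cofree' hp hz hR (nd (c0 := 1) (by linarith) (by norm_num)).1 hQ
    have h1 : QII_3 (q : ℤ) ∣ 16220710342842792640000000000 := by
      have h2 := chainE (bII_3_1 _) (bII_3_2 _) (bII_3_3 _) (bII_3_4 _) (bII_3_5 _) (bII_3_6 _) (bII_3_7 _) (bII_3_8 _) (bII_3_9 _) (bII_3_10 _) (bII_3_12 _) (bII_3_14 _) (bII_3_15 _) (bII_3_18 _) (bII_3_20 _) (bII_3_24 _) (bII_3_30 _) hgo
      have e2 : ((((((((((((((((((((1 : ℤ)) * 1^8) * 5^8) * 28^4) * 1^4) * 1^2) * 2^4) * 29^1) * 1^2) * 1^1) * 355^2) * 2^2) * 113^1) * 61^1) * 73^1) * 41^1) * 14^1) * 1^1) * 1) = 16220710342842792640000000000 := by norm_num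
      rwa [e2] at h2
    obtain ⟨s, rfl⟩ : ∃ s, q = s + 12 := ⟨q - 12, by omega⟩
    have hbig := bigII_3 (s : ℤ) (Int.natCast_nonneg s)
    have e3 : ((s + 12 : ℕ) : ℤ) = (s : ℤ) + 12 := by push_cast; ring
    rw [e3] at h1
    have hle := Int.le_of_dvd (by norm_num) h1
    linarith

end sII_3

section sII_4

/-- The cofactor. -/
def QII_4 (z : ℤ) : ℤ := 2 + (-2)*z^2 + 1*z^4 + (-1)*z^5 + (-1)*z^6 + 1*z^7 + (-1)*z^9 + 1*z^11 + 1*z^17 + 1*z^23 + (-1)*z^25 + 1*z^27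

lemma bII_4_1 (z : ℤ) : Bz (QII_4 z) (F1 z) 2 :=
  ⟨1, (-2)*z^2 + (-2)*z^3 + (-1)*z^4 + (-2)*z^5 + (-3)*z^6 + (-2)*z^7 + (-2)*z^8 + (-3)*z^9 + (-3)*z^10 + (-2)*z^11 + (-2)*z^12 + (-2)*z^13 + (-2)*z^14 + (-2)*z^15 + (-2)*z^16 + (-1)*z^17 + (-1)*z^18 + (-1)*z^19 + (-1)*z^20 + (-1)*z^21 + (-1)*z^22 + (-1)*z^25 + (-1)*z^26, by simp only [QII_4, F1]; ring⟩

lemma bII_4_2 (z : ℤ) : Bz (QII_4 z) (F2 z) 2 :=
  ⟨(-1), 4 + (-4)*z + 2*z^2 + (-2)*z^3 + 3*z^4 + (-4)*z^5 + 3*z^6 + (-2)*z^7 + 2*z^8 + (-3)*z^9 + 3*z^10 + (-2)*z^11 + 2*z^12 + (-2)*z^13 + 2*z^14 + (-2)*z^15 + 2*z^16 + (-1)*z^17 + 1*z^18 + (-1)*z^19 + 1*z^20 + (-1)*z^21 + 1*z^22 + (-1)*z^25 + 1*z^26, by simp only [QII_4, F2]; ring⟩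

lemma bII_4_3 (z : ℤ) : Bz (QII_4 z) (F3 z) 1 :=
  ⟨(-1)*z, 1 + 1*z + (-2)*z^2 + (-1)*z^3 + 3*z^4 + (-1)*z^5 + (-3)*z^6 + 3*z^7 + 1*z^8 + (-4)*z^9 + 2*z^10 + 2*z^11 + (-3)*z^12 + 1*z^13 + 2*z^14 + (-3)*z^15 + 1*z^16 + 2*z^17 + (-2)*z^18 + 2*z^20 + (-2)*z^21 + 2*z^23 + (-1)*z^24 + (-1)*z^25 + 1*z^26, by simp only [QII_4, F3]; ring⟩

lemma bII_4_4 (z : ℤ) : Bz (QII_4 z) (F4 z) 12 :=
  ⟨1 + 1*z, 10 + (-2)*z + (-8)*z^2 + 4*z^3 + 7*z^4 + (-4)*z^5 + (-5)*z^6 + 4*z^7 + 4*z^8 + (-3)*z^9 + (-3)*z^10 + 2*z^11 + 2*z^12 + (-2)*z^13 + (-2)*z^14 + 2*z^15 + 2*z^16 + (-3)*z^17 + (-3)*z^18 + 3*z^19 + 3*z^20 + (-3)*z^21 + (-3)*z^22 + 2*z^23 + 2*z^24 + (-1)*z^25 + (-1)*z^26, by simp only [QII_4, F4]; ring⟩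

lemma bII_4_5 (z : ℤ) : Bz (QII_4 z) (F5 z) 1 :=
  ⟨1 + 1*z^2 + 1*z^3, (-1) + 1*z + (-2)*z^3 + 3*z^4 + 1*z^5 + (-2)*z^6 + (-1)*z^7 + 1*z^8 + 2*z^9 + (-1)*z^10 + (-1)*z^11 + (-1)*z^13 + 2*z^14 + (-1)*z^16 + (-1)*z^17 + 1*z^19 + (-1)*z^22 + (-1)*z^23 + 2*z^24 + (-1)*z^26, by simp only [QII_4, F5]; ring⟩

lemma bII_4_6 (z : ℤ) : Bz (QII_4 z) (F6 z) 5 :=
  ⟨1*z, 5 + 3*z + (-2)*z^2 + (-3)*z^3 + (-1)*z^4 + 1*z^5 + 3*z^6 + 3*z^7 + (-1)*z^8 + (-4)*z^9 + (-2)*z^10 + 2*z^11 + 3*z^12 + 1*z^13 + (-2)*z^14 + (-3)*z^15 + (-1)*z^16 + 2*z^17 + 2*z^18 + (-2)*z^20 + (-2)*z^21 + 2*z^23 + 1*z^24 + (-1)*z^25 + (-1)*z^26, by simp only [QII_4, F6]; ring⟩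

lemma bII_4_7 (z : ℤ) : Bz (QII_4 z) (F7 z) 58 :=
  ⟨23 + (-5)*z + 19*z^2 + (-14)*z^3 + 6*z^4 + (-7)*z^5, 12 + (-2)*z + (-2)*z^2 + 10*z^3 + (-15)*z^4 + 11*z^5 + (-3)*z^6 + (-8)*z^7 + 11*z^8 + (-3)*z^9 + 15*z^10 + (-40)*z^11 + 26*z^12 + (-14)*z^13 + 12*z^14 + (-2)*z^15 + 10*z^16 + (-15)*z^17 + (-12)*z^18 + 2*z^19 + 19*z^20 + (-8)*z^21 + 11*z^22 + (-20)*z^23 + 13*z^24 + (-13)*z^25 + 7*z^26, by simp only [QII_4, F7]; ring⟩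

lemma bII_4_8 (z : ℤ) : Bz (QII_4 z) (F8 z) 2 :=
  ⟨1 + 1*z^2, 1*z^4 + 1*z^5 + (-1)*z^9 + (-1)*z^17 + (-1)*z^19 + 1*z^21 + (-1)*z^25, by simp only [QII_4, F8]; ring⟩

lemma bII_4_9 (z : ℤ) : Bz (QII_4 z) (F9 z) 127 :=
  ⟨63 + (-26)*z + 45*z^2 + (-10)*z^3 + (-12)*z^4 + 11*z^5, 1 + 52*z + 36*z^2 + (-33)*z^3 + (-1)*z^4 + 11*z^5 + (-63)*z^7 + 26*z^8 + 18*z^9 + 47*z^10 + (-32)*z^11 + (-13)*z^12 + (-41)*z^13 + 27*z^14 + 7*z^15 + (-17)*z^16 + (-58)*z^17 + 32*z^18 + 13*z^19 + 41*z^20 + (-27)*z^21 + (-7)*z^22 + (-46)*z^23 + 21*z^24 + 12*z^25 + (-11)*z^26, by simp only [QII_4, F9]; ring⟩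

lemma bII_4_10 (z : ℤ) : Bz (QII_4 z) (F10 z) 781 :=
  ⟨173 + 48*z + 135*z^2 + 13*z^3, 435 + 339*z + (-20)*z^2 + 146*z^3 + 167*z^4 + (-187)*z^5 + (-102)*z^6 + 103*z^7 + (-49)*z^8 + (-16)*z^9 + 273*z^10 + 99*z^11 + (-176)*z^12 + (-121)*z^13 + (-132)*z^14 + (-286)*z^15 + (-99)*z^16 + 3*z^17 + (-100)*z^18 + (-51)*z^19 + 138*z^20 + 86*z^21 + (-3)*z^22 + (-73)*z^23 + (-170)*z^24 + (-148)*z^25 + (-13)*z^26, by simp only [QII_4, F10]; ring⟩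

lemma bII_4_12 (z : ℤ) : Bz (QII_4 z) (F12 z) 3 :=
  ⟨1 + 1*z^2, 1 + 1*z^2 + 1*z^4 + 1*z^5 + 1*z^7 + (-1)*z^11 + (-2)*z^13 + (-1)*z^15 + (-1)*z^23 + (-1)*z^25, by simp only [QII_4, F12]; ring⟩

lemma bII_4_14 (z : ℤ) : Bz (QII_4 z) (F14 z) 226 :=
  ⟨55 + (-13)*z + 80*z^2 + (-35)*z^3 + 18*z^4 + 6*z^5, 116 + 142*z + (-24)*z^2 + (-6)*z^3 + 113*z^4 + 55*z^5 + (-16)*z^6 + (-59)*z^7 + (-43)*z^8 + 16*z^9 + 4*z^10 + (-54)*z^11 + (-70)*z^12 + (-74)*z^13 + 38*z^14 + 66*z^15 + (-40)*z^16 + (-65)*z^17 + 12*z^18 + 3*z^19 + 29*z^20 + (-21)*z^21 + (-90)*z^22 + (-21)*z^23 + 23*z^24 + (-24)*z^25 + (-6)*z^26, by simp only [QII_4, F14]; ring⟩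

lemma bII_4_15 (z : ℤ) : Bz (QII_4 z) (F15 z) 9601 :=
  ⟨1707 + 251*z + 3387*z^2 + (-938)*z^3 + 783*z^4 + (-44)*z^5 + (-1091)*z^6 + 2008*z^7, 6187 + 5685*z + 2325*z^2 + (-1484)*z^3 + 2519*z^4 + (-640)*z^5 + (-197)*z^6 + (-1573)*z^7 + 1801*z^8 + (-2296)*z^9 + (-1070)*z^10 + (-2490)*z^11 + (-207)*z^12 + (-2296)*z^13 + (-1070)*z^14 + (-783)*z^15 + 1751*z^16 + 1342*z^17 + (-328)*z^18 + (-2896)*z^19 + (-2855)*z^20 + (-2493)*z^21 + (-936)*z^22 + 1269*z^23 + 1135*z^24 + (-917)*z^25 + (-2008)*z^26, by simp only [QII_4, F15]; ring⟩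

lemma bII_4_18 (z : ℤ) : Bz (QII_4 z) (F18 z) 307 :=
  ⟨87 + (-102)*z + 109*z^2 + (-56)*z^3 + 108*z^4 + 11*z^5, 133 + 204*z + (-44)*z^2 + 41*z^3 + 119*z^4 + 11*z^5 + (-87)*z^7 + 102*z^8 + (-22)*z^9 + (-133)*z^10 + 16*z^11 + 13*z^12 + (-47)*z^13 + (-19)*z^14 + (-73)*z^15 + 75*z^16 + (-122)*z^17 + 16*z^18 + 13*z^19 + (-47)*z^20 + (-19)*z^21 + (-73)*z^22 + (-12)*z^23 + 67*z^24 + (-108)*z^25 + (-11)*z^26, by simp only [QII_4, F18]; ring⟩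

lemma bII_4_20 (z : ℤ) : Bz (QII_4 z) (F20 z) 101 :=
  ⟨29 + (-20)*z + 44*z^2 + 1*z^3 + (-10)*z^4 + (-14)*z^5 + 12*z^6 + 37*z^7, 43 + 40*z + 13*z^2 + (-2)*z^3 + 49*z^4 + 37*z^5 + (-29)*z^7 + 20*z^8 + (-44)*z^9 + (-1)*z^10 + 10*z^11 + 14*z^12 + (-41)*z^13 + (-17)*z^14 + (-44)*z^15 + (-1)*z^16 + 10*z^17 + 14*z^18 + (-41)*z^19 + (-17)*z^20 + (-44)*z^21 + (-1)*z^22 + 10*z^23 + 14*z^24 + (-12)*z^25 + (-37)*z^26, by simp only [QII_4, F20]; ring⟩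

lemma bII_4_24 (z : ℤ) : Bz (QII_4 z) (F24 z) 97 :=
  ⟨25 + (-19)*z + 25*z^2 + (-24)*z^3 + 2*z^4 + 14*z^5 + 2*z^6 + 33*z^7, 47 + 38*z + 10*z^3 + 68*z^4 + 6*z^5 + (-19)*z^6 + (-23)*z^7 + 43*z^8 + (-2)*z^9 + (-52)*z^11 + (-9)*z^12 + 24*z^14 + (-29)*z^15 + (-33)*z^16 + (-25)*z^17 + 10*z^18 + (-2)*z^19 + (-27)*z^21 + (-28)*z^22 + 19*z^24 + (-2)*z^25 + (-33)*z^26, by simp only [QII_4, F24]; ring⟩

lemma bII_4_30 (z : ℤ) : Bz (QII_4 z) (F30 z) 5 :=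
  ⟨1 + (-3)*z + 1*z^2 + (-2)*z^3 + 1*z^4 + 2*z^5 + 1*z^6, 3 + 3*z + (-3)*z^2 + 4*z^3 + 1*z^4 + (-2)*z^5 + 3*z^6 + (-1)*z^7 + 1*z^8 + (-2)*z^9 + 2*z^10 + (-2)*z^11 + 1*z^12 + (-2)*z^13 + 2*z^14 + (-1)*z^15 + (-3)*z^16 + 2*z^17 + (-2)*z^19 + 3*z^20 + (-5)*z^21 + 2*z^22 + 1*z^23 + (-1)*z^24 + (-1)*z^25, by simp only [QII_4, F30]; ring⟩

lemma bigII_4 (s : ℤ) (hs : 0 ≤ s) : (8965563844878721780655342380646400000 : ℤ) < QII_4 (s + 24) := by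
  have h : 0 ≤ 9440045447979525363043669049273191297 + 20708968663965101534410499864419534752*s + 11218742896347728301539582737667162494*s^2 + 3895858585633719432265439254798983648*s^3 + 974075301455373298043029727953436617*s^4 + 186718057814914069966891329122881199*s^5 + 28529329837249893737496396168382631*s^6 + 3566518675565962325035472245903105*s^7 + 371547246778484596350826764750120*s^8 + 32685304342069667300801878457279*s^9 + 2451603821313752237519652520200*s^10 + 157880914643470561430181249025*s^11 + 8771812382013367013764890624*s^12 + 421750940721433207498653696*s^13 + 17574085456770829038612480*s^14 + 634657410515669681779200*s^15 + 19834122945763787932056*s^16 + 534769956370829279233*s^17 + 12379485175831166976*s^18 + 244341611720110080*s^19 + 4072501188923904*s^20 + 56564195105088*s^21 + 642790840872*s^22 + 5822496001*s^23 + 40434600*s^24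 + 202175*s^25 + 648*s^26 + 1*s^27 := by positivity
  have e : QII_4 (s + 24) - (8965563844878721780655342380646400000 + 1) = 9440045447979525363043669049273191297 + 20708968663965101534410499864419534752*s + 11218742896347728301539582737667162494*s^2 + 3895858585633719432265439254798983648*s^3 + 974075301455373298043029727953436617*s^4 + 186718057814914069966891329122881199*s^5 + 28529329837249893737496396168382631*s^6 + 3566518675565962325035472245903105*s^7 + 371547246778484596350826764750120*s^8 + 32685304342069667300801878457279*s^9 + 2451603821313752237519652520200*s^10 + 157880914643470561430181249025*s^11 + 8771812382013367013764890624*s^12 + 421750940721433207498653696*s^13 + 17574085456770829038612480*s^14 + 634657410515669681779200*s^15 + 19834122945763787932056*s^16 + 534769956370829279233*s^17 + 12379485175831166976*s^18 + 244341611720110080*s^19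 + 4072501188923904*s^20 + 56564195105088*s^21 + 642790840872*s^22 + 5822496001*s^23 + 40434600*s^24 + 202175*s^25 + 648*s^26 + 1*s^27 := by
    simp only [QII_4]; ring
  linarith

set_option maxHeartbeats 4000000 in
theorem noII_4 {q : ℕ} (hq : IsPrimePow q) : ¬ (k08 q + a07 q + 4) ∣ NN8 q := by
  intro hd
  have hq2 : 2 ≤ q := hq.two_le
  have hz1 : 1 ≤ q := by omega
  by_cases hB : q < 24
  · refine chk_ok (g := fun q => k08' q + a07' q + 4) (B := 24) (by decide +kernel) hq2 hB ?_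
    show k08' q + a07' q + 4 ∣ NN8 q
    rw [← k08_eq hz1, ← a07_eq hz1]
    exact hd
  · obtain ⟨p, k, hp, hk, hpk⟩ := (isPrimePow_nat_iff q).mp hq
    have hd' : ((k08 q + a07 q + 4 : ℕ) : ℤ) ∣ (NN8 q : ℤ) := Int.natCast_dvd_natCast.mpr hd
    have e1 : ((k08 q + a07 q + 4 : ℕ) : ℤ) = (1 + 1*(q : ℤ)^2) * QII_4 (q : ℤ) := by
      push_cast
      rw [k08_cast hz1, a07_cast hz1]
      simp only [QII_4]
      ring
    rw [e1, NN8_cast hz1, NN8_fac] at hd'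
    have hQ := Dvd.dvd.trans (Dvd.intro_left _ rfl) hd'
    have hz : (q : ℤ) = (p : ℤ) ^ k := by rw [← hpk]; push_cast; rfl
    have hqB : (24 : ℤ) ≤ (q : ℤ) := by exact_mod_cast not_lt.mp hB
    have hR : QII_4 (q : ℤ) = (2 : ℤ) + (q : ℤ) * ((-2)*(q : ℤ) + 1*(q : ℤ)^3 + (-1)*(q : ℤ)^4 + (-1)*(q : ℤ)^5 + 1*(q : ℤ)^6 + (-1)*(q : ℤ)^8 + 1*(q : ℤ)^10 + 1*(q : ℤ)^16 + 1*(q : ℤ)^22 + (-1)*(q : ℤ)^24 + 1*(q : ℤ)^26) := by
      simp only [QII_4]; ring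
    have hgo := cofree' hp hz hR (nd (c0 := 2) (by linarith) (by norm_num)).1 hQ
    have h1 : QII_4 (q : ℤ) ∣ 8965563844878721780655342380646400000 := by
      have h2 := chainE (bII_4_1 _) (bII_4_2 _) (bII_4_3 _) (bII_4_4 _) (bII_4_5 _) (bII_4_6 _) (bII_4_7 _) (bII_4_8 _) (bII_4_9 _) (bII_4_10 _) (bII_4_12 _) (bII_4_14 _) (bII_4_15 _) (bII_4_18 _) (bII_4_20 _) (bII_4_24 _) (bII_4_30 _) hgo
      have e2 : ((((((((((((((((((((2 : ℤ)) * 2^8) * 2^8) * 1^4) * 12^4) * 1^2) * 5^4) * 58^1) * 2^2) * 127^1) * 781^2) * 3^2) * 226^1) * 9601^1) * 307^1) * 101^1) * 97^1) * 5^1) * 1) = 8965563844878721780655342380646400000 := by norm_num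
      rwa [e2] at h2
    obtain ⟨s, rfl⟩ : ∃ s, q = s + 24 := ⟨q - 24, by omega⟩
    have hbig := bigII_4 (s : ℤ) (Int.natCast_nonneg s)
    have e3 : ((s + 24 : ℕ) : ℤ) = (s : ℤ) + 24 := by push_cast; ring
    rw [e3] at h1
    have hle := Int.le_of_dvd (by norm_num) h1
    linarith

end sII_4

section sII_5

/-- The cofactor. -/
def QII_5 (z : ℤ) : ℤ := 3 + (-1)*z^4 + (-1)*z^5 + (-1)*z^8 + 1*z^13 + 1*z^17 + 1*z^19 + 1*z^23 + 1*z^29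

lemma bII_5_1 (z : ℤ) : Bz (QII_5 z) (F1 z) 5 :=
  ⟨1, (-2) + (-2)*z + (-2)*z^2 + (-2)*z^3 + (-3)*z^4 + (-4)*z^5 + (-4)*z^6 + (-4)*z^7 + (-5)*z^8 + (-5)*z^9 + (-5)*z^10 + (-5)*z^11 + (-5)*z^12 + (-4)*z^13 + (-4)*z^14 + (-4)*z^15 + (-4)*z^16 + (-3)*z^17 + (-3)*z^18 + (-2)*z^19 + (-2)*z^20 + (-2)*z^21 + (-2)*z^22 + (-1)*z^23 + (-1)*z^24 + (-1)*z^25 + (-1)*z^26 + (-1)*z^27 + (-1)*z^28, by simp only [QII_5, F1]; ring⟩

lemma bII_5_2 (z : ℤ) : Bz (QII_5 z) (F2 z) 3 :=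
  ⟨(-1), 6 + (-6)*z + 6*z^2 + (-6)*z^3 + 5*z^4 + (-6)*z^5 + 6*z^6 + (-6)*z^7 + 5*z^8 + (-5)*z^9 + 5*z^10 + (-5)*z^11 + 5*z^12 + (-4)*z^13 + 4*z^14 + (-4)*z^15 + 4*z^16 + (-3)*z^17 + 3*z^18 + (-2)*z^19 + 2*z^20 + (-2)*z^21 + 2*z^22 + (-1)*z^23 + 1*z^24 + (-1)*z^25 + 1*z^26 + (-1)*z^27 + 1*z^28, by simp only [QII_5, F2]; ring⟩

lemma bII_5_3 (z : ℤ) : Bz (QII_5 z) (F3 z) 2 :=
  ⟨1, (-1) + 1*z + (-1)*z^3 + 2*z^4 + (-2)*z^6 + 2*z^7 + 1*z^8 + (-3)*z^9 + 2*z^10 + 1*z^11 + (-3)*z^12 + 1*z^13 + 2*z^14 + (-3)*z^15 + 1*z^16 + 1*z^17 + (-2)*z^18 + 2*z^20 + (-2)*z^21 + 1*z^23 + (-1)*z^24 + 1*z^26 + (-1)*z^27, by simp only [QII_5, F3]; ring⟩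

lemma bII_5_4 (z : ℤ) : Bz (QII_5 z) (F4 z) 1 :=
  ⟨1, (-2) + 2*z^2 + (-1)*z^4 + 1*z^5 + 1*z^6 + (-1)*z^7 + 1*z^9 + (-1)*z^11 + (-1)*z^17 + (-1)*z^23 + 1*z^25 + (-1)*z^27, by simp only [QII_5, F4]; ring⟩

lemma bII_5_5 (z : ℤ) : Bz (QII_5 z) (F5 z) 5 :=
  ⟨4 + 3*z + 2*z^2 + 1*z^3, (-7) + (-2)*z + 3*z^2 + 3*z^3 + 7*z^4 + (-4)*z^5 + (-4)*z^6 + 1*z^7 + 5*z^8 + 5*z^9 + (-5)*z^10 + (-5)*z^11 + 1*z^13 + 6*z^14 + (-4)*z^15 + (-4)*z^16 + (-3)*z^17 + 2*z^18 + 3*z^19 + (-2)*z^20 + (-2)*z^21 + (-2)*z^22 + (-1)*z^23 + 4*z^24 + (-1)*z^25 + (-1)*z^26 + (-1)*z^27 + (-1)*z^28, by simp only [QII_5, F5]; ring⟩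

lemma bII_5_6 (z : ℤ) : Bz (QII_5 z) (F6 z) 6 :=
  ⟨1, 3 + 3*z + (-3)*z^3 + (-2)*z^4 + 2*z^5 + 4*z^6 + 2*z^7 + (-1)*z^8 + (-3)*z^9 + (-2)*z^10 + 1*z^11 + 3*z^12 + 1*z^13 + (-2)*z^14 + (-3)*z^15 + (-1)*z^16 + 1*z^17 + 2*z^18 + (-2)*z^20 + (-2)*z^21 + 1*z^23 + 1*z^24 + (-1)*z^26 + (-1)*z^27, by simp only [QII_5, F6]; ring⟩

lemma bII_5_7 (z : ℤ) : Bz (QII_5 z) (F7 z) 1247 :=
  ⟨380 + 92*z + 74*z^2 + (-83)*z^3 + 141*z^4 + 155*z^5, 107 + (-383)*z + 54*z^2 + 471*z^3 + (-292)*z^4 + 50*z^5 + 159*z^6 + (-68)*z^7 + 64*z^8 + 4*z^9 + 312*z^10 + (-604)*z^11 + 274*z^12 + (-207)*z^13 + 65*z^14 + 82*z^15 + 161*z^16 + (-292)*z^17 + (-330)*z^18 + 67*z^19 + 238*z^20 + (-141)*z^21 + 225*z^22 + (-288)*z^23 + (-18)*z^24 + (-157)*z^25 + 224*z^26 + 14*z^27 + (-155)*z^28, by simp only [QII_5, F7]; ring⟩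

lemma bII_5_8 (z : ℤ) : Bz (QII_5 z) (F8 z) 3 :=
  ⟨1, 1*z^4 + 1*z^5 + (-1)*z^9 + (-1)*z^17 + (-1)*z^19 + 1*z^21 + (-1)*z^25, by simp only [QII_5, F8]; ring⟩

lemma bII_5_9 (z : ℤ) : Bz (QII_5 z) (F9 z) 991 :=
  ⟨324 + (-114)*z + (-70)*z^2 + 55*z^3 + (-1)*z^4 + (-18)*z^5, 19 + 342*z + 210*z^2 + (-184)*z^3 + (-15)*z^4 + 54*z^5 + (-19)*z^6 + (-342)*z^7 + 114*z^8 + 70*z^9 + 269*z^10 + (-113)*z^11 + (-52)*z^12 + (-269)*z^13 + 113*z^14 + 52*z^15 + (-55)*z^16 + (-323)*z^17 + 132*z^18 + 70*z^19 + 269*z^20 + (-113)*z^21 + (-52)*z^22 + (-269)*z^23 + 113*z^24 + 52*z^25 + (-55)*z^26 + 1*z^27 + 18*z^28, by simp only [QII_5, F9]; ring⟩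

lemma bII_5_10 (z : ℤ) : Bz (QII_5 z) (F10 z) 1511 :=
  ⟨218 + 79*z + (-14)*z^2 + (-43)*z^3, 857 + 620*z + (-195)*z^2 + 171*z^3 + 347*z^4 + (-342)*z^5 + (-258)*z^6 + 203*z^7 + (-53)*z^8 + (-93)*z^9 + 407*z^10 + 201*z^11 + (-246)*z^12 + (-165)*z^13 + (-204)*z^14 + (-472)*z^15 + (-144)*z^16 + 71*z^17 + (-132)*z^18 + (-79)*z^19 + 232*z^20 + 122*z^21 + (-14)*z^22 + (-43)*z^23 + (-218)*z^24 + (-297)*z^25 + (-65)*z^26 + 57*z^27 + 43*z^28, by simp only [QII_5, F10]; ring⟩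

lemma bII_5_12 (z : ℤ) : Bz (QII_5 z) (F12 z) 4 :=
  ⟨1, 1 + 1*z^2 + 1*z^4 + 1*z^5 + 1*z^7 + (-1)*z^11 + (-2)*z^13 + (-1)*z^15 + (-1)*z^23 + (-1)*z^25, by simp only [QII_5, F12]; ring⟩

lemma bII_5_14 (z : ℤ) : Bz (QII_5 z) (F14 z) 4523 :=
  ⟨1214 + (-380)*z + 178*z^2 + (-205)*z^3 + 179*z^4 + 131*z^5, 881 + 2021*z + 606*z^2 + 81*z^3 + 1292*z^4 + 1118*z^5 + 239*z^6 + (-1110)*z^7 + (-860)*z^8 + 512*z^9 + 158*z^10 + (-1188)*z^11 + (-1144)*z^12 + (-1143)*z^13 + 407*z^14 + 1062*z^15 + (-485)*z^16 + (-1346)*z^17 + 44*z^18 + 1*z^19 + 336*z^20 + (-179)*z^21 + (-1345)*z^22 + (-834)*z^23 + 202*z^24 + 27*z^25 + 26*z^26 + (-310)*z^27 + (-131)*z^28, by simp only [QII_5, F14]; ring⟩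

lemma bII_5_15 (z : ℤ) : Bz (QII_5 z) (F15 z) 60481 :=
  ⟨9028 + 6109*z + 1929*z^2 + (-9718)*z^3 + 6714*z^4 + 3604*z^5 + (-5614)*z^6 + 5020*z^7, 33397 + 15070*z + 9283*z^2 + 5040*z^3 + 12253*z^4 + (-11032)*z^5 + 3021*z^6 + (-2927)*z^7 + 3015*z^8 + (-12651)*z^9 + 5*z^10 + (-12057)*z^11 + (-5015)*z^12 + (-12057)*z^13 + (-5015)*z^14 + (-3029)*z^15 + 10122*z^16 + 5009*z^17 + (-6695)*z^18 + (-13132)*z^19 + (-13443)*z^20 + (-13462)*z^21 + (-3934)*z^22 + 6095*z^23 + (-600)*z^24 + (-4704)*z^25 + (-3010)*z^26 + 594*z^27 + (-5020)*z^28, by simp only [QII_5, F15]; ring⟩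

lemma bII_5_18 (z : ℤ) : Bz (QII_5 z) (F18 z) 57 :=
  ⟨18 + (-2)*z + (-4)*z^2 + (-7)*z^3 + 5*z^4 + 10*z^5, 3 + 6*z + 12*z^2 + 24*z^3 + 9*z^4 + (-2)*z^5 + 15*z^6 + (-8)*z^7 + 2*z^8 + 4*z^9 + (-11)*z^10 + (-3)*z^11 + (-6)*z^12 + (-11)*z^13 + (-3)*z^14 + (-6)*z^15 + 7*z^16 + (-23)*z^17 + (-8)*z^18 + 4*z^19 + (-11)*z^20 + (-3)*z^21 + (-6)*z^22 + (-11)*z^23 + (-3)*z^24 + (-6)*z^25 + 7*z^26 + (-5)*z^27 + (-10)*z^28, by simp only [QII_5, F18]; ring⟩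

lemma bII_5_20 (z : ℤ) : Bz (QII_5 z) (F20 z) 33001 :=
  ⟨8196 + (-1092)*z + 695*z^2 + (-914)*z^3 + (-621)*z^4 + 1339*z^5 + 1724*z^6 + 2766*z^7, 8413 + 3276*z + 6328*z^2 + 6018*z^3 + 7974*z^4 + 5829*z^5 + 4490*z^6 + (-5430)*z^7 + 1092*z^8 + (-8891)*z^9 + 2006*z^10 + (-74)*z^11 + (-425)*z^12 + (-9299)*z^13 + (-3013)*z^14 + (-10615)*z^15 + (-760)*z^16 + (-74)*z^17 + (-425)*z^18 + (-9299)*z^19 + (-3013)*z^20 + (-10615)*z^21 + (-760)*z^22 + (-74)*z^23 + (-425)*z^24 + (-1103)*z^25 + (-4105)*z^26 + (-1724)*z^27 + (-2766)*z^28, by simp only [QII_5, F20]; ring⟩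

lemma bII_5_24 (z : ℤ) : Bz (QII_5 z) (F24 z) 42 :=
  ⟨8 + (-1)*z + (-5)*z^3 + 2*z^4 + 5*z^5 + 4*z^7, 18 + 3*z + 15*z^3 + 20*z^4 + (-5)*z^5 + (-1)*z^6 + (-2)*z^7 + 7*z^8 + (-2)*z^9 + 4*z^10 + (-18)*z^11 + (-7)*z^12 + 6*z^14 + (-12)*z^15 + (-9)*z^16 + (-8)*z^17 + (-2)*z^18 + (-2)*z^19 + (-10)*z^21 + (-8)*z^22 + 1*z^24 + (-2)*z^25 + (-5)*z^26 + (-4)*z^28, by simp only [QII_5, F24]; ring⟩

lemma bII_5_30 (z : ℤ) : Bz (QII_5 z) (F30 z) 1321 :=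
  ⟨328 + (-417)*z + (-249)*z^2 + 8*z^3 + 266*z^4 + 268*z^5 + 84*z^6 + (-40)*z^7, 337 + 914*z + (-167)*z^2 + 480*z^3 + 301*z^4 + (-110)*z^5 + 419*z^6 + (-263)*z^7 + 285*z^8 + (-305)*z^9 + 141*z^10 + (-429)*z^11 + 181*z^12 + (-429)*z^13 + 181*z^14 + (-101)*z^15 + (-564)*z^16 + 67*z^17 + 21*z^18 + (-420)*z^19 + 519*z^20 + (-764)*z^21 + 76*z^22 + 31*z^23 + (-10)*z^24 + (-82)*z^25 + (-144)*z^26 + (-124)*z^27 + 40*z^28, by simp only [QII_5, F30]; ring⟩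

lemma bigII_5 (s : ℤ) (hs : 0 ≤ s) : (46232509070472779804781226148927365407120000000000 : ℤ) < QII_5 (s + 52) := by
  have h : 0 ≤ 11856900923624602538004679257902975206077248461570 + 32396017111753751242111209986791346339938683557376*s + 8722004606935649831273190403173283852298742041632*s^2 + 1509577720420596695075465814463452324734922798480*s^3 + 188697215051507073316644094571793758506802895099*s^4 + 18143962985639717546512058121928768066105039359*s^5 + 1395689460428823746956649575747619135000926272*s^6 + 88189169202672895458826662076693282056912480*s^7 + 4663850294362018827236890986021059024530431*s^8 + 209275333721027154154910748706202417363712*s^9 + 8049051296952616923490088174280971099520*s^10 + 267363592031398948508099601491568539616*s^11 + 7712411308592964897272962278088045220*s^12 + 193951171961567193671919219407178753*s^13 + 4262663120033080790184459967914496*s^14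 + 81974290769849463570497946976384*s^15 + 1379375085069393290464755794612*s^16 + 20284927721607014188002491953*s^17 + 260063175918025849950451676*s^18 + 2895440217710736425649921*s^19 + 27840771324141322875328*s^20 + 229456906517646897232*s^21 + 1604593751871653036*s^22 + 9391435002593281*s^23 + 45151129820160*s^24 + 173658191616*s^25 + 513781632*s^26 + 1097824*s^27 + 1508*s^28 + 1*s^29 := by positivity
  have e : QII_5 (s + 52) - (46232509070472779804781226148927365407120000000000 + 1) = 11856900923624602538004679257902975206077248461570 + 32396017111753751242111209986791346339938683557376*s + 8722004606935649831273190403173283852298742041632*s^2 + 1509577720420596695075465814463452324734922798480*s^3 + 188697215051507073316644094571793758506802895099*s^4 + 18143962985639717546512058121928768066105039359*s^5 + 1395689460428823746956649575747619135000926272*s^6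 + 88189169202672895458826662076693282056912480*s^7 + 4663850294362018827236890986021059024530431*s^8 + 209275333721027154154910748706202417363712*s^9 + 8049051296952616923490088174280971099520*s^10 + 267363592031398948508099601491568539616*s^11 + 7712411308592964897272962278088045220*s^12 + 193951171961567193671919219407178753*s^13 + 4262663120033080790184459967914496*s^14 + 81974290769849463570497946976384*s^15 + 1379375085069393290464755794612*s^16 + 20284927721607014188002491953*s^17 + 260063175918025849950451676*s^18 + 2895440217710736425649921*s^19 + 27840771324141322875328*s^20 + 229456906517646897232*s^21 + 1604593751871653036*s^22 + 9391435002593281*s^23 + 45151129820160*s^24 + 173658191616*s^25 + 513781632*s^26 + 1097824*s^27 + 1508*s^28 + 1*s^29 := by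
    simp only [QII_5]; ring
  linarith

set_option maxHeartbeats 4000000 in
theorem noII_5 {q : ℕ} (hq : IsPrimePow q) : ¬ (k08 q + a07 q + 5) ∣ NN8 q := by
  intro hd
  have hq2 : 2 ≤ q := hq.two_le
  have hz1 : 1 ≤ q := by omega
  by_cases hB : q < 52
  · refine chk_ok (g := fun q => k08' q + a07' q + 5) (B := 52) (by decide +kernel) hq2 hB ?_
    show k08' q + a07' q + 5 ∣ NN8 q
    rw [← k08_eq hz1, ← a07_eq hz1]
    exact hd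
  · obtain ⟨p, k, hp, hk, hpk⟩ := (isPrimePow_nat_iff q).mp hq
    have hd' : ((k08 q + a07 q + 5 : ℕ) : ℤ) ∣ (NN8 q : ℤ) := Int.natCast_dvd_natCast.mpr hd
    have e1 : ((k08 q + a07 q + 5 : ℕ) : ℤ) = (1) * QII_5 (q : ℤ) := by
      push_cast
      rw [k08_cast hz1, a07_cast hz1]
      simp only [QII_5]
      ring
    rw [e1, NN8_cast hz1, NN8_fac] at hd'
    have hQ := Dvd.dvd.trans (Dvd.intro_left _ rfl) hd'
    have hz : (q : ℤ) = (p : ℤ) ^ k := by rw [← hpk]; push_cast; rfl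
    have hqB : (52 : ℤ) ≤ (q : ℤ) := by exact_mod_cast not_lt.mp hB
    have hR : QII_5 (q : ℤ) = (3 : ℤ) + (q : ℤ) * ((-1)*(q : ℤ)^3 + (-1)*(q : ℤ)^4 + (-1)*(q : ℤ)^7 + 1*(q : ℤ)^12 + 1*(q : ℤ)^16 + 1*(q : ℤ)^18 + 1*(q : ℤ)^22 + 1*(q : ℤ)^28) := by
      simp only [QII_5]; ring
    have hgo := cofree' hp hz hR (nd (c0 := 3) (by linarith) (by norm_num)).1 hQ
    have h1 : QII_5 (q : ℤ) ∣ 46232509070472779804781226148927365407120000000000 := by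
      have h2 := chainE (bII_5_1 _) (bII_5_2 _) (bII_5_3 _) (bII_5_4 _) (bII_5_5 _) (bII_5_6 _) (bII_5_7 _) (bII_5_8 _) (bII_5_9 _) (bII_5_10 _) (bII_5_12 _) (bII_5_14 _) (bII_5_15 _) (bII_5_18 _) (bII_5_20 _) (bII_5_24 _) (bII_5_30 _) hgo
      have e2 : ((((((((((((((((((((3 : ℤ)) * 5^8) * 3^8) * 2^4) * 1^4) * 5^2) * 6^4) * 1247^1) * 3^2) * 991^1) * 1511^2) * 4^2) * 4523^1) * 60481^1) * 57^1) * 33001^1) * 42^1) * 1321^1) * 1) = 46232509070472779804781226148927365407120000000000 := by norm_num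
      rwa [e2] at h2
    obtain ⟨s, rfl⟩ : ∃ s, q = s + 52 := ⟨q - 52, by omega⟩
    have hbig := bigII_5 (s : ℤ) (Int.natCast_nonneg s)
    have e3 : ((s + 52 : ℕ) : ℤ) = (s : ℤ) + 52 := by push_cast; ring
    rw [e3] at h1
    have hle := Int.le_of_dvd (by norm_num) h1
    linarith

end sII_5

section sII_6

/-- The cofactor. -/
def QII_6 (z : ℤ) : ℤ := 4 + (-1)*z^4 + (-1)*z^5 + (-1)*z^8 + 1*z^13 + 1*z^17 + 1*z^19 + 1*z^23 + 1*z^29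

lemma bII_6_1 (z : ℤ) : Bz (QII_6 z) (F1 z) 6 :=
  ⟨1, (-2) + (-2)*z + (-2)*z^2 + (-2)*z^3 + (-3)*z^4 + (-4)*z^5 + (-4)*z^6 + (-4)*z^7 + (-5)*z^8 + (-5)*z^9 + (-5)*z^10 + (-5)*z^11 + (-5)*z^12 + (-4)*z^13 + (-4)*z^14 + (-4)*z^15 + (-4)*z^16 + (-3)*z^17 + (-3)*z^18 + (-2)*z^19 + (-2)*z^20 + (-2)*z^21 + (-2)*z^22 + (-1)*z^23 + (-1)*z^24 + (-1)*z^25 + (-1)*z^26 + (-1)*z^27 + (-1)*z^28, by simp only [QII_6, F1]; ring⟩

lemma bII_6_2 (z : ℤ) : Bz (QII_6 z) (F2 z) 2 :=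
  ⟨(-1), 6 + (-6)*z + 6*z^2 + (-6)*z^3 + 5*z^4 + (-6)*z^5 + 6*z^6 + (-6)*z^7 + 5*z^8 + (-5)*z^9 + 5*z^10 + (-5)*z^11 + 5*z^12 + (-4)*z^13 + 4*z^14 + (-4)*z^15 + 4*z^16 + (-3)*z^17 + 3*z^18 + (-2)*z^19 + 2*z^20 + (-2)*z^21 + 2*z^22 + (-1)*z^23 + 1*z^24 + (-1)*z^25 + 1*z^26 + (-1)*z^27 + 1*z^28, by simp only [QII_6, F2]; ring⟩

lemma bII_6_3 (z : ℤ) : Bz (QII_6 z) (F3 z) 3 :=
  ⟨1, (-1) + 1*z + (-1)*z^3 + 2*z^4 + (-2)*z^6 + 2*z^7 + 1*z^8 + (-3)*z^9 + 2*z^10 + 1*z^11 + (-3)*z^12 + 1*z^13 + 2*z^14 + (-3)*z^15 + 1*z^16 + 1*z^17 + (-2)*z^18 + 2*z^20 + (-2)*z^21 + 1*z^23 + (-1)*z^24 + 1*z^26 + (-1)*z^27, by simp only [QII_6, F3]; ring⟩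

lemma bII_6_4 (z : ℤ) : Bz (QII_6 z) (F4 z) 2 :=
  ⟨1, (-2) + 2*z^2 + (-1)*z^4 + 1*z^5 + 1*z^6 + (-1)*z^7 + 1*z^9 + (-1)*z^11 + (-1)*z^17 + (-1)*z^23 + 1*z^25 + (-1)*z^27, by simp only [QII_6, F4]; ring⟩

lemma bII_6_5 (z : ℤ) : Bz (QII_6 z) (F5 z) 31 :=
  ⟨15 + 7*z + 3*z^2 + 1*z^3, (-29) + 1*z + 16*z^2 + 8*z^3 + 19*z^4 + (-22)*z^5 + (-11)*z^6 + 10*z^7 + 20*z^8 + 10*z^9 + (-26)*z^10 + (-13)*z^11 + 9*z^12 + 5*z^13 + 18*z^14 + (-22)*z^15 + (-11)*z^16 + (-5)*z^17 + 13*z^18 + 7*z^19 + (-12)*z^20 + (-6)*z^21 + (-3)*z^22 + (-1)*z^23 + 15*z^24 + (-8)*z^25 + (-4)*z^26 + (-2)*z^27 + (-1)*z^28, by simp only [QII_6, F5]; ring⟩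

lemma bII_6_6 (z : ℤ) : Bz (QII_6 z) (F6 z) 7 :=
  ⟨1, 3 + 3*z + (-3)*z^3 + (-2)*z^4 + 2*z^5 + 4*z^6 + 2*z^7 + (-1)*z^8 + (-3)*z^9 + (-2)*z^10 + 1*z^11 + 3*z^12 + 1*z^13 + (-2)*z^14 + (-3)*z^15 + (-1)*z^16 + 1*z^17 + 2*z^18 + (-2)*z^20 + (-2)*z^21 + 1*z^23 + 1*z^24 + (-1)*z^26 + (-1)*z^27, by simp only [QII_6, F6]; ring⟩

lemma bII_6_7 (z : ℤ) : Bz (QII_6 z) (F7 z) 1262 :=
  ⟨319 + 77*z + 43*z^2 + (-40)*z^3 + 110*z^4 + 105*z^5, (-14) + (-294)*z + 136*z^2 + 332*z^3 + (-281)*z^4 + 97*z^5 + 144*z^6 + (-131)*z^7 + 92*z^8 + 39*z^9 + 188*z^10 + (-469)*z^11 + 247*z^12 + (-180)*z^13 + 6*z^14 + 126*z^15 + 122*z^16 + (-281)*z^17 + (-222)*z^18 + 67*z^19 + 145*z^20 + (-110)*z^21 + 214*z^22 + (-242)*z^23 + (-34)*z^24 + (-83)*z^25 + 150*z^26 + (-5)*z^27 + (-105)*z^28, by simp only [QII_6, F7]; ring⟩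

lemma bII_6_8 (z : ℤ) : Bz (QII_6 z) (F8 z) 4 :=
  ⟨1, 1*z^4 + 1*z^5 + (-1)*z^9 + (-1)*z^17 + (-1)*z^19 + 1*z^21 + (-1)*z^25, by simp only [QII_6, F8]; ring⟩

lemma bII_6_9 (z : ℤ) : Bz (QII_6 z) (F9 z) 1623 :=
  ⟨404 + (-104)*z + (-75)*z^2 + 43*z^3 + 5*z^4 + (-12)*z^5, 7 + 416*z + 300*z^2 + (-179)*z^3 + (-32)*z^4 + 48*z^5 + (-7)*z^6 + (-416)*z^7 + 104*z^8 + 75*z^9 + 361*z^10 + (-109)*z^11 + (-63)*z^12 + (-361)*z^13 + 109*z^14 + 63*z^15 + (-43)*z^16 + (-409)*z^17 + 116*z^18 + 75*z^19 + 361*z^20 + (-109)*z^21 + (-63)*z^22 + (-361)*z^23 + 109*z^24 + 63*z^25 + (-43)*z^26 + (-5)*z^27 + 12*z^28, by simp only [QII_6, F9]; ring⟩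

lemma bII_6_10 (z : ℤ) : Bz (QII_6 z) (F10 z) 2671 :=
  ⟨333 + 113*z + (-29)*z^2 + (-51)*z^3, 1339 + 887*z + (-336)*z^2 + 320*z^3 + 537*z^4 + (-560)*z^5 + (-357)*z^6 + 340*z^7 + (-118)*z^8 + (-142)*z^9 + 644*z^10 + 277*z^11 + (-391)*z^12 + (-215)*z^13 + (-304)*z^14 + (-728)*z^15 + (-197)*z^16 + 109*z^17 + (-231)*z^18 + (-113)*z^19 + 362*z^20 + 164*z^21 + (-29)*z^22 + (-51)*z^23 + (-333)*z^24 + (-446)*z^25 + (-84)*z^26 + 80*z^27 + 51*z^28, by simp only [QII_6, F10]; ring⟩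

lemma bII_6_12 (z : ℤ) : Bz (QII_6 z) (F12 z) 5 :=
  ⟨1, 1 + 1*z^2 + 1*z^4 + 1*z^5 + 1*z^7 + (-1)*z^11 + (-2)*z^13 + (-1)*z^15 + (-1)*z^23 + (-1)*z^25, by simp only [QII_6, F12]; ring⟩

lemma bII_6_14 (z : ℤ) : Bz (QII_6 z) (F14 z) 4118 :=
  ⟨868 + (-216)*z + 89*z^2 + (-99)*z^3 + 82*z^4 + 95*z^5, 646 + 1510*z + 508*z^2 + 40*z^3 + 936*z^4 + 812*z^5 + 145*z^6 + (-783)*z^7 + (-669)*z^8 + 304*z^9 + 105*z^10 + (-851)*z^11 + (-829)*z^12 + (-836)*z^13 + 226*z^14 + 796*z^15 + (-294)*z^16 + (-956)*z^17 + 22*z^18 + (-7)*z^19 + 194*z^20 + (-82)*z^21 + (-963)*z^22 + (-652)*z^23 + 127*z^24 + 10*z^25 + 17*z^26 + (-177)*z^27 + (-95)*z^28, by simp only [QII_6, F14]; ring⟩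

lemma bII_6_15 (z : ℤ) : Bz (QII_6 z) (F15 z) 325531 :=
  ⟨45919 + 21122*z + 2417*z^2 + (-30448)*z^3 + 28273*z^4 + 7989*z^5 + (-20493)*z^6 + 20951*z^7, 141855 + 57367*z + 47699*z^2 + 27636*z^3 + 44951*z^4 + (-52151)*z^5 + 16056*z^6 + (-18938)*z^7 + 9784*z^8 + (-55658)*z^9 + 1337*z^10 + (-56116)*z^11 + (-19614)*z^12 + (-56116)*z^13 + (-19614)*z^14 + (-10197)*z^15 + 47427*z^16 + 13342*z^17 + (-26523)*z^18 + (-55874)*z^19 + (-59719)*z^20 + (-61469)*z^21 + (-13584)*z^22 + 20709*z^23 + (-5814)*z^24 + (-15769)*z^25 + (-8447)*z^26 + (-458)*z^27 + (-20951)*z^28, by simp only [QII_6, F15]; ring⟩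

lemma bII_6_18 (z : ℤ) : Bz (QII_6 z) (F18 z) 6301 :=
  ⟨1564 + (-184)*z + (-349)*z^2 + (-411)*z^3 + 419*z^4 + 692*z^5, 45 + 736*z + 1396*z^2 + 1689*z^3 + 624*z^4 + 8*z^5 + 1111*z^6 + (-872)*z^7 + 184*z^8 + 349*z^9 + (-1153)*z^10 + (-235)*z^11 + (-343)*z^12 + (-1153)*z^13 + (-235)*z^14 + (-343)*z^15 + 411*z^16 + (-1983)*z^17 + (-508)*z^18 + 349*z^19 + (-1153)*z^20 + (-235)*z^21 + (-343)*z^22 + (-1153)*z^23 + (-235)*z^24 + (-343)*z^25 + 411*z^26 + (-419)*z^27 + (-692)*z^28, by simp only [QII_6, F18]; ring⟩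

lemma bII_6_20 (z : ℤ) : Bz (QII_6 z) (F20 z) 223361 :=
  ⟨43460 + (-4576)*z + 4531*z^2 + (-2759)*z^3 + (-2628)*z^4 + 5889*z^5 + 8363*z^6 + 12112*z^7, 49521 + 18304*z + 31397*z^2 + 29340*z^3 + 35848*z^4 + 26364*z^5 + 20475*z^6 + (-31348)*z^7 + 4576*z^8 + (-47991)*z^9 + 7335*z^10 + (-1903)*z^11 + (-3130)*z^12 + (-49195)*z^13 + (-13425)*z^14 + (-56354)*z^15 + (-4777)*z^16 + (-1903)*z^17 + (-3130)*z^18 + (-49195)*z^19 + (-13425)*z^20 + (-56354)*z^21 + (-4777)*z^22 + (-1903)*z^23 + (-3130)*z^24 + (-5735)*z^25 + (-18001)*z^26 + (-8363)*z^27 + (-12112)*z^28, by simp only [QII_6, F20]; ring⟩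

lemma bII_6_24 (z : ℤ) : Bz (QII_6 z) (F24 z) 553 :=
  ⟨87 + (-5)*z + (-43)*z^3 + 26*z^4 + 43*z^5 + 38*z^7, 205 + 20*z + 172*z^3 + 188*z^4 + (-70)*z^5 + (-5)*z^6 + (-23)*z^7 + 53*z^8 + (-26)*z^9 + 38*z^10 + (-200)*z^11 + (-71)*z^12 + 48*z^14 + (-139)*z^15 + (-81)*z^16 + (-87)*z^17 + (-28)*z^18 + (-26)*z^19 + (-113)*z^21 + (-76)*z^22 + 5*z^24 + (-26)*z^25 + (-43)*z^26 + (-38)*z^28, by simp only [QII_6, F24]; ring⟩

lemma bII_6_30 (z : ℤ) : Bz (QII_6 z) (F30 z) 16531 :=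
  ⟨3267 + (-3058)*z + (-2039)*z^2 + (-210)*z^3 + 1815*z^4 + 2403*z^5 + 1359*z^6 + 135*z^7, 3463 + 8769*z + (-613)*z^2 + 4916*z^3 + 3323*z^4 + (-1107)*z^5 + 3646*z^6 + (-2272)*z^7 + 2044*z^8 + (-3178)*z^9 + 865*z^10 + (-4402)*z^11 + 730*z^12 + (-4402)*z^13 + 730*z^14 + (-1135)*z^15 + (-5595)*z^16 + (-116)*z^17 + (-499)*z^18 + (-4416)*z^19 + 4375*z^20 + (-6689)*z^21 + (-130)*z^22 + (-121)*z^23 + (-378)*z^24 + (-771)*z^25 + (-1179)*z^26 + (-1224)*z^27 + (-135)*z^28, by simp only [QII_6, F30]; ring⟩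

lemma bigII_6 (s : ℤ) (hs : 0 ≤ s) : (518484679101430492695829838700387841543165049306706503270400 : ℤ) < QII_6 (s + 115) := by
  have h : 0 ≤ 57269859653478596653227185062187079569163320047970119975853 + 145190274990355392205695398355970151978519907713089904491500*s + 17675337824911531670723607234133149757968211564265337961900*s^2 + 1383287308036471837811671009848970156522735578315671092290*s^3 + 78185804367275062336589138456733305758527210441458127549*s^4 + 3399382798577045121759404591817339647591343026925377874*s^5 + 118239401689632731003459859965228877026004825404082825*s^6 + 3378268619703711346633989679822873403106664197639705*s^7 + 80784684384217688232813892172327492014180122081249*s^8 + 1639109538230480690432505047627547389787567618750*s^9 + 28506252838790666849469657615627601237240126500*s^10 + 428157157262465175195926164710793554701250300*s^11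 + 5584658572988644746227445791041568666435870*s^12 + 63504478756392363386022210006708192753126*s^13 + 631100410001413066549888730608151863750*s^14 + 5487829652186190579483111104961152350*s^15 + 41755225614460096804271412669354830*s^16 + 277656231707407093187740178167726*s^17 + 1609601343231344790953435492810*s^18 + 8103256190180681299623940626*s^19 + 35231548652959479871204000*s^20 + 131297696843327247486550*s^21 + 415170582903801565145*s^22 + 1098750124887187501*s^23 + 2388587228015625*s^24 + 4154064744375*s^25 + 5557277250*s^26 + 5369350*s^27 + 3335*s^28 + 1*s^29 := by positivity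
  have e : QII_6 (s + 115) - (518484679101430492695829838700387841543165049306706503270400 + 1) = 57269859653478596653227185062187079569163320047970119975853 + 145190274990355392205695398355970151978519907713089904491500*s + 17675337824911531670723607234133149757968211564265337961900*s^2 + 1383287308036471837811671009848970156522735578315671092290*s^3 + 78185804367275062336589138456733305758527210441458127549*s^4 + 3399382798577045121759404591817339647591343026925377874*s^5 + 118239401689632731003459859965228877026004825404082825*s^6 + 3378268619703711346633989679822873403106664197639705*s^7 + 80784684384217688232813892172327492014180122081249*s^8 + 1639109538230480690432505047627547389787567618750*s^9 + 28506252838790666849469657615627601237240126500*s^10 + 428157157262465175195926164710793554701250300*s^11 + 5584658572988644746227445791041568666435870*s^12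 + 63504478756392363386022210006708192753126*s^13 + 631100410001413066549888730608151863750*s^14 + 5487829652186190579483111104961152350*s^15 + 41755225614460096804271412669354830*s^16 + 277656231707407093187740178167726*s^17 + 1609601343231344790953435492810*s^18 + 8103256190180681299623940626*s^19 + 35231548652959479871204000*s^20 + 131297696843327247486550*s^21 + 415170582903801565145*s^22 + 1098750124887187501*s^23 + 2388587228015625*s^24 + 4154064744375*s^25 + 5557277250*s^26 + 5369350*s^27 + 3335*s^28 + 1*s^29 := by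
    simp only [QII_6]; ring
  linarith

set_option maxHeartbeats 4000000 in
theorem noII_6 {q : ℕ} (hq : IsPrimePow q) : ¬ (k08 q + a07 q + 6) ∣ NN8 q := by
  intro hd
  have hq2 : 2 ≤ q := hq.two_le
  have hz1 : 1 ≤ q := by omega
  by_cases hB : q < 115
  · refine chk_ok (g := fun q => k08' q + a07' q + 6) (B := 115) (by decide +kernel) hq2 hB ?_
    show k08' q + a07' q + 6 ∣ NN8 q
    rw [← k08_eq hz1, ← a07_eq hz1]
    exact hd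
  · obtain ⟨p, k, hp, hk, hpk⟩ := (isPrimePow_nat_iff q).mp hq
    have hd' : ((k08 q + a07 q + 6 : ℕ) : ℤ) ∣ (NN8 q : ℤ) := Int.natCast_dvd_natCast.mpr hd
    have e1 : ((k08 q + a07 q + 6 : ℕ) : ℤ) = (1) * QII_6 (q : ℤ) := by
      push_cast
      rw [k08_cast hz1, a07_cast hz1]
      simp only [QII_6]
      ring
    rw [e1, NN8_cast hz1, NN8_fac] at hd'
    have hQ := Dvd.dvd.trans (Dvd.intro_left _ rfl) hd'
    have hz : (q : ℤ) = (p : ℤ) ^ k := by rw [← hpk]; push_cast; rfl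
    have hqB : (115 : ℤ) ≤ (q : ℤ) := by exact_mod_cast not_lt.mp hB
    have hR : QII_6 (q : ℤ) = (4 : ℤ) + (q : ℤ) * ((-1)*(q : ℤ)^3 + (-1)*(q : ℤ)^4 + (-1)*(q : ℤ)^7 + 1*(q : ℤ)^12 + 1*(q : ℤ)^16 + 1*(q : ℤ)^18 + 1*(q : ℤ)^22 + 1*(q : ℤ)^28) := by
      simp only [QII_6]; ring
    have hgo := cofree' hp hz hR (nd (c0 := 4) (by linarith) (by norm_num)).1 hQ
    have h1 : QII_6 (q : ℤ) ∣ 518484679101430492695829838700387841543165049306706503270400 := by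
      have h2 := chainE (bII_6_1 _) (bII_6_2 _) (bII_6_3 _) (bII_6_4 _) (bII_6_5 _) (bII_6_6 _) (bII_6_7 _) (bII_6_8 _) (bII_6_9 _) (bII_6_10 _) (bII_6_12 _) (bII_6_14 _) (bII_6_15 _) (bII_6_18 _) (bII_6_20 _) (bII_6_24 _) (bII_6_30 _) hgo
      have e2 : ((((((((((((((((((((4 : ℤ)) * 6^8) * 2^8) * 3^4) * 2^4) * 31^2) * 7^4) * 1262^1) * 4^2) * 1623^1) * 2671^2) * 5^2) * 4118^1) * 325531^1) * 6301^1) * 223361^1) * 553^1) * 16531^1) * 1) = 518484679101430492695829838700387841543165049306706503270400 := by norm_num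
      rwa [e2] at h2
    obtain ⟨s, rfl⟩ : ∃ s, q = s + 115 := ⟨q - 115, by omega⟩
    have hbig := bigII_6 (s : ℤ) (Int.natCast_nonneg s)
    have e3 : ((s + 115 : ℕ) : ℤ) = (s : ℤ) + 115 := by push_cast; ring
    rw [e3] at h1
    have hle := Int.le_of_dvd (by norm_num) h1
    linarith

end sII_6

section sII_7

/-- The cofactor. -/
def QII_7 (z : ℤ) : ℤ := 5 + (-1)*z^4 + (-1)*z^5 + (-1)*z^8 + 1*z^13 + 1*z^17 + 1*z^19 + 1*z^23 + 1*z^29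

lemma bII_7_1 (z : ℤ) : Bz (QII_7 z) (F1 z) 7 :=
  ⟨1, (-2) + (-2)*z + (-2)*z^2 + (-2)*z^3 + (-3)*z^4 + (-4)*z^5 + (-4)*z^6 + (-4)*z^7 + (-5)*z^8 + (-5)*z^9 + (-5)*z^10 + (-5)*z^11 + (-5)*z^12 + (-4)*z^13 + (-4)*z^14 + (-4)*z^15 + (-4)*z^16 + (-3)*z^17 + (-3)*z^18 + (-2)*z^19 + (-2)*z^20 + (-2)*z^21 + (-2)*z^22 + (-1)*z^23 + (-1)*z^24 + (-1)*z^25 + (-1)*z^26 + (-1)*z^27 + (-1)*z^28, by simp only [QII_7, F1]; ring⟩

lemma bII_7_2 (z : ℤ) : Bz (QII_7 z) (F2 z) 1 :=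
  ⟨(-1), 6 + (-6)*z + 6*z^2 + (-6)*z^3 + 5*z^4 + (-6)*z^5 + 6*z^6 + (-6)*z^7 + 5*z^8 + (-5)*z^9 + 5*z^10 + (-5)*z^11 + 5*z^12 + (-4)*z^13 + 4*z^14 + (-4)*z^15 + 4*z^16 + (-3)*z^17 + 3*z^18 + (-2)*z^19 + 2*z^20 + (-2)*z^21 + 2*z^22 + (-1)*z^23 + 1*z^24 + (-1)*z^25 + 1*z^26 + (-1)*z^27 + 1*z^28, by simp only [QII_7, F2]; ring⟩

lemma bII_7_3 (z : ℤ) : Bz (QII_7 z) (F3 z) 4 :=
  ⟨1, (-1) + 1*z + (-1)*z^3 + 2*z^4 + (-2)*z^6 + 2*z^7 + 1*z^8 + (-3)*z^9 + 2*z^10 + 1*z^11 + (-3)*z^12 + 1*z^13 + 2*z^14 + (-3)*z^15 + 1*z^16 + 1*z^17 + (-2)*z^18 + 2*z^20 + (-2)*z^21 + 1*z^23 + (-1)*z^24 + 1*z^26 + (-1)*z^27, by simp only [QII_7, F3]; ring⟩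

lemma bII_7_4 (z : ℤ) : Bz (QII_7 z) (F4 z) 3 :=
  ⟨1, (-2) + 2*z^2 + (-1)*z^4 + 1*z^5 + 1*z^6 + (-1)*z^7 + 1*z^9 + (-1)*z^11 + (-1)*z^17 + (-1)*z^23 + 1*z^25 + (-1)*z^27, by simp only [QII_7, F4]; ring⟩

lemma bII_7_5 (z : ℤ) : Bz (QII_7 z) (F5 z) 121 :=
  ⟨40 + 13*z + 4*z^2 + 1*z^3, (-79) + 14*z + 45*z^2 + 15*z^3 + 45*z^4 + (-66)*z^5 + (-22)*z^6 + 33*z^7 + 51*z^8 + 17*z^9 + (-75)*z^10 + (-25)*z^11 + 32*z^12 + 11*z^13 + 44*z^14 + (-66)*z^15 + (-22)*z^16 + (-7)*z^17 + 38*z^18 + 13*z^19 + (-36)*z^20 + (-12)*z^21 + (-4)*z^22 + (-1)*z^23 + 40*z^24 + (-27)*z^25 + (-9)*z^26 + (-3)*z^27 + (-1)*z^28, by simp only [QII_7, F5]; ring⟩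

lemma bII_7_6 (z : ℤ) : Bz (QII_7 z) (F6 z) 8 :=
  ⟨1, 3 + 3*z + (-3)*z^3 + (-2)*z^4 + 2*z^5 + 4*z^6 + 2*z^7 + (-1)*z^8 + (-3)*z^9 + (-2)*z^10 + 1*z^11 + 3*z^12 + 1*z^13 + (-2)*z^14 + (-3)*z^15 + (-1)*z^16 + 1*z^17 + 2*z^18 + (-2)*z^20 + (-2)*z^21 + 1*z^23 + 1*z^24 + (-1)*z^26 + (-1)*z^27, by simp only [QII_7, F6]; ring⟩

lemma bII_7_7 (z : ℤ) : Bz (QII_7 z) (F7 z) 2359 :=
  ⟨498 + 108*z + 48*z^2 + (-39)*z^3 + 155*z^4 + 133*z^5, (-131) + (-409)*z + 300*z^2 + 435*z^3 + (-472)*z^4 + 218*z^5 + 215*z^6 + (-278)*z^7 + 196*z^8 + 82*z^9 + 220*z^10 + (-692)*z^11 + 412*z^12 + (-305)*z^13 + (-21)*z^14 + 256*z^15 + 169*z^16 + (-472)*z^17 + (-280)*z^18 + 107*z^19 + 172*z^20 + (-155)*z^21 + 365*z^22 + (-390)*z^23 + (-60)*z^24 + (-87)*z^25 + 194*z^26 + (-22)*z^27 + (-133)*z^28, by simp only [QII_7, F7]; ring⟩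

lemma bII_7_8 (z : ℤ) : Bz (QII_7 z) (F8 z) 5 :=
  ⟨1, 1*z^4 + 1*z^5 + (-1)*z^9 + (-1)*z^17 + (-1)*z^19 + 1*z^21 + (-1)*z^25, by simp only [QII_7, F8]; ring⟩

lemma bII_7_9 (z : ℤ) : Bz (QII_7 z) (F9 z) 17461 :=
  ⟨3490 + (-710)*z + (-556)*z^2 + 251*z^3 + 49*z^4 + (-60)*z^5, 11 + 3550*z + 2780*z^2 + (-1266)*z^3 + (-305)*z^4 + 300*z^5 + (-11)*z^6 + (-3550)*z^7 + 710*z^8 + 556*z^9 + 3239*z^10 + (-759)*z^11 + (-496)*z^12 + (-3239)*z^13 + 759*z^14 + 496*z^15 + (-251)*z^16 + (-3539)*z^17 + 770*z^18 + 556*z^19 + 3239*z^20 + (-759)*z^21 + (-496)*z^22 + (-3239)*z^23 + 759*z^24 + 496*z^25 + (-251)*z^26 + (-49)*z^27 + 60*z^28, by simp only [QII_7, F9]; ring⟩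

lemma bII_7_10 (z : ℤ) : Bz (QII_7 z) (F10 z) 4411 :=
  ⟨486 + 153*z + (-48)*z^2 + (-59)*z^3, 1981 + 1216*z + (-525)*z^2 + 535*z^3 + 781*z^4 + (-856)*z^5 + (-472)*z^6 + 523*z^7 + (-215)*z^8 + (-201)*z^9 + 961*z^10 + 365*z^11 + (-582)*z^12 + (-271)*z^13 + (-438)*z^14 + (-1066)*z^15 + (-258)*z^16 + 155*z^17 + (-368)*z^18 + (-153)*z^19 + 534*z^20 + 212*z^21 + (-48)*z^22 + (-59)*z^23 + (-486)*z^24 + (-639)*z^25 + (-105)*z^26 + 107*z^27 + 59*z^28, by simp only [QII_7, F10]; ring⟩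

lemma bII_7_12 (z : ℤ) : Bz (QII_7 z) (F12 z) 6 :=
  ⟨1, 1 + 1*z^2 + 1*z^4 + 1*z^5 + 1*z^7 + (-1)*z^11 + (-2)*z^13 + (-1)*z^15 + (-1)*z^23 + (-1)*z^25, by simp only [QII_7, F12]; ring⟩

lemma bII_7_14 (z : ℤ) : Bz (QII_7 z) (F14 z) 48133 :=
  ⟨8348 + (-1708)*z + 624*z^2 + (-679)*z^3 + 543*z^4 + 871*z^5, 6393 + 14933*z + 5420*z^2 + 275*z^3 + 9028*z^4 + 7918*z^5 + 1201*z^6 + (-7532)*z^7 + (-6776)*z^8 + 2498*z^9 + 926*z^10 + (-8212)*z^11 + (-8054)*z^12 + (-8135)*z^13 + 1763*z^14 + 7860*z^15 + (-2443)*z^16 + (-9138)*z^17 + 158*z^18 + (-81)*z^19 + 1550*z^20 + (-543)*z^21 + (-9219)*z^22 + (-6640)*z^23 + 1084*z^24 + 55*z^25 + 136*z^26 + (-1414)*z^27 + (-871)*z^28, by simp only [QII_7, F14]; ring⟩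

lemma bII_7_15 (z : ℤ) : Bz (QII_7 z) (F15 z) 1390261 :=
  ⟨179332 + 59337*z + 1035*z^2 + (-80230)*z^3 + 87916*z^4 + 15544*z^5 + (-59194)*z^6 + 67196*z^7, 493601 + 196916*z + 191741*z^2 + 99290*z^3 + 135727*z^4 + (-191750)*z^5 + 60127*z^6 + (-89625)*z^7 + 28895*z^8 + (-201087)*z^9 + 5349*z^10 + (-209089)*z^11 + (-61847)*z^12 + (-209089)*z^13 + (-61847)*z^14 + (-29757)*z^15 + 176822*z^16 + 30615*z^17 + (-81705)*z^18 + (-200368)*z^19 + (-217949)*z^20 + (-224160)*z^21 + (-39336)*z^22 + 58475*z^23 + (-23230)*z^24 + (-44266)*z^25 + (-23546)*z^26 + (-8002)*z^27 + (-67196)*z^28, by simp only [QII_7, F15]; ring⟩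

lemma bII_7_18 (z : ℤ) : Bz (QII_7 z) (F18 z) 20701 :=
  ⟨4160 + (-490)*z + (-838)*z^2 + (-777)*z^3 + 1037*z^4 + 1520*z^5, (-99) + 2450*z + 4190*z^2 + 3786*z^3 + 1425*z^4 + 260*z^5 + 2557*z^6 + (-2640)*z^7 + 490*z^8 + 838*z^9 + (-3383)*z^10 + (-547)*z^11 + (-682)*z^12 + (-3383)*z^13 + (-547)*z^14 + (-682)*z^15 + 777*z^16 + (-5197)*z^17 + (-1030)*z^18 + 838*z^19 + (-3383)*z^20 + (-547)*z^21 + (-682)*z^22 + (-3383)*z^23 + (-547)*z^24 + (-682)*z^25 + 777*z^26 + (-1037)*z^27 + (-1520)*z^28, by simp only [QII_7, F18]; ring⟩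

lemma bII_7_20 (z : ℤ) : Bz (QII_7 z) (F20 z) 1038281 :=
  ⟨167800 + (-13820)*z + 17729*z^2 + (-6534)*z^3 + (-7885)*z^4 + 19831*z^5 + 28694*z^6 + 38970*z^7, 199281 + 69100*z + 110636*z^2 + 101770*z^3 + 118580*z^4 + 87495*z^5 + 67664*z^6 + (-128830)*z^7 + 13820*z^8 + (-185529)*z^9 + 20354*z^10 + (-9844)*z^11 + (-13297)*z^12 + (-188609)*z^13 + (-44981)*z^14 + (-214223)*z^15 + (-18616)*z^16 + (-9844)*z^17 + (-13297)*z^18 + (-188609)*z^19 + (-44981)*z^20 + (-214223)*z^21 + (-18616)*z^22 + (-9844)*z^23 + (-13297)*z^24 + (-20809)*z^25 + (-58801)*z^26 + (-28694)*z^27 + (-38970)*z^28, by simp only [QII_7, F20]; ring⟩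

lemma bII_7_24 (z : ℤ) : Bz (QII_7 z) (F24 z) 542 :=
  ⟨74 + (-1)*z + (-29)*z^3 + 22*z^4 + 29*z^5 + 28*z^7, 172 + 5*z + 145*z^3 + 136*z^4 + (-67)*z^5 + (-1)*z^6 + (-24)*z^7 + 31*z^8 + (-22)*z^9 + 28*z^10 + (-170)*z^11 + (-55)*z^12 + 30*z^14 + (-118)*z^15 + (-57)*z^16 + (-74)*z^17 + (-26)*z^18 + (-22)*z^19 + (-96)*z^21 + (-56)*z^22 + 1*z^24 + (-22)*z^25 + (-29)*z^26 + (-28)*z^28, by simp only [QII_7, F24]; ring⟩

lemma bII_7_30 (z : ℤ) : Bz (QII_7 z) (F30 z) 109561 :=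
  ⟨17984 + (-13241)*z + (-8939)*z^2 + (-776)*z^3 + 8268*z^4 + 11792*z^5 + 7696*z^6 + 1600*z^7, 19641 + 46564*z + (-1869)*z^2 + 25390*z^3 + 17459*z^4 + (-7340)*z^5 + 16765*z^6 + (-13141)*z^7 + 7921*z^8 + (-18913)*z^9 + 2225*z^10 + (-25009)*z^11 + 625*z^12 + (-25009)*z^13 + 625*z^14 + (-7025)*z^15 + (-30600)*z^16 + (-2723)*z^17 + (-4453)*z^18 + (-24904)*z^19 + 21357*z^20 + (-34078)*z^21 + (-2618)*z^22 + (-1705)*z^23 + (-2748)*z^24 + (-4172)*z^25 + (-5696)*z^26 + (-6096)*z^27 + (-1600)*z^28, by simp only [QII_7, F30]; ring⟩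

lemma bigII_7 (s : ℤ) (hs : 0 ≤ s) : (2208129056137407333473921898967755606696796411794829927391428608000 : ℤ) < QII_7 (s + 194) := by
  have h : 0 ≤ 11345486205022355882352980040766009769029317537319275324495121108 + 331777122308918614392444379025005731880523392675213057063199027088*s + 23942678929509514401081551141474236814935904943429479195962055832*s^2 + 1110742836936005514789106298810262976378734014483092030279815120*s^3 + 37215610515897013909838052977683681286700029456390983269465557*s^4 + 959165219481880191892349998187657734707194649274499080179007*s^5 + 19776602463543895203756019482445945767957573184187618805136*s^6 + 334949820811126006386082426345853742916031119284779157232*s^7 + 4748000037271112254581050079743267108806471829493424351*s^8 + 57106529657899940607678084308170779919402087927747248*s^9 + 588727109875256849335204178399825260741379097380592*s^10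 + 5241712787080541871005977877539700900534065332024*s^11 + 40528707116602117965055626520606730957199931738*s^12 + 273191126479871485552489338184207722186734529*s^13 + 1609373351869640372052273842294870798681792*s^14 + 8295738927163094045461931058941190714976*s^15 + 37416348253957252169433308223613394602*s^16 + 147487121680243863853816090201712749*s^17 + 506828596839325983378224366962822*s^18 + 1512510733920940250049112553841*s^19 + 3898223541033351140524266584*s^20 + 8611686762223897934986228*s^21 + 16141868345311898646382*s^22 + 25323415154007909121*s^23 + 32633266951041120*s^24 + 33642543248496*s^25 + 26679257136*s^26 + 15280216*s^27 + 5626*s^28 + 1*s^29 := by positivity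
  have e : QII_7 (s + 194) - (2208129056137407333473921898967755606696796411794829927391428608000 + 1) = 11345486205022355882352980040766009769029317537319275324495121108 + 331777122308918614392444379025005731880523392675213057063199027088*s + 23942678929509514401081551141474236814935904943429479195962055832*s^2 + 1110742836936005514789106298810262976378734014483092030279815120*s^3 + 37215610515897013909838052977683681286700029456390983269465557*s^4 + 959165219481880191892349998187657734707194649274499080179007*s^5 + 19776602463543895203756019482445945767957573184187618805136*s^6 + 334949820811126006386082426345853742916031119284779157232*s^7 + 4748000037271112254581050079743267108806471829493424351*s^8 + 57106529657899940607678084308170779919402087927747248*s^9 + 588727109875256849335204178399825260741379097380592*s^10 + 5241712787080541871005977877539700900534065332024*s^11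 + 40528707116602117965055626520606730957199931738*s^12 + 273191126479871485552489338184207722186734529*s^13 + 1609373351869640372052273842294870798681792*s^14 + 8295738927163094045461931058941190714976*s^15 + 37416348253957252169433308223613394602*s^16 + 147487121680243863853816090201712749*s^17 + 506828596839325983378224366962822*s^18 + 1512510733920940250049112553841*s^19 + 3898223541033351140524266584*s^20 + 8611686762223897934986228*s^21 + 16141868345311898646382*s^22 + 25323415154007909121*s^23 + 32633266951041120*s^24 + 33642543248496*s^25 + 26679257136*s^26 + 15280216*s^27 + 5626*s^28 + 1*s^29 := by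
    simp only [QII_7]; ring
  linarith

set_option maxHeartbeats 4000000 in
theorem noII_7 {q : ℕ} (hq : IsPrimePow q) : ¬ (k08 q + a07 q + 7) ∣ NN8 q := by
  intro hd
  have hq2 : 2 ≤ q := hq.two_le
  have hz1 : 1 ≤ q := by omega
  by_cases hB : q < 194
  · refine chk_ok (g := fun q => k08' q + a07' q + 7) (B := 194) (by decide +kernel) hq2 hB ?_
    show k08' q + a07' q + 7 ∣ NN8 q
    rw [← k08_eq hz1, ← a07_eq hz1]
    exact hd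
  · obtain ⟨p, k, hp, hk, hpk⟩ := (isPrimePow_nat_iff q).mp hq
    have hd' : ((k08 q + a07 q + 7 : ℕ) : ℤ) ∣ (NN8 q : ℤ) := Int.natCast_dvd_natCast.mpr hd
    have e1 : ((k08 q + a07 q + 7 : ℕ) : ℤ) = (1) * QII_7 (q : ℤ) := by
      push_cast
      rw [k08_cast hz1, a07_cast hz1]
      simp only [QII_7]
      ring
    rw [e1, NN8_cast hz1, NN8_fac] at hd'
    have hQ := Dvd.dvd.trans (Dvd.intro_left _ rfl) hd'
    have hz : (q : ℤ) = (p : ℤ) ^ k := by rw [← hpk]; push_cast; rfl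
    have hqB : (194 : ℤ) ≤ (q : ℤ) := by exact_mod_cast not_lt.mp hB
    have hR : QII_7 (q : ℤ) = (5 : ℤ) + (q : ℤ) * ((-1)*(q : ℤ)^3 + (-1)*(q : ℤ)^4 + (-1)*(q : ℤ)^7 + 1*(q : ℤ)^12 + 1*(q : ℤ)^16 + 1*(q : ℤ)^18 + 1*(q : ℤ)^22 + 1*(q : ℤ)^28) := by
      simp only [QII_7]; ring
    have hgo := cofree' hp hz hR (nd (c0 := 5) (by linarith) (by norm_num)).1 hQ
    have h1 : QII_7 (q : ℤ) ∣ 2208129056137407333473921898967755606696796411794829927391428608000 := by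
      have h2 := chainE (bII_7_1 _) (bII_7_2 _) (bII_7_3 _) (bII_7_4 _) (bII_7_5 _) (bII_7_6 _) (bII_7_7 _) (bII_7_8 _) (bII_7_9 _) (bII_7_10 _) (bII_7_12 _) (bII_7_14 _) (bII_7_15 _) (bII_7_18 _) (bII_7_20 _) (bII_7_24 _) (bII_7_30 _) hgo
      have e2 : ((((((((((((((((((((5 : ℤ)) * 7^8) * 1^8) * 4^4) * 3^4) * 121^2) * 8^4) * 2359^1) * 5^2) * 17461^1) * 4411^2) * 6^2) * 48133^1) * 1390261^1) * 20701^1) * 1038281^1) * 542^1) * 109561^1) * 1) = 2208129056137407333473921898967755606696796411794829927391428608000 := by norm_num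
      rwa [e2] at h2
    obtain ⟨s, rfl⟩ : ∃ s, q = s + 194 := ⟨q - 194, by omega⟩
    have hbig := bigII_7 (s : ℤ) (Int.natCast_nonneg s)
    have e3 : ((s + 194 : ℕ) : ℤ) = (s : ℤ) + 194 := by push_cast; ring
    rw [e3] at h1
    have hle := Int.le_of_dvd (by norm_num) h1
    linarith

end sII_7

section sII_8

/-- The cofactor. -/
def QII_8 (z : ℤ) : ℤ := 6 + (-6)*z + 6*z^2 + (-6)*z^3 + 5*z^4 + (-6)*z^5 + 6*z^6 + (-6)*z^7 + 5*z^8 + (-5)*z^9 + 5*z^10 + (-5)*z^11 + 5*z^12 + (-4)*z^13 + 4*z^14 + (-4)*z^15 + 4*z^16 + (-3)*z^17 + 3*z^18 + (-2)*z^19 + 2*z^20 + (-2)*z^21 + 2*z^22 + (-1)*z^23 + 1*z^24 + (-1)*z^25 + 1*z^26 + (-1)*z^27 + 1*z^28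

lemma bII_8_1 (z : ℤ) : Bz (QII_8 z) (F1 z) 4 :=
  ⟨1, 2 + (-4)*z + 2*z^2 + (-4)*z^3 + 1*z^4 + (-5)*z^5 + 1*z^6 + (-5)*z^7 + (-5)*z^9 + (-5)*z^11 + (-4)*z^13 + (-4)*z^15 + (-3)*z^17 + (-2)*z^19 + (-2)*z^21 + (-1)*z^23 + (-1)*z^25 + (-1)*z^27, by simp only [QII_8, F1]; ring⟩

lemma bII_8_2 (z : ℤ) : Bz (QII_8 z) (F2 z) 108 :=
  ⟨1, 102 + (-96)*z + 90*z^2 + (-84)*z^3 + 79*z^4 + (-73)*z^5 + 67*z^6 + (-61)*z^7 + 56*z^8 + (-51)*z^9 + 46*z^10 + (-41)*z^11 + 36*z^12 + (-32)*z^13 + 28*z^14 + (-24)*z^15 + 20*z^16 + (-17)*z^17 + 14*z^18 + (-12)*z^19 + 10*z^20 + (-8)*z^21 + 6*z^22 + (-5)*z^23 + 4*z^24 + (-3)*z^25 + 2*z^26 + (-1)*z^27, by simp only [QII_8, F2]; ring⟩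

lemma bII_8_3 (z : ℤ) : Bz (QII_8 z) (F3 z) 5 :=
  ⟨1 + 1*z, (-1) + 1*z + (-1)*z^3 + 2*z^4 + (-2)*z^6 + 2*z^7 + 1*z^8 + (-3)*z^9 + 2*z^10 + 1*z^11 + (-3)*z^12 + 1*z^13 + 2*z^14 + (-3)*z^15 + 1*z^16 + 1*z^17 + (-2)*z^18 + 2*z^20 + (-2)*z^21 + 1*z^23 + (-1)*z^24 + 1*z^26 + (-1)*z^27, by simp only [QII_8, F3]; ring⟩

lemma bII_8_4 (z : ℤ) : Bz (QII_8 z) (F4 z) 4 :=
  ⟨1 + 1*z, (-2) + 2*z^2 + (-1)*z^4 + 1*z^5 + 1*z^6 + (-1)*z^7 + 1*z^9 + (-1)*z^11 + (-1)*z^17 + (-1)*z^23 + 1*z^25 + (-1)*z^27, by simp only [QII_8, F4]; ring⟩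

lemma bII_8_5 (z : ℤ) : Bz (QII_8 z) (F5 z) 341 :=
  ⟨84 + 105*z + 25*z^2 + 5*z^3, (-163) + 37*z + 102*z^2 + 18*z^3 + 96*z^4 + (-154)*z^5 + (-31)*z^6 + 70*z^7 + 109*z^8 + 21*z^9 + (-159)*z^10 + (-46)*z^11 + 80*z^12 + 15*z^13 + 94*z^14 + (-152)*z^15 + (-33)*z^16 + (-12)*z^17 + 86*z^18 + 19*z^19 + (-78)*z^20 + (-22)*z^21 + (-3)*z^22 + (-2)*z^23 + 86*z^24 + (-65)*z^25 + (-15)*z^26 + (-5)*z^27, by simp only [QII_8, F5]; ring⟩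

lemma bII_8_6 (z : ℤ) : Bz (QII_8 z) (F6 z) 9 :=
  ⟨1 + 1*z, 3 + 3*z + (-3)*z^3 + (-2)*z^4 + 2*z^5 + 4*z^6 + 2*z^7 + (-1)*z^8 + (-3)*z^9 + (-2)*z^10 + 1*z^11 + 3*z^12 + 1*z^13 + (-2)*z^14 + (-3)*z^15 + (-1)*z^16 + 1*z^17 + 2*z^18 + (-2)*z^20 + (-2)*z^21 + 1*z^23 + 1*z^24 + (-1)*z^26 + (-1)*z^27, by simp only [QII_8, F6]; ring⟩

lemma bII_8_7 (z : ℤ) : Bz (QII_8 z) (F7 z) 11426 :=
  ⟨1593 + 1982*z + 83*z^2 + (-413)*z^3 + 11*z^4 + 570*z^5, 1868 + (-4202)*z + 4170*z^2 + (-1194)*z^3 + 243*z^4 + (-1615)*z^5 + 3525*z^6 + (-4052)*z^7 + 3239*z^8 + (-1899)*z^9 + 2965*z^10 + (-4982)*z^11 + 4034*z^12 + (-3158)*z^13 + 1672*z^14 + (-586)*z^15 + 2422*z^16 + (-3373)*z^17 + 408*z^18 + (-480)*z^19 + 1463*z^20 + (-1474)*z^21 + 2497*z^22 + (-2108)*z^23 + 209*z^24 + (-705)*z^25 + 1129*z^26 + (-570)*z^27, by simp only [QII_8, F7]; ring⟩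

lemma bII_8_8 (z : ℤ) : Bz (QII_8 z) (F8 z) 6 :=
  ⟨1 + 1*z, 1*z^4 + 1*z^5 + (-1)*z^9 + (-1)*z^17 + (-1)*z^19 + 1*z^21 + (-1)*z^25, by simp only [QII_8, F8]; ring⟩

lemma bII_8_9 (z : ℤ) : Bz (QII_8 z) (F9 z) 50419 :=
  ⟨8496 + 6990*z + (-2581)*z^2 + (-642)*z^3 + 540*z^4 + 17*z^5, (-557) + 9036*z + 6450*z^2 + (-2041)*z^3 + (-1182)*z^4 + 1080*z^5 + (-523)*z^6 + (-7956)*z^7 + 966*z^8 + 1615*z^9 + 7523*z^10 + (-1073)*z^11 + (-1525)*z^12 + (-7613)*z^13 + 1163*z^14 + 1435*z^15 + (-793)*z^16 + (-8243)*z^17 + 1236*z^18 + 1345*z^19 + 7793*z^20 + (-1343)*z^21 + (-1255)*z^22 + (-7883)*z^23 + 1433*z^24 + 1165*z^25 + (-523)*z^26 + (-17)*z^27, by simp only [QII_8, F9]; ring⟩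

lemma bII_8_10 (z : ℤ) : Bz (QII_8 z) (F10 z) 1381 :=
  ⟨150 + 163*z + 39*z^2 + (-41)*z^3, 481 + 403*z + (-234)*z^2 + 246*z^3 + 150*z^4 + (-168)*z^5 + (-201)*z^6 + 232*z^7 + (-137)*z^8 + 13*z^9 + 207*z^10 + 160*z^11 + (-232)*z^12 + (-13)*z^13 + (-176)*z^14 + (-246)*z^15 + (-119)*z^16 + 82*z^17 + (-150)*z^18 + (-13)*z^19 + 124*z^20 + 80*z^21 + (-41)*z^22 + (-150)*z^24 + (-163)*z^25 + (-39)*z^26 + 41*z^27, by simp only [QII_8, F10]; ring⟩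

lemma bII_8_12 (z : ℤ) : Bz (QII_8 z) (F12 z) 7 :=
  ⟨1 + 1*z, 1 + 1*z^2 + 1*z^4 + 1*z^5 + 1*z^7 + (-1)*z^11 + (-2)*z^13 + (-1)*z^15 + (-1)*z^23 + (-1)*z^25, by simp only [QII_8, F12]; ring⟩

lemma bII_8_14 (z : ℤ) : Bz (QII_8 z) (F14 z) 4286 :=
  ⟨570 + 584*z + (-135)*z^2 + 59*z^3 + (-70)*z^4 + 153*z^5, 866 + 782*z + 810*z^2 + (-354)*z^3 + 990*z^4 + 236*z^5 + 449*z^6 + (-942)*z^7 + (-223)*z^8 + (-143)*z^9 + 372*z^10 + (-931)*z^11 + (-306)*z^12 + (-866)*z^13 + 358*z^14 + 358*z^15 + 84*z^16 + (-872)*z^17 + 194*z^18 + (-129)*z^19 + 223*z^20 + (-153)*z^21 + (-570)*z^22 + (-584)*z^23 + 135*z^24 + (-59)*z^25 + 70*z^26 + (-153)*z^27, by simp only [QII_8, F14]; ring⟩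

lemma bII_8_15 (z : ℤ) : Bz (QII_8 z) (F15 z) 968705 :=
  ⟨77430 + 177588*z + 27779*z^2 + (-73792)*z^3 + 43836*z^4 + 15033*z^5 + (-23586)*z^6 + 42353*z^7, 504125 + (-96823)*z + 337451*z^2 + (-158196)*z^3 + 248688*z^4 + (-330827)*z^5 + 249642*z^6 + (-278698)*z^7 + 193669*z^8 + (-300361)*z^9 + 181532*z^10 + (-306991)*z^11 + 145809*z^12 + (-271268)*z^13 + 110086*z^14 + (-158115)*z^15 + 251951*z^16 + (-94613)*z^17 + 65006*z^18 + (-192642)*z^19 + (-60893)*z^20 + (-206871)*z^21 + 51710*z^22 + (-7180)*z^23 + 22103*z^24 + (-57386)*z^25 + 23586*z^26 + (-42353)*z^27, by simp only [QII_8, F15]; ring⟩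

lemma bII_8_18 (z : ℤ) : Bz (QII_8 z) (F18 z) 2109 :=
  ⟨244 + 314*z + (-103)*z^2 + (-2)*z^3 + 32*z^4 + 191*z^5, 645 + (-420)*z + 1038*z^2 + (-381)*z^3 + 658*z^4 + (-628)*z^5 + 851*z^6 + (-904)*z^7 + 590*z^8 + (-487)*z^9 + 245*z^10 + (-591)*z^11 + 503*z^12 + (-745)*z^13 + 399*z^14 + (-487)*z^15 + 489*z^16 + (-765)*z^17 + 260*z^18 + (-157)*z^19 + (-85)*z^20 + (-261)*z^21 + 173*z^22 + (-415)*z^23 + 69*z^24 + (-157)*z^25 + 159*z^26 + (-191)*z^27, by simp only [QII_8, F18]; ring⟩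

lemma bII_8_20 (z : ℤ) : Bz (QII_8 z) (F20 z) 3765901 :=
  ⟨419802 + 488598*z + 121685*z^2 + 39630*z^3 + (-135341)*z^4 + 35923*z^5 + 237162*z^6 + 181997*z^7, 1247089 + (-412776)*z + 929755*z^2 + (-333222)*z^3 + 834960*z^4 + (-379878)*z^5 + 799037*z^6 + (-1036842)*z^7 + 548244*z^8 + (-1089731)*z^9 + 561503*z^10 + (-547847)*z^11 + 472294*z^12 + (-993917)*z^13 + 287399*z^14 + (-1066048)*z^15 + 355823*z^16 + (-342167)*z^17 + 266614*z^18 + (-788237)*z^19 + 81719*z^20 + (-860368)*z^21 + 150143*z^22 + (-136487)*z^23 + 60934*z^24 + (-162755)*z^25 + (-55165)*z^26 + (-181997)*z^27, by simp only [QII_8, F20]; ring⟩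

lemma bII_8_24 (z : ℤ) : Bz (QII_8 z) (F24 z) 651 :=
  ⟨53 + 80*z + 1*z^2 + (-25)*z^3 + 23*z^4 + 47*z^5 + 25*z^6 + 26*z^7, 333 + (-162)*z + 156*z^2 + (-6)*z^3 + 254*z^4 + (-232)*z^5 + 157*z^6 + (-187)*z^7 + 153*z^8 + (-152)*z^9 + 156*z^10 + (-310)*z^11 + 77*z^12 + (-104)*z^13 + 128*z^14 + (-227)*z^15 + 53*z^16 + (-157)*z^17 + 50*z^18 + (-74)*z^19 + 52*z^20 + (-153)*z^21 + (-26)*z^23 + 25*z^24 + (-48)*z^25 + 1*z^26 + (-26)*z^27, by simp only [QII_8, F24]; ring⟩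

lemma bII_8_30 (z : ℤ) : Bz (QII_8 z) (F30 z) 512461 :=
  ⟨65750 + 23414*z + (-70305)*z^2 + (-21884)*z^3 + 34980*z^4 + 77195*z^5 + 69700*z^6 + 28275*z^7, 117961 + 136055*z + 31759*z^2 + 49692*z^3 + 96704*z^4 + (-77315)*z^5 + 96116*z^6 + (-99056)*z^7 + 56101*z^8 + (-114801)*z^9 + 36076*z^10 + (-136201)*z^11 + 29201*z^12 + (-129326)*z^13 + 22326*z^14 + (-56701)*z^15 + (-92635)*z^16 + (-35459)*z^17 + 294*z^18 + (-113860)*z^19 + 92941*z^20 + (-142167)*z^21 + 632*z^22 + (-15466)*z^23 + (-4865)*z^24 + (-22620)*z^25 + (-13150)*z^26 + (-28275)*z^27, by simp only [QII_8, F30]; ring⟩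

lemma bigII_8 (s : ℤ) (hs : 0 ≤ s) : (18941980433582652746874088419181853813903368843541694952668494313477083706163200000 : ℤ) < QII_8 (s + 868) := by
  have h : 0 ≤ 27361004328974180453079940913266545941868599419725454797753501718638327038010765 + 611939388471180415265427235579274857130369487162029284459714650454759858954025098*s + 9517881657339808861273111200722517527167212866437195159610701394280661985460702*s^2 + 95036518562737394436020532229816878393385905148022241353485001577978365253642*s^3 + 684334856742315802823181077500457570700159447325441641318168323150148694893*s^4 + 3784495778434239018675512340267604013735158637696462010741034300661170218*s^5 + 16714090056802615657286846476844968062892576091061725229575025060888414*s^6 + 60520917947685413944177030626356551082016028266359981182336384607322*s^7 + 183034493993171705000185013806524870087894706713358905903691636545*s^8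 + 468617560235754084266032383277585788880975958912506966176156243*s^9 + 1025817939725529984733032753023372757013210971914980488934953*s^10 + 1933963355255740468444206601696482667545053743912115202027*s^11 + 3156559993745353193436158707702689115433761847811562357*s^12 + 4475986942572038542688504486658532509061102001828764*s^13 + 5525227538190199041911612971102033417028125786260*s^14 + 5941349199130083232539907658417361190233248636*s^15 + 5561687500808770282213396400126562384662088*s^16 + 4523108894588922312836299773261437419445*s^17 + 3184603442214038171542490283310021611*s^18 + 1931078357732759838490282802564190*s^19 + 1001176272623689096244159543738*s^20 + 439419554736040464927478366*s^21 + 161084175520345711539782*s^22 + 48414386560617191071*s^23 + 11620674520961101*s^24 + 2142147947575*s^25 + 284770837*s^26 + 24303*s^27 + 1*s^28 := by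 positivity
  have e : QII_8 (s + 868) - (18941980433582652746874088419181853813903368843541694952668494313477083706163200000 + 1) = 27361004328974180453079940913266545941868599419725454797753501718638327038010765 + 611939388471180415265427235579274857130369487162029284459714650454759858954025098*s + 9517881657339808861273111200722517527167212866437195159610701394280661985460702*s^2 + 95036518562737394436020532229816878393385905148022241353485001577978365253642*s^3 + 684334856742315802823181077500457570700159447325441641318168323150148694893*s^4 + 3784495778434239018675512340267604013735158637696462010741034300661170218*s^5 + 16714090056802615657286846476844968062892576091061725229575025060888414*s^6 + 60520917947685413944177030626356551082016028266359981182336384607322*s^7 + 183034493993171705000185013806524870087894706713358905903691636545*s^8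 + 468617560235754084266032383277585788880975958912506966176156243*s^9 + 1025817939725529984733032753023372757013210971914980488934953*s^10 + 1933963355255740468444206601696482667545053743912115202027*s^11 + 3156559993745353193436158707702689115433761847811562357*s^12 + 4475986942572038542688504486658532509061102001828764*s^13 + 5525227538190199041911612971102033417028125786260*s^14 + 5941349199130083232539907658417361190233248636*s^15 + 5561687500808770282213396400126562384662088*s^16 + 4523108894588922312836299773261437419445*s^17 + 3184603442214038171542490283310021611*s^18 + 1931078357732759838490282802564190*s^19 + 1001176272623689096244159543738*s^20 + 439419554736040464927478366*s^21 + 161084175520345711539782*s^22 + 48414386560617191071*s^23 + 11620674520961101*s^24 + 2142147947575*s^25 + 284770837*s^26 + 24303*s^27 + 1*s^28 := by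
    simp only [QII_8]; ring
  linarith

set_option maxHeartbeats 4000000 in
theorem noII_8 {q : ℕ} (hq : IsPrimePow q) : ¬ (k08 q + a07 q + 8) ∣ NN8 q := by
  intro hd
  have hq2 : 2 ≤ q := hq.two_le
  have hz1 : 1 ≤ q := by omega
  by_cases hB : q < 868
  · refine chk_ok (g := fun q => k08' q + a07' q + 8) (B := 868) (by decide +kernel) hq2 hB ?_
    show k08' q + a07' q + 8 ∣ NN8 q
    rw [← k08_eq hz1, ← a07_eq hz1]
    exact hd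
  · obtain ⟨p, k, hp, hk, hpk⟩ := (isPrimePow_nat_iff q).mp hq
    have hd' : ((k08 q + a07 q + 8 : ℕ) : ℤ) ∣ (NN8 q : ℤ) := Int.natCast_dvd_natCast.mpr hd
    have e1 : ((k08 q + a07 q + 8 : ℕ) : ℤ) = (1 + 1*(q : ℤ)) * QII_8 (q : ℤ) := by
      push_cast
      rw [k08_cast hz1, a07_cast hz1]
      simp only [QII_8]
      ring
    rw [e1, NN8_cast hz1, NN8_fac] at hd'
    have hQ := Dvd.dvd.trans (Dvd.intro_left _ rfl) hd'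
    have hz : (q : ℤ) = (p : ℤ) ^ k := by rw [← hpk]; push_cast; rfl
    have hqB : (868 : ℤ) ≤ (q : ℤ) := by exact_mod_cast not_lt.mp hB
    have hR : QII_8 (q : ℤ) = (6 : ℤ) + (q : ℤ) * ((-6) + 6*(q : ℤ) + (-6)*(q : ℤ)^2 + 5*(q : ℤ)^3 + (-6)*(q : ℤ)^4 + 6*(q : ℤ)^5 + (-6)*(q : ℤ)^6 + 5*(q : ℤ)^7 + (-5)*(q : ℤ)^8 + 5*(q : ℤ)^9 + (-5)*(q : ℤ)^10 + 5*(q : ℤ)^11 + (-4)*(q : ℤ)^12 + 4*(q : ℤ)^13 + (-4)*(q : ℤ)^14 + 4*(q : ℤ)^15 + (-3)*(q : ℤ)^16 + 3*(q : ℤ)^17 + (-2)*(q : ℤ)^18 + 2*(q : ℤ)^19 + (-2)*(q : ℤ)^20 + 2*(q : ℤ)^21 + (-1)*(q : ℤ)^22 + 1*(q : ℤ)^23 + (-1)*(q : ℤ)^24 + 1*(q : ℤ)^25 + (-1)*(q : ℤ)^26 + 1*(q : ℤ)^27) := by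
      simp only [QII_8]; ring
    have hgo := cofree' hp hz hR (nd (c0 := 6) (by linarith) (by norm_num)).1 hQ
    have h1 : QII_8 (q : ℤ) ∣ 18941980433582652746874088419181853813903368843541694952668494313477083706163200000 := by
      have h2 := chainE (bII_8_1 _) (bII_8_2 _) (bII_8_3 _) (bII_8_4 _) (bII_8_5 _) (bII_8_6 _) (bII_8_7 _) (bII_8_8 _) (bII_8_9 _) (bII_8_10 _) (bII_8_12 _) (bII_8_14 _) (bII_8_15 _) (bII_8_18 _) (bII_8_20 _) (bII_8_24 _) (bII_8_30 _) hgo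
      have e2 : ((((((((((((((((((((6 : ℤ)) * 4^8) * 108^8) * 5^4) * 4^4) * 341^2) * 9^4) * 11426^1) * 6^2) * 50419^1) * 1381^2) * 7^2) * 4286^1) * 968705^1) * 2109^1) * 3765901^1) * 651^1) * 512461^1) * 1) = 18941980433582652746874088419181853813903368843541694952668494313477083706163200000 := by norm_num
      rwa [e2] at h2
    obtain ⟨s, rfl⟩ : ∃ s, q = s + 868 := ⟨q - 868, by omega⟩
    have hbig := bigII_8 (s : ℤ) (Int.natCast_nonneg s)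
    have e3 : ((s + 868 : ℕ) : ℤ) = (s : ℤ) + 868 := by push_cast; ring
    rw [e3] at h1
    have hle := Int.le_of_dvd (by norm_num) h1
    linarith

end sII_8

end ArAux8

end Cfsg.Agent.Lib.MinE8
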