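import Cfsg.Agent.Lib.MinE8.ArBase

/-! Arithmetic for `Ar.lean`: Bezout certificates (python-generated). -/

set_option autoImplicit false
set_option linter.unusedSectionVars false
set_option linter.unusedVariables false
set_option maxRecDepth 100000

namespace Cfsg.Agent.Lib.MinE8

open Cfsg.Agent.Lib.MinE6 (k0 gaussN)

namespace ArAux8

section sIII_0

/-- The cofactor. -/
def QIII_0 (z : ℤ) : ℤ := 3 + 3*z + 4*z^2 + 5*z^3 + 6*z^4 + 7*z^5 + 7*z^6 + 6*z^7 + 6*z^8 + 6*z^9 + 6*z^10 + 5*z^11 + 5*z^12 + 4*z^13 + 4*z^14 + 4*z^15 + 4*z^16 + 3*z^17 + 3*z^18 + 2*z^19 + 2*z^20 + 2*z^21 + 2*z^22 + 1*z^23 + 1*z^24 + 1*z^25 + 1*z^26 + 1*z^27 + 1*z^28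

lemma bIII_0_1 (z : ℤ) : Bz (QIII_0 z) (F1 z) 105 :=
  ⟨1, (-102) + (-99)*z + (-95)*z^2 + (-90)*z^3 + (-84)*z^4 + (-77)*z^5 + (-70)*z^6 + (-64)*z^7 + (-58)*z^8 + (-52)*z^9 + (-46)*z^10 + (-41)*z^11 + (-36)*z^12 + (-32)*z^13 + (-28)*z^14 + (-24)*z^15 + (-20)*z^16 + (-17)*z^17 + (-14)*z^18 + (-12)*z^19 + (-10)*z^20 + (-8)*z^21 + (-6)*z^22 + (-5)*z^23 + (-4)*z^24 + (-3)*z^25 + (-2)*z^26 + (-1)*z^27, by simp only [QIII_0, F1]; ring⟩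

lemma bIII_0_2 (z : ℤ) : Bz (QIII_0 z) (F2 z) 5 :=
  ⟨1, 2 + (-5)*z + 1*z^2 + (-6)*z^3 + (-7)*z^5 + (-6)*z^7 + (-6)*z^9 + (-5)*z^11 + (-4)*z^13 + (-4)*z^15 + (-3)*z^17 + (-2)*z^19 + (-2)*z^21 + (-1)*z^23 + (-1)*z^25 + (-1)*z^27, by simp only [QIII_0, F2]; ring⟩

lemma bIII_0_3 (z : ℤ) : Bz (QIII_0 z) (F3 z) 6 :=
  ⟨1 + (-1)*z, 3 + (-3)*z + (-1)*z^2 + 3*z^3 + (-3)*z^4 + (-1)*z^5 + 4*z^6 + (-2)*z^7 + (-2)*z^8 + 4*z^9 + (-2)*z^10 + (-1)*z^11 + 3*z^12 + (-1)*z^13 + (-2)*z^14 + 3*z^15 + (-1)*z^16 + (-1)*z^17 + 2*z^18 + (-2)*z^20 + 2*z^21 + (-1)*z^23 + 1*z^24 + (-1)*z^26 + 1*z^27, by simp only [QIII_0, F3]; ring⟩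

lemma bIII_0_4 (z : ℤ) : Bz (QIII_0 z) (F4 z) 5 :=
  ⟨1 + (-2)*z, 2 + 3*z + 4*z^4 + 5*z^5 + 3*z^6 + 3*z^7 + 3*z^8 + 3*z^9 + 3*z^10 + 4*z^11 + 2*z^12 + 2*z^13 + 2*z^14 + 2*z^15 + 2*z^16 + 3*z^17 + 1*z^18 + 1*z^19 + 1*z^20 + 1*z^21 + 1*z^22 + 2*z^23 + (-1)*z^25 + 1*z^26 + 2*z^27, by simp only [QIII_0, F4]; ring⟩

lemma bIII_0_5 (z : ℤ) : Bz (QIII_0 z) (F5 z) 5 :=
  ⟨1 + (-1)*z, 2 + (-2)*z + (-1)*z^2 + 2*z^5 + (-1)*z^6 + (-1)*z^8 + 2*z^10 + (-1)*z^12 + (-1)*z^14 + 2*z^15 + (-1)*z^18 + 1*z^20 + (-1)*z^24 + 1*z^25, by simp only [QIII_0, F5]; ring⟩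

lemma bIII_0_6 (z : ℤ) : Bz (QIII_0 z) (F6 z) 2 :=
  ⟨(-1) + 1*z, 5 + 5*z + 1*z^2 + (-3)*z^3 + (-3)*z^4 + 1*z^5 + 4*z^6 + 2*z^7 + (-2)*z^8 + (-4)*z^9 + (-2)*z^10 + 1*z^11 + 3*z^12 + 1*z^13 + (-2)*z^14 + (-3)*z^15 + (-1)*z^16 + 1*z^17 + 2*z^18 + (-2)*z^20 + (-2)*z^21 + 1*z^23 + 1*z^24 + (-1)*z^26 + (-1)*z^27, by simp only [QIII_0, F6]; ring⟩

lemma bIII_0_7 (z : ℤ) : Bz (QIII_0 z) (F7 z) 7 :=
  ⟨1 + (-5)*z + (-4)*z^2 + (-3)*z^3 + (-2)*z^4 + (-1)*z^5, 4 + 8*z + 11*z^2 + 13*z^3 + 14*z^4 + 14*z^5 + 14*z^6 + 15*z^7 + 9*z^8 + 10*z^9 + 11*z^10 + 13*z^11 + 8*z^12 + 11*z^13 + 7*z^14 + 3*z^15 + 6*z^16 + 10*z^17 + 7*z^18 + 5*z^19 + 3*z^20 + 1*z^21 + (-1)*z^22 + 5*z^23 + 4*z^24 + 3*z^25 + 2*z^26 + 1*z^27, by simp only [QIII_0, F7]; ring⟩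

lemma bIII_0_8 (z : ℤ) : Bz (QIII_0 z) (F8 z) 17 :=
  ⟨4 + (-8)*z + (-1)*z^2 + 2*z^3, 5 + 12*z + 11*z^2 + 9*z^3 + 9*z^4 + 5*z^5 + 13*z^6 + 18*z^7 + 8*z^8 + 11*z^9 + 5*z^10 + 4*z^11 + 6*z^12 + 6*z^13 + 6*z^14 + 6*z^15 + 6*z^16 + 10*z^17 + 2*z^18 + 5*z^19 + (-1)*z^20 + (-6)*z^21 + 4*z^22 + 5*z^23 + 3*z^24 + 7*z^25 + (-1)*z^26 + (-2)*z^27, by simp only [QIII_0, F8]; ring⟩

lemma bIII_0_9 (z : ℤ) : Bz (QIII_0 z) (F9 z) 57 :=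
  ⟨2 + (-25)*z + (-1)*z^2 + (-14)*z^3 + 4*z^4 + 7*z^5, 51 + 69*z + 70*z^2 + 84*z^3 + 78*z^4 + 94*z^5 + 65*z^6 + 59*z^7 + 20*z^8 + 23*z^9 + 14*z^10 + 43*z^11 + 51*z^12 + 67*z^13 + 38*z^14 + 30*z^15 + 16*z^16 + 22*z^17 + 4*z^18 + 3*z^19 + (-13)*z^20 + 16*z^21 + 24*z^22 + 40*z^23 + 11*z^24 + 3*z^25 + (-11)*z^26 + (-7)*z^27, by simp only [QIII_0, F9]; ring⟩

lemma bIII_0_10 (z : ℤ) : Bz (QIII_0 z) (F10 z) 5 :=
  ⟨1 + (-7)*z + 8*z^2 + (-4)*z^3, 2 + 20*z + 11*z^2 + 4*z^3 + 20*z^4 + 18*z^5 + 5*z^6 + 14*z^7 + 15*z^8 + 4*z^9 + 10*z^10 + 20*z^11 + 5*z^12 + 6*z^13 + 15*z^14 + 6*z^15 + 12*z^17 + 5*z^18 + (-2)*z^19 + 5*z^20 + 8*z^21 + 4*z^23 + 5*z^24 + (-1)*z^25 + 4*z^27, by simp only [QIII_0, F10]; ring⟩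

lemma bIII_0_12 (z : ℤ) : Bz (QIII_0 z) (F12 z) 26 :=
  ⟨6 + (-10)*z + 2*z^2 + 1*z^3, 8 + 12*z + 8*z^2 + 13*z^3 + 3*z^4 + 5*z^5 + 6*z^6 + 6*z^7 + 6*z^8 + 6*z^9 + 6*z^10 + 12*z^11 + 2*z^12 + 16*z^13 + (-3)*z^14 + 7*z^15 + (-1)*z^16 + 1*z^17 + 2*z^18 + 2*z^19 + 2*z^20 + 2*z^21 + 2*z^22 + 8*z^23 + (-2)*z^24 + 6*z^25 + (-3)*z^26 + (-1)*z^27, by simp only [QIII_0, F12]; ring⟩

lemma bIII_0_14 (z : ℤ) : Bz (QIII_0 z) (F14 z) 2059 :=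
  ⟨479 + (-381)*z + (-334)*z^2 + 235*z^3 + (-122)*z^4 + 201*z^5, 622 + 328*z + (-65)*z^2 + (-345)*z^3 + (-546)*z^4 + (-546)*z^5 + (-546)*z^6 + (-67)*z^7 + 31*z^8 + (-684)*z^9 + (-783)*z^10 + (-191)*z^11 + (-14)*z^12 + (-49)*z^13 + (-529)*z^14 + (-1229)*z^15 + (-534)*z^16 + 358*z^17 + (-57)*z^18 + (-269)*z^19 + (-235)*z^20 + (-357)*z^21 + 323*z^22 + 421*z^23 + (-294)*z^24 + (-393)*z^25 + (-280)*z^26 + (-201)*z^27, by simp only [QIII_0, F14]; ring⟩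

lemma bIII_0_15 (z : ℤ) : Bz (QIII_0 z) (F15 z) 331 :=
  ⟨116 + (-246)*z + 36*z^2 + 30*z^3 + 33*z^4 + (-18)*z^5 + 43*z^6 + (-90)*z^7, (-17) + 373*z + 539*z^2 + 762*z^3 + 573*z^4 + 743*z^5 + 484*z^6 + 759*z^7 + 525*z^8 + 753*z^9 + 429*z^10 + 657*z^11 + 333*z^12 + 561*z^13 + 237*z^14 + 349*z^15 + 155*z^16 + 477*z^17 + 333*z^18 + 462*z^19 + 209*z^20 + 133*z^21 + (-90)*z^22 + 99*z^23 + 144*z^24 + 202*z^25 + 137*z^26 + 90*z^27, by simp only [QIII_0, F15]; ring⟩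

lemma bIII_0_18 (z : ℤ) : Bz (QIII_0 z) (F18 z) 2053 :=
  ⟨648 + (-801)*z + (-293)*z^2 + 370*z^3 + 284*z^4 + (-237)*z^5, 109 + 459*z + 690*z^2 + (-158)*z^3 + (-214)*z^4 + 804*z^5 + 287*z^6 + 405*z^7 + (-26)*z^8 + (-35)*z^9 + 746*z^10 + 229*z^11 + (-301)*z^12 + 717*z^13 + 200*z^14 + (-330)*z^15 + 40*z^16 + 972*z^17 + (-66)*z^18 + (-359)*z^19 + 659*z^20 + 142*z^21 + (-388)*z^22 + 630*z^23 + 113*z^24 + (-417)*z^25 + (-47)*z^26 + 237*z^27, by simp only [QIII_0, F18]; ring⟩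

lemma bIII_0_20 (z : ℤ) : Bz (QIII_0 z) (F20 z) 4105 :=
  ⟨1583 + (-1736)*z + (-216)*z^2 + (-38)*z^3 + 284*z^4 + 202*z^5 + 353*z^6 + (-356)*z^7, (-644) + 459*z + (-1120)*z^2 + 250*z^3 + (-1168)*z^4 + (-1100)*z^5 + (-936)*z^6 + 1284*z^7 + (-606)*z^8 + 1114*z^9 + (-1016)*z^10 + (-948)*z^11 + (-784)*z^12 + 1436*z^13 + (-454)*z^14 + 1266*z^15 + (-864)*z^16 + (-796)*z^17 + (-632)*z^18 + 1588*z^19 + (-302)*z^20 + 1418*z^21 + (-712)*z^22 + (-644)*z^23 + (-480)*z^24 + 157*z^25 + 3*z^26 + 356*z^27, by simp only [QIII_0, F20]; ring⟩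

lemma bIII_0_24 (z : ℤ) : Bz (QIII_0 z) (F24 z) 2066 :=
  ⟨680 + (-896)*z + 99*z^2 + 64*z^3 + (-23)*z^4 + 6*z^5 + 223*z^6 + (-148)*z^7, 26 + 648*z + (-329)*z^2 + (-305)*z^3 + (-93)*z^4 + 564*z^5 + (-326)*z^6 + 676*z^7 + (-304)*z^8 + (-228)*z^9 + (-158)*z^10 + 1402*z^11 + (-532)*z^12 + (-111)*z^13 + (-131)*z^14 + 503*z^15 + (-381)*z^16 + 844*z^17 + (-284)*z^18 + (-208)*z^19 + (-138)*z^20 + 742*z^21 + (-296)*z^22 + 26*z^23 + (-58)*z^24 + (-81)*z^25 + (-75)*z^26 + 148*z^27, by simp only [QIII_0, F24]; ring⟩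

lemma bIII_0_30 (z : ℤ) : Bz (QIII_0 z) (F30 z) 245941 :=
  ⟨63788 + (-72656)*z + 3348*z^2 + 1104*z^3 + (-959)*z^4 + (-2746)*z^5 + 13477*z^6 + (-2624)*z^7, 54577 + (-27973)*z + (-19255)*z^2 + 32160*z^3 + (-38831)*z^4 + 25559*z^5 + (-32516)*z^6 + 31037*z^7 + (-43261)*z^8 + 36393*z^9 + (-40529)*z^10 + 39125*z^11 + (-37797)*z^12 + 41857*z^13 + (-35065)*z^14 + (-19199)*z^15 + 40323*z^16 + (-19815)*z^17 + (-21837)*z^18 + 56532*z^19 + (-83495)*z^20 + 53551*z^21 + (-7872)*z^22 + (-9211)*z^23 + (-9894)*z^24 + 5370*z^25 + (-13477)*z^26 + 2624*z^27, by simp only [QIII_0, F30]; ring⟩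

lemma bigIII_0 (s : ℤ) (hs : 0 ≤ s) : (31904051537426023068198130668945059863291625976562500000000000 : ℤ) < QIII_0 (s + 158) := by
  have h : 0 ≤ 4837362722763001898272238003101534327165840907265288790061956 + 6509655554040495850380406899084162692495379152365709498482783*s + 556078252434293959631754259707453113825019191261108228564854*s^2 + 30495247391413201106142899599537754159440271834771715301549*s^3 + 1206025135689613277943653581551316211585939321533243387380*s^4 + 36630411877547658179544566427693903775906410220857362987*s^5 + 888510607321040302725852539972445823980874689171650003*s^6 + 17669795006523696234277285612509559595765323437160102*s^7 + 293497966345589572773446690780189302272185090103418*s^8 + 4127022951593141718948138874947000140288911507002*s^9 + 49617492265569067608620526072711724892190945568*s^10 + 513758452687043894525475997560102010307517357*s^11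 + 4605438945480905410423571336007313019251309*s^12 + 35866752606846019284801574015884266140772*s^13 + 243164237079013792165389783683878971276*s^14 + 1436087574367773338475034902876173284*s^15 + 7383270225864777538826828927332602*s^16 + 32978096312320710529969276113103*s^17 + 127523516377196912337953369223*s^18 + 424698982110868195553529714*s^19 + 1209311824187068973915054*s^20 + 2915100827989862903294*s^21 + 5869127621907925700*s^22 + 9688166738048033*s^23 + 12771591765451*s^24 + 12930332585*s^25 + 9440659*s^26 + 4425*s^27 + 1*s^28 := by positivity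
  have e : QIII_0 (s + 158) - (31904051537426023068198130668945059863291625976562500000000000 + 1) = 4837362722763001898272238003101534327165840907265288790061956 + 6509655554040495850380406899084162692495379152365709498482783*s + 556078252434293959631754259707453113825019191261108228564854*s^2 + 30495247391413201106142899599537754159440271834771715301549*s^3 + 1206025135689613277943653581551316211585939321533243387380*s^4 + 36630411877547658179544566427693903775906410220857362987*s^5 + 888510607321040302725852539972445823980874689171650003*s^6 + 17669795006523696234277285612509559595765323437160102*s^7 + 293497966345589572773446690780189302272185090103418*s^8 + 4127022951593141718948138874947000140288911507002*s^9 + 49617492265569067608620526072711724892190945568*s^10 + 513758452687043894525475997560102010307517357*s^11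 + 4605438945480905410423571336007313019251309*s^12 + 35866752606846019284801574015884266140772*s^13 + 243164237079013792165389783683878971276*s^14 + 1436087574367773338475034902876173284*s^15 + 7383270225864777538826828927332602*s^16 + 32978096312320710529969276113103*s^17 + 127523516377196912337953369223*s^18 + 424698982110868195553529714*s^19 + 1209311824187068973915054*s^20 + 2915100827989862903294*s^21 + 5869127621907925700*s^22 + 9688166738048033*s^23 + 12771591765451*s^24 + 12930332585*s^25 + 9440659*s^26 + 4425*s^27 + 1*s^28 := by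
    simp only [QIII_0]; ring
  linarith

set_option maxHeartbeats 4000000 in
theorem noIII_0 {q : ℕ} (hq : IsPrimePow q) : ¬ (k08 q + a07 q + k0 q + 0) ∣ NN8 q := by
  intro hd
  have hq2 : 2 ≤ q := hq.two_le
  have hz1 : 1 ≤ q := by omega
  by_cases hB : q < 158
  · refine chk_ok (g := fun q => k08' q + a07' q + k0' q + 0) (B := 158) (by decide +kernel) hq2 hB ?_
    show k08' q + a07' q + k0' q + 0 ∣ NN8 q
    rw [← k08_eq hz1, ← a07_eq hz1, ← k0_eq hz1]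
    exact hd
  · obtain ⟨p, k, hp, hk, hpk⟩ := (isPrimePow_nat_iff q).mp hq
    have hd' : ((k08 q + a07 q + k0 q + 0 : ℕ) : ℤ) ∣ (NN8 q : ℤ) := Int.natCast_dvd_natCast.mpr hd
    have e1 : ((k08 q + a07 q + k0 q + 0 : ℕ) : ℤ) = ((-1) + 1*(q : ℤ)) * QIII_0 (q : ℤ) := by
      push_cast
      rw [k08_cast hz1, a07_cast hz1, k0_cast hz1]
      simp only [QIII_0]
      ring
    rw [e1, NN8_cast hz1, NN8_fac] at hd'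
    have hQ := Dvd.dvd.trans (Dvd.intro_left _ rfl) hd'
    have hz : (q : ℤ) = (p : ℤ) ^ k := by rw [← hpk]; push_cast; rfl
    have hqB : (158 : ℤ) ≤ (q : ℤ) := by exact_mod_cast not_lt.mp hB
    have hR : QIII_0 (q : ℤ) = (3 : ℤ) + (q : ℤ) * (3 + 4*(q : ℤ) + 5*(q : ℤ)^2 + 6*(q : ℤ)^3 + 7*(q : ℤ)^4 + 7*(q : ℤ)^5 + 6*(q : ℤ)^6 + 6*(q : ℤ)^7 + 6*(q : ℤ)^8 + 6*(q : ℤ)^9 + 5*(q : ℤ)^10 + 5*(q : ℤ)^11 + 4*(q : ℤ)^12 + 4*(q : ℤ)^13 + 4*(q : ℤ)^14 + 4*(q : ℤ)^15 + 3*(q : ℤ)^16 + 3*(q : ℤ)^17 + 2*(q : ℤ)^18 + 2*(q : ℤ)^19 + 2*(q : ℤ)^20 + 2*(q : ℤ)^21 + 1*(q : ℤ)^22 + 1*(q : ℤ)^23 + 1*(q : ℤ)^24 + 1*(q : ℤ)^25 + 1*(q : ℤ)^26 + 1*(q : ℤ)^27) := by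
      simp only [QIII_0]; ring
    have hgo := cofree' hp hz hR (nd (c0 := 3) (by linarith) (by norm_num)).1 hQ
    have h1 : QIII_0 (q : ℤ) ∣ 31904051537426023068198130668945059863291625976562500000000000 := by
      have h2 := chainE (bIII_0_1 _) (bIII_0_2 _) (bIII_0_3 _) (bIII_0_4 _) (bIII_0_5 _) (bIII_0_6 _) (bIII_0_7 _) (bIII_0_8 _) (bIII_0_9 _) (bIII_0_10 _) (bIII_0_12 _) (bIII_0_14 _) (bIII_0_15 _) (bIII_0_18 _) (bIII_0_20 _) (bIII_0_24 _) (bIII_0_30 _) hgo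
      have e2 : ((((((((((((((((((((3 : ℤ)) * 105^8) * 5^8) * 6^4) * 5^4) * 5^2) * 2^4) * 7^1) * 17^2) * 57^1) * 5^2) * 26^2) * 2059^1) * 331^1) * 2053^1) * 4105^1) * 2066^1) * 245941^1) * 1) = 31904051537426023068198130668945059863291625976562500000000000 := by norm_num
      rwa [e2] at h2
    obtain ⟨s, rfl⟩ : ∃ s, q = s + 158 := ⟨q - 158, by omega⟩
    have hbig := bigIII_0 (s : ℤ) (Int.natCast_nonneg s)
    have e3 : ((s + 158 : ℕ) : ℤ) = (s : ℤ) + 158 := by push_cast; ring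
    rw [e3] at h1
    have hle := Int.le_of_dvd (by norm_num) h1
    linarith

end sIII_0

section sIII_1

/-- The cofactor. -/
def QIII_1 (z : ℤ) : ℤ := (-2) + (-1)*z^2 + (-1)*z^3 + (-1)*z^4 + (-1)*z^5 + 1*z^7 + 1*z^11 + 1*z^13 + 1*z^17 + 1*z^19 + 1*z^23 + 1*z^29

lemma bIII_1_1 (z : ℤ) : Bz (QIII_1 z) (F1 z) 1 :=
  ⟨1, (-3) + (-3)*z + (-4)*z^2 + (-5)*z^3 + (-6)*z^4 + (-7)*z^5 + (-7)*z^6 + (-6)*z^7 + (-6)*z^8 + (-6)*z^9 + (-6)*z^10 + (-5)*z^11 + (-5)*z^12 + (-4)*z^13 + (-4)*z^14 + (-4)*z^15 + (-4)*z^16 + (-3)*z^17 + (-3)*z^18 + (-2)*z^19 + (-2)*z^20 + (-2)*z^21 + (-2)*z^22 + (-1)*z^23 + (-1)*z^24 + (-1)*z^25 + (-1)*z^26 + (-1)*z^27 + (-1)*z^28, by simp only [QIII_1, F1]; ring⟩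

lemma bIII_1_2 (z : ℤ) : Bz (QIII_1 z) (F2 z) 9 :=
  ⟨(-1), 7 + (-7)*z + 6*z^2 + (-7)*z^3 + 6*z^4 + (-7)*z^5 + 7*z^6 + (-6)*z^7 + 6*z^8 + (-6)*z^9 + 6*z^10 + (-5)*z^11 + 5*z^12 + (-4)*z^13 + 4*z^14 + (-4)*z^15 + 4*z^16 + (-3)*z^17 + 3*z^18 + (-2)*z^19 + 2*z^20 + (-2)*z^21 + 2*z^22 + (-1)*z^23 + 1*z^24 + (-1)*z^25 + 1*z^26 + (-1)*z^27 + 1*z^28, by simp only [QIII_1, F2]; ring⟩

lemma bIII_1_3 (z : ℤ) : Bz (QIII_1 z) (F3 z) 5 :=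
  ⟨(-1), 3 + (-3)*z + (-1)*z^2 + 3*z^3 + (-3)*z^4 + (-1)*z^5 + 4*z^6 + (-2)*z^7 + (-2)*z^8 + 4*z^9 + (-2)*z^10 + (-1)*z^11 + 3*z^12 + (-1)*z^13 + (-2)*z^14 + 3*z^15 + (-1)*z^16 + (-1)*z^17 + 2*z^18 + (-2)*z^20 + 2*z^21 + (-1)*z^23 + 1*z^24 + (-1)*z^26 + 1*z^27, by simp only [QIII_1, F3]; ring⟩

lemma bIII_1_4 (z : ℤ) : Bz (QIII_1 z) (F4 z) 5 :=
  ⟨(-2) + 1*z, 1 + 2*z + (-3)*z^2 + (-3)*z^3 + 2*z^4 + 2*z^5 + (-1)*z^6 + 2*z^11 + (-1)*z^12 + 2*z^17 + (-1)*z^18 + 2*z^23 + (-1)*z^24 + (-2)*z^25 + 1*z^26 + 2*z^27 + (-1)*z^28, by simp only [QIII_1, F4]; ring⟩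

lemma bIII_1_5 (z : ℤ) : Bz (QIII_1 z) (F5 z) 4 :=
  ⟨(-1), 2 + (-2)*z + (-1)*z^2 + 2*z^5 + (-1)*z^6 + (-1)*z^8 + 2*z^10 + (-1)*z^12 + (-1)*z^14 + 2*z^15 + (-1)*z^18 + 1*z^20 + (-1)*z^24 + 1*z^25, by simp only [QIII_1, F5]; ring⟩

lemma bIII_1_6 (z : ℤ) : Bz (QIII_1 z) (F6 z) 3 :=
  ⟨1, 5 + 5*z + 1*z^2 + (-3)*z^3 + (-3)*z^4 + 1*z^5 + 4*z^6 + 2*z^7 + (-2)*z^8 + (-4)*z^9 + (-2)*z^10 + 1*z^11 + 3*z^12 + 1*z^13 + (-2)*z^14 + (-3)*z^15 + (-1)*z^16 + 1*z^17 + 2*z^18 + (-2)*z^20 + (-2)*z^21 + 1*z^23 + 1*z^24 + (-1)*z^26 + (-1)*z^27, by simp only [QIII_1, F6]; ring⟩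

lemma bIII_1_7 (z : ℤ) : Bz (QIII_1 z) (F7 z) 1 :=
  ⟨(-1)*z^2 + (-2)*z^3 + (-2)*z^4 + (-1)*z^5, 1 + (-1)*z + (-2)*z^2 + (-2)*z^3 + (-1)*z^4 + 1*z^9 + 1*z^10 + (-1)*z^12 + 1*z^14 + 1*z^15 + 1*z^16 + (-1)*z^18 + (-1)*z^19 + 1*z^20 + 2*z^21 + 1*z^22 + (-1)*z^24 + (-1)*z^25 + 1*z^27 + 1*z^28, by simp only [QIII_1, F7]; ring⟩

lemma bIII_1_8 (z : ℤ) : Bz (QIII_1 z) (F8 z) 3 :=
  ⟨(-1) + 1*z + 1*z^2, 1 + 2*z + 1*z^2 + (-1)*z^5 + 1*z^6 + 2*z^7 + (-1)*z^8 + (-1)*z^10 + (-1)*z^11 + 1*z^17 + (-1)*z^18 + (-1)*z^20 + (-2)*z^21 + 1*z^22 + 1*z^23 + 1*z^25 + (-1)*z^26 + (-1)*z^27, by simp only [QIII_1, F8]; ring⟩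

lemma bIII_1_9 (z : ℤ) : Bz (QIII_1 z) (F9 z) 37 :=
  ⟨5 + 17*z + 6*z^2 + 18*z^3 + 2*z^4 + (-8)*z^5, 47 + 34*z + 17*z^2 + 11*z^3 + (-2)*z^4 + 13*z^5 + (-15)*z^6 + (-19)*z^7 + (-35)*z^8 + (-8)*z^9 + (-5)*z^10 + 15*z^11 + 14*z^12 + 13*z^13 + (-15)*z^14 + (-14)*z^15 + (-18)*z^16 + (-7)*z^17 + (-9)*z^18 + (-6)*z^19 + (-13)*z^20 + 15*z^21 + 14*z^22 + 13*z^23 + (-15)*z^24 + (-14)*z^25 + (-18)*z^26 + (-2)*z^27 + 8*z^28, by simp only [QIII_1, F9]; ring⟩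

lemma bIII_1_10 (z : ℤ) : Bz (QIII_1 z) (F10 z) 2 :=
  ⟨1*z + (-1)*z^2 + 1*z^3, 2 + 4*z + 1*z^3 + 3*z^4 + (-1)*z^5 + (-2)*z^6 + 1*z^7 + (-1)*z^8 + (-2)*z^9 + 1*z^10 + 1*z^11 + (-2)*z^12 + 1*z^13 + 1*z^14 + (-2)*z^15 + (-1)*z^16 + 1*z^17 + (-2)*z^18 + (-1)*z^19 + 1*z^20 + (-1)*z^22 + 1*z^23 + (-1)*z^25 + (-1)*z^28, by simp only [QIII_1, F10]; ring⟩

lemma bIII_1_12 (z : ℤ) : Bz (QIII_1 z) (F12 z) 73 :=
  ⟨(-25) + 16*z + 6*z^2 + 2*z^3, 23 + 32*z + 10*z^2 + 27*z^3 + (-16)*z^4 + (-6)*z^5 + (-2)*z^6 + 25*z^11 + (-16)*z^12 + 44*z^13 + (-34)*z^14 + 13*z^15 + (-20)*z^16 + (-6)*z^17 + (-2)*z^18 + 25*z^23 + (-16)*z^24 + 19*z^25 + (-18)*z^26 + (-6)*z^27 + (-2)*z^28, by simp only [QIII_1, F12]; ring⟩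

lemma bIII_1_14 (z : ℤ) : Bz (QIII_1 z) (F14 z) 379 :=
  ⟨(-76) + (-48)*z + 105*z^2 + (-12)*z^3 + 64*z^4 + (-39)*z^5, 227 + 131*z + 38*z^2 + (-14)*z^3 + (-39)*z^4 + 76*z^7 + 124*z^8 + (-57)*z^9 + (-93)*z^10 + 24*z^11 + 99*z^12 + 58*z^13 + (-45)*z^14 + (-233)*z^15 + (-61)*z^16 + 156*z^17 + 75*z^18 + (-41)*z^19 + (-27)*z^20 + (-64)*z^21 + 115*z^22 + 124*z^23 + (-57)*z^24 + (-93)*z^25 + (-52)*z^26 + (-25)*z^27 + 39*z^28, by simp only [QIII_1, F14]; ring⟩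

lemma bIII_1_15 (z : ℤ) : Bz (QIII_1 z) (F15 z) 5 :=
  ⟨(-2) + 2*z + 2*z^2 + (-1)*z^3 + (-1)*z^4 + 2*z^5 + (-3)*z^6 + 3*z^7, 1 + 5*z + 7*z^2 + 4*z^3 + 2*z^5 + (-4)*z^6 + 4*z^7 + (-3)*z^8 + 4*z^9 + (-6)*z^10 + 4*z^11 + (-6)*z^12 + 4*z^13 + (-6)*z^14 + 2*z^15 + (-6)*z^16 + 6*z^17 + (-3)*z^18 + 4*z^19 + (-4)*z^20 + (-6)*z^22 + 3*z^23 + 2*z^25 + (-2)*z^26 + (-3)*z^28, by simp only [QIII_1, F15]; ring⟩

lemma bIII_1_18 (z : ℤ) : Bz (QIII_1 z) (F18 z) 57 :=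
  ⟨(-39) + 5*z + 32*z^2 + 12*z^3 + (-22)*z^4 + (-4)*z^5, (-21) + 10*z + 25*z^2 + (-31)*z^3 + (-36)*z^4 + 27*z^5 + 17*z^6 + 11*z^7 + (-17)*z^8 + (-10)*z^9 + 31*z^10 + 17*z^11 + (-28)*z^12 + 27*z^13 + 17*z^14 + (-28)*z^15 + (-12)*z^16 + 61*z^17 + (-1)*z^18 + (-32)*z^19 + 27*z^20 + 17*z^21 + (-28)*z^22 + 27*z^23 + 17*z^24 + (-28)*z^25 + (-12)*z^26 + 22*z^27 + 4*z^28, by simp only [QIII_1, F18]; ring⟩

lemma bIII_1_20 (z : ℤ) : Bz (QIII_1 z) (F20 z) 10 :=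
  ⟨(-7) + 1*z + 4*z^2 + 3*z^3 + (-1)*z^4 + (-2)*z^5 + (-2)*z^6 + 1*z^7, (-4) + 2*z + (-3)*z^2 + 2*z^3 + (-3)*z^4 + (-3)*z^5 + (-1)*z^6 + 10*z^7 + 5*z^9 + (-5)*z^10 + (-3)*z^11 + (-1)*z^12 + 10*z^13 + 5*z^15 + (-5)*z^16 + (-3)*z^17 + (-1)*z^18 + 10*z^19 + 5*z^21 + (-5)*z^22 + (-3)*z^23 + (-1)*z^24 + 3*z^25 + 1*z^26 + 2*z^27 + (-1)*z^28, by simp only [QIII_1, F20]; ring⟩

lemma bIII_1_24 (z : ℤ) : Bz (QIII_1 z) (F24 z) 291 :=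
  ⟨(-138) + 67*z + 23*z^2 + 5*z^3 + 21*z^4 + 13*z^5 + (-52)*z^6 + 14*z^7, 15 + 134*z + (-92)*z^2 + (-61)*z^3 + 9*z^4 + 117*z^5 + (-80)*z^6 + 167*z^7 + (-86)*z^8 + (-44)*z^9 + (-18)*z^10 + 307*z^11 + (-161)*z^12 + 6*z^13 + (-24)*z^14 + 96*z^15 + (-93)*z^16 + 219*z^17 + (-100)*z^18 + (-44)*z^19 + (-18)*z^20 + 169*z^21 + (-94)*z^22 + 29*z^23 + (-19)*z^24 + (-21)*z^25 + (-13)*z^26 + 52*z^27 + (-14)*z^28, by simp only [QIII_1, F24]; ring⟩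

lemma bIII_1_30 (z : ℤ) : Bz (QIII_1 z) (F30 z) 33301 :=
  ⟨(-11118) + 3156*z + 2310*z^2 + 1413*z^3 + 1073*z^4 + 1204*z^5 + (-2031)*z^6 + (-639)*z^7, 11065 + (-4753)*z + (-1745)*z^2 + 7674*z^3 + (-4868)*z^4 + 7604*z^5 + (-2538)*z^6 + 8374*z^7 + (-5773)*z^8 + 9766*z^9 + (-5134)*z^10 + 9766*z^11 + (-5134)*z^12 + 9766*z^13 + (-5134)*z^14 + (-1352)*z^15 + 9140*z^16 + (-2198)*z^17 + (-2875)*z^18 + 11736*z^19 + (-14708)*z^20 + 10760*z^21 + (-228)*z^22 + (-1331)*z^23 + (-1544)*z^24 + 2162*z^25 + (-2596)*z^26 + 1392*z^27 + 639*z^28, by simp only [QIII_1, F30]; ring⟩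

lemma bigIII_1 (s : ℤ) (hs : 0 ≤ s) : (3238317200479978428833117902500000000 : ℤ) < QIII_1 (s + 19) := by
  have h : 0 ≤ 8891505051940855261059797940094700730 + 18513939145958239967009176569090203157*s + 13641849847740883640241206428047720866*s^2 + 6461928856224990308538600408281568513*s^3 + 2210659866610735375590791137036798962*s^4 + 581752595370045878558070894206876789*s^5 + 122474230419809831153487049844099540*s^6 + 21179754107791300876824727195632540*s^7 + 3065490723336361268803906264271737*s^8 + 376463772780130899379671659499853*s^9 + 39627765535184056197647940042101*s^10 + 3602524138180997310946783049725*s^11 + 284409800303958299555665692638*s^12 + 19574763579847235401760497254*s^13 + 1177429388103269499865313542*s^14 + 61969967789357400882508126*s^15 + 2853880095398157680690702*s^16 + 114862047179136892566574*s^17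 + 4030247269360081482122*s^18 + 122805318455570600466*s^19 + 3231718906707321184*s^20 + 72895915188704278*s^21 + 1395137132796857*s^22 + 22347734392621*s^23 + 294049136745*s^24 + 3095254071*s^25 + 25062786*s^26 + 146566*s^27 + 551*s^28 + 1*s^29 := by positivity
  have e : QIII_1 (s + 19) - (3238317200479978428833117902500000000 + 1) = 8891505051940855261059797940094700730 + 18513939145958239967009176569090203157*s + 13641849847740883640241206428047720866*s^2 + 6461928856224990308538600408281568513*s^3 + 2210659866610735375590791137036798962*s^4 + 581752595370045878558070894206876789*s^5 + 122474230419809831153487049844099540*s^6 + 21179754107791300876824727195632540*s^7 + 3065490723336361268803906264271737*s^8 + 376463772780130899379671659499853*s^9 + 39627765535184056197647940042101*s^10 + 3602524138180997310946783049725*s^11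 + 284409800303958299555665692638*s^12 + 19574763579847235401760497254*s^13 + 1177429388103269499865313542*s^14 + 61969967789357400882508126*s^15 + 2853880095398157680690702*s^16 + 114862047179136892566574*s^17 + 4030247269360081482122*s^18 + 122805318455570600466*s^19 + 3231718906707321184*s^20 + 72895915188704278*s^21 + 1395137132796857*s^22 + 22347734392621*s^23 + 294049136745*s^24 + 3095254071*s^25 + 25062786*s^26 + 146566*s^27 + 551*s^28 + 1*s^29 := by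
    simp only [QIII_1]; ring
  linarith

set_option maxHeartbeats 4000000 in
theorem noIII_1 {q : ℕ} (hq : IsPrimePow q) : ¬ (k08 q + a07 q + k0 q + 1) ∣ NN8 q := by
  intro hd
  have hq2 : 2 ≤ q := hq.two_le
  have hz1 : 1 ≤ q := by omega
  by_cases hB : q < 19
  · refine chk_ok (g := fun q => k08' q + a07' q + k0' q + 1) (B := 19) (by decide +kernel) hq2 hB ?_
    show k08' q + a07' q + k0' q + 1 ∣ NN8 q
    rw [← k08_eq hz1, ← a07_eq hz1, ← k0_eq hz1]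
    exact hd
  · obtain ⟨p, k, hp, hk, hpk⟩ := (isPrimePow_nat_iff q).mp hq
    have hd' : ((k08 q + a07 q + k0 q + 1 : ℕ) : ℤ) ∣ (NN8 q : ℤ) := Int.natCast_dvd_natCast.mpr hd
    have e1 : ((k08 q + a07 q + k0 q + 1 : ℕ) : ℤ) = (1) * QIII_1 (q : ℤ) := by
      push_cast
      rw [k08_cast hz1, a07_cast hz1, k0_cast hz1]
      simp only [QIII_1]
      ring
    rw [e1, NN8_cast hz1, NN8_fac] at hd'
    have hQ := Dvd.dvd.trans (Dvd.intro_left _ rfl) hd'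
    have hz : (q : ℤ) = (p : ℤ) ^ k := by rw [← hpk]; push_cast; rfl
    have hqB : (19 : ℤ) ≤ (q : ℤ) := by exact_mod_cast not_lt.mp hB
    have hR : QIII_1 (q : ℤ) = (-2 : ℤ) + (q : ℤ) * ((-1)*(q : ℤ) + (-1)*(q : ℤ)^2 + (-1)*(q : ℤ)^3 + (-1)*(q : ℤ)^4 + 1*(q : ℤ)^6 + 1*(q : ℤ)^10 + 1*(q : ℤ)^12 + 1*(q : ℤ)^16 + 1*(q : ℤ)^18 + 1*(q : ℤ)^22 + 1*(q : ℤ)^28) := by
      simp only [QIII_1]; ring
    have hgo := cofree' hp hz hR (nd (c0 := 2) (by linarith) (by norm_num)).2 hQ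
    have h1 : QIII_1 (q : ℤ) ∣ 3238317200479978428833117902500000000 := by
      have h2 := chainE (bIII_1_1 _) (bIII_1_2 _) (bIII_1_3 _) (bIII_1_4 _) (bIII_1_5 _) (bIII_1_6 _) (bIII_1_7 _) (bIII_1_8 _) (bIII_1_9 _) (bIII_1_10 _) (bIII_1_12 _) (bIII_1_14 _) (bIII_1_15 _) (bIII_1_18 _) (bIII_1_20 _) (bIII_1_24 _) (bIII_1_30 _) hgo
      have e2 : ((((((((((((((((((((-2 : ℤ)) * 1^8) * 9^8) * 5^4) * 5^4) * 4^2) * 3^4) * 1^1) * 3^2) * 37^1) * 2^2) * 73^2) * 379^1) * 5^1) * 57^1) * 10^1) * 291^1) * 33301^1) * 1) = -3238317200479978428833117902500000000 := by norm_num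
      rw [e2, dvd_neg] at h2
      exact h2
    obtain ⟨s, rfl⟩ : ∃ s, q = s + 19 := ⟨q - 19, by omega⟩
    have hbig := bigIII_1 (s : ℤ) (Int.natCast_nonneg s)
    have e3 : ((s + 19 : ℕ) : ℤ) = (s : ℤ) + 19 := by push_cast; ring
    rw [e3] at h1
    have hle := Int.le_of_dvd (by norm_num) h1
    linarith

end sIII_1

section sIII_2

/-- The cofactor. -/
def QIII_2 (z : ℤ) : ℤ := (-1) + (-1)*z^2 + (-1)*z^3 + (-1)*z^4 + (-1)*z^5 + 1*z^7 + 1*z^11 + 1*z^13 + 1*z^17 + 1*z^19 + 1*z^23 + 1*z^29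

lemma bIII_2_1 (z : ℤ) : Bz (QIII_2 z) (F1 z) 2 :=
  ⟨1, (-3) + (-3)*z + (-4)*z^2 + (-5)*z^3 + (-6)*z^4 + (-7)*z^5 + (-7)*z^6 + (-6)*z^7 + (-6)*z^8 + (-6)*z^9 + (-6)*z^10 + (-5)*z^11 + (-5)*z^12 + (-4)*z^13 + (-4)*z^14 + (-4)*z^15 + (-4)*z^16 + (-3)*z^17 + (-3)*z^18 + (-2)*z^19 + (-2)*z^20 + (-2)*z^21 + (-2)*z^22 + (-1)*z^23 + (-1)*z^24 + (-1)*z^25 + (-1)*z^26 + (-1)*z^27 + (-1)*z^28, by simp only [QIII_2, F1]; ring⟩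

lemma bIII_2_2 (z : ℤ) : Bz (QIII_2 z) (F2 z) 8 :=
  ⟨(-1), 7 + (-7)*z + 6*z^2 + (-7)*z^3 + 6*z^4 + (-7)*z^5 + 7*z^6 + (-6)*z^7 + 6*z^8 + (-6)*z^9 + 6*z^10 + (-5)*z^11 + 5*z^12 + (-4)*z^13 + 4*z^14 + (-4)*z^15 + 4*z^16 + (-3)*z^17 + 3*z^18 + (-2)*z^19 + 2*z^20 + (-2)*z^21 + 2*z^22 + (-1)*z^23 + 1*z^24 + (-1)*z^25 + 1*z^26 + (-1)*z^27 + 1*z^28, by simp only [QIII_2, F2]; ring⟩

lemma bIII_2_3 (z : ℤ) : Bz (QIII_2 z) (F3 z) 4 :=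
  ⟨(-1), 3 + (-3)*z + (-1)*z^2 + 3*z^3 + (-3)*z^4 + (-1)*z^5 + 4*z^6 + (-2)*z^7 + (-2)*z^8 + 4*z^9 + (-2)*z^10 + (-1)*z^11 + 3*z^12 + (-1)*z^13 + (-2)*z^14 + 3*z^15 + (-1)*z^16 + (-1)*z^17 + 2*z^18 + (-2)*z^20 + 2*z^21 + (-1)*z^23 + 1*z^24 + (-1)*z^26 + 1*z^27, by simp only [QIII_2, F3]; ring⟩

lemma bIII_2_4 (z : ℤ) : Bz (QIII_2 z) (F4 z) 2 :=
  ⟨(-1) + 1*z, 1 + 1*z + (-2)*z^2 + (-1)*z^3 + 2*z^4 + 1*z^5 + (-1)*z^6 + 1*z^11 + (-1)*z^12 + 1*z^17 + (-1)*z^18 + 1*z^23 + (-1)*z^24 + (-1)*z^25 + 1*z^26 + 1*z^27 + (-1)*z^28, by simp only [QIII_2, F4]; ring⟩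

lemma bIII_2_5 (z : ℤ) : Bz (QIII_2 z) (F5 z) 3 :=
  ⟨(-1), 2 + (-2)*z + (-1)*z^2 + 2*z^5 + (-1)*z^6 + (-1)*z^8 + 2*z^10 + (-1)*z^12 + (-1)*z^14 + 2*z^15 + (-1)*z^18 + 1*z^20 + (-1)*z^24 + 1*z^25, by simp only [QIII_2, F5]; ring⟩

lemma bIII_2_6 (z : ℤ) : Bz (QIII_2 z) (F6 z) 4 :=
  ⟨1, 5 + 5*z + 1*z^2 + (-3)*z^3 + (-3)*z^4 + 1*z^5 + 4*z^6 + 2*z^7 + (-2)*z^8 + (-4)*z^9 + (-2)*z^10 + 1*z^11 + 3*z^12 + 1*z^13 + (-2)*z^14 + (-3)*z^15 + (-1)*z^16 + 1*z^17 + 2*z^18 + (-2)*z^20 + (-2)*z^21 + 1*z^23 + 1*z^24 + (-1)*z^26 + (-1)*z^27, by simp only [QIII_2, F6]; ring⟩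

lemma bIII_2_7 (z : ℤ) : Bz (QIII_2 z) (F7 z) 1 :=
  ⟨(-1) + (-1)*z^3 + (-1)*z^4, (-1)*z^2 + (-1)*z^3 + 1*z^7 + (-1)*z^8 + 1*z^10 + 1*z^11 + (-2)*z^12 + 1*z^13 + 1*z^14 + (-1)*z^15 + 2*z^17 + (-1)*z^18 + (-1)*z^19 + 1*z^20 + 1*z^21 + (-1)*z^22 + 1*z^23 + (-1)*z^25 + 1*z^27, by simp only [QIII_2, F7]; ring⟩

lemma bIII_2_8 (z : ℤ) : Bz (QIII_2 z) (F8 z) 2 :=
  ⟨(-1) + 1*z + 1*z^2 + (-1)*z^3, 1 + 1*z + (-1)*z^3 + (-1)*z^5 + 1*z^6 + 2*z^7 + (-2)*z^8 + (-1)*z^11 + 1*z^12 + 1*z^17 + (-1)*z^18 + (-2)*z^21 + 2*z^22 + 1*z^23 + (-1)*z^24 + 1*z^25 + (-1)*z^26 + (-1)*z^27 + 1*z^28, by simp only [QIII_2, F8]; ring⟩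

lemma bIII_2_9 (z : ℤ) : Bz (QIII_2 z) (F9 z) 19 :=
  ⟨1 + 4*z + (-3)*z^2 + 8*z^3 + (-6)*z^4 + (-5)*z^5, 20 + 4*z + (-2)*z^2 + (-7)*z^3 + (-8)*z^4 + 7*z^5 + (-10)*z^6 + (-3)*z^7 + (-12)*z^8 + 9*z^9 + (-2)*z^10 + 10*z^11 + 2*z^12 + 7*z^13 + (-10)*z^14 + (-2)*z^15 + (-8)*z^16 + 5*z^17 + 1*z^18 + 3*z^19 + (-7)*z^20 + 10*z^21 + 2*z^22 + 7*z^23 + (-10)*z^24 + (-2)*z^25 + (-8)*z^26 + 6*z^27 + 5*z^28, by simp only [QIII_2, F9]; ring⟩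

lemma bIII_2_10 (z : ℤ) : Bz (QIII_2 z) (F10 z) 61 :=
  ⟨7 + 14*z + (-12)*z^2 + 18*z^3, 68 + 82*z + 9*z^2 + 34*z^3 + 48*z^4 + (-32)*z^5 + (-35)*z^6 + 10*z^7 + (-31)*z^8 + (-32)*z^9 + 26*z^10 + 10*z^11 + (-31)*z^12 + 22*z^13 + 5*z^14 + (-46)*z^15 + (-16)*z^16 + 6*z^17 + (-43)*z^18 + (-14)*z^19 + 19*z^20 + (-4)*z^21 + (-12)*z^22 + 18*z^23 + (-7)*z^24 + (-21)*z^25 + (-2)*z^26 + (-6)*z^27 + (-18)*z^28, by simp only [QIII_2, F10]; ring⟩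

lemma bIII_2_12 (z : ℤ) : Bz (QIII_2 z) (F12 z) 2 :=
  ⟨(-1) + 1*z, 1 + 1*z + 1*z^3 + (-1)*z^4 + 1*z^11 + (-1)*z^12 + 2*z^13 + (-2)*z^14 + 1*z^15 + (-1)*z^16 + 1*z^23 + (-1)*z^24 + 1*z^25 + (-1)*z^26, by simp only [QIII_2, F12]; ring⟩

lemma bIII_2_14 (z : ℤ) : Bz (QIII_2 z) (F14 z) 43 :=
  ⟨(-5) + (-18)*z + 24*z^2 + (-5)*z^3 + 15*z^4 + (-12)*z^5, 38 + 20*z + 1*z^2 + (-9)*z^3 + (-12)*z^4 + 5*z^7 + 23*z^8 + (-6)*z^9 + (-19)*z^10 + (-5)*z^11 + 20*z^12 + 11*z^13 + (-1)*z^14 + (-39)*z^15 + (-16)*z^16 + 26*z^17 + 25*z^18 + (-9)*z^19 + (-7)*z^20 + (-15)*z^21 + 17*z^22 + 23*z^23 + (-6)*z^24 + (-19)*z^25 + (-10)*z^26 + (-3)*z^27 + 12*z^28, by simp only [QIII_2, F14]; ring⟩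

lemma bIII_2_15 (z : ℤ) : Bz (QIII_2 z) (F15 z) 3 :=
  ⟨2*z^2 + (-2)*z^3 + 1*z^4 + 1*z^5 + (-2)*z^6 + 2*z^7, 3 + 3*z + 5*z^2 + 3*z^4 + (-1)*z^5 + (-1)*z^7 + 1*z^8 + (-1)*z^9 + (-1)*z^10 + (-1)*z^11 + (-1)*z^12 + (-1)*z^13 + (-1)*z^14 + (-1)*z^15 + (-1)*z^16 + 1*z^17 + (-1)*z^18 + (-1)*z^20 + (-1)*z^21 + (-2)*z^22 + 1*z^23 + (-1)*z^26 + (-2)*z^28, by simp only [QIII_2, F15]; ring⟩

lemma bIII_2_18 (z : ℤ) : Bz (QIII_2 z) (F18 z) 37 :=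
  ⟨9 + (-34)*z + 1*z^2 + 16*z^3 + 30*z^4 + (-27)*z^5, 46 + (-34)*z + 10*z^2 + 37*z^3 + (-28)*z^4 + (-25)*z^5 + 4*z^6 + 17*z^7 + 18*z^8 + (-31)*z^9 + 2*z^10 + 4*z^11 + 26*z^12 + (-25)*z^13 + 4*z^14 + 26*z^15 + (-16)*z^16 + (-39)*z^17 + 61*z^18 + (-1)*z^19 + (-25)*z^20 + 4*z^21 + 26*z^22 + (-25)*z^23 + 4*z^24 + 26*z^25 + (-16)*z^26 + (-30)*z^27 + 27*z^28, by simp only [QIII_2, F18]; ring⟩

lemma bIII_2_20 (z : ℤ) : Bz (QIII_2 z) (F20 z) 1 :=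
  ⟨(-1) + 1*z + 1*z^2 + (-1)*z^3 + (-1)*z^4 + 1*z^5, 1*z + 2*z^7 + (-2)*z^8 + 2*z^13 + (-2)*z^14 + 2*z^19 + (-2)*z^20 + 1*z^25 + (-1)*z^26, by simp only [QIII_2, F20]; ring⟩

lemma bIII_2_24 (z : ℤ) : Bz (QIII_2 z) (F24 z) 2 :=
  ⟨(-1) + 1*z + (-1)*z^6 + 1*z^7, 1 + 1*z + (-1)*z^2 + 1*z^4 + 1*z^5 + (-1)*z^6 + 2*z^7 + (-2)*z^8 + 3*z^11 + (-3)*z^12 + 1*z^13 + (-1)*z^14 + 1*z^15 + (-1)*z^16 + 3*z^17 + (-3)*z^18 + 2*z^21 + (-2)*z^22 + 1*z^23 + (-1)*z^24 + 1*z^27 + (-1)*z^28, by simp only [QIII_2, F24]; ring⟩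

lemma bIII_2_30 (z : ℤ) : Bz (QIII_2 z) (F30 z) 2131 :=
  ⟨(-1100) + 382*z + 268*z^2 + 150*z^3 + 123*z^4 + 171*z^5 + (-304)*z^6 + (-86)*z^7, 1031 + (-649)*z + (-183)*z^2 + 646*z^3 + (-591)*z^4 + 661*z^5 + (-228)*z^6 + 795*z^7 + (-703)*z^8 + 1013*z^9 + (-617)*z^10 + 1013*z^11 + (-617)*z^12 + 1013*z^13 + (-617)*z^14 + (-87)*z^15 + 865*z^16 + (-201)*z^17 + (-353)*z^18 + 1254*z^19 + (-1519)*z^20 + 1043*z^21 + 40*z^22 + (-155)*z^23 + (-198)*z^24 + 352*z^25 + (-389)*z^26 + 218*z^27 + 86*z^28, by simp only [QIII_2, F30]; ring⟩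

lemma bigIII_2 (s : ℤ) (hs : 0 ≤ s) : (932696650958842471656273739776 : ℤ) < QIII_2 (s + 11) := by
  have h : 0 ≤ 653613541704556930280492176275 + 4182090019458133299856037479605*s + 5322659514099207196349879079050*s^2 + 4354902898370546874891212593985*s^3 + 2573351550194191382578238729386*s^4 + 1169705191005625689189001201589*s^5 + 425347325175404243759394465460*s^6 + 127051794453048330077334112860*s^7 + 31762947845182821275081773073*s^8 + 6737594873329730919321437053*s^9 + 1225017232769127239491437949*s^10 + 192358075914327831633254845*s^11 + 26230646522707112978256622*s^12 + 3118328591408596444876614*s^13 + 323982190159040963367158*s^14 + 29452926308025745884766*s^15 + 2342846407282618820638*s^16 + 162871675219302318094*s^17 + 9871010613932449498*s^18 + 519526874261922066*s^19 + 23614857917460656*s^20 + 920059399320358*s^21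 + 30415186753633*s^22 + 841526906221*s^23 + 19125611505*s^24 + 347738391*s^25 + 4863474*s^26 + 49126*s^27 + 319*s^28 + 1*s^29 := by positivity
  have e : QIII_2 (s + 11) - (932696650958842471656273739776 + 1) = 653613541704556930280492176275 + 4182090019458133299856037479605*s + 5322659514099207196349879079050*s^2 + 4354902898370546874891212593985*s^3 + 2573351550194191382578238729386*s^4 + 1169705191005625689189001201589*s^5 + 425347325175404243759394465460*s^6 + 127051794453048330077334112860*s^7 + 31762947845182821275081773073*s^8 + 6737594873329730919321437053*s^9 + 1225017232769127239491437949*s^10 + 192358075914327831633254845*s^11 + 26230646522707112978256622*s^12 + 3118328591408596444876614*s^13 + 323982190159040963367158*s^14 + 29452926308025745884766*s^15 + 2342846407282618820638*s^16 + 162871675219302318094*s^17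 + 9871010613932449498*s^18 + 519526874261922066*s^19 + 23614857917460656*s^20 + 920059399320358*s^21 + 30415186753633*s^22 + 841526906221*s^23 + 19125611505*s^24 + 347738391*s^25 + 4863474*s^26 + 49126*s^27 + 319*s^28 + 1*s^29 := by
    simp only [QIII_2]; ring
  linarith

set_option maxHeartbeats 4000000 in
theorem noIII_2 {q : ℕ} (hq : IsPrimePow q) : ¬ (k08 q + a07 q + k0 q + 2) ∣ NN8 q := by
  intro hd
  have hq2 : 2 ≤ q := hq.two_le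
  have hz1 : 1 ≤ q := by omega
  by_cases hB : q < 11
  · refine chk_ok (g := fun q => k08' q + a07' q + k0' q + 2) (B := 11) (by decide +kernel) hq2 hB ?_
    show k08' q + a07' q + k0' q + 2 ∣ NN8 q
    rw [← k08_eq hz1, ← a07_eq hz1, ← k0_eq hz1]
    exact hd
  · obtain ⟨p, k, hp, hk, hpk⟩ := (isPrimePow_nat_iff q).mp hq
    have hd' : ((k08 q + a07 q + k0 q + 2 : ℕ) : ℤ) ∣ (NN8 q : ℤ) := Int.natCast_dvd_natCast.mpr hd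
    have e1 : ((k08 q + a07 q + k0 q + 2 : ℕ) : ℤ) = (1) * QIII_2 (q : ℤ) := by
      push_cast
      rw [k08_cast hz1, a07_cast hz1, k0_cast hz1]
      simp only [QIII_2]
      ring
    rw [e1, NN8_cast hz1, NN8_fac] at hd'
    have hQ := Dvd.dvd.trans (Dvd.intro_left _ rfl) hd'
    have hz : (q : ℤ) = (p : ℤ) ^ k := by rw [← hpk]; push_cast; rfl
    have hqB : (11 : ℤ) ≤ (q : ℤ) := by exact_mod_cast not_lt.mp hB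
    have hR : QIII_2 (q : ℤ) = (-1 : ℤ) + (q : ℤ) * ((-1)*(q : ℤ) + (-1)*(q : ℤ)^2 + (-1)*(q : ℤ)^3 + (-1)*(q : ℤ)^4 + 1*(q : ℤ)^6 + 1*(q : ℤ)^10 + 1*(q : ℤ)^12 + 1*(q : ℤ)^16 + 1*(q : ℤ)^18 + 1*(q : ℤ)^22 + 1*(q : ℤ)^28) := by
      simp only [QIII_2]; ring
    have hgo := cofree' hp hz hR (nd (c0 := 1) (by linarith) (by norm_num)).2 hQ
    have h1 : QIII_2 (q : ℤ) ∣ 932696650958842471656273739776 := by
      have h2 := chainE (bIII_2_1 _) (bIII_2_2 _) (bIII_2_3 _) (bIII_2_4 _) (bIII_2_5 _) (bIII_2_6 _) (bIII_2_7 _) (bIII_2_8 _) (bIII_2_9 _) (bIII_2_10 _) (bIII_2_12 _) (bIII_2_14 _) (bIII_2_15 _) (bIII_2_18 _) (bIII_2_20 _) (bIII_2_24 _) (bIII_2_30 _) hgo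
      have e2 : ((((((((((((((((((((-1 : ℤ)) * 2^8) * 8^8) * 4^4) * 2^4) * 3^2) * 4^4) * 1^1) * 2^2) * 19^1) * 61^2) * 2^2) * 43^1) * 3^1) * 37^1) * 1^1) * 2^1) * 2131^1) * 1) = -932696650958842471656273739776 := by norm_num
      rw [e2, dvd_neg] at h2
      exact h2
    obtain ⟨s, rfl⟩ : ∃ s, q = s + 11 := ⟨q - 11, by omega⟩
    have hbig := bigIII_2 (s : ℤ) (Int.natCast_nonneg s)
    have e3 : ((s + 11 : ℕ) : ℤ) = (s : ℤ) + 11 := by push_cast; ring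
    rw [e3] at h1
    have hle := Int.le_of_dvd (by norm_num) h1
    linarith

end sIII_2

section sIII_3

/-- The cofactor. -/
def QIII_3 (z : ℤ) : ℤ := (-1) + (-1)*z + (-1)*z^2 + (-1)*z^3 + 1*z^5 + 1*z^9 + 1*z^11 + 1*z^15 + 1*z^17 + 1*z^21 + 1*z^27

lemma bIII_3_1 (z : ℤ) : Bz (QIII_3 z) (F1 z) 3 :=
  ⟨1, (-4) + (-5)*z + (-6)*z^2 + (-7)*z^3 + (-7)*z^4 + (-6)*z^5 + (-6)*z^6 + (-6)*z^7 + (-6)*z^8 + (-5)*z^9 + (-5)*z^10 + (-4)*z^11 + (-4)*z^12 + (-4)*z^13 + (-4)*z^14 + (-3)*z^15 + (-3)*z^16 + (-2)*z^17 + (-2)*z^18 + (-2)*z^19 + (-2)*z^20 + (-1)*z^21 + (-1)*z^22 + (-1)*z^23 + (-1)*z^24 + (-1)*z^25 + (-1)*z^26, by simp only [QIII_3, F1]; ring⟩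

lemma bIII_3_2 (z : ℤ) : Bz (QIII_3 z) (F2 z) 7 :=
  ⟨(-1), 6 + (-7)*z + 6*z^2 + (-7)*z^3 + 7*z^4 + (-6)*z^5 + 6*z^6 + (-6)*z^7 + 6*z^8 + (-5)*z^9 + 5*z^10 + (-4)*z^11 + 4*z^12 + (-4)*z^13 + 4*z^14 + (-3)*z^15 + 3*z^16 + (-2)*z^17 + 2*z^18 + (-2)*z^19 + 2*z^20 + (-1)*z^21 + 1*z^22 + (-1)*z^23 + 1*z^24 + (-1)*z^25 + 1*z^26, by simp only [QIII_3, F2]; ring⟩

lemma bIII_3_3 (z : ℤ) : Bz (QIII_3 z) (F3 z) 3 :=
  ⟨1 + 1*z, 4 + (-2)*z + 4*z^3 + (-3)*z^4 + (-2)*z^5 + 4*z^6 + (-2)*z^7 + (-2)*z^8 + 3*z^9 + (-2)*z^10 + (-2)*z^11 + 3*z^12 + (-1)*z^13 + (-2)*z^14 + 2*z^15 + (-1)*z^16 + (-2)*z^17 + 2*z^18 + (-2)*z^20 + 1*z^21 + (-1)*z^23 + 1*z^24 + (-1)*z^26, by simp only [QIII_3, F3]; ring⟩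

lemma bIII_3_4 (z : ℤ) : Bz (QIII_3 z) (F4 z) 1 :=
  ⟨(-1)*z, 1 + (-1)*z + (-2)*z^2 + 1*z^4 + 1*z^10 + 1*z^16 + 1*z^22 + (-1)*z^24 + 1*z^26, by simp only [QIII_3, F4]; ring⟩

lemma bIII_3_5 (z : ℤ) : Bz (QIII_3 z) (F5 z) 2 :=
  ⟨(-1)*z^2, 2 + (-2)*z + (-1)*z^2 + 2*z^5 + (-1)*z^6 + (-1)*z^8 + 2*z^10 + (-1)*z^12 + (-1)*z^14 + 2*z^15 + (-1)*z^18 + 1*z^20 + (-1)*z^24 + 1*z^25, by simp only [QIII_3, F5]; ring⟩

lemma bIII_3_6 (z : ℤ) : Bz (QIII_3 z) (F6 z) 5 :=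
  ⟨(-1) + 1*z, 4 + 4*z + (-4)*z^3 + (-3)*z^4 + 2*z^5 + 4*z^6 + 2*z^7 + (-2)*z^8 + (-3)*z^9 + (-2)*z^10 + 2*z^11 + 3*z^12 + 1*z^13 + (-2)*z^14 + (-2)*z^15 + (-1)*z^16 + 2*z^17 + 2*z^18 + (-2)*z^20 + (-1)*z^21 + 1*z^23 + 1*z^24 + (-1)*z^26, by simp only [QIII_3, F6]; ring⟩

lemma bIII_3_7 (z : ℤ) : Bz (QIII_3 z) (F7 z) 1 :=
  ⟨(-1) + (-1)*z^4, (-1)*z + 1*z^5 + (-1)*z^6 + 2*z^9 + (-2)*z^10 + 1*z^11 + (-1)*z^14 + 2*z^15 + (-1)*z^17 + 1*z^19 + (-1)*z^20 + 1*z^21 + (-1)*z^24 + 1*z^25, by simp only [QIII_3, F7]; ring⟩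

lemma bIII_3_8 (z : ℤ) : Bz (QIII_3 z) (F8 z) 1 :=
  ⟨(-1) + 1*z^2 + (-1)*z^3, (-1)*z + (-1)*z^3 + 2*z^5 + (-1)*z^6 + 1*z^8 + (-1)*z^9 + 1*z^10 + 1*z^15 + 1*z^18 + (-2)*z^19 + 1*z^20 + 1*z^21 + (-1)*z^22 + 1*z^23 + (-1)*z^25 + 1*z^26, by simp only [QIII_3, F8]; ring⟩

lemma bIII_3_9 (z : ℤ) : Bz (QIII_3 z) (F9 z) 3 :=
  ⟨2 + 1*z^2 + 1*z^3 + 2*z^5, 5 + 2*z + 3*z^2 + (-1)*z^3 + (-1)*z^5 + (-1)*z^6 + (-1)*z^7 + (-1)*z^8 + (-1)*z^10 + (-1)*z^11 + 1*z^13 + (-1)*z^14 + (-2)*z^15 + (-2)*z^16 + (-1)*z^17 + 1*z^18 + (-1)*z^20 + (-1)*z^21 + 1*z^23 + (-1)*z^24 + (-2)*z^26, by simp only [QIII_3, F9]; ring⟩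

lemma bIII_3_10 (z : ℤ) : Bz (QIII_3 z) (F10 z) 22 :=
  ⟨(-2) + (-2)*z + 5*z^2 + 1*z^3, 20 + 16*z + (-3)*z^2 + 3*z^3 + 6*z^4 + (-8)*z^5 + (-5)*z^6 + 1*z^7 + (-9)*z^8 + (-5)*z^9 + 12*z^10 + 4*z^11 + (-3)*z^12 + 5*z^13 + (-1)*z^14 + (-11)*z^15 + 2*z^17 + (-7)*z^18 + (-3)*z^19 + 5*z^20 + 1*z^21 + 2*z^22 + 4*z^23 + (-3)*z^24 + (-6)*z^25 + (-1)*z^26, by simp only [QIII_3, F10]; ring⟩

lemma bIII_3_12 (z : ℤ) : Bz (QIII_3 z) (F12 z) 1 :=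
  ⟨2 + (-2)*z + (-1)*z^2 + 2*z^3, 3 + 2*z^2 + 1*z^3 + (-2)*z^4 + (-2)*z^9 + 2*z^10 + (-3)*z^11 + 2*z^12 + (-2)*z^14 + 1*z^15 + (-2)*z^16 + (-2)*z^21 + 2*z^22 + (-1)*z^23 + 1*z^25 + (-2)*z^26, by simp only [QIII_3, F12]; ring⟩

lemma bIII_3_14 (z : ℤ) : Bz (QIII_3 z) (F14 z) 7 :=
  ⟨(-3) + 6*z + (-2)*z^2 + (-2)*z^3 + (-1)*z^4 + 4*z^5, 4 + 7*z + 4*z^2 + 3*z^5 + (-3)*z^6 + (-4)*z^7 + 4*z^8 + 6*z^9 + (-6)*z^10 + (-5)*z^11 + (-2)*z^12 + 2*z^13 + 5*z^14 + (-2)*z^15 + (-12)*z^16 + 1*z^17 + 6*z^18 + 1*z^19 + (-1)*z^20 + (-3)*z^21 + (-4)*z^22 + 4*z^23 + 3*z^24 + (-3)*z^25 + (-4)*z^26, by simp only [QIII_3, F14]; ring⟩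

lemma bIII_3_15 (z : ℤ) : Bz (QIII_3 z) (F15 z) 1381 :=
  ⟨(-222) + (-351)*z + 643*z^2 + (-74)*z^3 + 31*z^4 + (-86)*z^5 + (-110)*z^6 + 274*z^7, 1159 + 586*z + 656*z^2 + (-507)*z^3 + 315*z^4 + (-178)*z^5 + 511*z^6 + (-342)*z^7 + 237*z^8 + (-342)*z^9 + 237*z^10 + (-342)*z^11 + 237*z^12 + (-564)*z^13 + (-336)*z^14 + (-272)*z^15 + 455*z^16 + 258*z^17 + 330*z^18 + (-156)*z^19 + (-328)*z^20 + (-326)*z^21 + 129*z^22 + 165*z^23 + (-78)*z^24 + (-164)*z^25 + (-274)*z^26, by simp only [QIII_3, F15]; ring⟩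

lemma bIII_3_18 (z : ℤ) : Bz (QIII_3 z) (F18 z) 163 :=
  ⟨(-86) + 28*z + 25*z^2 + 21*z^3 + (-22)*z^4 + (-8)*z^5, 77 + (-58)*z + (-33)*z^2 + 65*z^3 + (-6)*z^4 + 69*z^5 + (-49)*z^6 + (-3)*z^7 + 73*z^8 + (-6)*z^9 + (-17)*z^10 + 65*z^11 + (-6)*z^12 + (-17)*z^13 + (-21)*z^14 + 108*z^15 + (-20)*z^16 + (-25)*z^17 + 65*z^18 + (-6)*z^19 + (-17)*z^20 + 65*z^21 + (-6)*z^22 + (-17)*z^23 + (-21)*z^24 + 22*z^25 + 8*z^26, by simp only [QIII_3, F18]; ring⟩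

lemma bIII_3_20 (z : ℤ) : Bz (QIII_3 z) (F20 z) 2 :=
  ⟨(-1)*z + 1*z^2 + (-1)*z^6 + 1*z^7, 2 + (-1)*z + 2*z^2 + (-1)*z^3 + 1*z^5 + (-1)*z^9 + 1*z^11 + (-1)*z^15 + 1*z^17 + (-1)*z^21 + 1*z^23 + (-1)*z^24 + 1*z^25 + (-1)*z^26, by simp only [QIII_3, F20]; ring⟩

lemma bIII_3_24 (z : ℤ) : Bz (QIII_3 z) (F24 z) 1 :=
  ⟨(-2)*z + 1*z^3 + 1*z^4 + 1*z^5 + (-1)*z^6 + (-1)*z^7, 1 + (-2)*z + (-2)*z^2 + (-1)*z^3 + 1*z^4 + 1*z^5 + 2*z^6 + (-1)*z^7 + (-2)*z^8 + 4*z^10 + 1*z^11 + (-1)*z^12 + (-2)*z^13 + 2*z^15 + 3*z^16 + (-1)*z^17 + (-2)*z^18 + 2*z^20 + 1*z^21 + (-1)*z^23 + (-1)*z^24 + 1*z^25 + 1*z^26, by simp only [QIII_3, F24]; ring⟩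

lemma bIII_3_30 (z : ℤ) : Bz (QIII_3 z) (F30 z) 5 :=
  ⟨2 + 3*z + (-5)*z^2 + (-1)*z^4 + (-2)*z^5 + 4*z^7, 7 + (-2)*z + 2*z^2 + 5*z^3 + (-3)*z^4 + (-1)*z^6 + 4*z^7 + (-5)*z^8 + 4*z^9 + (-5)*z^10 + 4*z^11 + (-5)*z^12 + 6*z^13 + (-4)*z^14 + (-2)*z^15 + 3*z^16 + (-2)*z^17 + (-4)*z^18 + 8*z^19 + (-8)*z^20 + 2*z^21 + 1*z^22 + (-1)*z^23 + (-2)*z^24 + 4*z^25 + (-4)*z^26, by simp only [QIII_3, F30]; ring⟩

lemma bigIII_3 (s : ℤ) (hs : 0 ≤ s) : (175236804381144938424300000 : ℤ) < QIII_3 (s + 10) := by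
  have h : 0 ≤ 824764195719855162575798888 + 2700002100171500110900049679*s + 3510002100137050055360009969*s^2 + 2925001330068455016584000999*s^3 + 1755000598523936503312600050*s^4 + 807300203496218030463260001*s^5 + 296010054265242605046284000*s^6 + 88803011628195123503303600*s^7 + 22200752034924374350165090*s^8 + 4686825293932436005005501*s^9 + 843628535271794780300110*s^10 + 130378953527172389650001*s^11 + 17383860293930619255000*s^12 + 2005830020349023810500*s^13 + 200583001162800680150*s^14 + 17383860054264013601*s^15 + 1303789502034900170*s^16 + 84362850059850001*s^17 + 4686825001330000*s^18 + 222007500021000*s^19 + 8880300000210*s^20 + 296010000001*s^21 + 8073000000*s^22 + 175500000*s^23 + 2925000*s^24 + 35100*s^25 + 270*s^26 + 1*s^27 := by positivity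
  have e : QIII_3 (s + 10) - (175236804381144938424300000 + 1) = 824764195719855162575798888 + 2700002100171500110900049679*s + 3510002100137050055360009969*s^2 + 2925001330068455016584000999*s^3 + 1755000598523936503312600050*s^4 + 807300203496218030463260001*s^5 + 296010054265242605046284000*s^6 + 88803011628195123503303600*s^7 + 22200752034924374350165090*s^8 + 4686825293932436005005501*s^9 + 843628535271794780300110*s^10 + 130378953527172389650001*s^11 + 17383860293930619255000*s^12 + 2005830020349023810500*s^13 + 200583001162800680150*s^14 + 17383860054264013601*s^15 + 1303789502034900170*s^16 + 84362850059850001*s^17 + 4686825001330000*s^18 + 222007500021000*s^19 + 8880300000210*s^20 + 296010000001*s^21 + 8073000000*s^22 + 175500000*s^23 + 2925000*s^24 + 35100*s^25 + 270*s^26 + 1*s^27 := by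
    simp only [QIII_3]; ring
  linarith

set_option maxHeartbeats 4000000 in
theorem noIII_3 {q : ℕ} (hq : IsPrimePow q) : ¬ (k08 q + a07 q + k0 q + 3) ∣ NN8 q := by
  intro hd
  have hq2 : 2 ≤ q := hq.two_le
  have hz1 : 1 ≤ q := by omega
  by_cases hB : q < 10
  · refine chk_ok (g := fun q => k08' q + a07' q + k0' q + 3) (B := 10) (by decide +kernel) hq2 hB ?_
    show k08' q + a07' q + k0' q + 3 ∣ NN8 q
    rw [← k08_eq hz1, ← a07_eq hz1, ← k0_eq hz1]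
    exact hd
  · obtain ⟨p, k, hp, hk, hpk⟩ := (isPrimePow_nat_iff q).mp hq
    have hd' : ((k08 q + a07 q + k0 q + 3 : ℕ) : ℤ) ∣ (NN8 q : ℤ) := Int.natCast_dvd_natCast.mpr hd
    have e1 : ((k08 q + a07 q + k0 q + 3 : ℕ) : ℤ) = (1*(q : ℤ)^2) * QIII_3 (q : ℤ) := by
      push_cast
      rw [k08_cast hz1, a07_cast hz1, k0_cast hz1]
      simp only [QIII_3]
      ring
    rw [e1, NN8_cast hz1, NN8_fac] at hd'
    have hQ := Dvd.dvd.trans (Dvd.intro_left _ rfl) hd'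
    have hz : (q : ℤ) = (p : ℤ) ^ k := by rw [← hpk]; push_cast; rfl
    have hqB : (10 : ℤ) ≤ (q : ℤ) := by exact_mod_cast not_lt.mp hB
    have hR : QIII_3 (q : ℤ) = (-1 : ℤ) + (q : ℤ) * ((-1) + (-1)*(q : ℤ) + (-1)*(q : ℤ)^2 + 1*(q : ℤ)^4 + 1*(q : ℤ)^8 + 1*(q : ℤ)^10 + 1*(q : ℤ)^14 + 1*(q : ℤ)^16 + 1*(q : ℤ)^20 + 1*(q : ℤ)^26) := by
      simp only [QIII_3]; ring
    have hgo := cofree' hp hz hR (nd (c0 := 1) (by linarith) (by norm_num)).2 hQ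
    have h1 : QIII_3 (q : ℤ) ∣ 175236804381144938424300000 := by
      have h2 := chainE (bIII_3_1 _) (bIII_3_2 _) (bIII_3_3 _) (bIII_3_4 _) (bIII_3_5 _) (bIII_3_6 _) (bIII_3_7 _) (bIII_3_8 _) (bIII_3_9 _) (bIII_3_10 _) (bIII_3_12 _) (bIII_3_14 _) (bIII_3_15 _) (bIII_3_18 _) (bIII_3_20 _) (bIII_3_24 _) (bIII_3_30 _) hgo
      have e2 : ((((((((((((((((((((-1 : ℤ)) * 3^8) * 7^8) * 3^4) * 1^4) * 2^2) * 5^4) * 1^1) * 1^2) * 3^1) * 22^2) * 1^2) * 7^1) * 1381^1) * 163^1) * 2^1) * 1^1) * 5^1) * 1) = -175236804381144938424300000 := by norm_num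
      rw [e2, dvd_neg] at h2
      exact h2
    obtain ⟨s, rfl⟩ : ∃ s, q = s + 10 := ⟨q - 10, by omega⟩
    have hbig := bigIII_3 (s : ℤ) (Int.natCast_nonneg s)
    have e3 : ((s + 10 : ℕ) : ℤ) = (s : ℤ) + 10 := by push_cast; ring
    rw [e3] at h1
    have hle := Int.le_of_dvd (by norm_num) h1
    linarith

end sIII_3

section sIII_4

/-- The cofactor. -/
def QIII_4 (z : ℤ) : ℤ := 1 + (-1)*z^2 + (-1)*z^3 + (-1)*z^4 + (-1)*z^5 + 1*z^7 + 1*z^11 + 1*z^13 + 1*z^17 + 1*z^19 + 1*z^23 + 1*z^29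

lemma bIII_4_1 (z : ℤ) : Bz (QIII_4 z) (F1 z) 4 :=
  ⟨1, (-3) + (-3)*z + (-4)*z^2 + (-5)*z^3 + (-6)*z^4 + (-7)*z^5 + (-7)*z^6 + (-6)*z^7 + (-6)*z^8 + (-6)*z^9 + (-6)*z^10 + (-5)*z^11 + (-5)*z^12 + (-4)*z^13 + (-4)*z^14 + (-4)*z^15 + (-4)*z^16 + (-3)*z^17 + (-3)*z^18 + (-2)*z^19 + (-2)*z^20 + (-2)*z^21 + (-2)*z^22 + (-1)*z^23 + (-1)*z^24 + (-1)*z^25 + (-1)*z^26 + (-1)*z^27 + (-1)*z^28, by simp only [QIII_4, F1]; ring⟩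

lemma bIII_4_2 (z : ℤ) : Bz (QIII_4 z) (F2 z) 6 :=
  ⟨(-1), 7 + (-7)*z + 6*z^2 + (-7)*z^3 + 6*z^4 + (-7)*z^5 + 7*z^6 + (-6)*z^7 + 6*z^8 + (-6)*z^9 + 6*z^10 + (-5)*z^11 + 5*z^12 + (-4)*z^13 + 4*z^14 + (-4)*z^15 + 4*z^16 + (-3)*z^17 + 3*z^18 + (-2)*z^19 + 2*z^20 + (-2)*z^21 + 2*z^22 + (-1)*z^23 + 1*z^24 + (-1)*z^25 + 1*z^26 + (-1)*z^27 + 1*z^28, by simp only [QIII_4, F2]; ring⟩

lemma bIII_4_3 (z : ℤ) : Bz (QIII_4 z) (F3 z) 2 :=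
  ⟨(-1), 3 + (-3)*z + (-1)*z^2 + 3*z^3 + (-3)*z^4 + (-1)*z^5 + 4*z^6 + (-2)*z^7 + (-2)*z^8 + 4*z^9 + (-2)*z^10 + (-1)*z^11 + 3*z^12 + (-1)*z^13 + (-2)*z^14 + 3*z^15 + (-1)*z^16 + (-1)*z^17 + 2*z^18 + (-2)*z^20 + 2*z^21 + (-1)*z^23 + 1*z^24 + (-1)*z^26 + 1*z^27, by simp only [QIII_4, F3]; ring⟩

lemma bIII_4_4 (z : ℤ) : Bz (QIII_4 z) (F4 z) 2 :=
  ⟨1 + 1*z, 1 + (-1)*z + 3*z^3 + 2*z^4 + (-1)*z^5 + (-1)*z^6 + (-1)*z^11 + (-1)*z^12 + (-1)*z^17 + (-1)*z^18 + (-1)*z^23 + (-1)*z^24 + 1*z^25 + 1*z^26 + (-1)*z^27 + (-1)*z^28, by simp only [QIII_4, F4]; ring⟩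

lemma bIII_4_5 (z : ℤ) : Bz (QIII_4 z) (F5 z) 1 :=
  ⟨(-1), 2 + (-2)*z + (-1)*z^2 + 2*z^5 + (-1)*z^6 + (-1)*z^8 + 2*z^10 + (-1)*z^12 + (-1)*z^14 + 2*z^15 + (-1)*z^18 + 1*z^20 + (-1)*z^24 + 1*z^25, by simp only [QIII_4, F5]; ring⟩

lemma bIII_4_6 (z : ℤ) : Bz (QIII_4 z) (F6 z) 6 :=
  ⟨1, 5 + 5*z + 1*z^2 + (-3)*z^3 + (-3)*z^4 + 1*z^5 + 4*z^6 + 2*z^7 + (-2)*z^8 + (-4)*z^9 + (-2)*z^10 + 1*z^11 + 3*z^12 + 1*z^13 + (-2)*z^14 + (-3)*z^15 + (-1)*z^16 + 1*z^17 + 2*z^18 + (-2)*z^20 + (-2)*z^21 + 1*z^23 + 1*z^24 + (-1)*z^26 + (-1)*z^27, by simp only [QIII_4, F6]; ring⟩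

lemma bIII_4_7 (z : ℤ) : Bz (QIII_4 z) (F7 z) 1 :=
  ⟨3 + 2*z^2 + 1*z^3 + 1*z^4 + 2*z^5, (-2) + 2*z + 1*z^2 + 1*z^3 + 2*z^4 + (-3)*z^7 + 3*z^8 + (-2)*z^9 + 1*z^10 + (-3)*z^11 + 2*z^12 + (-3)*z^13 + 1*z^14 + 1*z^15 + (-2)*z^16 + (-1)*z^18 + (-1)*z^19 + 1*z^20 + (-1)*z^21 + 1*z^22 + (-3)*z^23 + 2*z^24 + (-1)*z^25 + 1*z^27 + (-2)*z^28, by simp only [QIII_4, F7]; ring⟩

lemma bIII_4_8 (z : ℤ) : Bz (QIII_4 z) (F8 z) 6 :=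
  ⟨3 + (-1)*z + 1*z^2 + 1*z^3, 3 + 1*z + 2*z^2 + 1*z^3 + 3*z^5 + (-1)*z^6 + (-2)*z^7 + 2*z^8 + (-4)*z^9 + (-1)*z^11 + (-1)*z^12 + (-3)*z^17 + 1*z^18 + (-4)*z^19 + 2*z^21 + (-2)*z^22 + 1*z^23 + 1*z^24 + (-3)*z^25 + 1*z^26 + (-1)*z^27 + (-1)*z^28, by simp only [QIII_4, F8]; ring⟩

lemma bIII_4_9 (z : ℤ) : Bz (QIII_4 z) (F9 z) 19 :=
  ⟨11 + (-10)*z + (-3)*z^2 + 12*z^3 + (-4)*z^4 + (-5)*z^5, 8 + 10*z + 14*z^2 + (-19)*z^3 + (-8)*z^4 + 1*z^5 + 6*z^6 + (-13)*z^7 + (-2)*z^8 + 7*z^9 + 4*z^10 + (-6)*z^11 + 2*z^12 + 1*z^13 + 6*z^14 + (-2)*z^15 + (-12)*z^16 + (-7)*z^17 + 15*z^18 + 3*z^19 + (-1)*z^20 + (-6)*z^21 + 2*z^22 + 1*z^23 + 6*z^24 + (-2)*z^25 + (-12)*z^26 + 4*z^27 + 5*z^28, by simp only [QIII_4, F9]; ring⟩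

lemma bIII_4_10 (z : ℤ) : Bz (QIII_4 z) (F10 z) 421 :=
  ⟨57 + 38*z + (-20)*z^2 + 50*z^3, 364 + 326*z + 39*z^2 + 122*z^3 + 120*z^4 + (-164)*z^5 + (-133)*z^6 + 2*z^7 + (-137)*z^8 + (-88)*z^9 + 134*z^10 + 26*z^11 + (-97)*z^12 + 62*z^13 + (-37)*z^14 + (-202)*z^15 + (-56)*z^16 + (-10)*z^17 + (-157)*z^18 + (-38)*z^19 + 77*z^20 + (-12)*z^21 + (-20)*z^22 + 50*z^23 + (-57)*z^24 + (-95)*z^25 + (-18)*z^26 + (-30)*z^27 + (-50)*z^28, by simp only [QIII_4, F10]; ring⟩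

lemma bIII_4_12 (z : ℤ) : Bz (QIII_4 z) (F12 z) 2 :=
  ⟨1 + (-1)*z + 1*z^3, 1 + 1*z + 2*z^2 + 1*z^4 + (-1)*z^6 + (-1)*z^11 + 1*z^12 + (-2)*z^13 + 1*z^14 + (-1)*z^15 + (-1)*z^16 + (-1)*z^18 + (-1)*z^23 + 1*z^24 + (-1)*z^25 + (-1)*z^28, by simp only [QIII_4, F12]; ring⟩

lemma bIII_4_14 (z : ℤ) : Bz (QIII_4 z) (F14 z) 43 :=
  ⟨23 + (-18)*z + 6*z^2 + (-3)*z^3 + 13*z^4 + 6*z^5, 20 + 38*z + 35*z^2 + 25*z^3 + 6*z^4 + (-23)*z^7 + (-5)*z^8 + 12*z^9 + (-3)*z^10 + (-33)*z^11 + (-24)*z^12 + (-17)*z^13 + 15*z^14 + 7*z^15 + (-34)*z^16 + (-36)*z^17 + 9*z^18 + 7*z^19 + 9*z^20 + (-13)*z^21 + (-29)*z^22 + (-5)*z^23 + 12*z^24 + (-3)*z^25 + (-10)*z^26 + (-19)*z^27 + (-6)*z^28, by simp only [QIII_4, F14]; ring⟩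

lemma bIII_4_15 (z : ℤ) : Bz (QIII_4 z) (F15 z) 12871 :=
  ⟨1244 + 1198*z + 2062*z^2 + (-1868)*z^3 + 2911*z^4 + 109*z^5 + (-1338)*z^6 + 3372*z^7, 11627 + 10429*z + 9611*z^2 + 2294*z^3 + 5085*z^4 + (-3197)*z^5 + (-668)*z^6 + (-2845)*z^7 + 561*z^8 + (-4879)*z^9 + (-2811)*z^10 + (-4879)*z^11 + (-2811)*z^12 + (-4879)*z^13 + (-2811)*z^14 + (-3635)*z^15 + (-369)*z^16 + (-375)*z^17 + (-1419)*z^18 + (-1774)*z^19 + (-2903)*z^20 + (-4395)*z^21 + (-2730)*z^22 + 267*z^23 + (-1152)*z^24 + (-1682)*z^25 + (-2143)*z^26 + (-2034)*z^27 + (-3372)*z^28, by simp only [QIII_4, F15]; ring⟩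

lemma bIII_4_18 (z : ℤ) : Bz (QIII_4 z) (F18 z) 111 :=
  ⟨21 + (-40)*z + 11*z^2 + (-12)*z^3 + 44*z^4 + (-1)*z^5, 90 + 40*z + 10*z^2 + 83*z^3 + (-12)*z^4 + (-9)*z^5 + (-4)*z^6 + (-31)*z^7 + 52*z^8 + (-55)*z^9 + (-8)*z^10 + (-4)*z^11 + (-10)*z^12 + (-9)*z^13 + (-4)*z^14 + (-10)*z^15 + 12*z^16 + (-65)*z^17 + 41*z^18 + (-11)*z^19 + (-9)*z^20 + (-4)*z^21 + (-10)*z^22 + (-9)*z^23 + (-4)*z^24 + (-10)*z^25 + 12*z^26 + (-44)*z^27 + 1*z^28, by simp only [QIII_4, F18]; ring⟩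

lemma bIII_4_20 (z : ℤ) : Bz (QIII_4 z) (F20 z) 761 :=
  ⟨217 + (-235)*z + 41*z^2 + 159*z^3 + (-113)*z^4 + (-67)*z^5 + 80*z^6 + 236*z^7, 544 + 235*z + 720*z^2 + 58*z^3 + 312*z^4 + 72*z^5 + (-92)*z^6 + (-184)*z^7 + 66*z^8 + (-338)*z^9 + (-160)*z^10 + 72*z^11 + (-92)*z^12 + (-184)*z^13 + 66*z^14 + (-338)*z^15 + (-160)*z^16 + 72*z^17 + (-92)*z^18 + (-184)*z^19 + 66*z^20 + (-338)*z^21 + (-160)*z^22 + 72*z^23 + (-92)*z^24 + 33*z^25 + (-169)*z^26 + (-80)*z^27 + (-236)*z^28, by simp only [QIII_4, F20]; ring⟩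

lemma bIII_4_24 (z : ℤ) : Bz (QIII_4 z) (F24 z) 6 :=
  ⟨3 + (-1)*z + (-2)*z^2 + (-2)*z^3 + 2*z^5 + 1*z^6 + 1*z^7, 3 + 1*z + 5*z^2 + 4*z^3 + 3*z^4 + (-3)*z^5 + (-1)*z^6 + (-2)*z^7 + 2*z^8 + 2*z^9 + (-7)*z^11 + (-1)*z^12 + 3*z^13 + 3*z^14 + (-3)*z^15 + (-3)*z^16 + (-3)*z^17 + 1*z^18 + 2*z^19 + (-4)*z^21 + (-2)*z^22 + 1*z^23 + 1*z^24 + (-2)*z^26 + (-1)*z^27 + (-1)*z^28, by simp only [QIII_4, F24]; ring⟩

lemma bIII_4_30 (z : ℤ) : Bz (QIII_4 z) (F30 z) 1 :=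
  ⟨(-1)*z^4 + 1*z^5, 1 + (-1)*z + 1*z^2 + 1*z^4 + (-1)*z^5 + 1*z^7 + (-1)*z^8 + 1*z^9 + (-1)*z^10 + 1*z^11 + (-1)*z^12 + 1*z^13 + (-1)*z^14 + 1*z^15 + (-1)*z^16 + 1*z^17 + (-1)*z^18 + 1*z^20 + (-1)*z^21 + 1*z^23 + (-2)*z^24 + 2*z^25 + (-1)*z^26, by simp only [QIII_4, F30]; ring⟩

lemma bigIII_4 (s : ℤ) (hs : 0 ≤ s) : (4967693779984034765971130447485206528 : ℤ) < QIII_4 (s + 19) := by
  have h : 0 ≤ 7162128472436798923921785395109494205 + 18513939145958239967009176569090203157*s + 13641849847740883640241206428047720866*s^2 + 6461928856224990308538600408281568513*s^3 + 2210659866610735375590791137036798962*s^4 + 581752595370045878558070894206876789*s^5 + 122474230419809831153487049844099540*s^6 + 21179754107791300876824727195632540*s^7 + 3065490723336361268803906264271737*s^8 + 376463772780130899379671659499853*s^9 + 39627765535184056197647940042101*s^10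 + 3602524138180997310946783049725*s^11 + 284409800303958299555665692638*s^12 + 19574763579847235401760497254*s^13 + 1177429388103269499865313542*s^14 + 61969967789357400882508126*s^15 + 2853880095398157680690702*s^16 + 114862047179136892566574*s^17 + 4030247269360081482122*s^18 + 122805318455570600466*s^19 + 3231718906707321184*s^20 + 72895915188704278*s^21 + 1395137132796857*s^22 + 22347734392621*s^23 + 294049136745*s^24 + 3095254071*s^25 + 25062786*s^26 + 146566*s^27 + 551*s^28 + 1*s^29 := by positivity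
  have e : QIII_4 (s + 19) - (4967693779984034765971130447485206528 + 1) = 7162128472436798923921785395109494205 + 18513939145958239967009176569090203157*s + 13641849847740883640241206428047720866*s^2 + 6461928856224990308538600408281568513*s^3 + 2210659866610735375590791137036798962*s^4 + 581752595370045878558070894206876789*s^5 + 122474230419809831153487049844099540*s^6 + 21179754107791300876824727195632540*s^7 + 3065490723336361268803906264271737*s^8 + 376463772780130899379671659499853*s^9 + 39627765535184056197647940042101*s^10 + 3602524138180997310946783049725*s^11 + 284409800303958299555665692638*s^12 + 19574763579847235401760497254*s^13 + 1177429388103269499865313542*s^14 + 61969967789357400882508126*s^15 + 2853880095398157680690702*s^16 + 114862047179136892566574*s^17 + 4030247269360081482122*s^18 + 122805318455570600466*s^19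 + 3231718906707321184*s^20 + 72895915188704278*s^21 + 1395137132796857*s^22 + 22347734392621*s^23 + 294049136745*s^24 + 3095254071*s^25 + 25062786*s^26 + 146566*s^27 + 551*s^28 + 1*s^29 := by
    simp only [QIII_4]; ring
  linarith

set_option maxHeartbeats 4000000 in
theorem noIII_4 {q : ℕ} (hq : IsPrimePow q) : ¬ (k08 q + a07 q + k0 q + 4) ∣ NN8 q := by
  intro hd
  have hq2 : 2 ≤ q := hq.two_le
  have hz1 : 1 ≤ q := by omega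
  by_cases hB : q < 19
  · refine chk_ok (g := fun q => k08' q + a07' q + k0' q + 4) (B := 19) (by decide +kernel) hq2 hB ?_
    show k08' q + a07' q + k0' q + 4 ∣ NN8 q
    rw [← k08_eq hz1, ← a07_eq hz1, ← k0_eq hz1]
    exact hd
  · obtain ⟨p, k, hp, hk, hpk⟩ := (isPrimePow_nat_iff q).mp hq
    have hd' : ((k08 q + a07 q + k0 q + 4 : ℕ) : ℤ) ∣ (NN8 q : ℤ) := Int.natCast_dvd_natCast.mpr hd
    have e1 : ((k08 q + a07 q + k0 q + 4 : ℕ) : ℤ) = (1) * QIII_4 (q : ℤ) := by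
      push_cast
      rw [k08_cast hz1, a07_cast hz1, k0_cast hz1]
      simp only [QIII_4]
      ring
    rw [e1, NN8_cast hz1, NN8_fac] at hd'
    have hQ := Dvd.dvd.trans (Dvd.intro_left _ rfl) hd'
    have hz : (q : ℤ) = (p : ℤ) ^ k := by rw [← hpk]; push_cast; rfl
    have hqB : (19 : ℤ) ≤ (q : ℤ) := by exact_mod_cast not_lt.mp hB
    have hR : QIII_4 (q : ℤ) = (1 : ℤ) + (q : ℤ) * ((-1)*(q : ℤ) + (-1)*(q : ℤ)^2 + (-1)*(q : ℤ)^3 + (-1)*(q : ℤ)^4 + 1*(q : ℤ)^6 + 1*(q : ℤ)^10 + 1*(q : ℤ)^12 + 1*(q : ℤ)^16 + 1*(q : ℤ)^18 + 1*(q : ℤ)^22 + 1*(q : ℤ)^28) := by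
      simp only [QIII_4]; ring
    have hgo := cofree' hp hz hR (nd (c0 := 1) (by linarith) (by norm_num)).1 hQ
    have h1 : QIII_4 (q : ℤ) ∣ 4967693779984034765971130447485206528 := by
      have h2 := chainE (bIII_4_1 _) (bIII_4_2 _) (bIII_4_3 _) (bIII_4_4 _) (bIII_4_5 _) (bIII_4_6 _) (bIII_4_7 _) (bIII_4_8 _) (bIII_4_9 _) (bIII_4_10 _) (bIII_4_12 _) (bIII_4_14 _) (bIII_4_15 _) (bIII_4_18 _) (bIII_4_20 _) (bIII_4_24 _) (bIII_4_30 _) hgo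
      have e2 : ((((((((((((((((((((1 : ℤ)) * 4^8) * 6^8) * 2^4) * 2^4) * 1^2) * 6^4) * 1^1) * 6^2) * 19^1) * 421^2) * 2^2) * 43^1) * 12871^1) * 111^1) * 761^1) * 6^1) * 1^1) * 1) = 4967693779984034765971130447485206528 := by norm_num
      rwa [e2] at h2
    obtain ⟨s, rfl⟩ : ∃ s, q = s + 19 := ⟨q - 19, by omega⟩
    have hbig := bigIII_4 (s : ℤ) (Int.natCast_nonneg s)
    have e3 : ((s + 19 : ℕ) : ℤ) = (s : ℤ) + 19 := by push_cast; ring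
    rw [e3] at h1
    have hle := Int.le_of_dvd (by norm_num) h1
    linarith

end sIII_4

section sIII_5

/-- The cofactor. -/
def QIII_5 (z : ℤ) : ℤ := 2 + (-2)*z + (-1)*z^2 + 2*z^5 + (-1)*z^6 + (-1)*z^8 + 2*z^10 + (-1)*z^12 + (-1)*z^14 + 2*z^15 + (-1)*z^18 + 1*z^20 + (-1)*z^24 + 1*z^25

lemma bIII_5_1 (z : ℤ) : Bz (QIII_5 z) (F1 z) 1 :=
  ⟨1, 1 + (-1)*z + (-2)*z^2 + (-2)*z^3 + (-2)*z^4 + (-1)*z^6 + (-1)*z^7 + (-2)*z^8 + (-2)*z^9 + (-1)*z^12 + (-1)*z^13 + (-2)*z^14 + (-1)*z^18 + (-1)*z^19 + (-1)*z^24, by simp only [QIII_5, F1]; ring⟩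

lemma bIII_5_2 (z : ℤ) : Bz (QIII_5 z) (F2 z) 5 :=
  ⟨(-1), 7 + (-9)*z + 8*z^2 + (-8)*z^3 + 8*z^4 + (-6)*z^5 + 5*z^6 + (-5)*z^7 + 4*z^8 + (-4)*z^9 + 6*z^10 + (-6)*z^11 + 5*z^12 + (-5)*z^13 + 4*z^14 + (-2)*z^15 + 2*z^16 + (-2)*z^17 + 1*z^18 + (-1)*z^19 + 2*z^20 + (-2)*z^21 + 2*z^22 + (-2)*z^23 + 1*z^24, by simp only [QIII_5, F2]; ring⟩

lemma bIII_5_3 (z : ℤ) : Bz (QIII_5 z) (F3 z) 1 :=
  ⟨(-1) + (-1)*z, 3 + (-3)*z + (-3)*z^2 + 5*z^3 + (-2)*z^4 + (-1)*z^5 + 4*z^6 + (-4)*z^7 + (-1)*z^8 + 4*z^9 + (-1)*z^10 + (-1)*z^11 + 1*z^12 + (-1)*z^13 + (-1)*z^14 + 3*z^15 + (-3)*z^17 + 2*z^18 + (-1)*z^20 + 2*z^21 + (-1)*z^22 + (-1)*z^23 + 1*z^24, by simp only [QIII_5, F3]; ring⟩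

lemma bIII_5_4 (z : ℤ) : Bz (QIII_5 z) (F4 z) 5 :=
  ⟨2 + 1*z, 1 + 2*z + 3*z^2 + (-1)*z^3 + (-3)*z^4 + (-3)*z^5 + 3*z^6 + 4*z^7 + (-1)*z^8 + (-3)*z^9 + (-3)*z^10 + 1*z^11 + 5*z^12 + (-3)*z^14 + (-3)*z^15 + 1*z^16 + 3*z^17 + 1*z^18 + (-2)*z^19 + (-3)*z^20 + 1*z^21 + 3*z^22 + (-1)*z^23 + (-1)*z^24, by simp only [QIII_5, F4]; ring⟩

lemma bIII_5_5 (z : ℤ) : Bz (QIII_5 z) (F5 z) 22621 :=
  ⟨1885 + 157*z + 13*z^2 + 1*z^3, 18851 + (-15395)*z + (-1283)*z^2 + (-1992)*z^3 + (-166)*z^4 + 15067*z^5 + (-10055)*z^6 + (-2723)*z^7 + (-227)*z^8 + (-1904)*z^9 + 11152*z^10 + (-6611)*z^11 + (-551)*z^12 + (-1931)*z^13 + (-161)*z^14 + 5642*z^15 + (-3300)*z^16 + (-275)*z^17 + (-23)*z^18 + (-1887)*z^19 + 3613*z^20 + (-1584)*z^21 + (-132)*z^22 + (-11)*z^23 + (-1)*z^24, by simp only [QIII_5, F5]; ring⟩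

lemma bIII_5_6 (z : ℤ) : Bz (QIII_5 z) (F6 z) 7 :=
  ⟨(-1) + 1*z, 9 + 5*z + (-3)*z^2 + (-7)*z^3 + (-4)*z^4 + 5*z^5 + 6*z^6 + 2*z^7 + (-5)*z^8 + (-6)*z^9 + 1*z^10 + 5*z^11 + 3*z^12 + (-1)*z^13 + (-5)*z^14 + (-1)*z^15 + 2*z^16 + 3*z^17 + (-2)*z^19 + (-1)*z^20 + 1*z^22 + 1*z^23 + (-1)*z^24, by simp only [QIII_5, F6]; ring⟩

lemma bIII_5_7 (z : ℤ) : Bz (QIII_5 z) (F7 z) 13 :=
  ⟨5 + 3*z + 4*z^2 + 3*z^3 + 5*z^4, 3 + 1*z + (-1)*z^2 + 2*z^3 + (-5)*z^4 + 3*z^5 + 1*z^6 + (-6)*z^7 + 9*z^8 + (-8)*z^9 + 5*z^10 + (-7)*z^11 + 8*z^12 + (-4)*z^13 + (-4)*z^14 + 6*z^15 + (-1)*z^16 + (-3)*z^17 + 2*z^18 + (-3)*z^19 + 2*z^20 + (-3)*z^21 + 7*z^22 + (-5)*z^23, by simp only [QIII_5, F7]; ring⟩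

lemma bIII_5_8 (z : ℤ) : Bz (QIII_5 z) (F8 z) 89 :=
  ⟨(-10) + 14*z + 16*z^2 + 31*z^3, 109 + (-48)*z + (-14)*z^2 + (-16)*z^3 + (-31)*z^4 + 99*z^5 + (-24)*z^6 + (-2)*z^7 + (-25)*z^8 + (-54)*z^9 + 60*z^10 + 5*z^11 + (-17)*z^12 + 6*z^13 + (-54)*z^14 + 60*z^15 + 5*z^16 + (-7)*z^17 + (-18)*z^18 + (-46)*z^19 + 21*z^20 + 24*z^21 + 2*z^22 + 15*z^23 + (-31)*z^24, by simp only [QIII_5, F8]; ring⟩

lemma bIII_5_9 (z : ℤ) : Bz (QIII_5 z) (F9 z) 181 :=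
  ⟨59 + 14*z + 34*z^2 + 64*z^3 + 52*z^4 + (-3)*z^5, 63 + 90*z + 19*z^2 + (-109)*z^3 + (-32)*z^4 + 37*z^5 + 123*z^6 + (-115)*z^7 + (-91)*z^8 + (-40)*z^9 + 121*z^10 + 87*z^11 + (-40)*z^12 + (-123)*z^13 + (-7)*z^14 + 46*z^15 + 60*z^16 + (-87)*z^17 + (-23)*z^18 + (-30)*z^19 + 75*z^20 + 27*z^21 + (-12)*z^22 + (-55)*z^23 + 3*z^24, by simp only [QIII_5, F9]; ring⟩

lemma bIII_5_10 (z : ℤ) : Bz (QIII_5 z) (F10 z) 55 :=
  ⟨(-13) + 21*z + (-9)*z^2 + 27*z^3, 81 + 13*z + (-21)*z^2 + (-4)*z^3 + (-6)*z^4 + 17*z^5 + (-15)*z^6 + 5*z^7 + (-33)*z^8 + (-22)*z^9 + 48*z^10 + 17*z^11 + (-15)*z^12 + 5*z^13 + (-33)*z^14 + 4*z^15 + 6*z^16 + 9*z^17 + (-27)*z^18 + (-13)*z^19 + 21*z^20 + 4*z^21 + 6*z^22 + 9*z^23 + (-27)*z^24, by simp only [QIII_5, F10]; ring⟩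

lemma bIII_5_12 (z : ℤ) : Bz (QIII_5 z) (F12 z) 73 :=
  ⟨(-32) + (-23)*z + 36*z^2 + 35*z^3, 137 + (-18)*z + (-13)*z^2 + (-39)*z^3 + (-44)*z^4 + 78*z^5 + (-17)*z^6 + 22*z^7 + (-39)*z^8 + (-44)*z^9 + 78*z^10 + 15*z^11 + 13*z^12 + (-34)*z^13 + (-61)*z^14 + 27*z^15 + 8*z^16 + 24*z^17 + (-33)*z^18 + (-26)*z^19 + 27*z^20 + 8*z^21 + 24*z^22 + (-1)*z^23 + (-35)*z^24, by simp only [QIII_5, F12]; ring⟩

lemma bIII_5_14 (z : ℤ) : Bz (QIII_5 z) (F14 z) 379 :=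
  ⟨(-103) + 101*z + (-90)*z^2 + 219*z^3 + 19*z^4 + 188*z^5, 585 + 177*z + (-129)*z^2 + (-238)*z^3 + (-207)*z^4 + 397*z^5 + 177*z^6 + (-26)*z^7 + (-339)*z^8 + (-220)*z^9 + 279*z^10 + 171*z^11 + (-96)*z^12 + (-230)*z^13 + (-354)*z^14 + 258*z^15 + 97*z^16 + 35*z^17 + (-106)*z^18 + (-175)*z^19 + 118*z^20 + 109*z^21 + (-31)*z^22 + (-19)*z^23 + (-188)*z^24, by simp only [QIII_5, F14]; ring⟩

lemma bIII_5_15 (z : ℤ) : Bz (QIII_5 z) (F15 z) 961 :=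
  ⟨(-397) + 302*z + 416*z^2 + (-174)*z^3 + 641*z^4 + (-125)*z^5 + (-134)*z^6 + 607*z^7, 1755 + 357*z + (-268)*z^2 + (-541)*z^3 + (-357)*z^4 + 665*z^5 + 239*z^6 + (-59)*z^7 + (-491)*z^8 + (-880)*z^9 + 581*z^10 + 323*z^11 + (-143)*z^12 + (-407)*z^13 + (-964)*z^14 + 268*z^15 + 541*z^16 + 357*z^17 + (-268)*z^18 + (-541)*z^19 + 40*z^20 + (-34)*z^21 + 125*z^22 + 134*z^23 + (-607)*z^24, by simp only [QIII_5, F15]; ring⟩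

lemma bIII_5_18 (z : ℤ) : Bz (QIII_5 z) (F18 z) 883 :=
  ⟨(-215) + (-320)*z + (-312)*z^2 + 264*z^3 + 434*z^4 + 379*z^5, 1313 + 210*z + (-231)*z^2 + (-159)*z^3 + (-442)*z^4 + 573*z^5 + 145*z^6 + 31*z^7 + (-251)*z^8 + (-620)*z^9 + 267*z^10 + 459*z^11 + 78*z^12 + (-233)*z^13 + (-685)*z^14 + 314*z^15 + 262*z^16 + 123*z^17 + (-73)*z^18 + (-314)*z^19 + (-47)*z^20 + 197*z^21 + 170*z^22 + (-55)*z^23 + (-379)*z^24, by simp only [QIII_5, F18]; ring⟩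

lemma bIII_5_20 (z : ℤ) : Bz (QIII_5 z) (F20 z) 505 :=
  ⟨(-187) + (-256)*z + 139*z^2 + 247*z^3 + (-46)*z^4 + (-198)*z^5 + 213*z^6 + 324*z^7, 879 + 138*z + (-98)*z^2 + (-334)*z^3 + (-252)*z^4 + 453*z^5 + 182*z^6 + (-29)*z^7 + (-224)*z^8 + (-547)*z^9 + 303*z^10 + 404*z^11 + 15*z^12 + (-155)*z^13 + (-437)*z^14 + 8*z^15 + 254*z^16 + 237*z^17 + (-111)*z^18 + (-368)*z^19 + 118*z^20 + (-41)*z^21 + 87*z^22 + 111*z^23 + (-324)*z^24, by simp only [QIII_5, F20]; ring⟩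

lemma bIII_5_24 (z : ℤ) : Bz (QIII_5 z) (F24 z) 2713 :=
  ⟨(-734) + (-918)*z + (-882)*z^2 + (-1007)*z^3 + 990*z^4 + 632*z^5 + 820*z^6 + 1373*z^7, 4181 + 368*z + (-806)*z^2 + (-668)*z^3 + (-695)*z^4 + 1545*z^5 + 910*z^6 + (-296)*z^7 + (-912)*z^8 + (-1355)*z^9 + 2028*z^10 + 193*z^11 + (-123)*z^12 + 201*z^13 + (-1658)*z^14 + 141*z^15 + 1093*z^16 + 199*z^17 + (-596)*z^18 + (-945)*z^19 + 624*z^20 + (-358)*z^21 + 188*z^22 + 553*z^23 + (-1373)*z^24, by simp only [QIII_5, F24]; ring⟩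

lemma bIII_5_30 (z : ℤ) : Bz (QIII_5 z) (F30 z) 61 :=
  ⟨19 + (-26)*z + (-54)*z^2 + (-42)*z^3 + (-3)*z^4 + 17*z^5 + 40*z^6 + 27*z^7, 23 + 67*z + 8*z^2 + (-35)*z^3 + (-7)*z^4 + (-15)*z^5 + 77*z^6 + (-9)*z^7 + 5*z^8 + (-60)*z^9 + 11*z^10 + 51*z^11 + 17*z^12 + (-21)*z^13 + (-34)*z^14 + 4*z^15 + 13*z^16 + 27*z^17 + (-61)*z^19 + 42*z^20 + (-16)*z^21 + 9*z^22 + 14*z^23 + (-27)*z^24, by simp only [QIII_5, F30]; ring⟩

lemma bigIII_5 (s : ℤ) (hs : 0 ≤ s) : (4844546792691799031622578425998406298108947753906250 : ℤ) < QIII_5 (s + 117) := by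
  have h : 0 ≤ 177938470788613603190729452191605331549342625377554 + 1073550674124848750738083815672653206092886632616531*s + 110145716553492709992536804720364800595381892294940*s^2 + 7220012672774598167660431566943718691531254811990*s^3 + 339519219460440955902555210988644360618396743220*s^4 + 12192066341207728637967957593370554977630283858*s^5 + 347471887917293977451039642654032545889090190*s^6 + 8063782307702856359755472193209866767640914*s^7 + 155126081280937636681227006562120564199069*s^8 + 2505270883077936493671348525066282817299*s^9 + 34271891922789334381865763624888126971*s^10 + 399576564163256357778025764400889634*s^11 + 3985750426909419642919526245119968*s^12 + 34077941537470005894112475540784*s^13 + 249740953186132483215061841945*s^14 + 1565865086694528694155940874*s^15 + 8367533449151804521398792*s^16 + 37875126577618789283097*s^17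 + 143924447678573221685*s^18 + 453358702020198312*s^19 + 1162856448818065*s^20 + 2367225655938*s^21 + 3679931736*s^22 + 4103892*s^23 + 2924*s^24 + 1*s^25 := by positivity
  have e : QIII_5 (s + 117) - (4844546792691799031622578425998406298108947753906250 + 1) = 177938470788613603190729452191605331549342625377554 + 1073550674124848750738083815672653206092886632616531*s + 110145716553492709992536804720364800595381892294940*s^2 + 7220012672774598167660431566943718691531254811990*s^3 + 339519219460440955902555210988644360618396743220*s^4 + 12192066341207728637967957593370554977630283858*s^5 + 347471887917293977451039642654032545889090190*s^6 + 8063782307702856359755472193209866767640914*s^7 + 155126081280937636681227006562120564199069*s^8 + 2505270883077936493671348525066282817299*s^9 + 34271891922789334381865763624888126971*s^10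 + 399576564163256357778025764400889634*s^11 + 3985750426909419642919526245119968*s^12 + 34077941537470005894112475540784*s^13 + 249740953186132483215061841945*s^14 + 1565865086694528694155940874*s^15 + 8367533449151804521398792*s^16 + 37875126577618789283097*s^17 + 143924447678573221685*s^18 + 453358702020198312*s^19 + 1162856448818065*s^20 + 2367225655938*s^21 + 3679931736*s^22 + 4103892*s^23 + 2924*s^24 + 1*s^25 := by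
    simp only [QIII_5]; ring
  linarith

set_option maxHeartbeats 4000000 in
theorem noIII_5 {q : ℕ} (hq : IsPrimePow q) : ¬ (k08 q + a07 q + k0 q + 5) ∣ NN8 q := by
  intro hd
  have hq2 : 2 ≤ q := hq.two_le
  have hz1 : 1 ≤ q := by omega
  by_cases hB : q < 117
  · refine chk_ok (g := fun q => k08' q + a07' q + k0' q + 5) (B := 117) (by decide +kernel) hq2 hB ?_
    show k08' q + a07' q + k0' q + 5 ∣ NN8 q
    rw [← k08_eq hz1, ← a07_eq hz1, ← k0_eq hz1]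
    exact hd
  · obtain ⟨p, k, hp, hk, hpk⟩ := (isPrimePow_nat_iff q).mp hq
    have hd' : ((k08 q + a07 q + k0 q + 5 : ℕ) : ℤ) ∣ (NN8 q : ℤ) := Int.natCast_dvd_natCast.mpr hd
    have e1 : ((k08 q + a07 q + k0 q + 5 : ℕ) : ℤ) = (1 + 1*(q : ℤ) + 1*(q : ℤ)^2 + 1*(q : ℤ)^3 + 1*(q : ℤ)^4) * QIII_5 (q : ℤ) := by
      push_cast
      rw [k08_cast hz1, a07_cast hz1, k0_cast hz1]
      simp only [QIII_5]
      ring
    rw [e1, NN8_cast hz1, NN8_fac] at hd'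
    have hQ := Dvd.dvd.trans (Dvd.intro_left _ rfl) hd'
    have hz : (q : ℤ) = (p : ℤ) ^ k := by rw [← hpk]; push_cast; rfl
    have hqB : (117 : ℤ) ≤ (q : ℤ) := by exact_mod_cast not_lt.mp hB
    have hR : QIII_5 (q : ℤ) = (2 : ℤ) + (q : ℤ) * ((-2) + (-1)*(q : ℤ) + 2*(q : ℤ)^4 + (-1)*(q : ℤ)^5 + (-1)*(q : ℤ)^7 + 2*(q : ℤ)^9 + (-1)*(q : ℤ)^11 + (-1)*(q : ℤ)^13 + 2*(q : ℤ)^14 + (-1)*(q : ℤ)^17 + 1*(q : ℤ)^19 + (-1)*(q : ℤ)^23 + 1*(q : ℤ)^24) := by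
      simp only [QIII_5]; ring
    have hgo := cofree' hp hz hR (nd (c0 := 2) (by linarith) (by norm_num)).1 hQ
    have h1 : QIII_5 (q : ℤ) ∣ 4844546792691799031622578425998406298108947753906250 := by
      have h2 := chainE (bIII_5_1 _) (bIII_5_2 _) (bIII_5_3 _) (bIII_5_4 _) (bIII_5_5 _) (bIII_5_6 _) (bIII_5_7 _) (bIII_5_8 _) (bIII_5_9 _) (bIII_5_10 _) (bIII_5_12 _) (bIII_5_14 _) (bIII_5_15 _) (bIII_5_18 _) (bIII_5_20 _) (bIII_5_24 _) (bIII_5_30 _) hgo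
      have e2 : ((((((((((((((((((((2 : ℤ)) * 1^8) * 5^8) * 1^4) * 5^4) * 22621^2) * 7^4) * 13^1) * 89^2) * 181^1) * 55^2) * 73^2) * 379^1) * 961^1) * 883^1) * 505^1) * 2713^1) * 61^1) * 1) = 4844546792691799031622578425998406298108947753906250 := by norm_num
      rwa [e2] at h2
    obtain ⟨s, rfl⟩ : ∃ s, q = s + 117 := ⟨q - 117, by omega⟩
    have hbig := bigIII_5 (s : ℤ) (Int.natCast_nonneg s)
    have e3 : ((s + 117 : ℕ) : ℤ) = (s : ℤ) + 117 := by push_cast; ring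
    rw [e3] at h1
    have hle := Int.le_of_dvd (by norm_num) h1
    linarith

end sIII_5

section sIII_6

/-- The cofactor. -/
def QIII_6 (z : ℤ) : ℤ := 3 + (-3)*z + (-1)*z^2 + 3*z^3 + (-3)*z^4 + (-1)*z^5 + 4*z^6 + (-2)*z^7 + (-2)*z^8 + 4*z^9 + (-2)*z^10 + (-1)*z^11 + 3*z^12 + (-1)*z^13 + (-2)*z^14 + 3*z^15 + (-1)*z^16 + (-1)*z^17 + 2*z^18 + (-2)*z^20 + 2*z^21 + (-1)*z^23 + 1*z^24 + (-1)*z^26 + 1*z^27

lemma bIII_6_1 (z : ℤ) : Bz (QIII_6 z) (F1 z) 2 :=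
  ⟨1, 1 + (-2)*z + (-3)*z^2 + (-3)*z^4 + (-4)*z^5 + (-2)*z^7 + (-4)*z^8 + (-2)*z^10 + (-3)*z^11 + (-1)*z^13 + (-3)*z^14 + (-1)*z^16 + (-2)*z^17 + (-2)*z^20 + (-1)*z^23 + (-1)*z^26, by simp only [QIII_6, F1]; ring⟩

lemma bIII_6_2 (z : ℤ) : Bz (QIII_6 z) (F2 z) 4 :=
  ⟨(-1), 7 + (-10)*z + 9*z^2 + (-6)*z^3 + 3*z^4 + (-4)*z^5 + 8*z^6 + (-10)*z^7 + 8*z^8 + (-4)*z^9 + 2*z^10 + (-3)*z^11 + 6*z^12 + (-7)*z^13 + 5*z^14 + (-2)*z^15 + 1*z^16 + (-2)*z^17 + 4*z^18 + (-4)*z^19 + 2*z^20 + (-1)*z^23 + 2*z^24 + (-2)*z^25 + 1*z^26, by simp only [QIII_6, F2]; ring⟩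

lemma bIII_6_3 (z : ℤ) : Bz (QIII_6 z) (F3 z) 38 :=
  ⟨1, 35 + (-32)*z + (-2)*z^2 + 31*z^3 + (-26)*z^4 + (-4)*z^5 + 26*z^6 + (-20)*z^7 + (-4)*z^8 + 20*z^9 + (-14)*z^10 + (-5)*z^11 + 16*z^12 + (-10)*z^13 + (-4)*z^14 + 11*z^15 + (-6)*z^16 + (-4)*z^17 + 8*z^18 + (-4)*z^19 + (-2)*z^20 + 4*z^21 + (-2)*z^22 + (-1)*z^23 + 2*z^24 + (-1)*z^25, by simp only [QIII_6, F3]; ring⟩

lemma bIII_6_4 (z : ℤ) : Bz (QIII_6 z) (F4 z) 10 :=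
  ⟨(-1) + 3*z, 13 + (-12)*z + (-5)*z^2 + 18*z^3 + (-7)*z^4 + (-10)*z^5 + 14*z^6 + (-4)*z^7 + (-10)*z^8 + 14*z^9 + (-4)*z^10 + (-9)*z^11 + 10*z^12 + (-1)*z^13 + (-9)*z^14 + 10*z^15 + (-1)*z^16 + (-8)*z^17 + 6*z^18 + 2*z^19 + (-8)*z^20 + 6*z^21 + 2*z^22 + (-7)*z^23 + 2*z^24 + 4*z^25 + (-3)*z^26, by simp only [QIII_6, F4]; ring⟩

lemma bIII_6_5 (z : ℤ) : Bz (QIII_6 z) (F5 z) 1 :=
  ⟨1 + 1*z + 1*z^2, (-2) + 2*z + 1*z^2 + (-2)*z^5 + 1*z^6 + 1*z^8 + (-2)*z^10 + 1*z^12 + 1*z^14 + (-2)*z^15 + 1*z^18 + (-1)*z^20 + 1*z^24 + (-1)*z^25, by simp only [QIII_6, F5]; ring⟩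

lemma bIII_6_6 (z : ℤ) : Bz (QIII_6 z) (F6 z) 4 :=
  ⟨1*z, 4 + 1*z + (-3)*z^4 + 4*z^6 + (-2)*z^8 + (-2)*z^10 + 3*z^12 + (-2)*z^14 + (-1)*z^16 + 2*z^18 + (-2)*z^20 + 1*z^24 + (-1)*z^26, by simp only [QIII_6, F6]; ring⟩

lemma bIII_6_7 (z : ℤ) : Bz (QIII_6 z) (F7 z) 41 :=
  ⟨12 + 8*z + 12*z^2 + 3*z^4 + 3*z^5, 5 + 7*z + (-12)*z^2 + 8*z^3 + 7*z^4 + (-15)*z^5 + 8*z^6 + (-5)*z^7 + 1*z^8 + 11*z^10 + (-26)*z^11 + 19*z^12 + (-6)*z^13 + (-9)*z^14 + 12*z^15 + 5*z^16 + (-17)*z^17 + 1*z^18 + 7*z^19 + (-5)*z^20 + (-5)*z^21 + 19*z^22 + (-18)*z^23 + 3*z^24 + 3*z^25 + (-3)*z^26, by simp only [QIII_6, F7]; ring⟩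

lemma bIII_6_8 (z : ℤ) : Bz (QIII_6 z) (F8 z) 274 :=
  ⟨39 + 45*z + 73*z^2 + 21*z^3, 157 + (-18)*z + (-45)*z^2 + 84*z^3 + (-39)*z^4 + (-6)*z^5 + 90*z^6 + (-50)*z^7 + (-64)*z^8 + 2*z^9 + (-4)*z^10 + (-71)*z^11 + 54*z^12 + 17*z^13 + (-71)*z^14 + 54*z^15 + 17*z^16 + (-110)*z^17 + 48*z^18 + (-50)*z^19 + (-64)*z^20 + 80*z^21 + 8*z^22 + (-15)*z^23 + 28*z^24 + (-52)*z^25 + (-21)*z^26, by simp only [QIII_6, F8]; ring⟩

lemma bIII_6_9 (z : ℤ) : Bz (QIII_6 z) (F9 z) 163 :=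
  ⟨44 + 50*z + 42*z^2 + (-12)*z^3 + 16*z^4 + 33*z^5, 31 + (-18)*z + 68*z^2 + 49*z^3 + (-42)*z^4 + (-63)*z^5 + 71*z^6 + (-61)*z^7 + (-48)*z^8 + 51*z^9 + 20*z^10 + (-37)*z^11 + 26*z^12 + (-45)*z^13 + (-15)*z^14 + 51*z^15 + (-24)*z^16 + (-87)*z^17 + 28*z^18 + 17*z^19 + 11*z^20 + 6*z^21 + (-8)*z^22 + (-54)*z^23 + 28*z^24 + 17*z^25 + (-33)*z^26, by simp only [QIII_6, F9]; ring⟩

lemma bIII_6_10 (z : ℤ) : Bz (QIII_6 z) (F10 z) 1661 :=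
  ⟨27 + 343*z + 175*z^2 + 218*z^3, 1580 + 632*z + (-417)*z^2 + 664*z^3 + 14*z^4 + (-950)*z^5 + 223*z^6 + 34*z^7 + (-895)*z^8 + 300*z^9 + 474*z^10 + (-306)*z^11 + 155*z^12 + 244*z^13 + (-601)*z^14 + (-258)*z^15 + (-2)*z^16 + (-308)*z^17 + (-153)*z^18 + 118*z^19 + (-113)*z^20 + 120*z^21 + 168*z^22 + (-70)*z^23 + (-125)*z^24 + (-175)*z^25 + (-218)*z^26, by simp only [QIII_6, F10]; ring⟩

lemma bIII_6_12 (z : ℤ) : Bz (QIII_6 z) (F12 z) 26 :=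
  ⟨(-1) + (-2)*z + 10*z^2 + 7*z^3, 29 + 3*z + (-8)*z^2 + 13*z^3 + (-3)*z^4 + (-20)*z^5 + 16*z^6 + 4*z^7 + (-20)*z^8 + 16*z^9 + 4*z^10 + (-19)*z^11 + 17*z^12 + (-6)*z^13 + (-14)*z^14 + 1*z^15 + 1*z^16 + (-12)*z^17 + 4*z^18 + 8*z^19 + (-12)*z^20 + 4*z^21 + 8*z^22 + (-11)*z^23 + 5*z^24 + (-3)*z^25 + (-7)*z^26, by simp only [QIII_6, F12]; ring⟩

lemma bIII_6_14 (z : ℤ) : Bz (QIII_6 z) (F14 z) 2059 :=
  ⟨(-32) + 716*z + 106*z^2 + 340*z^3 + (-93)*z^4 + 733*z^5, 2155 + (-89)*z + (-446)*z^2 + 1908*z^3 + (-729)*z^4 + (-1179)*z^5 + 1908*z^6 + (-697)*z^7 + (-1895)*z^8 + 1770*z^9 + (-321)*z^10 + (-1664)*z^11 + 661*z^12 + (-520)*z^13 + (-1303)*z^14 + 1438*z^15 + (-399)*z^16 + (-1541)*z^17 + 831*z^18 + 511*z^19 + (-949)*z^20 + 531*z^21 + (-283)*z^22 + (-932)*z^23 + 393*z^24 + 93*z^25 + (-733)*z^26, by simp only [QIII_6, F14]; ring⟩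

lemma bIII_6_15 (z : ℤ) : Bz (QIII_6 z) (F15 z) 14341 :=
  ⟨(-782) + 3896*z + 5172*z^2 + (-1278)*z^3 + 3267*z^4 + 36*z^5 + (-70)*z^6 + 4105*z^7, 16687 + 2653*z + (-1957)*z^2 + 6948*z^3 + (-1515)*z^4 + (-9787)*z^5 + 8614*z^6 + (-2379)*z^7 + (-8889)*z^8 + 3681*z^9 + (-1551)*z^10 + (-9717)*z^11 + 4509*z^12 + (-2379)*z^13 + (-8889)*z^14 + 2899*z^15 + 2345*z^16 + (-4545)*z^17 + 3231*z^18 + 888*z^19 + (-8071)*z^20 + (-1067)*z^21 + 1278*z^22 + (-3267)*z^23 + (-36)*z^24 + 70*z^25 + (-4105)*z^26, by simp only [QIII_6, F15]; ring⟩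

lemma bIII_6_18 (z : ℤ) : Bz (QIII_6 z) (F18 z) 2701 :=
  ⟨(-234) + (-270)*z + 104*z^2 + 354*z^3 + 824*z^4 + 743*z^5, 3403 + 108*z + (-1356)*z^2 + 3085*z^3 + (-1090)*z^4 + (-2115)*z^5 + 2651*z^6 + (-1149)*z^7 + (-1586)*z^8 + 1807*z^9 + (-1084)*z^10 + (-1277)*z^11 + 1514*z^12 + (-357)*z^13 + (-1711)*z^14 + 1221*z^15 + 136*z^16 + (-1947)*z^17 + 1338*z^18 + 505*z^19 + (-1963)*z^20 + 904*z^21 + 212*z^22 + (-1236)*z^23 + 470*z^24 + (-81)*z^25 + (-743)*z^26, by simp only [QIII_6, F18]; ring⟩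

lemma bIII_6_20 (z : ℤ) : Bz (QIII_6 z) (F20 z) 46705 :=
  ⟨(-5373) + (-5276)*z + 17021*z^2 + 9977*z^3 + (-5729)*z^4 + (-4313)*z^5 + 15072*z^6 + 18529*z^7, 62824 + (-291)*z + (-9440)*z^2 + 31684*z^3 + (-8416)*z^4 + (-34560)*z^5 + 37312*z^6 + (-6722)*z^7 + (-39530)*z^8 + 19532*z^9 + (-3232)*z^10 + (-27592)*z^11 + 25160*z^12 + (-1538)*z^13 + (-32562)*z^14 + 7380*z^15 + 1952*z^16 + (-20624)*z^17 + 13008*z^18 + 3646*z^19 + (-25594)*z^20 + (-4772)*z^21 + 7136*z^22 + (-13656)*z^23 + 856*z^24 + 3457*z^25 + (-18529)*z^26, by simp only [QIII_6, F20]; ring⟩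

lemma bIII_6_24 (z : ℤ) : Bz (QIII_6 z) (F24 z) 2306 :=
  ⟨(-145) + (-125)*z + (-68)*z^2 + (-655)*z^3 + 296*z^4 + 613*z^5 + 767*z^6 + 860*z^7, 2741 + (-60)*z + (-316)*z^2 + 2071*z^3 + (-240)*z^4 + (-1982)*z^5 + 1734*z^6 + (-306)*z^7 + (-1508)*z^8 + 1586*z^9 + (-36)*z^10 + (-2323)*z^11 + 1136*z^12 + 556*z^13 + (-1242)*z^14 + 239*z^15 + (-98)*z^16 + (-1462)*z^17 + 620*z^18 + 614*z^19 + (-1192)*z^20 + (-340)*z^21 + 184*z^22 + (-543)*z^23 + 154*z^24 + 93*z^25 + (-860)*z^26, by simp only [QIII_6, F24]; ring⟩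

lemma bIII_6_30 (z : ℤ) : Bz (QIII_6 z) (F30 z) 1231 :=
  ⟨108 + (-312)*z + (-428)*z^2 + (-632)*z^3 + (-249)*z^4 + 450*z^5 + 712*z^6 + 485*z^7, 907 + 353*z + 103*z^2 + 780*z^3 + 163*z^4 + (-1073)*z^5 + 1142*z^6 + 15*z^7 + (-663)*z^8 + 505*z^9 + 167*z^10 + (-815)*z^11 + 657*z^12 + 15*z^13 + (-663)*z^14 + 613*z^15 + (-361)*z^16 + (-403)*z^17 + 257*z^18 + (-42)*z^19 + (-31)*z^20 + (-369)*z^21 + 204*z^22 + (-275)*z^23 + 4*z^24 + 258*z^25 + (-485)*z^26, by simp only [QIII_6, F30]; ring⟩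

lemma bigIII_6 (s : ℤ) (hs : 0 ≤ s) : (2658368296626069887609872956113327459338286149227302092800000 : ℤ) < QIII_6 (s + 173) := by
  have h : 0 ≤ 686040560753176811085429800019935592344229550499002140349 + 415086272726074584461070591892095267725220910842765666339881*s + 31198168462061069486900241046249628808878270987954164279673*s^2 + 1503125383111698440811084336551830704964358375883607096475*s^3 + 52142733622684705260349108159910288193663281016133487062*s^4 + 1386752458149130329411605863496405018353287617773534840*s^5 + 29397992337965413301799059258776828489365525947507842*s^6 + 509901400889515670154509911472955120120372784442946*s^7 + 7370101557357110929500244893144675974654904753673*s^8 + 89956345293071998564198310078774304916091168360*s^9 + 936163118109205252246862815623305905072850630*s^10 + 8364788477118870864536117827856415469463749*s^11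 + 64482353496290376971689011452684885840499*s^12 + 430165867572688916817776034175375337792*s^13 + 2487041821350822720389905521870138577*s^14 + 12461843782310940673841404869307941*s^15 + 54036930027846351642348180112278*s^16 + 202153615615156805607231961057*s^17 + 649315948719971913066122339*s^18 + 1778246739690022969495552*s^19 + 4112434889548004303563*s^20 + 7925465559481914523*s^21 + 12496843628561365*s^22 + 15706863409501*s^23 + 15135095301*s^24 + 10500581*s^25 + 4670*s^26 + 1*s^27 := by positivity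
  have e : QIII_6 (s + 173) - (2658368296626069887609872956113327459338286149227302092800000 + 1) = 686040560753176811085429800019935592344229550499002140349 + 415086272726074584461070591892095267725220910842765666339881*s + 31198168462061069486900241046249628808878270987954164279673*s^2 + 1503125383111698440811084336551830704964358375883607096475*s^3 + 52142733622684705260349108159910288193663281016133487062*s^4 + 1386752458149130329411605863496405018353287617773534840*s^5 + 29397992337965413301799059258776828489365525947507842*s^6 + 509901400889515670154509911472955120120372784442946*s^7 + 7370101557357110929500244893144675974654904753673*s^8 + 89956345293071998564198310078774304916091168360*s^9 + 936163118109205252246862815623305905072850630*s^10 + 8364788477118870864536117827856415469463749*s^11 + 64482353496290376971689011452684885840499*s^12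 + 430165867572688916817776034175375337792*s^13 + 2487041821350822720389905521870138577*s^14 + 12461843782310940673841404869307941*s^15 + 54036930027846351642348180112278*s^16 + 202153615615156805607231961057*s^17 + 649315948719971913066122339*s^18 + 1778246739690022969495552*s^19 + 4112434889548004303563*s^20 + 7925465559481914523*s^21 + 12496843628561365*s^22 + 15706863409501*s^23 + 15135095301*s^24 + 10500581*s^25 + 4670*s^26 + 1*s^27 := by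
    simp only [QIII_6]; ring
  linarith

set_option maxHeartbeats 4000000 in
theorem noIII_6 {q : ℕ} (hq : IsPrimePow q) : ¬ (k08 q + a07 q + k0 q + 6) ∣ NN8 q := by
  intro hd
  have hq2 : 2 ≤ q := hq.two_le
  have hz1 : 1 ≤ q := by omega
  by_cases hB : q < 173
  · refine chk_ok (g := fun q => k08' q + a07' q + k0' q + 6) (B := 173) (by decide +kernel) hq2 hB ?_
    show k08' q + a07' q + k0' q + 6 ∣ NN8 q
    rw [← k08_eq hz1, ← a07_eq hz1, ← k0_eq hz1]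
    exact hd
  · obtain ⟨p, k, hp, hk, hpk⟩ := (isPrimePow_nat_iff q).mp hq
    have hd' : ((k08 q + a07 q + k0 q + 6 : ℕ) : ℤ) ∣ (NN8 q : ℤ) := Int.natCast_dvd_natCast.mpr hd
    have e1 : ((k08 q + a07 q + k0 q + 6 : ℕ) : ℤ) = (1 + 1*(q : ℤ) + 1*(q : ℤ)^2) * QIII_6 (q : ℤ) := by
      push_cast
      rw [k08_cast hz1, a07_cast hz1, k0_cast hz1]
      simp only [QIII_6]
      ring
    rw [e1, NN8_cast hz1, NN8_fac] at hd'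
    have hQ := Dvd.dvd.trans (Dvd.intro_left _ rfl) hd'
    have hz : (q : ℤ) = (p : ℤ) ^ k := by rw [← hpk]; push_cast; rfl
    have hqB : (173 : ℤ) ≤ (q : ℤ) := by exact_mod_cast not_lt.mp hB
    have hR : QIII_6 (q : ℤ) = (3 : ℤ) + (q : ℤ) * ((-3) + (-1)*(q : ℤ) + 3*(q : ℤ)^2 + (-3)*(q : ℤ)^3 + (-1)*(q : ℤ)^4 + 4*(q : ℤ)^5 + (-2)*(q : ℤ)^6 + (-2)*(q : ℤ)^7 + 4*(q : ℤ)^8 + (-2)*(q : ℤ)^9 + (-1)*(q : ℤ)^10 + 3*(q : ℤ)^11 + (-1)*(q : ℤ)^12 + (-2)*(q : ℤ)^13 + 3*(q : ℤ)^14 + (-1)*(q : ℤ)^15 + (-1)*(q : ℤ)^16 + 2*(q : ℤ)^17 + (-2)*(q : ℤ)^19 + 2*(q : ℤ)^20 + (-1)*(q : ℤ)^22 + 1*(q : ℤ)^23 + (-1)*(q : ℤ)^25 + 1*(q : ℤ)^26) := by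
      simp only [QIII_6]; ring
    have hgo := cofree' hp hz hR (nd (c0 := 3) (by linarith) (by norm_num)).1 hQ
    have h1 : QIII_6 (q : ℤ) ∣ 2658368296626069887609872956113327459338286149227302092800000 := by
      have h2 := chainE (bIII_6_1 _) (bIII_6_2 _) (bIII_6_3 _) (bIII_6_4 _) (bIII_6_5 _) (bIII_6_6 _) (bIII_6_7 _) (bIII_6_8 _) (bIII_6_9 _) (bIII_6_10 _) (bIII_6_12 _) (bIII_6_14 _) (bIII_6_15 _) (bIII_6_18 _) (bIII_6_20 _) (bIII_6_24 _) (bIII_6_30 _) hgo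
      have e2 : ((((((((((((((((((((3 : ℤ)) * 2^8) * 4^8) * 38^4) * 10^4) * 1^2) * 4^4) * 41^1) * 274^2) * 163^1) * 1661^2) * 26^2) * 2059^1) * 14341^1) * 2701^1) * 46705^1) * 2306^1) * 1231^1) * 1) = 2658368296626069887609872956113327459338286149227302092800000 := by norm_num
      rwa [e2] at h2
    obtain ⟨s, rfl⟩ : ∃ s, q = s + 173 := ⟨q - 173, by omega⟩
    have hbig := bigIII_6 (s : ℤ) (Int.natCast_nonneg s)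
    have e3 : ((s + 173 : ℕ) : ℤ) = (s : ℤ) + 173 := by push_cast; ring
    rw [e3] at h1
    have hle := Int.le_of_dvd (by norm_num) h1
    linarith

end sIII_6

end ArAux8

end Cfsg.Agent.Lib.MinE8
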