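import Cfsg.Agent.Lib.MinE8.ArBase

/-! Arithmetic for `Ar.lean`: Bezout certificates (python-generated). -/

set_option autoImplicit false
set_option linter.unusedSectionVars false
set_option linter.unusedVariables false
set_option maxRecDepth 100000

namespace Cfsg.Agent.Lib.MinE8

open Cfsg.Agent.Lib.MinE6 (k0 gaussN)

namespace ArAux8

section sIII_7

/-- The cofactor. -/
def QIII_7 (z : ℤ) : ℤ := 4 + (-1)*z^2 + (-1)*z^3 + (-1)*z^4 + (-1)*z^5 + 1*z^7 + 1*z^11 + 1*z^13 + 1*z^17 + 1*z^19 + 1*z^23 + 1*z^29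

lemma bIII_7_1 (z : ℤ) : Bz (QIII_7 z) (F1 z) 7 :=
  ⟨1, (-3) + (-3)*z + (-4)*z^2 + (-5)*z^3 + (-6)*z^4 + (-7)*z^5 + (-7)*z^6 + (-6)*z^7 + (-6)*z^8 + (-6)*z^9 + (-6)*z^10 + (-5)*z^11 + (-5)*z^12 + (-4)*z^13 + (-4)*z^14 + (-4)*z^15 + (-4)*z^16 + (-3)*z^17 + (-3)*z^18 + (-2)*z^19 + (-2)*z^20 + (-2)*z^21 + (-2)*z^22 + (-1)*z^23 + (-1)*z^24 + (-1)*z^25 + (-1)*z^26 + (-1)*z^27 + (-1)*z^28, by simp only [QIII_7, F1]; ring⟩

lemma bIII_7_2 (z : ℤ) : Bz (QIII_7 z) (F2 z) 3 :=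
  ⟨(-1), 7 + (-7)*z + 6*z^2 + (-7)*z^3 + 6*z^4 + (-7)*z^5 + 7*z^6 + (-6)*z^7 + 6*z^8 + (-6)*z^9 + 6*z^10 + (-5)*z^11 + 5*z^12 + (-4)*z^13 + 4*z^14 + (-4)*z^15 + 4*z^16 + (-3)*z^17 + 3*z^18 + (-2)*z^19 + 2*z^20 + (-2)*z^21 + 2*z^22 + (-1)*z^23 + 1*z^24 + (-1)*z^25 + 1*z^26 + (-1)*z^27 + 1*z^28, by simp only [QIII_7, F2]; ring⟩

lemma bIII_7_3 (z : ℤ) : Bz (QIII_7 z) (F3 z) 1 :=
  ⟨1, (-3) + 3*z + 1*z^2 + (-3)*z^3 + 3*z^4 + 1*z^5 + (-4)*z^6 + 2*z^7 + 2*z^8 + (-4)*z^9 + 2*z^10 + 1*z^11 + (-3)*z^12 + 1*z^13 + 2*z^14 + (-3)*z^15 + 1*z^16 + 1*z^17 + (-2)*z^18 + 2*z^20 + (-2)*z^21 + 1*z^23 + (-1)*z^24 + 1*z^26 + (-1)*z^27, by simp only [QIII_7, F3]; ring⟩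

lemma bIII_7_4 (z : ℤ) : Bz (QIII_7 z) (F4 z) 17 :=
  ⟨4 + 1*z, 1 + (-4)*z + 3*z^2 + 9*z^3 + 2*z^4 + (-4)*z^5 + (-1)*z^6 + (-4)*z^11 + (-1)*z^12 + (-4)*z^17 + (-1)*z^18 + (-4)*z^23 + (-1)*z^24 + 4*z^25 + 1*z^26 + (-4)*z^27 + (-1)*z^28, by simp only [QIII_7, F4]; ring⟩

lemma bIII_7_5 (z : ℤ) : Bz (QIII_7 z) (F5 z) 2 :=
  ⟨1, (-2) + 2*z + 1*z^2 + (-2)*z^5 + 1*z^6 + 1*z^8 + (-2)*z^10 + 1*z^12 + 1*z^14 + (-2)*z^15 + 1*z^18 + (-1)*z^20 + 1*z^24 + (-1)*z^25, by simp only [QIII_7, F5]; ring⟩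

lemma bIII_7_6 (z : ℤ) : Bz (QIII_7 z) (F6 z) 9 :=
  ⟨1, 5 + 5*z + 1*z^2 + (-3)*z^3 + (-3)*z^4 + 1*z^5 + 4*z^6 + 2*z^7 + (-2)*z^8 + (-4)*z^9 + (-2)*z^10 + 1*z^11 + 3*z^12 + 1*z^13 + (-2)*z^14 + (-3)*z^15 + (-1)*z^16 + 1*z^17 + 2*z^18 + (-2)*z^20 + (-2)*z^21 + 1*z^23 + 1*z^24 + (-1)*z^26 + (-1)*z^27, by simp only [QIII_7, F6]; ring⟩

lemma bIII_7_7 (z : ℤ) : Bz (QIII_7 z) (F7 z) 91 :=
  ⟨24 + 5*z^2 + 4*z^3 + 4*z^4 + 5*z^5, (-5) + 5*z + 4*z^2 + 4*z^3 + 5*z^4 + (-24)*z^7 + 24*z^8 + (-5)*z^9 + 1*z^10 + (-24)*z^11 + 23*z^12 + (-24)*z^13 + 1*z^14 + 19*z^15 + (-5)*z^16 + (-18)*z^17 + (-1)*z^18 + (-1)*z^19 + 1*z^20 + (-4)*z^21 + 19*z^22 + (-24)*z^23 + 5*z^24 + (-1)*z^25 + 1*z^27 + (-5)*z^28, by simp only [QIII_7, F7]; ring⟩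

lemma bIII_7_8 (z : ℤ) : Bz (QIII_7 z) (F8 z) 219 :=
  ⟨43 + (-3)*z + 7*z^2 + 8*z^3, 47 + 12*z + 15*z^2 + 8*z^3 + 43*z^5 + (-3)*z^6 + (-36)*z^7 + 11*z^8 + (-50)*z^9 + (-5)*z^10 + (-7)*z^11 + (-8)*z^12 + (-43)*z^17 + 3*z^18 + (-50)*z^19 + (-5)*z^20 + 36*z^21 + (-11)*z^22 + 7*z^23 + 8*z^24 + (-43)*z^25 + 3*z^26 + (-7)*z^27 + (-8)*z^28, by simp only [QIII_7, F8]; ring⟩

lemma bIII_7_9 (z : ℤ) : Bz (QIII_7 z) (F9 z) 7129 :=
  ⟨1871 + (-91)*z + (-228)*z^2 + 438*z^3 + 314*z^4 + 160*z^5, (-355) + 364*z + 2783*z^2 + 383*z^3 + (-68)*z^4 + (-1433)*z^5 + 405*z^6 + (-1483)*z^7 + (-347)*z^8 + (-86)*z^9 + 1273*z^10 + (-405)*z^11 + (-388)*z^12 + (-1433)*z^13 + 405*z^14 + 388*z^15 + (-438)*z^16 + (-2185)*z^17 + (-69)*z^18 + 228*z^19 + 1433*z^20 + (-405)*z^21 + (-388)*z^22 + (-1433)*z^23 + 405*z^24 + 388*z^25 + (-438)*z^26 + (-314)*z^27 + (-160)*z^28, by simp only [QIII_7, F9]; ring⟩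

lemma bIII_7_10 (z : ℤ) : Bz (QIII_7 z) (F10 z) 362 :=
  ⟨39 + 13*z + (-4)*z^2 + 16*z^3, 206 + 154*z + 3*z^2 + 43*z^3 + 36*z^4 + (-94)*z^5 + (-65)*z^6 + (-5)*z^7 + (-67)*z^8 + (-29)*z^9 + 82*z^10 + 10*z^11 + (-47)*z^12 + 19*z^13 + (-35)*z^14 + (-107)*z^15 + (-22)*z^16 + (-8)*z^17 + (-71)*z^18 + (-13)*z^19 + 43*z^20 + (-3)*z^21 + (-4)*z^22 + 16*z^23 + (-39)*z^24 + (-52)*z^25 + (-9)*z^26 + (-12)*z^27 + (-16)*z^28, by simp only [QIII_7, F10]; ring⟩

lemma bIII_7_12 (z : ℤ) : Bz (QIII_7 z) (F12 z) 481 :=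
  ⟨77 + (-32)*z + 30*z^2 + 50*z^3, 173 + 128*z + 130*z^2 + (-27)*z^3 + 32*z^4 + (-30)*z^5 + (-50)*z^6 + (-77)*z^11 + 32*z^12 + (-184)*z^13 + 14*z^14 + (-137)*z^15 + (-68)*z^16 + (-30)*z^17 + (-50)*z^18 + (-77)*z^23 + 32*z^24 + (-107)*z^25 + (-18)*z^26 + (-30)*z^27 + (-50)*z^28, by simp only [QIII_7, F12]; ring⟩

lemma bIII_7_14 (z : ℤ) : Bz (QIII_7 z) (F14 z) 8023 :=
  ⟨1580 + (-168)*z + 69*z^2 + 330*z^3 + 250*z^4 + 573*z^5, 1703 + 2375*z + 1976*z^2 + 1396*z^3 + 573*z^4 + (-1580)*z^7 + (-1412)*z^8 + 99*z^9 + (-399)*z^10 + (-2160)*z^11 + (-2235)*z^12 + (-2054)*z^13 + (-231)*z^14 + 931*z^15 + (-1321)*z^16 + (-2334)*z^17 + (-75)*z^18 + 181*z^19 + 243*z^20 + (-250)*z^21 + (-2153)*z^22 + (-1412)*z^23 + 99*z^24 + (-399)*z^25 + (-580)*z^26 + (-823)*z^27 + (-573)*z^28, by simp only [QIII_7, F14]; ring⟩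

lemma bIII_7_15 (z : ℤ) : Bz (QIII_7 z) (F15 z) 1354621 :=
  ⟨177350 + 55360*z + 67294*z^2 + (-13829)*z^3 + 92767*z^4 + 20512*z^5 + (-9519)*z^6 + 87729*z^7, 645221 + 423781*z + 331955*z^2 + (-25240)*z^3 + 125136*z^4 + (-224132)*z^5 + (-51050)*z^6 + (-249682)*z^7 + (-62043)*z^8 + (-327892)*z^9 + (-149772)*z^10 + (-327892)*z^11 + (-149772)*z^12 + (-327892)*z^13 + (-149772)*z^14 + (-150542)*z^15 + 82938*z^16 + (-27888)*z^17 + (-40947)*z^18 + (-181660)*z^19 + (-227672)*z^20 + (-279492)*z^21 + (-118344)*z^22 + (-58503)*z^23 + (-99450)*z^24 + (-103760)*z^25 + (-98722)*z^26 + (-78210)*z^27 + (-87729)*z^28, by simp only [QIII_7, F15]; ring⟩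

lemma bIII_7_18 (z : ℤ) : Bz (QIII_7 z) (F18 z) 2649 :=
  ⟨423 + (-283)*z + 62*z^2 + 72*z^3 + 290*z^4 + 236*z^5, 957 + 1132*z + 175*z^2 + 809*z^3 + 174*z^4 + (-495)*z^5 + (-7)*z^6 + (-721)*z^7 + 211*z^8 + (-352)*z^9 + (-731)*z^10 + (-7)*z^11 + (-298)*z^12 + (-495)*z^13 + (-7)*z^14 + (-298)*z^15 + (-72)*z^16 + (-713)*z^17 + 47*z^18 + (-62)*z^19 + (-495)*z^20 + (-7)*z^21 + (-298)*z^22 + (-495)*z^23 + (-7)*z^24 + (-298)*z^25 + (-72)*z^26 + (-290)*z^27 + (-236)*z^28, by simp only [QIII_7, F18]; ring⟩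

lemma bIII_7_20 (z : ℤ) : Bz (QIII_7 z) (F20 z) 25882 :=
  ⟨3533 + (-1493)*z + 1552*z^2 + 2073*z^3 + (-277)*z^4 + 172*z^5 + 2200*z^6 + 2605*z^7, 11750 + 5972*z + 9075*z^2 + (-280)*z^3 + 2025*z^4 + (-1275)*z^5 + (-2245)*z^6 + (-5456)*z^7 + (-1284)*z^8 + (-7285)*z^9 + (-3185)*z^10 + (-1275)*z^11 + (-2245)*z^12 + (-5456)*z^13 + (-1284)*z^14 + (-7285)*z^15 + (-3185)*z^16 + (-1275)*z^17 + (-2245)*z^18 + (-5456)*z^19 + (-1284)*z^20 + (-7285)*z^21 + (-3185)*z^22 + (-1275)*z^23 + (-2245)*z^24 + (-1923)*z^25 + (-2777)*z^26 + (-2200)*z^27 + (-2605)*z^28, by simp only [QIII_7, F20]; ring⟩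

lemma bIII_7_24 (z : ℤ) : Bz (QIII_7 z) (F24 z) 29307 :=
  ⟨4164 + (-1709)*z + (-1525)*z^2 + (-1075)*z^3 + 2445*z^4 + 3325*z^5 + 2504*z^6 + 2726*z^7, 12651 + 6836*z + 10264*z^2 + 6755*z^3 + 3801*z^4 + (-6609)*z^5 + (-1616)*z^6 + (-5143)*z^7 + 58*z^8 + (-920)*z^9 + (-2250)*z^10 + (-13277)*z^11 + (-2633)*z^12 + 546*z^13 + (-576)*z^14 + (-9054)*z^15 + (-4941)*z^16 + (-7647)*z^17 + (-2668)*z^18 + (-920)*z^19 + (-2250)*z^20 + (-9113)*z^21 + (-4342)*z^22 + (-979)*z^23 + (-1651)*z^24 + (-2445)*z^25 + (-3325)*z^26 + (-2504)*z^27 + (-2726)*z^28, by simp only [QIII_7, F24]; ring⟩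

lemma bIII_7_30 (z : ℤ) : Bz (QIII_7 z) (F30 z) 8641 :=
  ⟨1650 + (-1698)*z + (-2022)*z^2 + (-1035)*z^3 + 293*z^4 + 1966*z^5 + 1761*z^6 + 999*z^7, 2041 + 4751*z + 4987*z^2 + 1146*z^3 + 2404*z^4 + (-1594)*z^5 + 972*z^6 + (-920)*z^7 + 767*z^8 + (-1682)*z^9 + (-232)*z^10 + (-1682)*z^11 + (-232)*z^12 + (-1682)*z^13 + (-232)*z^14 + (-32)*z^15 + (-3580)*z^16 + (-356)*z^17 + (-943)*z^18 + (-2376)*z^19 + 2056*z^20 + (-3292)*z^21 + (-1050)*z^22 + (-305)*z^23 + (-638)*z^24 + (-88)*z^25 + (-1204)*z^26 + (-762)*z^27 + (-999)*z^28, by simp only [QIII_7, F30]; ring⟩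

lemma bigIII_7 (s : ℤ) (hs : 0 ≤ s) : (59030349034314743491498968031211842102229501816898625982233654731648 : ℤ) < QIII_7 (s + 218) := by
  have h : 0 ≤ 6318555918394636041444103052411958418843518552685741248026511220487 + 8693202952424625474529884144753639513082205596806667835565615125808*s + 558279088687819100637049009888135255896701769458506807849697767721*s^2 + 23048219257753969831732413636278466482189325975240925159562522207*s^3 + 687217546676149760518517276437804572817832991638367691680073909*s^4 + 15761870336608926321696157567869678434654284006812494299314419*s^5 + 289208630029521393016583352554227628614300100450299391330998*s^6 + 4358976730458052820289594137959732972983360378062061642657*s^7 + 54987091783301103080710654993705474747182406512025188008*s^8 + 588546853949705817309312730904528671724259926061975532*s^9 + 5399512421556932872328051573467063497101311290608398*s^10 + 42781791496906466778254138853808830983870638183417*s^11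 + 294370124978714185224567146866960518393472523410*s^12 + 1765805266280219026145719093202316179651751873*s^13 + 9257170465427097888033446739310246053984704*s^14 + 42464084703794025341946217792061901307744*s^15 + 170440706953301702918811173526630335458*s^16 + 597876198163227766736675497559580493*s^17 + 1828367578480818841954533030895054*s^18 + 4855635770953405881722694596721*s^19 + 11136779291177536398447526712*s^20 + 21894061516076414913923092*s^21 + 36520536307049899757974*s^22 + 50985990057708276481*s^23 + 58470172084527840*s^24 + 53642359710576*s^25 + 37856287728*s^26 + 19294744*s^27 + 6322*s^28 + 1*s^29 := by positivity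
  have e : QIII_7 (s + 218) - (59030349034314743491498968031211842102229501816898625982233654731648 + 1) = 6318555918394636041444103052411958418843518552685741248026511220487 + 8693202952424625474529884144753639513082205596806667835565615125808*s + 558279088687819100637049009888135255896701769458506807849697767721*s^2 + 23048219257753969831732413636278466482189325975240925159562522207*s^3 + 687217546676149760518517276437804572817832991638367691680073909*s^4 + 15761870336608926321696157567869678434654284006812494299314419*s^5 + 289208630029521393016583352554227628614300100450299391330998*s^6 + 4358976730458052820289594137959732972983360378062061642657*s^7 + 54987091783301103080710654993705474747182406512025188008*s^8 + 588546853949705817309312730904528671724259926061975532*s^9 + 5399512421556932872328051573467063497101311290608398*s^10 + 42781791496906466778254138853808830983870638183417*s^11 + 294370124978714185224567146866960518393472523410*s^12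 + 1765805266280219026145719093202316179651751873*s^13 + 9257170465427097888033446739310246053984704*s^14 + 42464084703794025341946217792061901307744*s^15 + 170440706953301702918811173526630335458*s^16 + 597876198163227766736675497559580493*s^17 + 1828367578480818841954533030895054*s^18 + 4855635770953405881722694596721*s^19 + 11136779291177536398447526712*s^20 + 21894061516076414913923092*s^21 + 36520536307049899757974*s^22 + 50985990057708276481*s^23 + 58470172084527840*s^24 + 53642359710576*s^25 + 37856287728*s^26 + 19294744*s^27 + 6322*s^28 + 1*s^29 := by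
    simp only [QIII_7]; ring
  linarith

set_option maxHeartbeats 4000000 in
theorem noIII_7 {q : ℕ} (hq : IsPrimePow q) : ¬ (k08 q + a07 q + k0 q + 7) ∣ NN8 q := by
  intro hd
  have hq2 : 2 ≤ q := hq.two_le
  have hz1 : 1 ≤ q := by omega
  by_cases hB : q < 218
  · refine chk_ok (g := fun q => k08' q + a07' q + k0' q + 7) (B := 218) (by decide +kernel) hq2 hB ?_
    show k08' q + a07' q + k0' q + 7 ∣ NN8 q
    rw [← k08_eq hz1, ← a07_eq hz1, ← k0_eq hz1]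
    exact hd
  · obtain ⟨p, k, hp, hk, hpk⟩ := (isPrimePow_nat_iff q).mp hq
    have hd' : ((k08 q + a07 q + k0 q + 7 : ℕ) : ℤ) ∣ (NN8 q : ℤ) := Int.natCast_dvd_natCast.mpr hd
    have e1 : ((k08 q + a07 q + k0 q + 7 : ℕ) : ℤ) = (1) * QIII_7 (q : ℤ) := by
      push_cast
      rw [k08_cast hz1, a07_cast hz1, k0_cast hz1]
      simp only [QIII_7]
      ring
    rw [e1, NN8_cast hz1, NN8_fac] at hd'
    have hQ := Dvd.dvd.trans (Dvd.intro_left _ rfl) hd'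
    have hz : (q : ℤ) = (p : ℤ) ^ k := by rw [← hpk]; push_cast; rfl
    have hqB : (218 : ℤ) ≤ (q : ℤ) := by exact_mod_cast not_lt.mp hB
    have hR : QIII_7 (q : ℤ) = (4 : ℤ) + (q : ℤ) * ((-1)*(q : ℤ) + (-1)*(q : ℤ)^2 + (-1)*(q : ℤ)^3 + (-1)*(q : ℤ)^4 + 1*(q : ℤ)^6 + 1*(q : ℤ)^10 + 1*(q : ℤ)^12 + 1*(q : ℤ)^16 + 1*(q : ℤ)^18 + 1*(q : ℤ)^22 + 1*(q : ℤ)^28) := by
      simp only [QIII_7]; ring
    have hgo := cofree' hp hz hR (nd (c0 := 4) (by linarith) (by norm_num)).1 hQ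
    have h1 : QIII_7 (q : ℤ) ∣ 59030349034314743491498968031211842102229501816898625982233654731648 := by
      have h2 := chainE (bIII_7_1 _) (bIII_7_2 _) (bIII_7_3 _) (bIII_7_4 _) (bIII_7_5 _) (bIII_7_6 _) (bIII_7_7 _) (bIII_7_8 _) (bIII_7_9 _) (bIII_7_10 _) (bIII_7_12 _) (bIII_7_14 _) (bIII_7_15 _) (bIII_7_18 _) (bIII_7_20 _) (bIII_7_24 _) (bIII_7_30 _) hgo
      have e2 : ((((((((((((((((((((4 : ℤ)) * 7^8) * 3^8) * 1^4) * 17^4) * 2^2) * 9^4) * 91^1) * 219^2) * 7129^1) * 362^2) * 481^2) * 8023^1) * 1354621^1) * 2649^1) * 25882^1) * 29307^1) * 8641^1) * 1) = 59030349034314743491498968031211842102229501816898625982233654731648 := by norm_num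
      rwa [e2] at h2
    obtain ⟨s, rfl⟩ : ∃ s, q = s + 218 := ⟨q - 218, by omega⟩
    have hbig := bigIII_7 (s : ℤ) (Int.natCast_nonneg s)
    have e3 : ((s + 218 : ℕ) : ℤ) = (s : ℤ) + 218 := by push_cast; ring
    rw [e3] at h1
    have hle := Int.le_of_dvd (by norm_num) h1
    linarith

end sIII_7

section sIII_8

/-- The cofactor. -/
def QIII_8 (z : ℤ) : ℤ := 5 + (-1)*z^2 + (-1)*z^3 + (-1)*z^4 + (-1)*z^5 + 1*z^7 + 1*z^11 + 1*z^13 + 1*z^17 + 1*z^19 + 1*z^23 + 1*z^29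

lemma bIII_8_1 (z : ℤ) : Bz (QIII_8 z) (F1 z) 8 :=
  ⟨1, (-3) + (-3)*z + (-4)*z^2 + (-5)*z^3 + (-6)*z^4 + (-7)*z^5 + (-7)*z^6 + (-6)*z^7 + (-6)*z^8 + (-6)*z^9 + (-6)*z^10 + (-5)*z^11 + (-5)*z^12 + (-4)*z^13 + (-4)*z^14 + (-4)*z^15 + (-4)*z^16 + (-3)*z^17 + (-3)*z^18 + (-2)*z^19 + (-2)*z^20 + (-2)*z^21 + (-2)*z^22 + (-1)*z^23 + (-1)*z^24 + (-1)*z^25 + (-1)*z^26 + (-1)*z^27 + (-1)*z^28, by simp only [QIII_8, F1]; ring⟩

lemma bIII_8_2 (z : ℤ) : Bz (QIII_8 z) (F2 z) 2 :=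
  ⟨(-1), 7 + (-7)*z + 6*z^2 + (-7)*z^3 + 6*z^4 + (-7)*z^5 + 7*z^6 + (-6)*z^7 + 6*z^8 + (-6)*z^9 + 6*z^10 + (-5)*z^11 + 5*z^12 + (-4)*z^13 + 4*z^14 + (-4)*z^15 + 4*z^16 + (-3)*z^17 + 3*z^18 + (-2)*z^19 + 2*z^20 + (-2)*z^21 + 2*z^22 + (-1)*z^23 + 1*z^24 + (-1)*z^25 + 1*z^26 + (-1)*z^27 + 1*z^28, by simp only [QIII_8, F2]; ring⟩

lemma bIII_8_3 (z : ℤ) : Bz (QIII_8 z) (F3 z) 2 :=
  ⟨1, (-3) + 3*z + 1*z^2 + (-3)*z^3 + 3*z^4 + 1*z^5 + (-4)*z^6 + 2*z^7 + 2*z^8 + (-4)*z^9 + 2*z^10 + 1*z^11 + (-3)*z^12 + 1*z^13 + 2*z^14 + (-3)*z^15 + 1*z^16 + 1*z^17 + (-2)*z^18 + 2*z^20 + (-2)*z^21 + 1*z^23 + (-1)*z^24 + 1*z^26 + (-1)*z^27, by simp only [QIII_8, F3]; ring⟩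

lemma bIII_8_4 (z : ℤ) : Bz (QIII_8 z) (F4 z) 26 :=
  ⟨5 + 1*z, 1 + (-5)*z + 4*z^2 + 11*z^3 + 2*z^4 + (-5)*z^5 + (-1)*z^6 + (-5)*z^11 + (-1)*z^12 + (-5)*z^17 + (-1)*z^18 + (-5)*z^23 + (-1)*z^24 + 5*z^25 + 1*z^26 + (-5)*z^27 + (-1)*z^28, by simp only [QIII_8, F4]; ring⟩

lemma bIII_8_5 (z : ℤ) : Bz (QIII_8 z) (F5 z) 3 :=
  ⟨1, (-2) + 2*z + 1*z^2 + (-2)*z^5 + 1*z^6 + 1*z^8 + (-2)*z^10 + 1*z^12 + 1*z^14 + (-2)*z^15 + 1*z^18 + (-1)*z^20 + 1*z^24 + (-1)*z^25, by simp only [QIII_8, F5]; ring⟩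

lemma bIII_8_6 (z : ℤ) : Bz (QIII_8 z) (F6 z) 10 :=
  ⟨1, 5 + 5*z + 1*z^2 + (-3)*z^3 + (-3)*z^4 + 1*z^5 + 4*z^6 + 2*z^7 + (-2)*z^8 + (-4)*z^9 + (-2)*z^10 + 1*z^11 + 3*z^12 + 1*z^13 + (-2)*z^14 + (-3)*z^15 + (-1)*z^16 + 1*z^17 + 2*z^18 + (-2)*z^20 + (-2)*z^21 + 1*z^23 + 1*z^24 + (-1)*z^26 + (-1)*z^27, by simp only [QIII_8, F6]; ring⟩

lemma bIII_8_7 (z : ℤ) : Bz (QIII_8 z) (F7 z) 169 :=
  ⟨35 + 6*z^2 + 5*z^3 + 5*z^4 + 6*z^5, (-6) + 6*z + 5*z^2 + 5*z^3 + 6*z^4 + (-35)*z^7 + 35*z^8 + (-6)*z^9 + 1*z^10 + (-35)*z^11 + 34*z^12 + (-35)*z^13 + 1*z^14 + 29*z^15 + (-6)*z^16 + (-28)*z^17 + (-1)*z^18 + (-1)*z^19 + 1*z^20 + (-5)*z^21 + 29*z^22 + (-35)*z^23 + 6*z^24 + (-1)*z^25 + 1*z^27 + (-6)*z^28, by simp only [QIII_8, F7]; ring⟩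

lemma bIII_8_8 (z : ℤ) : Bz (QIII_8 z) (F8 z) 1346 :=
  ⟨221 + (-11)*z + 31*z^2 + 35*z^3, 241 + 55*z + 66*z^2 + 35*z^3 + 221*z^5 + (-11)*z^6 + (-190)*z^7 + 46*z^8 + (-252)*z^9 + (-24)*z^10 + (-31)*z^11 + (-35)*z^12 + (-221)*z^17 + 11*z^18 + (-252)*z^19 + (-24)*z^20 + 190*z^21 + (-46)*z^22 + 31*z^23 + 35*z^24 + (-221)*z^25 + 11*z^26 + (-31)*z^27 + (-35)*z^28, by simp only [QIII_8, F8]; ring⟩

lemma bIII_8_9 (z : ℤ) : Bz (QIII_8 z) (F9 z) 24859 :=
  ⟨5143 + (-158)*z + (-435)*z^2 + 956*z^3 + 744*z^4 + 475*z^5, (-856) + 790*z + 7318*z^2 + 1061*z^3 + 40*z^4 + (-4187)*z^5 + 902*z^6 + (-4233)*z^7 + (-798)*z^8 + (-309)*z^9 + 3712*z^10 + (-902)*z^11 + (-910)*z^12 + (-4187)*z^13 + 902*z^14 + 910*z^15 + (-956)*z^16 + (-5887)*z^17 + (-317)*z^18 + 435*z^19 + 4187*z^20 + (-902)*z^21 + (-910)*z^22 + (-4187)*z^23 + 902*z^24 + 910*z^25 + (-956)*z^26 + (-744)*z^27 + (-475)*z^28, by simp only [QIII_8, F9]; ring⟩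

lemma bIII_8_10 (z : ℤ) : Bz (QIII_8 z) (F10 z) 4741 :=
  ⟨469 + 134*z + (-36)*z^2 + 162*z^3, 2396 + 1726*z + (-21)*z^2 + 442*z^3 + 360*z^4 + (-1100)*z^5 + (-737)*z^6 + (-62)*z^7 + (-757)*z^8 + (-296)*z^9 + 974*z^10 + 106*z^11 + (-541)*z^12 + 190*z^13 + (-433)*z^14 + (-1234)*z^15 + (-232)*z^16 + (-90)*z^17 + (-793)*z^18 + (-134)*z^19 + 505*z^20 + (-28)*z^21 + (-36)*z^22 + 162*z^23 + (-469)*z^24 + (-603)*z^25 + (-98)*z^26 + (-126)*z^27 + (-162)*z^28, by simp only [QIII_8, F10]; ring⟩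

lemma bIII_8_12 (z : ℤ) : Bz (QIII_8 z) (F12 z) 122 :=
  ⟨17 + (-5)*z + 6*z^2 + 9*z^3, 37 + 25*z + 24*z^2 + (-8)*z^3 + 5*z^4 + (-6)*z^5 + (-9)*z^6 + (-17)*z^11 + 5*z^12 + (-40)*z^13 + 1*z^14 + (-29)*z^15 + (-13)*z^16 + (-6)*z^17 + (-9)*z^18 + (-17)*z^23 + 5*z^24 + (-23)*z^25 + (-4)*z^26 + (-6)*z^27 + (-9)*z^28, by simp only [QIII_8, F12]; ring⟩

lemma bIII_8_14 (z : ℤ) : Bz (QIII_8 z) (F14 z) 24907 :=
  ⟨4159 + (-258)*z + 210*z^2 + 793*z^3 + 561*z^4 + 1242*z^5, 4112 + 5402*z + 4399*z^2 + 3045*z^3 + 1242*z^4 + (-4159)*z^7 + (-3901)*z^8 + 48*z^9 + (-1003)*z^10 + (-5513)*z^11 + (-5704)*z^12 + (-5353)*z^13 + (-745)*z^14 + 2595*z^15 + (-2854)*z^16 + (-5752)*z^17 + (-191)*z^18 + 351*z^19 + 449*z^20 + (-561)*z^21 + (-5401)*z^22 + (-3901)*z^23 + 48*z^24 + (-1003)*z^25 + (-1354)*z^26 + (-1803)*z^27 + (-1242)*z^28, by simp only [QIII_8, F14]; ring⟩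

lemma bIII_8_15 (z : ℤ) : Bz (QIII_8 z) (F15 z) 161913 :=
  ⟨20100 + 4974*z + 5786*z^2 + (-296)*z^3 + 7789*z^4 + 2251*z^5 + (-398)*z^6 + 6824*z^7, 61413 + 36543*z + 27713*z^2 + (-7146)*z^3 + 9639*z^4 + (-23635)*z^5 + (-5076)*z^6 + (-26851)*z^7 + (-6929)*z^8 + (-33277)*z^9 + (-13753)*z^10 + (-33277)*z^11 + (-13753)*z^12 + (-33277)*z^13 + (-13753)*z^14 + (-13177)*z^15 + 11321*z^16 + (-2417)*z^17 + (-3289)*z^18 + (-19998)*z^19 + (-24109)*z^20 + (-28609)*z^21 + (-10862)*z^22 + (-6455)*z^23 + (-9744)*z^24 + (-9642)*z^25 + (-8677)*z^26 + (-6426)*z^27 + (-6824)*z^28, by simp only [QIII_8, F15]; ring⟩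

lemma bIII_8_18 (z : ℤ) : Bz (QIII_8 z) (F18 z) 21493 :=
  ⟨3075 + (-1420)*z + 481*z^2 + 652*z^3 + 1656*z^4 + 1437*z^5, 6118 + 7100*z + 670*z^2 + 4513*z^3 + 956*z^4 + (-3727)*z^5 + (-236)*z^6 + (-4993)*z^7 + 768*z^8 + (-2137)*z^9 + (-5164)*z^10 + (-236)*z^11 + (-1918)*z^12 + (-3727)*z^13 + (-236)*z^14 + (-1918)*z^15 + (-652)*z^16 + (-4731)*z^17 + (-17)*z^18 + (-481)*z^19 + (-3727)*z^20 + (-236)*z^21 + (-1918)*z^22 + (-3727)*z^23 + (-236)*z^24 + (-1918)*z^25 + (-652)*z^26 + (-1656)*z^27 + (-1437)*z^28, by simp only [QIII_8, F18]; ring⟩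

lemma bIII_8_20 (z : ℤ) : Bz (QIII_8 z) (F20 z) 785641 :=
  ⟨103733 + (-21083)*z + 37825*z^2 + 46343*z^3 + 1847*z^4 + 11485*z^5 + 46800*z^6 + 51108*z^7, 266976 + 105415*z + 181584*z^2 + (-43650)*z^3 + 25848*z^4 + (-39672)*z^5 + (-57828)*z^6 + (-152380)*z^7 + (-41510)*z^8 + (-188358)*z^9 + (-76368)*z^10 + (-39672)*z^11 + (-57828)*z^12 + (-152380)*z^13 + (-41510)*z^14 + (-188358)*z^15 + (-76368)*z^16 + (-39672)*z^17 + (-57828)*z^18 + (-152380)*z^19 + (-41510)*z^20 + (-188358)*z^21 + (-76368)*z^22 + (-39672)*z^23 + (-57828)*z^24 + (-48647)*z^25 + (-62593)*z^26 + (-46800)*z^27 + (-51108)*z^28, by simp only [QIII_8, F20]; ring⟩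

lemma bIII_8_24 (z : ℤ) : Bz (QIII_8 z) (F24 z) 44882 :=
  ⟨6005 + (-1283)*z + (-918)*z^2 + (-342)*z^3 + 3108*z^4 + 3798*z^5 + 2735*z^6 + 2779*z^7, 14857 + 6415*z + 10595*z^2 + 6432*z^3 + 3121*z^4 + (-9113)*z^5 + (-2515)*z^6 + (-7822)*z^7 + (-1154)*z^8 + (-2190)*z^9 + (-3456)*z^10 + (-17853)*z^11 + (-4011)*z^12 + (-899)*z^13 + (-2095)*z^14 + (-12221)*z^15 + (-6313)*z^16 + (-10557)*z^17 + (-3933)*z^18 + (-2190)*z^19 + (-3456)*z^20 + (-11848)*z^21 + (-5294)*z^22 + (-1817)*z^23 + (-2437)*z^24 + (-3108)*z^25 + (-3798)*z^26 + (-2735)*z^27 + (-2779)*z^28, by simp only [QIII_8, F24]; ring⟩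

lemma bIII_8_30 (z : ℤ) : Bz (QIII_8 z) (F30 z) 8105 :=
  ⟨1184 + (-1228)*z + (-1288)*z^2 + (-444)*z^3 + 531*z^4 + 1617*z^5 + 1432*z^6 + 764*z^7, 2185 + 3955*z + 3669*z^2 + 692*z^3 + 1461*z^4 + (-1513)*z^5 + 240*z^6 + (-1191)*z^7 + 55*z^8 + (-1859)*z^9 + (-709)*z^10 + (-1859)*z^11 + (-709)*z^12 + (-1859)*z^13 + (-709)*z^14 + (-675)*z^15 + (-3121)*z^16 + (-735)*z^17 + (-1093)*z^18 + (-2172)*z^19 + 1117*z^20 + (-2741)*z^21 + (-1048)*z^22 + (-451)*z^23 + (-642)*z^24 + (-346)*z^25 + (-949)*z^26 + (-668)*z^27 + (-764)*z^28, by simp only [QIII_8, F30]; ring⟩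

lemma bigIII_8 (s : ℤ) (hs : 0 ≤ s) : (891364512555901819194942509918381734814220249533161875256605161816064000000 : ℤ) < QIII_8 (s + 385) := by
  have h : 0 ≤ 60031125072245013945532623512921269335302746002928792743854700192707878279 + 71663567509652614047300145504589149568826994687390778631619975350084019305*s + 2605947909441913102088181627646535813921967731270088627277852134355543244*s^2 + 60918262818122641354528816783635014676524507580252433963099709973241209*s^3 + 1028490151474797805726990406947574827386825570355282948414833373501824*s^4 + 13357014954218152954132383364145121409485178968259649040983203003349*s^5 + 138774181342526261439925246474582085125062750730471307592214405820*s^6 + 1184343662663489409567200841871374162198740158712541994937346876*s^7 + 8459597590453495671343020157309171856403043076700272953286875*s^8 + 51270288426990882342778047713649022635396481052478568271125*s^9 + 266339160659692893285160052248172073211864330807281527735*s^10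 + 1194910047823887826302257396070036082626198992043030301*s^11 + 4655493692820342161775828584637549360984190166383130*s^12 + 15812865689899264041302330406393192884294334003126*s^13 + 46939861046083158473041262045681570165590761250*s^14 + 121921717002813398473489858424249332806512350*s^15 + 277094811370030450845581606483326023816170*s^16 + 550379304478288137379420507157504377726*s^17 + 953037756672360410761988784000454190*s^18 + 1433139483717835203919906458940626*s^19 + 1861220108724461303640488821000*s^20 + 2071859119173797369469141550*s^21 + 1956891730034283229696355*s^22 + 1546949984216824687501*s^23 + 1004512976764171875*s^24 + 521824922994375*s^25 + 208521447750*s^26 + 60179350*s^27 + 11165*s^28 + 1*s^29 := by positivity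
  have e : QIII_8 (s + 385) - (891364512555901819194942509918381734814220249533161875256605161816064000000 + 1) = 60031125072245013945532623512921269335302746002928792743854700192707878279 + 71663567509652614047300145504589149568826994687390778631619975350084019305*s + 2605947909441913102088181627646535813921967731270088627277852134355543244*s^2 + 60918262818122641354528816783635014676524507580252433963099709973241209*s^3 + 1028490151474797805726990406947574827386825570355282948414833373501824*s^4 + 13357014954218152954132383364145121409485178968259649040983203003349*s^5 + 138774181342526261439925246474582085125062750730471307592214405820*s^6 + 1184343662663489409567200841871374162198740158712541994937346876*s^7 + 8459597590453495671343020157309171856403043076700272953286875*s^8 + 51270288426990882342778047713649022635396481052478568271125*s^9 + 266339160659692893285160052248172073211864330807281527735*s^10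 + 1194910047823887826302257396070036082626198992043030301*s^11 + 4655493692820342161775828584637549360984190166383130*s^12 + 15812865689899264041302330406393192884294334003126*s^13 + 46939861046083158473041262045681570165590761250*s^14 + 121921717002813398473489858424249332806512350*s^15 + 277094811370030450845581606483326023816170*s^16 + 550379304478288137379420507157504377726*s^17 + 953037756672360410761988784000454190*s^18 + 1433139483717835203919906458940626*s^19 + 1861220108724461303640488821000*s^20 + 2071859119173797369469141550*s^21 + 1956891730034283229696355*s^22 + 1546949984216824687501*s^23 + 1004512976764171875*s^24 + 521824922994375*s^25 + 208521447750*s^26 + 60179350*s^27 + 11165*s^28 + 1*s^29 := by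
    simp only [QIII_8]; ring
  linarith

set_option maxHeartbeats 4000000 in
theorem noIII_8 {q : ℕ} (hq : IsPrimePow q) : ¬ (k08 q + a07 q + k0 q + 8) ∣ NN8 q := by
  intro hd
  have hq2 : 2 ≤ q := hq.two_le
  have hz1 : 1 ≤ q := by omega
  by_cases hB : q < 385
  · refine chk_ok (g := fun q => k08' q + a07' q + k0' q + 8) (B := 385) (by decide +kernel) hq2 hB ?_
    show k08' q + a07' q + k0' q + 8 ∣ NN8 q
    rw [← k08_eq hz1, ← a07_eq hz1, ← k0_eq hz1]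
    exact hd
  · obtain ⟨p, k, hp, hk, hpk⟩ := (isPrimePow_nat_iff q).mp hq
    have hd' : ((k08 q + a07 q + k0 q + 8 : ℕ) : ℤ) ∣ (NN8 q : ℤ) := Int.natCast_dvd_natCast.mpr hd
    have e1 : ((k08 q + a07 q + k0 q + 8 : ℕ) : ℤ) = (1) * QIII_8 (q : ℤ) := by
      push_cast
      rw [k08_cast hz1, a07_cast hz1, k0_cast hz1]
      simp only [QIII_8]
      ring
    rw [e1, NN8_cast hz1, NN8_fac] at hd'
    have hQ := Dvd.dvd.trans (Dvd.intro_left _ rfl) hd'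
    have hz : (q : ℤ) = (p : ℤ) ^ k := by rw [← hpk]; push_cast; rfl
    have hqB : (385 : ℤ) ≤ (q : ℤ) := by exact_mod_cast not_lt.mp hB
    have hR : QIII_8 (q : ℤ) = (5 : ℤ) + (q : ℤ) * ((-1)*(q : ℤ) + (-1)*(q : ℤ)^2 + (-1)*(q : ℤ)^3 + (-1)*(q : ℤ)^4 + 1*(q : ℤ)^6 + 1*(q : ℤ)^10 + 1*(q : ℤ)^12 + 1*(q : ℤ)^16 + 1*(q : ℤ)^18 + 1*(q : ℤ)^22 + 1*(q : ℤ)^28) := by
      simp only [QIII_8]; ring
    have hgo := cofree' hp hz hR (nd (c0 := 5) (by linarith) (by norm_num)).1 hQ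
    have h1 : QIII_8 (q : ℤ) ∣ 891364512555901819194942509918381734814220249533161875256605161816064000000 := by
      have h2 := chainE (bIII_8_1 _) (bIII_8_2 _) (bIII_8_3 _) (bIII_8_4 _) (bIII_8_5 _) (bIII_8_6 _) (bIII_8_7 _) (bIII_8_8 _) (bIII_8_9 _) (bIII_8_10 _) (bIII_8_12 _) (bIII_8_14 _) (bIII_8_15 _) (bIII_8_18 _) (bIII_8_20 _) (bIII_8_24 _) (bIII_8_30 _) hgo
      have e2 : ((((((((((((((((((((5 : ℤ)) * 8^8) * 2^8) * 2^4) * 26^4) * 3^2) * 10^4) * 169^1) * 1346^2) * 24859^1) * 4741^2) * 122^2) * 24907^1) * 161913^1) * 21493^1) * 785641^1) * 44882^1) * 8105^1) * 1) = 891364512555901819194942509918381734814220249533161875256605161816064000000 := by norm_num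
      rwa [e2] at h2
    obtain ⟨s, rfl⟩ : ∃ s, q = s + 385 := ⟨q - 385, by omega⟩
    have hbig := bigIII_8 (s : ℤ) (Int.natCast_nonneg s)
    have e3 : ((s + 385 : ℕ) : ℤ) = (s : ℤ) + 385 := by push_cast; ring
    rw [e3] at h1
    have hle := Int.le_of_dvd (by norm_num) h1
    linarith

end sIII_8

section sIII_9

/-- The cofactor. -/
def QIII_9 (z : ℤ) : ℤ := 6 + (-1)*z^2 + (-1)*z^3 + (-1)*z^4 + (-1)*z^5 + 1*z^7 + 1*z^11 + 1*z^13 + 1*z^17 + 1*z^19 + 1*z^23 + 1*z^29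

lemma bIII_9_1 (z : ℤ) : Bz (QIII_9 z) (F1 z) 9 :=
  ⟨1, (-3) + (-3)*z + (-4)*z^2 + (-5)*z^3 + (-6)*z^4 + (-7)*z^5 + (-7)*z^6 + (-6)*z^7 + (-6)*z^8 + (-6)*z^9 + (-6)*z^10 + (-5)*z^11 + (-5)*z^12 + (-4)*z^13 + (-4)*z^14 + (-4)*z^15 + (-4)*z^16 + (-3)*z^17 + (-3)*z^18 + (-2)*z^19 + (-2)*z^20 + (-2)*z^21 + (-2)*z^22 + (-1)*z^23 + (-1)*z^24 + (-1)*z^25 + (-1)*z^26 + (-1)*z^27 + (-1)*z^28, by simp only [QIII_9, F1]; ring⟩

lemma bIII_9_2 (z : ℤ) : Bz (QIII_9 z) (F2 z) 1 :=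
  ⟨(-1), 7 + (-7)*z + 6*z^2 + (-7)*z^3 + 6*z^4 + (-7)*z^5 + 7*z^6 + (-6)*z^7 + 6*z^8 + (-6)*z^9 + 6*z^10 + (-5)*z^11 + 5*z^12 + (-4)*z^13 + 4*z^14 + (-4)*z^15 + 4*z^16 + (-3)*z^17 + 3*z^18 + (-2)*z^19 + 2*z^20 + (-2)*z^21 + 2*z^22 + (-1)*z^23 + 1*z^24 + (-1)*z^25 + 1*z^26 + (-1)*z^27 + 1*z^28, by simp only [QIII_9, F2]; ring⟩

lemma bIII_9_3 (z : ℤ) : Bz (QIII_9 z) (F3 z) 3 :=
  ⟨1, (-3) + 3*z + 1*z^2 + (-3)*z^3 + 3*z^4 + 1*z^5 + (-4)*z^6 + 2*z^7 + 2*z^8 + (-4)*z^9 + 2*z^10 + 1*z^11 + (-3)*z^12 + 1*z^13 + 2*z^14 + (-3)*z^15 + 1*z^16 + 1*z^17 + (-2)*z^18 + 2*z^20 + (-2)*z^21 + 1*z^23 + (-1)*z^24 + 1*z^26 + (-1)*z^27, by simp only [QIII_9, F3]; ring⟩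

lemma bIII_9_4 (z : ℤ) : Bz (QIII_9 z) (F4 z) 37 :=
  ⟨6 + 1*z, 1 + (-6)*z + 5*z^2 + 13*z^3 + 2*z^4 + (-6)*z^5 + (-1)*z^6 + (-6)*z^11 + (-1)*z^12 + (-6)*z^17 + (-1)*z^18 + (-6)*z^23 + (-1)*z^24 + 6*z^25 + 1*z^26 + (-6)*z^27 + (-1)*z^28, by simp only [QIII_9, F4]; ring⟩

lemma bIII_9_5 (z : ℤ) : Bz (QIII_9 z) (F5 z) 4 :=
  ⟨1, (-2) + 2*z + 1*z^2 + (-2)*z^5 + 1*z^6 + 1*z^8 + (-2)*z^10 + 1*z^12 + 1*z^14 + (-2)*z^15 + 1*z^18 + (-1)*z^20 + 1*z^24 + (-1)*z^25, by simp only [QIII_9, F5]; ring⟩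

lemma bIII_9_6 (z : ℤ) : Bz (QIII_9 z) (F6 z) 11 :=
  ⟨1, 5 + 5*z + 1*z^2 + (-3)*z^3 + (-3)*z^4 + 1*z^5 + 4*z^6 + 2*z^7 + (-2)*z^8 + (-4)*z^9 + (-2)*z^10 + 1*z^11 + 3*z^12 + 1*z^13 + (-2)*z^14 + (-3)*z^15 + (-1)*z^16 + 1*z^17 + 2*z^18 + (-2)*z^20 + (-2)*z^21 + 1*z^23 + 1*z^24 + (-1)*z^26 + (-1)*z^27, by simp only [QIII_9, F6]; ring⟩

lemma bIII_9_7 (z : ℤ) : Bz (QIII_9 z) (F7 z) 281 :=
  ⟨48 + 7*z^2 + 6*z^3 + 6*z^4 + 7*z^5, (-7) + 7*z + 6*z^2 + 6*z^3 + 7*z^4 + (-48)*z^7 + 48*z^8 + (-7)*z^9 + 1*z^10 + (-48)*z^11 + 47*z^12 + (-48)*z^13 + 1*z^14 + 41*z^15 + (-7)*z^16 + (-40)*z^17 + (-1)*z^18 + (-1)*z^19 + 1*z^20 + (-6)*z^21 + 41*z^22 + (-48)*z^23 + 7*z^24 + (-1)*z^25 + 1*z^27 + (-7)*z^28, by simp only [QIII_9, F7]; ring⟩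

lemma bIII_9_8 (z : ℤ) : Bz (QIII_9 z) (F8 z) 2473 :=
  ⟨349 + (-13)*z + 43*z^2 + 48*z^3, 379 + 78*z + 91*z^2 + 48*z^3 + 349*z^5 + (-13)*z^6 + (-306)*z^7 + 61*z^8 + (-392)*z^9 + (-35)*z^10 + (-43)*z^11 + (-48)*z^12 + (-349)*z^17 + 13*z^18 + (-392)*z^19 + (-35)*z^20 + 306*z^21 + (-61)*z^22 + 43*z^23 + 48*z^24 + (-349)*z^25 + 13*z^26 + (-43)*z^27 + (-48)*z^28, by simp only [QIII_9, F8]; ring⟩

lemma bIII_9_9 (z : ℤ) : Bz (QIII_9 z) (F9 z) 23223 :=
  ⟨3967 + (-85)*z + (-246)*z^2 + 614*z^3 + 502*z^4 + 360*z^5, (-579) + 510*z + 5443*z^2 + 777*z^3 + 114*z^4 + (-3353)*z^5 + 587*z^6 + (-3361)*z^7 + (-529)*z^8 + (-256)*z^9 + 2993*z^10 + (-587)*z^11 + (-606)*z^12 + (-3353)*z^13 + 587*z^14 + 606*z^15 + (-614)*z^16 + (-4469)*z^17 + (-275)*z^18 + 246*z^19 + 3353*z^20 + (-587)*z^21 + (-606)*z^22 + (-3353)*z^23 + 587*z^24 + 606*z^25 + (-614)*z^26 + (-502)*z^27 + (-360)*z^28, by simp only [QIII_9, F9]; ring⟩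

lemma bIII_9_10 (z : ℤ) : Bz (QIII_9 z) (F10 z) 922 :=
  ⟨84 + 21*z + (-5)*z^2 + 25*z^3, 418 + 292*z + (-12)*z^2 + 69*z^3 + 55*z^4 + (-193)*z^5 + (-126)*z^6 + (-11)*z^7 + (-129)*z^8 + (-46)*z^9 + 173*z^10 + 17*z^11 + (-94)*z^12 + 29*z^13 + (-79)*z^14 + (-214)*z^15 + (-37)*z^16 + (-15)*z^17 + (-134)*z^18 + (-21)*z^19 + 89*z^20 + (-4)*z^21 + (-5)*z^22 + 25*z^23 + (-84)*z^24 + (-105)*z^25 + (-16)*z^26 + (-20)*z^27 + (-25)*z^28, by simp only [QIII_9, F10]; ring⟩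

lemma bIII_9_12 (z : ℤ) : Bz (QIII_9 z) (F12 z) 1801 :=
  ⟨223 + (-48)*z + 70*z^2 + 98*z^3, 463 + 288*z + 266*z^2 + (-125)*z^3 + 48*z^4 + (-70)*z^5 + (-98)*z^6 + (-223)*z^11 + 48*z^12 + (-516)*z^13 + (-2)*z^14 + (-363)*z^15 + (-148)*z^16 + (-70)*z^17 + (-98)*z^18 + (-223)*z^23 + 48*z^24 + (-293)*z^25 + (-50)*z^26 + (-70)*z^27 + (-98)*z^28, by simp only [QIII_9, F12]; ring⟩

lemma bIII_9_14 (z : ℤ) : Bz (QIII_9 z) (F14 z) 65563 :=
  ⟨9508 + (-368)*z + 521*z^2 + 1612*z^3 + 1128*z^4 + 2361*z^5, 8515 + 10723*z + 8590*z^2 + 5850*z^3 + 2361*z^4 + (-9508)*z^7 + (-9140)*z^8 + (-153)*z^9 + (-2133)*z^10 + (-12248)*z^11 + (-12629)*z^12 + (-12022)*z^13 + (-1765)*z^14 + 6247*z^15 + (-5469)*z^16 + (-12476)*z^17 + (-381)*z^18 + 607*z^19 + 749*z^20 + (-1128)*z^21 + (-11869)*z^22 + (-9140)*z^23 + (-153)*z^24 + (-2133)*z^25 + (-2740)*z^26 + (-3489)*z^27 + (-2361)*z^28, by simp only [QIII_9, F14]; ring⟩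

lemma bIII_9_15 (z : ℤ) : Bz (QIII_9 z) (F15 z) 12395401 :=
  ⟨1431094 + 291298*z + 328522*z^2 + 24187*z^3 + 432571*z^4 + 151234*z^5 + (-6543)*z^6 + 351447*z^7, 3808837 + 2061049*z + 1521011*z^2 + (-710556)*z^3 + 492720*z^4 + (-1608382)*z^5 + (-322028)*z^6 + (-1840740)*z^7 + (-466719)*z^8 + (-2185644)*z^9 + (-818166)*z^10 + (-2185644)*z^11 + (-818166)*z^12 + (-2185644)*z^13 + (-818166)*z^14 + (-754550)*z^15 + 904226*z^16 + (-134730)*z^17 + (-174159)*z^18 + (-1400364)*z^19 + (-1641268)*z^20 + (-1899680)*z^21 + (-650550)*z^22 + (-433833)*z^23 + (-607992)*z^24 + (-577262)*z^25 + (-496138)*z^26 + (-344904)*z^27 + (-351447)*z^28, by simp only [QIII_9, F15]; ring⟩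

lemma bIII_9_18 (z : ℤ) : Bz (QIII_9 z) (F18 z) 53083 :=
  ⟨6883 + (-2225)*z + 1128*z^2 + 1444*z^3 + 2942*z^4 + 2612*z^5, 11785 + 13350*z + 115*z^2 + 7779*z^3 + 1484*z^4 + (-8327)*z^5 + (-717)*z^6 + (-10623)*z^7 + 781*z^8 + (-4070)*z^9 + (-10939)*z^10 + (-717)*z^11 + (-3740)*z^12 + (-8327)*z^13 + (-717)*z^14 + (-3740)*z^15 + (-1444)*z^16 + (-9825)*z^17 + (-387)*z^18 + (-1128)*z^19 + (-8327)*z^20 + (-717)*z^21 + (-3740)*z^22 + (-8327)*z^23 + (-717)*z^24 + (-3740)*z^25 + (-1444)*z^26 + (-2942)*z^27 + (-2612)*z^28, by simp only [QIII_9, F18]; ring⟩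

lemma bIII_9_20 (z : ℤ) : Bz (QIII_9 z) (F20 z) 327482 :=
  ⟨41089 + (-3415)*z + 12132*z^2 + 14083*z^3 + 2519*z^4 + 5286*z^5 + 13230*z^6 + 13657*z^7, 80948 + 20490*z + 49245*z^2 + (-26334)*z^3 + 2989*z^4 + (-14651)*z^5 + (-19369)*z^6 + (-56838)*z^7 + (-15528)*z^8 + (-66451)*z^9 + (-24325)*z^10 + (-14651)*z^11 + (-19369)*z^12 + (-56838)*z^13 + (-15528)*z^14 + (-66451)*z^15 + (-24325)*z^16 + (-14651)*z^17 + (-19369)*z^18 + (-56838)*z^19 + (-15528)*z^20 + (-66451)*z^21 + (-24325)*z^22 + (-14651)*z^23 + (-19369)*z^24 + (-15749)*z^25 + (-18943)*z^26 + (-13230)*z^27 + (-13657)*z^28, by simp only [QIII_9, F20]; ring⟩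

lemma bIII_9_24 (z : ℤ) : Bz (QIII_9 z) (F24 z) 1301449 :=
  ⟨165402 + (-14279)*z + (-5243)*z^2 + 7007*z^3 + 68495*z^4 + 78743*z^5 + 52884*z^6 + 50954*z^7, 309037 + 85674*z + 196860*z^2 + 109081*z^3 + 43947*z^4 + (-233897)*z^5 + (-64464)*z^6 + (-213043)*z^7 + (-43682)*z^8 + (-63252)*z^9 + (-85750)*z^10 + (-452183)*z^11 + (-101139)*z^12 + (-42398)*z^13 + (-64968)*z^14 + (-302392)*z^15 + (-143207)*z^16 + (-265927)*z^17 + (-94636)*z^18 + (-63252)*z^19 + (-85750)*z^20 + (-286781)*z^21 + (-115418)*z^22 + (-47641)*z^23 + (-57961)*z^24 + (-68495)*z^25 + (-78743)*z^26 + (-52884)*z^27 + (-50954)*z^28, by simp only [QIII_9, F24]; ring⟩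

lemma bIII_9_30 (z : ℤ) : Bz (QIII_9 z) (F30 z) 170341 :=
  ⟨22770 + (-15620)*z + (-14810)*z^2 + (-1915)*z^3 + 11729*z^4 + 25756*z^5 + 21585*z^6 + 11065*z^7, 33721 + 59999*z + 51631*z^2 + 730*z^3 + 14956*z^4 + (-33716)*z^5 + (-4050)*z^6 + (-30754)*z^7 + (-8221)*z^8 + (-41274)*z^9 + (-19286)*z^10 + (-41274)*z^11 + (-19286)*z^12 + (-41274)*z^13 + (-19286)*z^14 + (-18504)*z^15 + (-57676)*z^16 + (-17694)*z^17 + (-22011)*z^18 + (-42440)*z^19 + 15596*z^20 + (-49336)*z^21 + (-18860)*z^22 + (-9899)*z^23 + (-12112)*z^24 + (-7558)*z^25 + (-15236)*z^26 + (-10520)*z^27 + (-11065)*z^28, by simp only [QIII_9, F30]; ring⟩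

lemma bigIII_9 (s : ℤ) (hs : 0 ≤ s) : (3165517693005325070545100873131303537471888438957704688408114607295169248106573056 : ℤ) < QIII_9 (s + 647) := by
  have h : 0 ≤ 117128975041922222323875320931026148429018720254231437681609975813252387375535782 + 147135631179861161089176138118079650785620377429305916591344645154041625123148181*s + 3183769453660056028556406943057740576361892372471267625121550511140244584220734*s^2 + 44287364888625199695386003625930169565873946271984866653129551243464029064641*s^3 + 444927158850175884978483544324410428144618456735681133484059834660137315014*s^4 + 3438386080758700807076946707616618066262417376155104658274715287858553749*s^5 + 21257410081970329544089989163247855879724290078334320069454832293088612*s^6 + 107953285909763210232847693051870765317638806052086179016931736789372*s^7 + 458843178132687523905658600807284696631599797848683051565625948237*s^8 + 1654766742364148720201180244955350891960093194058566288771041957*s^9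 + 5115198585360583368312118377474385474430293504229259246017857*s^10 + 13655862459161315719268293675376073235544336224425209895517*s^11 + 31659650214438908153423140677980926108008835040614628950*s^12 + 63989306104560865359734281574708790045088810277481558*s^13 + 113030348605980773423218441431961050382389487326446*s^14 + 174699147768131025373607886735926127471404676574*s^15 + 236262371402031912204421815708344595587195782*s^16 + 279244552070771420909871109946035114609438*s^17 + 287732665709192602685387594820713304706*s^18 + 257468422907436641138564515944961746*s^19 + 198970960515793385732328825646568*s^20 + 131797942492245563523079523422*s^21 + 74074999293098532259660021*s^22 + 34844768164215424085581*s^23 + 13463975333931771285*s^24 + 4161970736918631*s^25 + 989649444042*s^26 + 169955254*s^27 + 18763*s^28 + 1*s^29 := by positivity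
  have e : QIII_9 (s + 647) - (3165517693005325070545100873131303537471888438957704688408114607295169248106573056 + 1) = 117128975041922222323875320931026148429018720254231437681609975813252387375535782 + 147135631179861161089176138118079650785620377429305916591344645154041625123148181*s + 3183769453660056028556406943057740576361892372471267625121550511140244584220734*s^2 + 44287364888625199695386003625930169565873946271984866653129551243464029064641*s^3 + 444927158850175884978483544324410428144618456735681133484059834660137315014*s^4 + 3438386080758700807076946707616618066262417376155104658274715287858553749*s^5 + 21257410081970329544089989163247855879724290078334320069454832293088612*s^6 + 107953285909763210232847693051870765317638806052086179016931736789372*s^7 + 458843178132687523905658600807284696631599797848683051565625948237*s^8 + 1654766742364148720201180244955350891960093194058566288771041957*s^9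 + 5115198585360583368312118377474385474430293504229259246017857*s^10 + 13655862459161315719268293675376073235544336224425209895517*s^11 + 31659650214438908153423140677980926108008835040614628950*s^12 + 63989306104560865359734281574708790045088810277481558*s^13 + 113030348605980773423218441431961050382389487326446*s^14 + 174699147768131025373607886735926127471404676574*s^15 + 236262371402031912204421815708344595587195782*s^16 + 279244552070771420909871109946035114609438*s^17 + 287732665709192602685387594820713304706*s^18 + 257468422907436641138564515944961746*s^19 + 198970960515793385732328825646568*s^20 + 131797942492245563523079523422*s^21 + 74074999293098532259660021*s^22 + 34844768164215424085581*s^23 + 13463975333931771285*s^24 + 4161970736918631*s^25 + 989649444042*s^26 + 169955254*s^27 + 18763*s^28 + 1*s^29 := by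
    simp only [QIII_9]; ring
  linarith

set_option maxHeartbeats 4000000 in
theorem noIII_9 {q : ℕ} (hq : IsPrimePow q) : ¬ (k08 q + a07 q + k0 q + 9) ∣ NN8 q := by
  intro hd
  have hq2 : 2 ≤ q := hq.two_le
  have hz1 : 1 ≤ q := by omega
  by_cases hB : q < 647
  · refine chk_ok (g := fun q => k08' q + a07' q + k0' q + 9) (B := 647) (by decide +kernel) hq2 hB ?_
    show k08' q + a07' q + k0' q + 9 ∣ NN8 q
    rw [← k08_eq hz1, ← a07_eq hz1, ← k0_eq hz1]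
    exact hd
  · obtain ⟨p, k, hp, hk, hpk⟩ := (isPrimePow_nat_iff q).mp hq
    have hd' : ((k08 q + a07 q + k0 q + 9 : ℕ) : ℤ) ∣ (NN8 q : ℤ) := Int.natCast_dvd_natCast.mpr hd
    have e1 : ((k08 q + a07 q + k0 q + 9 : ℕ) : ℤ) = (1) * QIII_9 (q : ℤ) := by
      push_cast
      rw [k08_cast hz1, a07_cast hz1, k0_cast hz1]
      simp only [QIII_9]
      ring
    rw [e1, NN8_cast hz1, NN8_fac] at hd'
    have hQ := Dvd.dvd.trans (Dvd.intro_left _ rfl) hd'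
    have hz : (q : ℤ) = (p : ℤ) ^ k := by rw [← hpk]; push_cast; rfl
    have hqB : (647 : ℤ) ≤ (q : ℤ) := by exact_mod_cast not_lt.mp hB
    have hR : QIII_9 (q : ℤ) = (6 : ℤ) + (q : ℤ) * ((-1)*(q : ℤ) + (-1)*(q : ℤ)^2 + (-1)*(q : ℤ)^3 + (-1)*(q : ℤ)^4 + 1*(q : ℤ)^6 + 1*(q : ℤ)^10 + 1*(q : ℤ)^12 + 1*(q : ℤ)^16 + 1*(q : ℤ)^18 + 1*(q : ℤ)^22 + 1*(q : ℤ)^28) := by
      simp only [QIII_9]; ring
    have hgo := cofree' hp hz hR (nd (c0 := 6) (by linarith) (by norm_num)).1 hQ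
    have h1 : QIII_9 (q : ℤ) ∣ 3165517693005325070545100873131303537471888438957704688408114607295169248106573056 := by
      have h2 := chainE (bIII_9_1 _) (bIII_9_2 _) (bIII_9_3 _) (bIII_9_4 _) (bIII_9_5 _) (bIII_9_6 _) (bIII_9_7 _) (bIII_9_8 _) (bIII_9_9 _) (bIII_9_10 _) (bIII_9_12 _) (bIII_9_14 _) (bIII_9_15 _) (bIII_9_18 _) (bIII_9_20 _) (bIII_9_24 _) (bIII_9_30 _) hgo
      have e2 : ((((((((((((((((((((6 : ℤ)) * 9^8) * 1^8) * 3^4) * 37^4) * 4^2) * 11^4) * 281^1) * 2473^2) * 23223^1) * 922^2) * 1801^2) * 65563^1) * 12395401^1) * 53083^1) * 327482^1) * 1301449^1) * 170341^1) * 1) = 3165517693005325070545100873131303537471888438957704688408114607295169248106573056 := by norm_num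
      rwa [e2] at h2
    obtain ⟨s, rfl⟩ : ∃ s, q = s + 647 := ⟨q - 647, by omega⟩
    have hbig := bigIII_9 (s : ℤ) (Int.natCast_nonneg s)
    have e3 : ((s + 647 : ℕ) : ℤ) = (s : ℤ) + 647 := by push_cast; ring
    rw [e3] at h1
    have hle := Int.le_of_dvd (by norm_num) h1
    linarith

end sIII_9

section sIII_10

/-- The cofactor. -/
def QIII_10 (z : ℤ) : ℤ := 7 + (-7)*z + 6*z^2 + (-7)*z^3 + 6*z^4 + (-7)*z^5 + 7*z^6 + (-6)*z^7 + 6*z^8 + (-6)*z^9 + 6*z^10 + (-5)*z^11 + 5*z^12 + (-4)*z^13 + 4*z^14 + (-4)*z^15 + 4*z^16 + (-3)*z^17 + 3*z^18 + (-2)*z^19 + 2*z^20 + (-2)*z^21 + 2*z^22 + (-1)*z^23 + 1*z^24 + (-1)*z^25 + 1*z^26 + (-1)*z^27 + 1*z^28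

lemma bIII_10_1 (z : ℤ) : Bz (QIII_10 z) (F1 z) 5 :=
  ⟨1, 2 + (-5)*z + 1*z^2 + (-6)*z^3 + (-7)*z^5 + (-6)*z^7 + (-6)*z^9 + (-5)*z^11 + (-4)*z^13 + (-4)*z^15 + (-3)*z^17 + (-2)*z^19 + (-2)*z^21 + (-1)*z^23 + (-1)*z^25 + (-1)*z^27, by simp only [QIII_10, F1]; ring⟩

lemma bIII_10_2 (z : ℤ) : Bz (QIII_10 z) (F2 z) 117 :=
  ⟨1, 110 + (-103)*z + 97*z^2 + (-90)*z^3 + 84*z^4 + (-77)*z^5 + 70*z^6 + (-64)*z^7 + 58*z^8 + (-52)*z^9 + 46*z^10 + (-41)*z^11 + 36*z^12 + (-32)*z^13 + 28*z^14 + (-24)*z^15 + 20*z^16 + (-17)*z^17 + 14*z^18 + (-12)*z^19 + 10*z^20 + (-8)*z^21 + 6*z^22 + (-5)*z^23 + 4*z^24 + (-3)*z^25 + 2*z^26 + (-1)*z^27, by simp only [QIII_10, F2]; ring⟩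

lemma bIII_10_3 (z : ℤ) : Bz (QIII_10 z) (F3 z) 4 :=
  ⟨1 + 1*z, (-3) + 3*z + 1*z^2 + (-3)*z^3 + 3*z^4 + 1*z^5 + (-4)*z^6 + 2*z^7 + 2*z^8 + (-4)*z^9 + 2*z^10 + 1*z^11 + (-3)*z^12 + 1*z^13 + 2*z^14 + (-3)*z^15 + 1*z^16 + 1*z^17 + (-2)*z^18 + 2*z^20 + (-2)*z^21 + 1*z^23 + (-1)*z^24 + 1*z^26 + (-1)*z^27, by simp only [QIII_10, F3]; ring⟩

lemma bIII_10_4 (z : ℤ) : Bz (QIII_10 z) (F4 z) 25 :=
  ⟨3 + 4*z, 4 + (-7)*z + 6*z^2 + 4*z^3 + 4*z^4 + (-7)*z^5 + 3*z^6 + (-3)*z^7 + 3*z^8 + (-3)*z^9 + 3*z^10 + (-6)*z^11 + 2*z^12 + (-2)*z^13 + 2*z^14 + (-2)*z^15 + 2*z^16 + (-5)*z^17 + 1*z^18 + (-1)*z^19 + 1*z^20 + (-1)*z^21 + 1*z^22 + (-4)*z^23 + 3*z^25 + 1*z^26 + (-4)*z^27, by simp only [QIII_10, F4]; ring⟩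

lemma bIII_10_5 (z : ℤ) : Bz (QIII_10 z) (F5 z) 5 :=
  ⟨1 + 1*z, (-2) + 2*z + 1*z^2 + (-2)*z^5 + 1*z^6 + 1*z^8 + (-2)*z^10 + 1*z^12 + 1*z^14 + (-2)*z^15 + 1*z^18 + (-1)*z^20 + 1*z^24 + (-1)*z^25, by simp only [QIII_10, F5]; ring⟩

lemma bIII_10_6 (z : ℤ) : Bz (QIII_10 z) (F6 z) 12 :=
  ⟨1 + 1*z, 5 + 5*z + 1*z^2 + (-3)*z^3 + (-3)*z^4 + 1*z^5 + 4*z^6 + 2*z^7 + (-2)*z^8 + (-4)*z^9 + (-2)*z^10 + 1*z^11 + 3*z^12 + 1*z^13 + (-2)*z^14 + (-3)*z^15 + (-1)*z^16 + 1*z^17 + 2*z^18 + (-2)*z^20 + (-2)*z^21 + 1*z^23 + 1*z^24 + (-1)*z^26 + (-1)*z^27, by simp only [QIII_10, F6]; ring⟩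

lemma bIII_10_7 (z : ℤ) : Bz (QIII_10 z) (F7 z) 433 :=
  ⟨55 + 55*z + 7*z^3 + 6*z^4 + 7*z^5, 48 + (-48)*z + 55*z^2 + (-49)*z^3 + 56*z^4 + (-56)*z^5 + 56*z^6 + (-111)*z^7 + 111*z^8 + (-56)*z^9 + 49*z^10 + (-103)*z^11 + 102*z^12 + (-95)*z^13 + 33*z^14 + 23*z^15 + 24*z^16 + (-78)*z^17 + 23*z^18 + (-17)*z^19 + 17*z^20 + (-23)*z^21 + 71*z^22 + (-71)*z^23 + 16*z^24 + (-9)*z^25 + 8*z^26 + (-7)*z^27, by simp only [QIII_10, F7]; ring⟩

lemma bIII_10_8 (z : ℤ) : Bz (QIII_10 z) (F8 z) 699 :=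
  ⟨76 + 84*z + 7*z^2 + 20*z^3, 167 + (-56)*z + 83*z^2 + (-63)*z^3 + 63*z^4 + 13*z^5 + 71*z^6 + (-140)*z^7 + 76*z^8 + (-159)*z^9 + 55*z^10 + (-62)*z^11 + 42*z^12 + (-42)*z^13 + 42*z^14 + (-42)*z^15 + 42*z^16 + (-118)*z^17 + 34*z^18 + (-117)*z^19 + 13*z^20 + 56*z^21 + 8*z^22 + (-1)*z^23 + 21*z^24 + (-97)*z^25 + 13*z^26 + (-20)*z^27, by simp only [QIII_10, F8]; ring⟩

lemma bIII_10_9 (z : ℤ) : Bz (QIII_10 z) (F9 z) 167491 :=
  ⟨22270 + 23989*z + (-1543)*z^2 + (-22)*z^3 + 5978*z^4 + 4845*z^5, 11601 + (-12033)*z + 45104*z^2 + (-10292)*z^3 + 13594*z^4 + (-35886)*z^5 + 17875*z^6 + (-33757)*z^7 + 9790*z^8 + (-14225)*z^9 + 31672*z^10 + (-13661)*z^11 + 7273*z^12 + (-29565)*z^13 + 11554*z^14 + (-5166)*z^15 + 5188*z^16 + (-33436)*z^17 + 4602*z^18 + (-3059)*z^19 + 25351*z^20 + (-7340)*z^21 + 952*z^22 + (-23244)*z^23 + 5233*z^24 + 1155*z^25 + (-1133)*z^26 + (-4845)*z^27, by simp only [QIII_10, F9]; ring⟩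

lemma bIII_10_10 (z : ℤ) : Bz (QIII_10 z) (F10 z) 2201 :=
  ⟨137 + 275*z + (-16)*z^2 + 88*z^3, 1242 + 276*z + 249*z^2 + (-204)*z^3 + 396*z^4 + (-758)*z^5 + 71*z^6 + (-314)*z^7 + 17*z^8 + (-380)*z^9 + 670*z^10 + (-208)*z^11 + 39*z^12 + (-138)*z^13 + 17*z^14 + (-654)*z^15 + 120*z^16 + (-176)*z^17 + (-137)*z^18 + (-138)*z^19 + 291*z^20 + (-104)*z^21 + 88*z^22 + (-137)*z^24 + (-275)*z^25 + 16*z^26 + (-88)*z^27, by simp only [QIII_10, F10]; ring⟩

lemma bIII_10_12 (z : ℤ) : Bz (QIII_10 z) (F12 z) 386 :=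
  ⟨27 + 36*z + 21*z^2 + 28*z^3, 197 + (-63)*z + 140*z^2 + (-139)*z^3 + 103*z^4 + (-124)*z^5 + 96*z^6 + (-96)*z^7 + 96*z^8 + (-96)*z^9 + 96*z^10 + (-123)*z^11 + 87*z^12 + (-162)*z^13 + 62*z^14 + (-131)*z^15 + 39*z^16 + (-60)*z^17 + 32*z^18 + (-32)*z^19 + 32*z^20 + (-32)*z^21 + 32*z^22 + (-59)*z^23 + 23*z^24 + (-71)*z^25 + 7*z^26 + (-28)*z^27, by simp only [QIII_10, F12]; ring⟩

lemma bIII_10_14 (z : ℤ) : Bz (QIII_10 z) (F14 z) 21757 :=
  ⟨2201 + 3299*z + (-498)*z^2 + 1161*z^3 + 130*z^4 + 1465*z^5, 6350 + (-1336)*z + 5687*z^2 + (-2627)*z^3 + 4092*z^4 + (-4092)*z^5 + 4092*z^6 + (-6293)*z^7 + 793*z^8 + (-3594)*z^9 + 2931*z^10 + (-6423)*z^11 + (-672)*z^12 + (-5795)*z^13 + 1833*z^14 + (-425)*z^15 + 968*z^16 + (-5262)*z^17 + 1659*z^18 + (-1031)*z^19 + 1335*z^20 + (-1465)*z^21 + (-2201)*z^22 + (-3299)*z^23 + 498*z^24 + (-1161)*z^25 + (-130)*z^26 + (-1465)*z^27, by simp only [QIII_10, F14]; ring⟩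

lemma bIII_10_15 (z : ℤ) : Bz (QIII_10 z) (F15 z) 31569001 :=
  ⟨2742482 + 4566534*z + 1217774*z^2 + 128186*z^3 + 1558715*z^4 + 533888*z^5 + 340573*z^6 + 1253382*z^7, 12371627 + (-396737)*z + 6589691*z^2 + (-6356650)*z^3 + 4602213*z^4 + (-8028581)*z^5 + 3674434*z^6 + (-7940023)*z^7 + 2711415*z^8 + (-8570959)*z^9 + 2088969*z^10 + (-7948513)*z^11 + 1466523*z^12 + (-7326067)*z^13 + 844077*z^14 + (-3961139)*z^15 + 4788165*z^16 + (-2120919)*z^17 + 1551423*z^18 + (-4506292)*z^19 + (-2497391)*z^20 + (-5495511)*z^21 + (-76410)*z^22 + (-1574883)*z^23 + (-645906)*z^24 + (-1787270)*z^25 + (-340573)*z^26 + (-1253382)*z^27, by simp only [QIII_10, F15]; ring⟩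

lemma bIII_10_18 (z : ℤ) : Bz (QIII_10 z) (F18 z) 2109 :=
  ⟨172 + 191*z + (-17)*z^2 + 166*z^3 + 134*z^4 + 163*z^5, 905 + (-133)*z + 424*z^2 + (-318)*z^3 + 498*z^4 + (-836)*z^5 + 511*z^6 + (-829)*z^7 + 472*z^8 + (-589)*z^9 + 88*z^10 + (-413)*z^11 + 267*z^12 + (-605)*z^13 + 280*z^14 + (-426)*z^15 + 260*z^16 + (-566)*z^17 + 212*z^18 + (-195)*z^19 + (-143)*z^20 + (-182)*z^21 + 36*z^22 + (-374)*z^23 + 49*z^24 + (-195)*z^25 + 29*z^26 + (-163)*z^27, by simp only [QIII_10, F18]; ring⟩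

lemma bIII_10_20 (z : ℤ) : Bz (QIII_10 z) (F20 z) 7758305 :=
  ⟨697319 + 890232*z + 412482*z^2 + 465536*z^3 + 105902*z^4 + 187536*z^5 + 540849*z^6 + 424432*z^7, 2877072 + (-1350391)*z + 2037408*z^2 + (-2181928)*z^3 + 1250592*z^4 + (-1768976)*z^5 + 1115904*z^6 + (-2459974)*z^7 + 957774*z^8 + (-2608424)*z^9 + 828224*z^10 + (-1346608)*z^11 + 693536*z^12 + (-2037606)*z^13 + 535406*z^14 + (-2186056)*z^15 + 405856*z^16 + (-924240)*z^17 + 271168*z^18 + (-1615238)*z^19 + 113038*z^20 + (-1763688)*z^21 + (-16512)*z^22 + (-501872)*z^23 + (-151200)*z^24 + (-495551)*z^25 + (-116417)*z^26 + (-424432)*z^27, by simp only [QIII_10, F20]; ring⟩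

lemma bIII_10_24 (z : ℤ) : Bz (QIII_10 z) (F24 z) 174102 :=
  ⟨16370 + 20312*z + 171*z^2 + 2240*z^3 + 12803*z^4 + 14312*z^5 + 12189*z^6 + 8984*z^7, 59512 + (-27594)*z + 42767*z^2 + (-21765)*z^3 + 28509*z^4 + (-57682)*z^5 + 23058*z^6 + (-51788)*z^7 + 20252*z^8 + (-33226)*z^9 + 16674*z^10 + (-74406)*z^11 + 10486*z^12 + (-23017)*z^13 + 9553*z^14 + (-51529)*z^15 + 2593*z^16 + (-43512)*z^17 + 2992*z^18 + (-15966)*z^19 + (-586)*z^20 + (-40776)*z^21 + (-2832)*z^22 + (-9528)*z^23 + (-1696)*z^24 + (-11107)*z^25 + (-3205)*z^26 + (-8984)*z^27, by simp only [QIII_10, F24]; ring⟩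

lemma bIII_10_30 (z : ℤ) : Bz (QIII_10 z) (F30 z) 667531 :=
  ⟨58866 + 27768*z + (-57534)*z^2 + 5820*z^3 + 69851*z^4 + 132912*z^5 + 122131*z^6 + 53472*z^7, 255469 + (-37783)*z + 281701*z^2 + (-224256)*z^3 + 180109*z^4 + (-314353)*z^5 + 158634*z^6 + (-283289)*z^7 + 116789*z^8 + (-310103)*z^9 + 90131*z^10 + (-283445)*z^11 + 63473*z^12 + (-256787)*z^13 + 36815*z^14 + (-171263)*z^15 + (-79807)*z^16 + (-139943)*z^17 + 11093*z^18 + (-197910)*z^19 + 105685*z^20 + (-212161)*z^21 + (-1092)*z^22 + (-58877)*z^23 + (-10004)*z^24 + (-49066)*z^25 + (-15187)*z^26 + (-53472)*z^27, by simp only [QIII_10, F30]; ring⟩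

lemma bigIII_10 (s : ℤ) (hs : 0 ≤ s) : (166278790859821594263894230564264115982239550758300579135077152980384451592970000000000000000000 : ℤ) < QIII_10 (s + 2517) := by
  have h : 0 ≤ 1430655451572569062837766353646837051650789478734196000851763062569727676984784305903073821244 + 1865685777094604266104275631064961877911099323167359151926880014798495487013216358422495951322*s + 10006799854957912712609408146549859820445303534411812038159552648269286461283813871247819029*s^2 + 34456427835118113427631322354325619275950115216864694555118000657275889673535120087317574*s^3 + 85560480168312552262467214975697090020070723473424205972332410360917507512622114580005*s^4 + 163168903546590556113195824209450767087864575327224527234946845116599802921266883288*s^5 + 248506026686165821497930060853126906621312009108533227264419289480335877067565678*s^6 + 310301954581097139651406174564055908141337541357255710635928535739605476951973*s^7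 + 323621050913067022268021970287925920651805459639310383337494709062001102143*s^8 + 285724311642274430978646425877585095741205151868389914836455963730021373*s^9 + 215686886416691097230027781286247658474534639494900876011169083969593*s^10 + 140225341487282439455953612393920676199648638018246822124965870918*s^11 + 78925460940112796062154555472254256565393259267382238221535634*s^12 + 38593725419816343372767651002889104992220159857947101001678*s^13 + 16428687606809464066303966465807549545021797380800332026*s^14 + 6092037860960583652581450049923558790941531051228566*s^15 + 1966567732916075048213568625137499176198217086802*s^16 + 551523699842022273339408888361403730083173722*s^17 + 133908241050055496543467262330523929633298*s^18 + 28001200441403606919759719620659665536*s^19 + 5006245121693849696042415508062104*s^20 + 757714762453447129554481478581*s^21 + 95786444740683958470335375*s^22 + 9927740456243267499917*s^23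 + 821735640695190451*s^24 + 52236618203990*s^25 + 2394671284*s^26 + 70475*s^27 + 1*s^28 := by positivity
  have e : QIII_10 (s + 2517) - (166278790859821594263894230564264115982239550758300579135077152980384451592970000000000000000000 + 1) = 1430655451572569062837766353646837051650789478734196000851763062569727676984784305903073821244 + 1865685777094604266104275631064961877911099323167359151926880014798495487013216358422495951322*s + 10006799854957912712609408146549859820445303534411812038159552648269286461283813871247819029*s^2 + 34456427835118113427631322354325619275950115216864694555118000657275889673535120087317574*s^3 + 85560480168312552262467214975697090020070723473424205972332410360917507512622114580005*s^4 + 163168903546590556113195824209450767087864575327224527234946845116599802921266883288*s^5 + 248506026686165821497930060853126906621312009108533227264419289480335877067565678*s^6 + 310301954581097139651406174564055908141337541357255710635928535739605476951973*s^7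 + 323621050913067022268021970287925920651805459639310383337494709062001102143*s^8 + 285724311642274430978646425877585095741205151868389914836455963730021373*s^9 + 215686886416691097230027781286247658474534639494900876011169083969593*s^10 + 140225341487282439455953612393920676199648638018246822124965870918*s^11 + 78925460940112796062154555472254256565393259267382238221535634*s^12 + 38593725419816343372767651002889104992220159857947101001678*s^13 + 16428687606809464066303966465807549545021797380800332026*s^14 + 6092037860960583652581450049923558790941531051228566*s^15 + 1966567732916075048213568625137499176198217086802*s^16 + 551523699842022273339408888361403730083173722*s^17 + 133908241050055496543467262330523929633298*s^18 + 28001200441403606919759719620659665536*s^19 + 5006245121693849696042415508062104*s^20 + 757714762453447129554481478581*s^21 + 95786444740683958470335375*s^22 + 9927740456243267499917*s^23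 + 821735640695190451*s^24 + 52236618203990*s^25 + 2394671284*s^26 + 70475*s^27 + 1*s^28 := by
    simp only [QIII_10]; ring
  linarith

set_option maxHeartbeats 4000000 in
theorem noIII_10 {q : ℕ} (hq : IsPrimePow q) : ¬ (k08 q + a07 q + k0 q + 10) ∣ NN8 q := by
  intro hd
  have hq2 : 2 ≤ q := hq.two_le
  have hz1 : 1 ≤ q := by omega
  by_cases hB : q < 2517
  · refine chk_ok (g := fun q => k08' q + a07' q + k0' q + 10) (B := 2517) (by decide +kernel) hq2 hB ?_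
    show k08' q + a07' q + k0' q + 10 ∣ NN8 q
    rw [← k08_eq hz1, ← a07_eq hz1, ← k0_eq hz1]
    exact hd
  · obtain ⟨p, k, hp, hk, hpk⟩ := (isPrimePow_nat_iff q).mp hq
    have hd' : ((k08 q + a07 q + k0 q + 10 : ℕ) : ℤ) ∣ (NN8 q : ℤ) := Int.natCast_dvd_natCast.mpr hd
    have e1 : ((k08 q + a07 q + k0 q + 10 : ℕ) : ℤ) = (1 + 1*(q : ℤ)) * QIII_10 (q : ℤ) := by
      push_cast
      rw [k08_cast hz1, a07_cast hz1, k0_cast hz1]
      simp only [QIII_10]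
      ring
    rw [e1, NN8_cast hz1, NN8_fac] at hd'
    have hQ := Dvd.dvd.trans (Dvd.intro_left _ rfl) hd'
    have hz : (q : ℤ) = (p : ℤ) ^ k := by rw [← hpk]; push_cast; rfl
    have hqB : (2517 : ℤ) ≤ (q : ℤ) := by exact_mod_cast not_lt.mp hB
    have hR : QIII_10 (q : ℤ) = (7 : ℤ) + (q : ℤ) * ((-7) + 6*(q : ℤ) + (-7)*(q : ℤ)^2 + 6*(q : ℤ)^3 + (-7)*(q : ℤ)^4 + 7*(q : ℤ)^5 + (-6)*(q : ℤ)^6 + 6*(q : ℤ)^7 + (-6)*(q : ℤ)^8 + 6*(q : ℤ)^9 + (-5)*(q : ℤ)^10 + 5*(q : ℤ)^11 + (-4)*(q : ℤ)^12 + 4*(q : ℤ)^13 + (-4)*(q : ℤ)^14 + 4*(q : ℤ)^15 + (-3)*(q : ℤ)^16 + 3*(q : ℤ)^17 + (-2)*(q : ℤ)^18 + 2*(q : ℤ)^19 + (-2)*(q : ℤ)^20 + 2*(q : ℤ)^21 + (-1)*(q : ℤ)^22 + 1*(q : ℤ)^23 + (-1)*(q : ℤ)^24 + 1*(q : ℤ)^25 + (-1)*(q : ℤ)^26 + 1*(q : ℤ)^27) := by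
      simp only [QIII_10]; ring
    have hgo := cofree' hp hz hR (nd (c0 := 7) (by linarith) (by norm_num)).1 hQ
    have h1 : QIII_10 (q : ℤ) ∣ 166278790859821594263894230564264115982239550758300579135077152980384451592970000000000000000000 := by
      have h2 := chainE (bIII_10_1 _) (bIII_10_2 _) (bIII_10_3 _) (bIII_10_4 _) (bIII_10_5 _) (bIII_10_6 _) (bIII_10_7 _) (bIII_10_8 _) (bIII_10_9 _) (bIII_10_10 _) (bIII_10_12 _) (bIII_10_14 _) (bIII_10_15 _) (bIII_10_18 _) (bIII_10_20 _) (bIII_10_24 _) (bIII_10_30 _) hgo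
      have e2 : ((((((((((((((((((((7 : ℤ)) * 5^8) * 117^8) * 4^4) * 25^4) * 5^2) * 12^4) * 433^1) * 699^2) * 167491^1) * 2201^2) * 386^2) * 21757^1) * 31569001^1) * 2109^1) * 7758305^1) * 174102^1) * 667531^1) * 1) = 166278790859821594263894230564264115982239550758300579135077152980384451592970000000000000000000 := by norm_num
      rwa [e2] at h2
    obtain ⟨s, rfl⟩ : ∃ s, q = s + 2517 := ⟨q - 2517, by omega⟩
    have hbig := bigIII_10 (s : ℤ) (Int.natCast_nonneg s)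
    have e3 : ((s + 2517 : ℕ) : ℤ) = (s : ℤ) + 2517 := by push_cast; ring
    rw [e3] at h1
    have hle := Int.le_of_dvd (by norm_num) h1
    linarith

end sIII_10

section sIII_11

/-- The cofactor. -/
def QIII_11 (z : ℤ) : ℤ := 8 + (-1)*z^2 + (-1)*z^3 + (-1)*z^4 + (-1)*z^5 + 1*z^7 + 1*z^11 + 1*z^13 + 1*z^17 + 1*z^19 + 1*z^23 + 1*z^29

lemma bIII_11_1 (z : ℤ) : Bz (QIII_11 z) (F1 z) 11 :=
  ⟨1, (-3) + (-3)*z + (-4)*z^2 + (-5)*z^3 + (-6)*z^4 + (-7)*z^5 + (-7)*z^6 + (-6)*z^7 + (-6)*z^8 + (-6)*z^9 + (-6)*z^10 + (-5)*z^11 + (-5)*z^12 + (-4)*z^13 + (-4)*z^14 + (-4)*z^15 + (-4)*z^16 + (-3)*z^17 + (-3)*z^18 + (-2)*z^19 + (-2)*z^20 + (-2)*z^21 + (-2)*z^22 + (-1)*z^23 + (-1)*z^24 + (-1)*z^25 + (-1)*z^26 + (-1)*z^27 + (-1)*z^28, by simp only [QIII_11, F1]; ring⟩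

lemma bIII_11_2 (z : ℤ) : Bz (QIII_11 z) (F2 z) 1 :=
  ⟨1, (-7) + 7*z + (-6)*z^2 + 7*z^3 + (-6)*z^4 + 7*z^5 + (-7)*z^6 + 6*z^7 + (-6)*z^8 + 6*z^9 + (-6)*z^10 + 5*z^11 + (-5)*z^12 + 4*z^13 + (-4)*z^14 + 4*z^15 + (-4)*z^16 + 3*z^17 + (-3)*z^18 + 2*z^19 + (-2)*z^20 + 2*z^21 + (-2)*z^22 + 1*z^23 + (-1)*z^24 + 1*z^25 + (-1)*z^26 + 1*z^27 + (-1)*z^28, by simp only [QIII_11, F2]; ring⟩

lemma bIII_11_3 (z : ℤ) : Bz (QIII_11 z) (F3 z) 5 :=
  ⟨1, (-3) + 3*z + 1*z^2 + (-3)*z^3 + 3*z^4 + 1*z^5 + (-4)*z^6 + 2*z^7 + 2*z^8 + (-4)*z^9 + 2*z^10 + 1*z^11 + (-3)*z^12 + 1*z^13 + 2*z^14 + (-3)*z^15 + 1*z^16 + 1*z^17 + (-2)*z^18 + 2*z^20 + (-2)*z^21 + 1*z^23 + (-1)*z^24 + 1*z^26 + (-1)*z^27, by simp only [QIII_11, F3]; ring⟩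

lemma bIII_11_4 (z : ℤ) : Bz (QIII_11 z) (F4 z) 65 :=
  ⟨8 + 1*z, 1 + (-8)*z + 7*z^2 + 17*z^3 + 2*z^4 + (-8)*z^5 + (-1)*z^6 + (-8)*z^11 + (-1)*z^12 + (-8)*z^17 + (-1)*z^18 + (-8)*z^23 + (-1)*z^24 + 8*z^25 + 1*z^26 + (-8)*z^27 + (-1)*z^28, by simp only [QIII_11, F4]; ring⟩

lemma bIII_11_5 (z : ℤ) : Bz (QIII_11 z) (F5 z) 6 :=
  ⟨1, (-2) + 2*z + 1*z^2 + (-2)*z^5 + 1*z^6 + 1*z^8 + (-2)*z^10 + 1*z^12 + 1*z^14 + (-2)*z^15 + 1*z^18 + (-1)*z^20 + 1*z^24 + (-1)*z^25, by simp only [QIII_11, F5]; ring⟩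

lemma bIII_11_6 (z : ℤ) : Bz (QIII_11 z) (F6 z) 13 :=
  ⟨1, 5 + 5*z + 1*z^2 + (-3)*z^3 + (-3)*z^4 + 1*z^5 + 4*z^6 + 2*z^7 + (-2)*z^8 + (-4)*z^9 + (-2)*z^10 + 1*z^11 + 3*z^12 + 1*z^13 + (-2)*z^14 + (-3)*z^15 + (-1)*z^16 + 1*z^17 + 2*z^18 + (-2)*z^20 + (-2)*z^21 + 1*z^23 + 1*z^24 + (-1)*z^26 + (-1)*z^27, by simp only [QIII_11, F6]; ring⟩

lemma bIII_11_7 (z : ℤ) : Bz (QIII_11 z) (F7 z) 631 :=
  ⟨80 + 9*z^2 + 8*z^3 + 8*z^4 + 9*z^5, (-9) + 9*z + 8*z^2 + 8*z^3 + 9*z^4 + (-80)*z^7 + 80*z^8 + (-9)*z^9 + 1*z^10 + (-80)*z^11 + 79*z^12 + (-80)*z^13 + 1*z^14 + 71*z^15 + (-9)*z^16 + (-70)*z^17 + (-1)*z^18 + (-1)*z^19 + 1*z^20 + (-8)*z^21 + 71*z^22 + (-80)*z^23 + 9*z^24 + (-1)*z^25 + 1*z^27 + (-9)*z^28, by simp only [QIII_11, F7]; ring⟩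

lemma bIII_11_8 (z : ℤ) : Bz (QIII_11 z) (F8 z) 6689 :=
  ⟨737 + (-17)*z + 73*z^2 + 80*z^3, 793 + 136*z + 153*z^2 + 80*z^3 + 737*z^5 + (-17)*z^6 + (-664)*z^7 + 97*z^8 + (-810)*z^9 + (-63)*z^10 + (-73)*z^11 + (-80)*z^12 + (-737)*z^17 + 17*z^18 + (-810)*z^19 + (-63)*z^20 + 664*z^21 + (-97)*z^22 + 73*z^23 + 80*z^24 + (-737)*z^25 + 17*z^26 + (-73)*z^27 + (-80)*z^28, by simp only [QIII_11, F8]; ring⟩

lemma bIII_11_9 (z : ℤ) : Bz (QIII_11 z) (F9 z) 359497 :=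
  ⟨45595 + (-563)*z + (-1704)*z^2 + 5318*z^3 + 4602*z^4 + 3712*z^5, (-5263) + 4504*z + 59227*z^2 + 7751*z^3 + 2008*z^4 + (-40277)*z^5 + 5165*z^6 + (-40179)*z^7 + (-4755)*z^8 + (-2898)*z^9 + 36565*z^10 + (-5165)*z^11 + (-5416)*z^12 + (-40277)*z^13 + 5165*z^14 + 5416*z^15 + (-5318)*z^16 + (-50197)*z^17 + (-3149)*z^18 + 1704*z^19 + 40277*z^20 + (-5165)*z^21 + (-5416)*z^22 + (-40277)*z^23 + 5165*z^24 + 5416*z^25 + (-5318)*z^26 + (-4602)*z^27 + (-3712)*z^28, by simp only [QIII_11, F9]; ring⟩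

lemma bIII_11_10 (z : ℤ) : Bz (QIII_11 z) (F10 z) 1982 :=
  ⟨155 + 31*z + (-6)*z^2 + 36*z^3, 742 + 494*z + (-45)*z^2 + 101*z^3 + 78*z^4 + (-346)*z^5 + (-217)*z^6 + (-19)*z^7 + (-221)*z^8 + (-67)*z^9 + 316*z^10 + 26*z^11 + (-167)*z^12 + 41*z^13 + (-149)*z^14 + (-377)*z^15 + (-56)*z^16 + (-24)*z^17 + (-227)*z^18 + (-31)*z^19 + 161*z^20 + (-5)*z^21 + (-6)*z^22 + 36*z^23 + (-155)*z^24 + (-186)*z^25 + (-25)*z^26 + (-30)*z^27 + (-36)*z^28, by simp only [QIII_11, F10]; ring⟩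

lemma bIII_11_12 (z : ℤ) : Bz (QIII_11 z) (F12 z) 4993 :=
  ⟨505 + (-64)*z + 126*z^2 + 162*z^3, 953 + 512*z + 450*z^2 + (-343)*z^3 + 64*z^4 + (-126)*z^5 + (-162)*z^6 + (-505)*z^11 + 64*z^12 + (-1136)*z^13 + (-34)*z^14 + (-757)*z^15 + (-260)*z^16 + (-126)*z^17 + (-162)*z^18 + (-505)*z^23 + 64*z^24 + (-631)*z^25 + (-98)*z^26 + (-126)*z^27 + (-162)*z^28, by simp only [QIII_11, F12]; ring⟩

lemma bIII_11_14 (z : ℤ) : Bz (QIII_11 z) (F14 z) 320839 :=
  ⟨36724 + (-648)*z + 2085*z^2 + 4918*z^3 + 3534*z^4 + 6621*z^5, 27047 + 32231*z + 25228*z^2 + 16776*z^3 + 6621*z^4 + (-36724)*z^7 + (-36076)*z^8 + (-1437)*z^9 + (-7003)*z^10 + (-45176)*z^11 + (-46231)*z^12 + (-44782)*z^13 + (-6355)*z^14 + 26187*z^15 + (-15721)*z^16 + (-44794)*z^17 + (-1055)*z^18 + 1449*z^19 + 1703*z^20 + (-3534)*z^21 + (-43345)*z^22 + (-36076)*z^23 + (-1437)*z^24 + (-7003)*z^25 + (-8452)*z^26 + (-10155)*z^27 + (-6621)*z^28, by simp only [QIII_11,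 F14]; ring⟩

lemma bIII_11_15 (z : ℤ) : Bz (QIII_11 z) (F15 z) 544515 :=
  ⟨53514 + 7956*z + 8626*z^2 + 2237*z^3 + 10937*z^4 + 4916*z^5 + 311*z^6 + 7699*z^7, 116403 + 52755*z + 37261*z^2 + (-35568)*z^3 + 10680*z^4 + (-57224)*z^5 + (-9882)*z^6 + (-65378)*z^7 + (-15109)*z^8 + (-73388)*z^9 + (-22808)*z^10 + (-73388)*z^11 + (-22808)*z^12 + (-73388)*z^13 + (-22808)*z^14 + (-19874)*z^15 + 38662*z^16 + (-3292)*z^17 + (-3989)*z^18 + (-51588)*z^19 + (-58232)*z^20 + (-65180)*z^21 + (-18508)*z^22 + (-14101)*z^23 + (-18090)*z^24 + (-16164)*z^25 + (-12926)*z^26 + (-8010)*z^27 + (-7699)*z^28, by simp only [QIII_11, F15]; ring⟩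

lemma bIII_11_18 (z : ℤ) : Bz (QIII_11 z) (F18 z) 251731 :=
  ⟨27153 + (-4705)*z + 4366*z^2 + 4696*z^3 + 7734*z^4 + 6948*z^5, 34507 + 37640*z + (-7775)*z^2 + 19387*z^3 + 2582*z^4 + (-31849)*z^5 + (-3029)*z^6 + (-38467)*z^7 + 9*z^8 + (-12100)*z^9 + (-38797)*z^10 + (-3029)*z^11 + (-11314)*z^12 + (-31849)*z^13 + (-3029)*z^14 + (-11314)*z^15 + (-4696)*z^16 + (-34887)*z^17 + (-2243)*z^18 + (-4366)*z^19 + (-31849)*z^20 + (-3029)*z^21 + (-11314)*z^22 + (-31849)*z^23 + (-3029)*z^24 + (-11314)*z^25 + (-4696)*z^26 + (-7734)*z^27 + (-6948)*z^28, by simp only [QIII_11, F18]; ring⟩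

lemma bIII_11_20 (z : ℤ) : Bz (QIII_11 z) (F20 z) 2581010 :=
  ⟨279433 + 3671*z + 56384*z^2 + 61633*z^3 + 23239*z^4 + 33848*z^5 + 49248*z^6 + 47241*z^7, 345546 + (-29368)*z + 173907*z^2 + (-239328)*z^3 + (-18063)*z^4 + (-79623)*z^5 + (-95481)*z^6 + (-351920)*z^7 + (-84760)*z^8 + (-385065)*z^9 + (-112545)*z^10 + (-79623)*z^11 + (-95481)*z^12 + (-351920)*z^13 + (-84760)*z^14 + (-385065)*z^15 + (-112545)*z^16 + (-79623)*z^17 + (-95481)*z^18 + (-351920)*z^19 + (-84760)*z^20 + (-385065)*z^21 + (-112545)*z^22 + (-79623)*z^23 + (-95481)*z^24 + (-72487)*z^25 + (-81089)*z^26 + (-49248)*z^27 + (-47241)*z^28, by simp only [QIII_11, F20]; ring⟩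

lemma bIII_11_24 (z : ℤ) : Bz (QIII_11 z) (F24 z) 11938273 :=
  ⟨1311256 + 22481*z + 68769*z^2 + 124335*z^3 + 347823*z^4 + 375759*z^5 + 215344*z^6 + 192482*z^7, 1448225 + (-179848)*z + 761104*z^2 + 339057*z^3 + 68147*z^4 + (-1659079)*z^5 + (-398240)*z^6 + (-1595369)*z^7 + (-339298)*z^8 + (-416592)*z^9 + (-500094)*z^10 + (-3185679)*z^11 + (-613203)*z^12 + (-352882)*z^13 + (-441152)*z^14 + (-2006902)*z^15 + (-773999)*z^16 + (-1810713)*z^17 + (-531780)*z^18 + (-416592)*z^19 + (-500094)*z^20 + (-1874423)*z^21 + (-590722)*z^22 + (-284113)*z^23 + (-316817)*z^24 + (-347823)*z^25 + (-375759)*z^26 + (-215344)*z^27 + (-192482)*z^28, by simp only [QIII_11, F24]; ring⟩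

lemma bIII_11_30 (z : ℤ) : Bz (QIII_11 z) (F30 z) 2342761 :=
  ⟨282562 + (-50414)*z + (-36470)*z^2 + 32613*z^3 + 98853*z^4 + 160434*z^5 + 115409*z^6 + 56371*z^7, 82265 + 321047*z + 253275*z^2 + (-199766)*z^3 + 7932*z^4 + (-406526)*z^5 + (-97608)*z^6 + (-401316)*z^7 + (-142633)*z^8 + (-460354)*z^9 + (-199004)*z^10 + (-460354)*z^11 + (-199004)*z^12 + (-460354)*z^13 + (-199004)*z^14 + (-177792)*z^15 + (-531980)*z^16 + (-163848)*z^17 + (-180335)*z^18 + (-430584)*z^19 + 177752*z^20 + (-456940)*z^21 + (-134078)*z^22 + (-86141)*z^23 + (-94194)*z^24 + (-53828)*z^25 + (-101396)*z^26 + (-59038)*z^27 + (-56371)*z^28, by simp only [QIII_11, F30]; ring⟩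

lemma bigIII_11 (s : ℤ) (hs : 0 ≤ s) : (62074203863719498594456497716756827309640382600665788527008865925289721551654378242500000000 : ℤ) < QIII_11 (s + 1464) := by
  have h : 0 ≤ 1122033983831176272914181586254517121667502354984252457963786921056958296021887952859821255 + 1251838044794378122346473842161628788596771730896615518251902224404366009759811439069777872*s + 11971128843662085869226854306649044515309546938664760205132689758400825695285454637181271*s^2 + 73593005186447249195031651741989060018181786049235739022683827806817509111126275198623*s^3 + 326744900076439289455103544856393530656734897478028958465891296504748976993890864487*s^4 + 1115932035780188830096086290337931140850973298321545424290308044100640329228011839*s^5 + 3048994633279204453792506758126740714469983854656248897279747519828528260524040*s^6 + 6842981710130923344733879351206770094159771755222150589165905025368731459585*s^7 + 12853961545669425681650472030227848934328672760729674123391334086920586752*s^8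 + 20486732882442162971597228312545219105640690447732622279033126461204928*s^9 + 27987340003336288212494935728748727964510816430316959801235390227176*s^10 + 33020334082426072779211972510649800679799620078749863121587202945*s^11 + 33832309510682451618000290347400439667965095848531180243274328*s^12 + 30220116734005972966869891469728315627434521657171278348289*s^13 + 23591035701800135024863768452109697658838573361541230592*s^14 + 16114095424726868186375457683387505773672441231049216*s^15 + 9631033809177602228876123941992753675008211033912*s^16 + 5030675004793829515243025110113875150105765569*s^17 + 2290835612383346773789857997874844491050152*s^18 + 905924350597383322968330464428167229441*s^19 + 309400392963587200467317642761542144*s^20 + 90573885527982201541953728947008*s^21 + 22497239326374118614494118792*s^22 + 4676902924822369633566721*s^23 + 798651455741524869120*s^24 + 109105390128623616*s^25 + 11465467646976*s^26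 + 870178176*s^27 + 42456*s^28 + 1*s^29 := by positivity
  have e : QIII_11 (s + 1464) - (62074203863719498594456497716756827309640382600665788527008865925289721551654378242500000000 + 1) = 1122033983831176272914181586254517121667502354984252457963786921056958296021887952859821255 + 1251838044794378122346473842161628788596771730896615518251902224404366009759811439069777872*s + 11971128843662085869226854306649044515309546938664760205132689758400825695285454637181271*s^2 + 73593005186447249195031651741989060018181786049235739022683827806817509111126275198623*s^3 + 326744900076439289455103544856393530656734897478028958465891296504748976993890864487*s^4 + 1115932035780188830096086290337931140850973298321545424290308044100640329228011839*s^5 + 3048994633279204453792506758126740714469983854656248897279747519828528260524040*s^6 + 6842981710130923344733879351206770094159771755222150589165905025368731459585*s^7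 + 12853961545669425681650472030227848934328672760729674123391334086920586752*s^8 + 20486732882442162971597228312545219105640690447732622279033126461204928*s^9 + 27987340003336288212494935728748727964510816430316959801235390227176*s^10 + 33020334082426072779211972510649800679799620078749863121587202945*s^11 + 33832309510682451618000290347400439667965095848531180243274328*s^12 + 30220116734005972966869891469728315627434521657171278348289*s^13 + 23591035701800135024863768452109697658838573361541230592*s^14 + 16114095424726868186375457683387505773672441231049216*s^15 + 9631033809177602228876123941992753675008211033912*s^16 + 5030675004793829515243025110113875150105765569*s^17 + 2290835612383346773789857997874844491050152*s^18 + 905924350597383322968330464428167229441*s^19 + 309400392963587200467317642761542144*s^20 + 90573885527982201541953728947008*s^21 + 22497239326374118614494118792*s^22 + 4676902924822369633566721*s^23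 + 798651455741524869120*s^24 + 109105390128623616*s^25 + 11465467646976*s^26 + 870178176*s^27 + 42456*s^28 + 1*s^29 := by
    simp only [QIII_11]; ring
  linarith

set_option maxHeartbeats 4000000 in
theorem noIII_11 {q : ℕ} (hq : IsPrimePow q) : ¬ (k08 q + a07 q + k0 q + 11) ∣ NN8 q := by
  intro hd
  have hq2 : 2 ≤ q := hq.two_le
  have hz1 : 1 ≤ q := by omega
  by_cases hB : q < 1464
  · refine chk_ok (g := fun q => k08' q + a07' q + k0' q + 11) (B := 1464) (by decide +kernel) hq2 hB ?_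
    show k08' q + a07' q + k0' q + 11 ∣ NN8 q
    rw [← k08_eq hz1, ← a07_eq hz1, ← k0_eq hz1]
    exact hd
  · obtain ⟨p, k, hp, hk, hpk⟩ := (isPrimePow_nat_iff q).mp hq
    have hd' : ((k08 q + a07 q + k0 q + 11 : ℕ) : ℤ) ∣ (NN8 q : ℤ) := Int.natCast_dvd_natCast.mpr hd
    have e1 : ((k08 q + a07 q + k0 q + 11 : ℕ) : ℤ) = (1) * QIII_11 (q : ℤ) := by
      push_cast
      rw [k08_cast hz1, a07_cast hz1, k0_cast hz1]
      simp only [QIII_11]
      ring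
    rw [e1, NN8_cast hz1, NN8_fac] at hd'
    have hQ := Dvd.dvd.trans (Dvd.intro_left _ rfl) hd'
    have hz : (q : ℤ) = (p : ℤ) ^ k := by rw [← hpk]; push_cast; rfl
    have hqB : (1464 : ℤ) ≤ (q : ℤ) := by exact_mod_cast not_lt.mp hB
    have hR : QIII_11 (q : ℤ) = (8 : ℤ) + (q : ℤ) * ((-1)*(q : ℤ) + (-1)*(q : ℤ)^2 + (-1)*(q : ℤ)^3 + (-1)*(q : ℤ)^4 + 1*(q : ℤ)^6 + 1*(q : ℤ)^10 + 1*(q : ℤ)^12 + 1*(q : ℤ)^16 + 1*(q : ℤ)^18 + 1*(q : ℤ)^22 + 1*(q : ℤ)^28) := by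
      simp only [QIII_11]; ring
    have hgo := cofree' hp hz hR (nd (c0 := 8) (by linarith) (by norm_num)).1 hQ
    have h1 : QIII_11 (q : ℤ) ∣ 62074203863719498594456497716756827309640382600665788527008865925289721551654378242500000000 := by
      have h2 := chainE (bIII_11_1 _) (bIII_11_2 _) (bIII_11_3 _) (bIII_11_4 _) (bIII_11_5 _) (bIII_11_6 _) (bIII_11_7 _) (bIII_11_8 _) (bIII_11_9 _) (bIII_11_10 _) (bIII_11_12 _) (bIII_11_14 _) (bIII_11_15 _) (bIII_11_18 _) (bIII_11_20 _) (bIII_11_24 _) (bIII_11_30 _) hgo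
      have e2 : ((((((((((((((((((((8 : ℤ)) * 11^8) * 1^8) * 5^4) * 65^4) * 6^2) * 13^4) * 631^1) * 6689^2) * 359497^1) * 1982^2) * 4993^2) * 320839^1) * 544515^1) * 251731^1) * 2581010^1) * 11938273^1) * 2342761^1) * 1) = 62074203863719498594456497716756827309640382600665788527008865925289721551654378242500000000 := by norm_num
      rwa [e2] at h2
    obtain ⟨s, rfl⟩ : ∃ s, q = s + 1464 := ⟨q - 1464, by omega⟩
    have hbig := bigIII_11 (s : ℤ) (Int.natCast_nonneg s)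
    have e3 : ((s + 1464 : ℕ) : ℤ) = (s : ℤ) + 1464 := by push_cast; ring
    rw [e3] at h1
    have hle := Int.le_of_dvd (by norm_num) h1
    linarith

end sIII_11

section sIII_12

/-- The cofactor. -/
def QIII_12 (z : ℤ) : ℤ := 9 + (-1)*z^2 + (-1)*z^3 + (-1)*z^4 + (-1)*z^5 + 1*z^7 + 1*z^11 + 1*z^13 + 1*z^17 + 1*z^19 + 1*z^23 + 1*z^29

lemma bIII_12_1 (z : ℤ) : Bz (QIII_12 z) (F1 z) 12 :=
  ⟨1, (-3) + (-3)*z + (-4)*z^2 + (-5)*z^3 + (-6)*z^4 + (-7)*z^5 + (-7)*z^6 + (-6)*z^7 + (-6)*z^8 + (-6)*z^9 + (-6)*z^10 + (-5)*z^11 + (-5)*z^12 + (-4)*z^13 + (-4)*z^14 + (-4)*z^15 + (-4)*z^16 + (-3)*z^17 + (-3)*z^18 + (-2)*z^19 + (-2)*z^20 + (-2)*z^21 + (-2)*z^22 + (-1)*z^23 + (-1)*z^24 + (-1)*z^25 + (-1)*z^26 + (-1)*z^27 + (-1)*z^28, by simp only [QIII_12, F1]; ring⟩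

lemma bIII_12_2 (z : ℤ) : Bz (QIII_12 z) (F2 z) 2 :=
  ⟨1, (-7) + 7*z + (-6)*z^2 + 7*z^3 + (-6)*z^4 + 7*z^5 + (-7)*z^6 + 6*z^7 + (-6)*z^8 + 6*z^9 + (-6)*z^10 + 5*z^11 + (-5)*z^12 + 4*z^13 + (-4)*z^14 + 4*z^15 + (-4)*z^16 + 3*z^17 + (-3)*z^18 + 2*z^19 + (-2)*z^20 + 2*z^21 + (-2)*z^22 + 1*z^23 + (-1)*z^24 + 1*z^25 + (-1)*z^26 + 1*z^27 + (-1)*z^28, by simp only [QIII_12, F2]; ring⟩

lemma bIII_12_3 (z : ℤ) : Bz (QIII_12 z) (F3 z) 6 :=
  ⟨1, (-3) + 3*z + 1*z^2 + (-3)*z^3 + 3*z^4 + 1*z^5 + (-4)*z^6 + 2*z^7 + 2*z^8 + (-4)*z^9 + 2*z^10 + 1*z^11 + (-3)*z^12 + 1*z^13 + 2*z^14 + (-3)*z^15 + 1*z^16 + 1*z^17 + (-2)*z^18 + 2*z^20 + (-2)*z^21 + 1*z^23 + (-1)*z^24 + 1*z^26 + (-1)*z^27, by simp only [QIII_12, F3]; ring⟩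

lemma bIII_12_4 (z : ℤ) : Bz (QIII_12 z) (F4 z) 82 :=
  ⟨9 + 1*z, 1 + (-9)*z + 8*z^2 + 19*z^3 + 2*z^4 + (-9)*z^5 + (-1)*z^6 + (-9)*z^11 + (-1)*z^12 + (-9)*z^17 + (-1)*z^18 + (-9)*z^23 + (-1)*z^24 + 9*z^25 + 1*z^26 + (-9)*z^27 + (-1)*z^28, by simp only [QIII_12, F4]; ring⟩

lemma bIII_12_5 (z : ℤ) : Bz (QIII_12 z) (F5 z) 7 :=
  ⟨1, (-2) + 2*z + 1*z^2 + (-2)*z^5 + 1*z^6 + 1*z^8 + (-2)*z^10 + 1*z^12 + 1*z^14 + (-2)*z^15 + 1*z^18 + (-1)*z^20 + 1*z^24 + (-1)*z^25, by simp only [QIII_12, F5]; ring⟩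

lemma bIII_12_6 (z : ℤ) : Bz (QIII_12 z) (F6 z) 14 :=
  ⟨1, 5 + 5*z + 1*z^2 + (-3)*z^3 + (-3)*z^4 + 1*z^5 + 4*z^6 + 2*z^7 + (-2)*z^8 + (-4)*z^9 + (-2)*z^10 + 1*z^11 + 3*z^12 + 1*z^13 + (-2)*z^14 + (-3)*z^15 + (-1)*z^16 + 1*z^17 + 2*z^18 + (-2)*z^20 + (-2)*z^21 + 1*z^23 + 1*z^24 + (-1)*z^26 + (-1)*z^27, by simp only [QIII_12, F6]; ring⟩

lemma bIII_12_7 (z : ℤ) : Bz (QIII_12 z) (F7 z) 881 :=
  ⟨99 + 10*z^2 + 9*z^3 + 9*z^4 + 10*z^5, (-10) + 10*z + 9*z^2 + 9*z^3 + 10*z^4 + (-99)*z^7 + 99*z^8 + (-10)*z^9 + 1*z^10 + (-99)*z^11 + 98*z^12 + (-99)*z^13 + 1*z^14 + 89*z^15 + (-10)*z^16 + (-88)*z^17 + (-1)*z^18 + (-1)*z^19 + 1*z^20 + (-9)*z^21 + 89*z^22 + (-99)*z^23 + 10*z^24 + (-1)*z^25 + 1*z^27 + (-10)*z^28, by simp only [QIII_12, F7]; ring⟩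

lemma bIII_12_8 (z : ℤ) : Bz (QIII_12 z) (F8 z) 10162 :=
  ⟨1009 + (-19)*z + 91*z^2 + 99*z^3, 1081 + 171*z + 190*z^2 + 99*z^3 + 1009*z^5 + (-19)*z^6 + (-918)*z^7 + 118*z^8 + (-1100)*z^9 + (-80)*z^10 + (-91)*z^11 + (-99)*z^12 + (-1009)*z^17 + 19*z^18 + (-1100)*z^19 + (-80)*z^20 + 918*z^21 + (-118)*z^22 + 91*z^23 + 99*z^24 + (-1009)*z^25 + 19*z^26 + (-91)*z^27 + (-99)*z^28, by simp only [QIII_12, F8]; ring⟩

lemma bIII_12_9 (z : ℤ) : Bz (QIII_12 z) (F9 z) 235713 :=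
  ⟨26497 + (-262)*z + (-801)*z^2 + 2756*z^3 + 2428*z^4 + 2025*z^5, (-2760) + 2358*z + 33706*z^2 + 4191*z^3 + 1224*z^4 + (-23741)*z^5 + 2690*z^6 + (-23671)*z^7 + (-2494)*z^8 + (-1627)*z^9 + 21716*z^10 + (-2690)*z^11 + (-2826)*z^12 + (-23741)*z^13 + 2690*z^14 + 2826*z^15 + (-2756)*z^16 + (-28925)*z^17 + (-1763)*z^18 + 801*z^19 + 23741*z^20 + (-2690)*z^21 + (-2826)*z^22 + (-23741)*z^23 + 2690*z^24 + 2826*z^25 + (-2756)*z^26 + (-2428)*z^27 + (-2025)*z^28, by simp only [QIII_12, F9]; ring⟩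

lemma bIII_12_10 (z : ℤ) : Bz (QIII_12 z) (F10 z) 22181 :=
  ⟨1617 + 294*z + (-52)*z^2 + 338*z^3, 7628 + 4982*z + (-561)*z^2 + 954*z^3 + 728*z^4 + (-3572)*z^5 + (-2205)*z^6 + (-190)*z^7 + (-2241)*z^8 + (-632)*z^9 + 3286*z^10 + 250*z^11 + (-1721)*z^12 + 382*z^13 + (-1565)*z^14 + (-3866)*z^15 + (-536)*z^16 + (-234)*z^17 + (-2293)*z^18 + (-294)*z^19 + 1669*z^20 + (-44)*z^21 + (-52)*z^22 + 338*z^23 + (-1617)*z^24 + (-1911)*z^25 + (-242)*z^26 + (-286)*z^27 + (-338)*z^28, by simp only [QIII_12, F10]; ring⟩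

lemma bIII_12_12 (z : ℤ) : Bz (QIII_12 z) (F12 z) 962 :=
  ⟨89 + (-9)*z + 20*z^2 + 25*z^3, 161 + 81*z + 70*z^2 + (-64)*z^3 + 9*z^4 + (-20)*z^5 + (-25)*z^6 + (-89)*z^11 + 9*z^12 + (-198)*z^13 + (-7)*z^14 + (-129)*z^15 + (-41)*z^16 + (-20)*z^17 + (-25)*z^18 + (-89)*z^23 + 9*z^24 + (-109)*z^25 + (-16)*z^26 + (-20)*z^27 + (-25)*z^28, by simp only [QIII_12, F12]; ring⟩

lemma bIII_12_14 (z : ℤ) : Bz (QIII_12 z) (F14 z) 625003 :=
  ⟨64615 + (-818)*z + 3614*z^2 + 7765*z^3 + 5685*z^4 + 10158*z^5, 43468 + 50830*z + 39451*z^2 + 26001*z^3 + 10158*z^4 + (-64615)*z^7 + (-63797)*z^8 + (-2796)*z^9 + (-11379)*z^10 + (-78065)*z^11 + (-79640)*z^12 + (-77569)*z^13 + (-10561)*z^14 + 47551*z^15 + (-24426)*z^16 + (-76844)*z^17 + (-1575)*z^18 + 2071*z^19 + 2393*z^20 + (-5685)*z^21 + (-74773)*z^22 + (-63797)*z^23 + (-2796)*z^24 + (-11379)*z^25 + (-13450)*z^26 + (-15843)*z^27 + (-10158)*z^28, by simp only [QIII_12, F14]; ring⟩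

lemma bIII_12_15 (z : ℤ) : Bz (QIII_12 z) (F15 z) 158741311 :=
  ⟨14407900 + 1881670*z + 2013934*z^2 + 663196*z^3 + 2513407*z^4 + 1232197*z^5 + 104166*z^6 + 1654404*z^7, 29070211 + 12135181*z + 8417675*z^2 + (-10331730)*z^3 + 2286141*z^4 + (-15189637)*z^5 + (-2440700)*z^6 + (-17280837)*z^7 + (-3777063)*z^8 + (-19039407)*z^9 + (-5431467)*z^10 + (-19039407)*z^11 + (-5431467)*z^12 + (-19039407)*z^13 + (-5431467)*z^14 + (-4631507)*z^15 + 10858103*z^16 + (-735903)*z^17 + (-872667)*z^18 + (-13848870)*z^19 + (-15430567)*z^20 + (-17071307)*z^21 + (-4454634)*z^22 + (-3536133)*z^23 + (-4408800)*z^24 + (-3849770)*z^25 + (-2990767)*z^26 + (-1758570)*z^27 + (-1654404)*z^28, by simp only [QIII_12, F15]; ring⟩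

lemma bIII_12_18 (z : ℤ) : Bz (QIII_12 z) (F18 z) 492157 :=
  ⟨48679 + (-6464)*z + 7521*z^2 + 7516*z^3 + 11660*z^4 + 10493*z^5, 54046 + 58176*z + (-19010)*z^2 + 28617*z^3 + 2972*z^4 + (-56195)*z^5 + (-5196)*z^6 + (-66693)*z^7 + (-1052)*z^8 + (-19181)*z^9 + (-66688)*z^10 + (-5196)*z^11 + (-18014)*z^12 + (-56195)*z^13 + (-5196)*z^14 + (-18014)*z^15 + (-7516)*z^16 + (-60339)*z^17 + (-4029)*z^18 + (-7521)*z^19 + (-56195)*z^20 + (-5196)*z^21 + (-18014)*z^22 + (-56195)*z^23 + (-5196)*z^24 + (-18014)*z^25 + (-7516)*z^26 + (-11660)*z^27 + (-10493)*z^28, by simp only [QIII_12, F18]; ring⟩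

lemma bIII_12_20 (z : ℤ) : Bz (QIII_12 z) (F20 z) 50060761 :=
  ⟨4996529 + 154261*z + 858681*z^2 + 922319*z^3 + 413119*z^4 + 561501*z^5 + 680400*z^6 + 636380*z^7, 5092000 + (-1388349)*z + 2360400*z^2 + (-4538430)*z^3 + (-440200)*z^4 + (-1271800)*z^5 + (-1483820)*z^6 + (-6090048)*z^7 + (-1352142)*z^8 + (-6535610)*z^9 + (-1712960)*z^10 + (-1271800)*z^11 + (-1483820)*z^12 + (-6090048)*z^13 + (-1352142)*z^14 + (-6535610)*z^15 + (-1712960)*z^16 + (-1271800)*z^17 + (-1483820)*z^18 + (-6090048)*z^19 + (-1352142)*z^20 + (-6535610)*z^21 + (-1712960)*z^22 + (-1271800)*z^23 + (-1483820)*z^24 + (-1093519)*z^25 + (-1197881)*z^26 + (-680400)*z^27 + (-636380)*z^28, by simp only [QIII_12, F20]; ring⟩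

lemma bIII_12_24 (z : ℤ) : Bz (QIII_12 z) (F24 z) 3840722 :=
  ⟨388449 + 13661*z + 24650*z^2 + 37450*z^3 + 85240*z^4 + 90550*z^5 + 47979*z^6 + 41731*z^7, 344681 + (-122949)*z + 166599*z^2 + 65060*z^3 + 4281*z^4 + (-473689)*z^5 + (-104211)*z^6 + (-461078)*z^7 + (-92842)*z^8 + (-109890)*z^9 + (-128000)*z^10 + (-910117)*z^11 + (-159603)*z^12 + (-97279)*z^13 + (-116631)*z^14 + (-558929)*z^15 + (-194761)*z^16 + (-509057)*z^17 + (-134573)*z^18 + (-109890)*z^19 + (-128000)*z^20 + (-521668)*z^21 + (-145942)*z^22 + (-72629)*z^23 + (-79181)*z^24 + (-85240)*z^25 + (-90550)*z^26 + (-47979)*z^27 + (-41731)*z^28, by simp only [QIII_12, F24]; ring⟩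

lemma bIII_12_30 (z : ℤ) : Bz (QIII_12 z) (F30 z) 7243801 :=
  ⟨808800 + (-65528)*z + (-32912)*z^2 + 101480*z^3 + 226463*z^4 + 338761*z^5 + 224976*z^6 + 108184*z^7, (-35399) + 625151*z + 479857*z^2 + (-685304)*z^3 + (-52751)*z^4 + (-1114649)*z^5 + (-260928)*z^6 + (-1110535)*z^7 + (-374713)*z^8 + (-1227327)*z^9 + (-482897)*z^10 + (-1227327)*z^11 + (-482897)*z^12 + (-1227327)*z^13 + (-482897)*z^14 + (-418527)*z^15 + (-1357225)*z^16 + (-385911)*z^17 + (-414033)*z^18 + (-1135256)*z^19 + 539681*z^20 + (-1180177)*z^21 + (-293840)*z^22 + (-200255)*z^23 + (-213778)*z^24 + (-112678)*z^25 + (-221969)*z^26 + (-116792)*z^27 + (-108184)*z^28, by simp only [QIII_12, F30]; ring⟩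

lemma bigIII_12 (s : ℤ) (hs : 0 ≤ s) : (72557757543349009249402805381878474740114787231372035488897066847210517793732724735330061564589899776 : ℤ) < QIII_12 (s + 3006) := by
  have h : 0 ≤ 166669988277042591087516214421064159428126419056241793579023703638652380725542934691998436427343260 + 701599600271841484821566168989162361272044228400477417618836552259781623816500914621115254230857480*s + 3267596275384491279940007908242105972102488169137933939788161480128256086182799513842176244600925*s^2 + 9783222381390692454908367075560963160383050788925005900287716168110572988747829402258182848015*s^3 + 21154672481383732853258398442404555736677019410899624345324791597412436766141272561823322161*s^4 + 35187412643685517054650420549035861390573845144435550990984162531398428939492369489219539*s^5 + 46822904382815059287620814541886224171324399023279265335911404500788840668280572356210*s^6 + 51179868872005815208402139255037552883951445683756991672570170745230806314274255265*s^7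 + 46821237324689285370291986339272935441034029860488009015227667054662299897213688*s^8 + 36343830258685406696831825831161684158185729143424894022165651031451682585228*s^9 + 24180858455545846105675728536517207876411283349229714035975024029371977274*s^10 + 13894523397307538740937144200810931117837569479825072236852630505472825*s^11 + 6933394908836097176116217002093894961422438452866329167119339194662*s^12 + 3016216629566857362044480782076228654379343833593762607277652929*s^13 + 1146741423654351244955595451892285652609616534496202342566208*s^14 + 381484172872372336977907152778095105299272323842218452576*s^15 + 111044128830115034882124927773509925402453518548310998*s^16 + 28248868435511241310861038683359682822535207805549*s^17 + 6264996326349798472135950641921135033396169978*s^18 + 1206621136496266820630588078375209702377841*s^19 + 200702118512353097243943387320200175016*s^20 + 28614502211627188087245987346813428*s^21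 + 3461501507485294633429623859218*s^22 + 350465887824308808961893121*s^23 + 29147196259506720638880*s^24 + 1939267881537373296*s^25 + 99251132685264*s^26 + 3668630616*s^27 + 87174*s^28 + 1*s^29 := by positivity
  have e : QIII_12 (s + 3006) - (72557757543349009249402805381878474740114787231372035488897066847210517793732724735330061564589899776 + 1) = 166669988277042591087516214421064159428126419056241793579023703638652380725542934691998436427343260 + 701599600271841484821566168989162361272044228400477417618836552259781623816500914621115254230857480*s + 3267596275384491279940007908242105972102488169137933939788161480128256086182799513842176244600925*s^2 + 9783222381390692454908367075560963160383050788925005900287716168110572988747829402258182848015*s^3 + 21154672481383732853258398442404555736677019410899624345324791597412436766141272561823322161*s^4 + 35187412643685517054650420549035861390573845144435550990984162531398428939492369489219539*s^5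 + 46822904382815059287620814541886224171324399023279265335911404500788840668280572356210*s^6 + 51179868872005815208402139255037552883951445683756991672570170745230806314274255265*s^7 + 46821237324689285370291986339272935441034029860488009015227667054662299897213688*s^8 + 36343830258685406696831825831161684158185729143424894022165651031451682585228*s^9 + 24180858455545846105675728536517207876411283349229714035975024029371977274*s^10 + 13894523397307538740937144200810931117837569479825072236852630505472825*s^11 + 6933394908836097176116217002093894961422438452866329167119339194662*s^12 + 3016216629566857362044480782076228654379343833593762607277652929*s^13 + 1146741423654351244955595451892285652609616534496202342566208*s^14 + 381484172872372336977907152778095105299272323842218452576*s^15 + 111044128830115034882124927773509925402453518548310998*s^16 + 28248868435511241310861038683359682822535207805549*s^17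 + 6264996326349798472135950641921135033396169978*s^18 + 1206621136496266820630588078375209702377841*s^19 + 200702118512353097243943387320200175016*s^20 + 28614502211627188087245987346813428*s^21 + 3461501507485294633429623859218*s^22 + 350465887824308808961893121*s^23 + 29147196259506720638880*s^24 + 1939267881537373296*s^25 + 99251132685264*s^26 + 3668630616*s^27 + 87174*s^28 + 1*s^29 := by
    simp only [QIII_12]; ring
  linarith

set_option maxHeartbeats 4000000 in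
theorem noIII_12 {q : ℕ} (hq : IsPrimePow q) : ¬ (k08 q + a07 q + k0 q + 12) ∣ NN8 q := by
  intro hd
  have hq2 : 2 ≤ q := hq.two_le
  have hz1 : 1 ≤ q := by omega
  by_cases hB : q < 3006
  · refine chk_ok (g := fun q => k08' q + a07' q + k0' q + 12) (B := 3006) (by decide +kernel) hq2 hB ?_
    show k08' q + a07' q + k0' q + 12 ∣ NN8 q
    rw [← k08_eq hz1, ← a07_eq hz1, ← k0_eq hz1]
    exact hd
  · obtain ⟨p, k, hp, hk, hpk⟩ := (isPrimePow_nat_iff q).mp hq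
    have hd' : ((k08 q + a07 q + k0 q + 12 : ℕ) : ℤ) ∣ (NN8 q : ℤ) := Int.natCast_dvd_natCast.mpr hd
    have e1 : ((k08 q + a07 q + k0 q + 12 : ℕ) : ℤ) = (1) * QIII_12 (q : ℤ) := by
      push_cast
      rw [k08_cast hz1, a07_cast hz1, k0_cast hz1]
      simp only [QIII_12]
      ring
    rw [e1, NN8_cast hz1, NN8_fac] at hd'
    have hQ := Dvd.dvd.trans (Dvd.intro_left _ rfl) hd'
    have hz : (q : ℤ) = (p : ℤ) ^ k := by rw [← hpk]; push_cast; rfl
    have hqB : (3006 : ℤ) ≤ (q : ℤ) := by exact_mod_cast not_lt.mp hB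
    have hR : QIII_12 (q : ℤ) = (9 : ℤ) + (q : ℤ) * ((-1)*(q : ℤ) + (-1)*(q : ℤ)^2 + (-1)*(q : ℤ)^3 + (-1)*(q : ℤ)^4 + 1*(q : ℤ)^6 + 1*(q : ℤ)^10 + 1*(q : ℤ)^12 + 1*(q : ℤ)^16 + 1*(q : ℤ)^18 + 1*(q : ℤ)^22 + 1*(q : ℤ)^28) := by
      simp only [QIII_12]; ring
    have hgo := cofree' hp hz hR (nd (c0 := 9) (by linarith) (by norm_num)).1 hQ
    have h1 : QIII_12 (q : ℤ) ∣ 72557757543349009249402805381878474740114787231372035488897066847210517793732724735330061564589899776 := by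
      have h2 := chainE (bIII_12_1 _) (bIII_12_2 _) (bIII_12_3 _) (bIII_12_4 _) (bIII_12_5 _) (bIII_12_6 _) (bIII_12_7 _) (bIII_12_8 _) (bIII_12_9 _) (bIII_12_10 _) (bIII_12_12 _) (bIII_12_14 _) (bIII_12_15 _) (bIII_12_18 _) (bIII_12_20 _) (bIII_12_24 _) (bIII_12_30 _) hgo
      have e2 : ((((((((((((((((((((9 : ℤ)) * 12^8) * 2^8) * 6^4) * 82^4) * 7^2) * 14^4) * 881^1) * 10162^2) * 235713^1) * 22181^2) * 962^2) * 625003^1) * 158741311^1) * 492157^1) * 50060761^1) * 3840722^1) * 7243801^1) * 1) = 72557757543349009249402805381878474740114787231372035488897066847210517793732724735330061564589899776 := by norm_num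
      rwa [e2] at h2
    obtain ⟨s, rfl⟩ : ∃ s, q = s + 3006 := ⟨q - 3006, by omega⟩
    have hbig := bigIII_12 (s : ℤ) (Int.natCast_nonneg s)
    have e3 : ((s + 3006 : ℕ) : ℤ) = (s : ℤ) + 3006 := by push_cast; ring
    rw [e3] at h1
    have hle := Int.le_of_dvd (by norm_num) h1
    linarith

end sIII_12

end ArAux8

end Cfsg.Agent.Lib.MinE8
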