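import Cfsg.Agent.Lib.MinE8.ArBase

/-! Arithmetic for `Ar.lean`: Bezout certificates (python-generated). -/

set_option autoImplicit false
set_option linter.unusedSectionVars false
set_option linter.unusedVariables false
set_option maxRecDepth 100000

namespace Cfsg.Agent.Lib.MinE8

open Cfsg.Agent.Lib.MinE6 (k0 gaussN)

namespace ArAux8

section sIV_0

/-- The cofactor. -/
def QIV_0 (z : ℤ) : ℤ := (-3) + 1*z + 1*z^7 + 1*z^11 + 1*z^13 + 1*z^17 + 1*z^19 + 1*z^23 + 1*z^29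

lemma bIV_0_1 (z : ℤ) : Bz (QIV_0 z) (F1 z) 5 :=
  ⟨1, (-8) + (-7)*z + (-7)*z^2 + (-7)*z^3 + (-7)*z^4 + (-7)*z^5 + (-7)*z^6 + (-6)*z^7 + (-6)*z^8 + (-6)*z^9 + (-6)*z^10 + (-5)*z^11 + (-5)*z^12 + (-4)*z^13 + (-4)*z^14 + (-4)*z^15 + (-4)*z^16 + (-3)*z^17 + (-3)*z^18 + (-2)*z^19 + (-2)*z^20 + (-2)*z^21 + (-2)*z^22 + (-1)*z^23 + (-1)*z^24 + (-1)*z^25 + (-1)*z^26 + (-1)*z^27 + (-1)*z^28, by simp only [QIV_0, F1]; ring⟩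

lemma bIV_0_2 (z : ℤ) : Bz (QIV_0 z) (F2 z) 11 :=
  ⟨(-1), 8 + (-7)*z + 7*z^2 + (-7)*z^3 + 7*z^4 + (-7)*z^5 + 7*z^6 + (-6)*z^7 + 6*z^8 + (-6)*z^9 + 6*z^10 + (-5)*z^11 + 5*z^12 + (-4)*z^13 + 4*z^14 + (-4)*z^15 + 4*z^16 + (-3)*z^17 + 3*z^18 + (-2)*z^19 + 2*z^20 + (-2)*z^21 + 2*z^22 + (-1)*z^23 + 1*z^24 + (-1)*z^25 + 1*z^26 + (-1)*z^27 + 1*z^28, by simp only [QIV_0, F2]; ring⟩

lemma bIV_0_3 (z : ℤ) : Bz (QIV_0 z) (F3 z) 7 :=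
  ⟨(-1), 4 + (-3)*z + (-1)*z^2 + 4*z^3 + (-3)*z^4 + (-1)*z^5 + 4*z^6 + (-2)*z^7 + (-2)*z^8 + 4*z^9 + (-2)*z^10 + (-1)*z^11 + 3*z^12 + (-1)*z^13 + (-2)*z^14 + 3*z^15 + (-1)*z^16 + (-1)*z^17 + 2*z^18 + (-2)*z^20 + 2*z^21 + (-1)*z^23 + 1*z^24 + (-1)*z^26 + 1*z^27, by simp only [QIV_0, F3]; ring⟩

lemma bIV_0_4 (z : ℤ) : Bz (QIV_0 z) (F4 z) 3 :=
  ⟨(-1), 1*z + (-1)*z^3 + 1*z^5 + 1*z^11 + 1*z^17 + 1*z^23 + (-1)*z^25 + 1*z^27, by simp only [QIV_0, F4]; ring⟩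

lemma bIV_0_5 (z : ℤ) : Bz (QIV_0 z) (F5 z) 5 :=
  ⟨(-1), 2 + (-1)*z + (-1)*z^2 + 2*z^5 + (-1)*z^6 + (-1)*z^8 + 2*z^10 + (-1)*z^12 + (-1)*z^14 + 2*z^15 + (-1)*z^18 + 1*z^20 + (-1)*z^24 + 1*z^25, by simp only [QIV_0, F5]; ring⟩

lemma bIV_0_6 (z : ℤ) : Bz (QIV_0 z) (F6 z) 1 :=
  ⟨1, 4 + 3*z + (-1)*z^2 + (-4)*z^3 + (-3)*z^4 + 1*z^5 + 4*z^6 + 2*z^7 + (-2)*z^8 + (-4)*z^9 + (-2)*z^10 + 1*z^11 + 3*z^12 + 1*z^13 + (-2)*z^14 + (-3)*z^15 + (-1)*z^16 + 1*z^17 + 2*z^18 + (-2)*z^20 + (-2)*z^21 + 1*z^23 + 1*z^24 + (-1)*z^26 + (-1)*z^27, by simp only [QIV_0, F6]; ring⟩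

lemma bIV_0_7 (z : ℤ) : Bz (QIV_0 z) (F7 z) 1093 :=
  ⟨(-364) + (-121)*z + (-40)*z^2 + (-13)*z^3 + (-4)*z^4 + (-1)*z^5, 1 + 364*z^7 + (-243)*z^8 + (-81)*z^9 + (-27)*z^10 + 355*z^11 + (-246)*z^12 + 282*z^13 + 94*z^14 + (-333)*z^15 + (-111)*z^16 + 327*z^17 + 109*z^18 + 36*z^19 + 12*z^20 + 4*z^21 + (-363)*z^22 + 243*z^23 + 81*z^24 + 27*z^25 + 9*z^26 + 3*z^27 + 1*z^28, by simp only [QIV_0, F7]; ring⟩

lemma bIV_0_8 (z : ℤ) : Bz (QIV_0 z) (F8 z) 3 :=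
  ⟨(-1), 1*z + (-1)*z^5 + 1*z^7 + 1*z^9 + 1*z^17 + 1*z^19 + (-1)*z^21 + 1*z^25, by simp only [QIV_0, F8]; ring⟩

lemma bIV_0_9 (z : ℤ) : Bz (QIV_0 z) (F9 z) 1117 :=
  ⟨(-342) + (-102)*z + (-148)*z^2 + (-53)*z^3 + (-55)*z^4 + (-36)*z^5, 91 + 36*z + (-342)*z^2 + (-102)*z^3 + (-148)*z^4 + 289*z^5 + 47*z^6 + 454*z^7 + 155*z^8 + 203*z^9 + (-253)*z^10 + (-47)*z^11 + (-112)*z^12 + 289*z^13 + 47*z^14 + 112*z^15 + 53*z^16 + 397*z^17 + 138*z^18 + 148*z^19 + (-289)*z^20 + (-47)*z^21 + (-112)*z^22 + 289*z^23 + 47*z^24 + 112*z^25 + 53*z^26 + 55*z^27 + 36*z^28, by simp only [QIV_0, F9]; ring⟩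

lemma bIV_0_10 (z : ℤ) : Bz (QIV_0 z) (F10 z) 1 :=
  ⟨(-1), (-2) + (-1)*z + 1*z^2 + 2*z^5 + 1*z^6 + 1*z^8 + (-2)*z^10 + 1*z^12 + 1*z^14 + 2*z^15 + 1*z^18 + (-1)*z^20 + 1*z^24 + 1*z^25, by simp only [QIV_0, F10]; ring⟩

lemma bIV_0_12 (z : ℤ) : Bz (QIV_0 z) (F12 z) 3 :=
  ⟨(-1), 1*z + 1*z^3 + 1*z^11 + 2*z^13 + 1*z^15 + 1*z^23 + 1*z^25, by simp only [QIV_0, F12]; ring⟩

lemma bIV_0_14 (z : ℤ) : Bz (QIV_0 z) (F14 z) 547 :=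
  ⟨(-182) + (-61)*z + (-20)*z^2 + (-7)*z^3 + (-2)*z^4 + (-1)*z^5, 1 + 182*z^7 + 243*z^8 + 81*z^9 + 27*z^10 + 191*z^11 + 246*z^12 + 264*z^13 + 88*z^14 + (-153)*z^15 + (-51)*z^16 + 165*z^17 + 55*z^18 + 18*z^19 + 6*z^20 + 2*z^21 + 183*z^22 + 243*z^23 + 81*z^24 + 27*z^25 + 9*z^26 + 3*z^27 + 1*z^28, by simp only [QIV_0, F14]; ring⟩

lemma bIV_0_15 (z : ℤ) : Bz (QIV_0 z) (F15 z) 2 :=
  ⟨(-1), (-1) + 1*z^3 + 1*z^5 + 1*z^7 + 1*z^9 + 1*z^11 + 1*z^13 + (-1)*z^16 + 1*z^19 + 1*z^20 + 1*z^21, by simp only [QIV_0, F15]; ring⟩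

lemma bIV_0_18 (z : ℤ) : Bz (QIV_0 z) (F18 z) 991 :=
  ⟨(-324) + (-114)*z + 70*z^2 + 55*z^3 + 1*z^4 + (-18)*z^5, 19 + (-18)*z + 324*z^2 + 114*z^3 + (-70)*z^4 + 269*z^5 + 113*z^6 + 272*z^7 + 59*z^8 + (-71)*z^9 + 287*z^10 + 113*z^11 + (-52)*z^12 + 269*z^13 + 113*z^14 + (-52)*z^15 + (-55)*z^16 + 323*z^17 + 132*z^18 + (-70)*z^19 + 269*z^20 + 113*z^21 + (-52)*z^22 + 269*z^23 + 113*z^24 + (-52)*z^25 + (-55)*z^26 + (-1)*z^27 + 18*z^28, by simp only [QIV_0, F18]; ring⟩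

lemma bIV_0_20 (z : ℤ) : Bz (QIV_0 z) (F20 z) 3 :=
  ⟨(-1), 1*z + 1*z^3 + 1*z^7 + 1*z^9 + 1*z^13 + 1*z^15 + 1*z^19 + 1*z^21, by simp only [QIV_0, F20]; ring⟩

lemma bIV_0_24 (z : ℤ) : Bz (QIV_0 z) (F24 z) 3 :=
  ⟨(-1), 1*z + 1*z^5 + 1*z^7 + 2*z^11 + 1*z^15 + 1*z^17 + 1*z^21, by simp only [QIV_0, F24]; ring⟩

lemma bIV_0_30 (z : ℤ) : Bz (QIV_0 z) (F30 z) 4 :=
  ⟨(-1), 1 + 1*z^3 + 1*z^5 + 1*z^7 + 1*z^9 + 1*z^11 + 1*z^13 + 1*z^16 + 1*z^19 + (-1)*z^20 + 1*z^21, by simp only [QIV_0, F30]; ring⟩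

lemma bigIV_0 (s : ℤ) (hs : 0 ≤ s) : (4714024002223600272116090074921875000 : ℤ) < QIV_0 (s + 19) := by
  have h : 0 ≤ 7415798250197233417776825767675439388 + 18513939145958239967009176569090883320*s + 13641849847740883640241206428047791680*s^2 + 6461928856224990308538600408281572200*s^3 + 2210659866610735375590791137036799058*s^4 + 581752595370045878558070894206876790*s^5 + 122474230419809831153487049844099540*s^6 + 21179754107791300876824727195632540*s^7 + 3065490723336361268803906264271737*s^8 + 376463772780130899379671659499853*s^9 + 39627765535184056197647940042101*s^10 + 3602524138180997310946783049725*s^11 + 284409800303958299555665692638*s^12 + 19574763579847235401760497254*s^13 + 1177429388103269499865313542*s^14 + 61969967789357400882508126*s^15 + 2853880095398157680690702*s^16 + 114862047179136892566574*s^17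 + 4030247269360081482122*s^18 + 122805318455570600466*s^19 + 3231718906707321184*s^20 + 72895915188704278*s^21 + 1395137132796857*s^22 + 22347734392621*s^23 + 294049136745*s^24 + 3095254071*s^25 + 25062786*s^26 + 146566*s^27 + 551*s^28 + 1*s^29 := by positivity
  have e : QIV_0 (s + 19) - (4714024002223600272116090074921875000 + 1) = 7415798250197233417776825767675439388 + 18513939145958239967009176569090883320*s + 13641849847740883640241206428047791680*s^2 + 6461928856224990308538600408281572200*s^3 + 2210659866610735375590791137036799058*s^4 + 581752595370045878558070894206876790*s^5 + 122474230419809831153487049844099540*s^6 + 21179754107791300876824727195632540*s^7 + 3065490723336361268803906264271737*s^8 + 376463772780130899379671659499853*s^9 + 39627765535184056197647940042101*s^10 + 3602524138180997310946783049725*s^11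 + 284409800303958299555665692638*s^12 + 19574763579847235401760497254*s^13 + 1177429388103269499865313542*s^14 + 61969967789357400882508126*s^15 + 2853880095398157680690702*s^16 + 114862047179136892566574*s^17 + 4030247269360081482122*s^18 + 122805318455570600466*s^19 + 3231718906707321184*s^20 + 72895915188704278*s^21 + 1395137132796857*s^22 + 22347734392621*s^23 + 294049136745*s^24 + 3095254071*s^25 + 25062786*s^26 + 146566*s^27 + 551*s^28 + 1*s^29 := by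
    simp only [QIV_0]; ring
  linarith

set_option maxHeartbeats 4000000 in
theorem noIV_0 {q : ℕ} (hq : IsPrimePow q) : ¬ (k08 q + a07 q + k0 q + ww q + 0) ∣ NN8 q := by
  intro hd
  have hq2 : 2 ≤ q := hq.two_le
  have hz1 : 1 ≤ q := by omega
  by_cases hB : q < 19
  · refine chk_ok (g := fun q => k08' q + a07' q + k0' q + ww q + 0) (B := 19) (by decide +kernel) hq2 hB ?_
    show k08' q + a07' q + k0' q + ww q + 0 ∣ NN8 q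
    rw [← k08_eq hz1, ← a07_eq hz1, ← k0_eq hz1]
    exact hd
  · obtain ⟨p, k, hp, hk, hpk⟩ := (isPrimePow_nat_iff q).mp hq
    have hd' : ((k08 q + a07 q + k0 q + ww q + 0 : ℕ) : ℤ) ∣ (NN8 q : ℤ) := Int.natCast_dvd_natCast.mpr hd
    have e1 : ((k08 q + a07 q + k0 q + ww q + 0 : ℕ) : ℤ) = (1) * QIV_0 (q : ℤ) := by
      push_cast
      rw [k08_cast hz1, a07_cast hz1, k0_cast hz1, ww_cast]
      simp only [QIV_0]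
      ring
    rw [e1, NN8_cast hz1, NN8_fac] at hd'
    have hQ := Dvd.dvd.trans (Dvd.intro_left _ rfl) hd'
    have hz : (q : ℤ) = (p : ℤ) ^ k := by rw [← hpk]; push_cast; rfl
    have hqB : (19 : ℤ) ≤ (q : ℤ) := by exact_mod_cast not_lt.mp hB
    have hR : QIV_0 (q : ℤ) = (-3 : ℤ) + (q : ℤ) * (1 + 1*(q : ℤ)^6 + 1*(q : ℤ)^10 + 1*(q : ℤ)^12 + 1*(q : ℤ)^16 + 1*(q : ℤ)^18 + 1*(q : ℤ)^22 + 1*(q : ℤ)^28) := by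
      simp only [QIV_0]; ring
    have hgo := cofree' hp hz hR (nd (c0 := 3) (by linarith) (by norm_num)).2 hQ
    have h1 : QIV_0 (q : ℤ) ∣ 4714024002223600272116090074921875000 := by
      have h2 := chainE (bIV_0_1 _) (bIV_0_2 _) (bIV_0_3 _) (bIV_0_4 _) (bIV_0_5 _) (bIV_0_6 _) (bIV_0_7 _) (bIV_0_8 _) (bIV_0_9 _) (bIV_0_10 _) (bIV_0_12 _) (bIV_0_14 _) (bIV_0_15 _) (bIV_0_18 _) (bIV_0_20 _) (bIV_0_24 _) (bIV_0_30 _) hgo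
      have e2 : ((((((((((((((((((((-3 : ℤ)) * 5^8) * 11^8) * 7^4) * 3^4) * 5^2) * 1^4) * 1093^1) * 3^2) * 1117^1) * 1^2) * 3^2) * 547^1) * 2^1) * 991^1) * 3^1) * 3^1) * 4^1) * 1) = -4714024002223600272116090074921875000 := by norm_num
      rw [e2, dvd_neg] at h2
      exact h2
    obtain ⟨s, rfl⟩ : ∃ s, q = s + 19 := ⟨q - 19, by omega⟩
    have hbig := bigIV_0 (s : ℤ) (Int.natCast_nonneg s)
    have e3 : ((s + 19 : ℕ) : ℤ) = (s : ℤ) + 19 := by push_cast; ring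
    rw [e3] at h1
    have hle := Int.le_of_dvd (by norm_num) h1
    linarith

end sIV_0

section sIV_1

/-- The cofactor. -/
def QIV_1 (z : ℤ) : ℤ := (-2) + (-1)*z + 1*z^2 + 2*z^5 + 1*z^6 + 1*z^8 + (-2)*z^10 + 1*z^12 + 1*z^14 + 2*z^15 + 1*z^18 + (-1)*z^20 + 1*z^24 + 1*z^25

lemma bIV_1_1 (z : ℤ) : Bz (QIV_1 z) (F1 z) 6 :=
  ⟨1, (-8) + (-9)*z + (-8)*z^2 + (-8)*z^3 + (-8)*z^4 + (-6)*z^5 + (-5)*z^6 + (-5)*z^7 + (-4)*z^8 + (-4)*z^9 + (-6)*z^10 + (-6)*z^11 + (-5)*z^12 + (-5)*z^13 + (-4)*z^14 + (-2)*z^15 + (-2)*z^16 + (-2)*z^17 + (-1)*z^18 + (-1)*z^19 + (-2)*z^20 + (-2)*z^21 + (-2)*z^22 + (-2)*z^23 + (-1)*z^24, by simp only [QIV_1, F1]; ring⟩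

lemma bIV_1_2 (z : ℤ) : Bz (QIV_1 z) (F2 z) 2 :=
  ⟨(-1), (-1)*z + 2*z^2 + (-2)*z^3 + 2*z^4 + 1*z^6 + (-1)*z^7 + 2*z^8 + (-2)*z^9 + 1*z^12 + (-1)*z^13 + 2*z^14 + 1*z^18 + (-1)*z^19 + 1*z^24, by simp only [QIV_1, F2]; ring⟩

lemma bIV_1_3 (z : ℤ) : Bz (QIV_1 z) (F3 z) 6 :=
  ⟨1 + 1*z, 8 + (-5)*z + (-3)*z^2 + 7*z^3 + (-4)*z^4 + (-5)*z^5 + 6*z^6 + (-2)*z^7 + (-5)*z^8 + 6*z^9 + 1*z^10 + (-5)*z^11 + 3*z^12 + 1*z^13 + (-5)*z^14 + 1*z^15 + 2*z^16 + (-3)*z^17 + 2*z^19 + (-1)*z^20 + 1*z^22 + (-1)*z^23 + (-1)*z^24, by simp only [QIV_1, F3]; ring⟩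

lemma bIV_1_4 (z : ℤ) : Bz (QIV_1 z) (F4 z) 2 :=
  ⟨(-1), (-1)*z + 1*z^2 + 1*z^3 + (-1)*z^4 + 1*z^5 + 2*z^6 + (-1)*z^7 + (-1)*z^8 + 1*z^9 + (-1)*z^10 + (-1)*z^11 + 2*z^12 + 1*z^13 + (-1)*z^14 + 1*z^15 + 1*z^16 + (-1)*z^17 + 1*z^19 + (-1)*z^20 + (-1)*z^21 + 1*z^22 + 1*z^23, by simp only [QIV_1, F4]; ring⟩

lemma bIV_1_5 (z : ℤ) : Bz (QIV_1 z) (F5 z) 2 :=
  ⟨1*z + 1*z^3, 2 + (-1)*z^2 + (-1)*z^6 + (-1)*z^8 + 2*z^10 + (-1)*z^12 + (-1)*z^14 + (-1)*z^18 + 1*z^20 + (-1)*z^24, by simp only [QIV_1, F5]; ring⟩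

lemma bIV_1_6 (z : ℤ) : Bz (QIV_1 z) (F6 z) 2 :=
  ⟨1 + (-1)*z, 4 + 3*z + (-3)*z^2 + (-5)*z^3 + (-2)*z^4 + 1*z^5 + 4*z^6 + 4*z^7 + (-1)*z^8 + (-4)*z^9 + (-1)*z^10 + 1*z^11 + 1*z^12 + 1*z^13 + (-1)*z^14 + (-3)*z^15 + 3*z^17 + 2*z^18 + (-1)*z^20 + (-2)*z^21 + (-1)*z^22 + 1*z^23 + 1*z^24, by simp only [QIV_1, F6]; ring⟩

lemma bIV_1_7 (z : ℤ) : Bz (QIV_1 z) (F7 z) 127 :=
  ⟨(-58) + 40*z + (-38)*z^2 + 50*z^3 + (-33)*z^4 + (-11)*z^5, 11 + 11*z + (-11)*z^5 + (-11)*z^6 + 58*z^7 + (-40)*z^8 + (-20)*z^9 + 1*z^10 + 64*z^11 + (-37)*z^12 + 45*z^13 + 17*z^14 + (-66)*z^15 + (-33)*z^16 + 47*z^17 + 18*z^18 + 9*z^19 + 10*z^20 + 5*z^21 + (-61)*z^22 + 33*z^23 + 11*z^24, by simp only [QIV_1, F7]; ring⟩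

lemma bIV_1_8 (z : ℤ) : Bz (QIV_1 z) (F8 z) 2 :=
  ⟨1*z + (-1)*z^2 + 1*z^3, 2 + 2*z + (-1)*z^2 + (-3)*z^5 + (-1)*z^6 + 1*z^7 + (-1)*z^8 + 1*z^9 + 2*z^10 + (-1)*z^12 + (-1)*z^14 + (-2)*z^15 + 1*z^17 + (-1)*z^18 + 1*z^19 + 1*z^20 + (-1)*z^21 + (-1)*z^24, by simp only [QIV_1, F8]; ring⟩

lemma bIV_1_9 (z : ℤ) : Bz (QIV_1 z) (F9 z) 57 :=
  ⟨(-17) + 18*z + (-28)*z^2 + 35*z^3 + (-27)*z^4 + 4*z^5, 23 + 19*z + (-21)*z^2 + 1*z^3 + (-10)*z^4 + 1*z^5 + (-12)*z^6 + 25*z^7 + (-5)*z^8 + 12*z^9 + (-2)*z^10 + 1*z^11 + (-12)*z^12 + 25*z^13 + (-5)*z^14 + (-11)*z^15 + (-4)*z^16 + 21*z^17 + (-3)*z^18 + 11*z^19 + (-13)*z^20 + (-3)*z^21 + (-8)*z^22 + 23*z^23 + (-4)*z^24, by simp only [QIV_1, F9]; ring⟩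

lemma bIV_1_10 (z : ℤ) : Bz (QIV_1 z) (F10 z) 12 :=
  ⟨(-1), 10 + 9*z + 1*z^3 + (-8)*z^5 + (-6)*z^6 + 1*z^7 + 1*z^9 + 6*z^10 + 4*z^11 + 1*z^13 + (-3)*z^15 + (-2)*z^16 + 1*z^19 + 2*z^20 + 1*z^21, by simp only [QIV_1, F10]; ring⟩

lemma bIV_1_12 (z : ℤ) : Bz (QIV_1 z) (F12 z) 2 :=
  ⟨1*z + (-2)*z^2 + 1*z^3, 2 + 2*z + (-1)*z^2 + 1*z^3 + (-2)*z^5 + (-1)*z^6 + (-1)*z^8 + 2*z^10 + 1*z^11 + (-1)*z^12 + 2*z^13 + (-1)*z^14 + (-1)*z^15 + (-1)*z^18 + 1*z^20 + 1*z^23 + (-1)*z^24, by simp only [QIV_1, F12]; ring⟩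

lemma bIV_1_14 (z : ℤ) : Bz (QIV_1 z) (F14 z) 43 :=
  ⟨(-16) + 8*z + (-12)*z^2 + 10*z^3 + (-11)*z^4 + (-11)*z^5, 11 + 11*z + (-11)*z^5 + (-11)*z^6 + 16*z^7 + 24*z^8 + 12*z^9 + 17*z^10 + 30*z^11 + 31*z^12 + 37*z^13 + 13*z^14 + (-26)*z^15 + (-13)*z^16 + 15*z^17 + 2*z^18 + 1*z^19 + 6*z^20 + 3*z^21 + 23*z^22 + 33*z^23 + 11*z^24, by simp only [QIV_1, F14]; ring⟩

lemma bIV_1_15 (z : ℤ) : Bz (QIV_1 z) (F15 z) 1 :=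
  ⟨(-1) + 1*z + (-1)*z^2 + 1*z^3 + (-1)*z^4, (-1) + 1*z^3 + 1*z^5 + 1*z^7 + 1*z^9 + 1*z^11 + 1*z^13 + (-1)*z^16 + 1*z^19 + 1*z^20 + 1*z^21, by simp only [QIV_1, F15]; ring⟩

lemma bIV_1_18 (z : ℤ) : Bz (QIV_1 z) (F18 z) 127 :=
  ⟨(-59) + 20*z + (-24)*z^2 + 37*z^3 + (-19)*z^4 + (-28)*z^5, 9 + (-19)*z + 31*z^2 + 39*z^3 + 4*z^4 + 37*z^5 + 40*z^6 + 79*z^7 + 15*z^8 + (-18)*z^9 + 56*z^10 + 9*z^11 + (-28)*z^12 + 59*z^13 + 39*z^14 + (-5)*z^15 + 6*z^16 + 69*z^17 + 27*z^18 + (-7)*z^19 + 51*z^20 + 15*z^21 + (-18)*z^22 + 47*z^23 + 28*z^24, by simp only [QIV_1, F18]; ring⟩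

lemma bIV_1_20 (z : ℤ) : Bz (QIV_1 z) (F20 z) 2 :=
  ⟨(-1) + 1*z + (-1)*z^2 + 1*z^3 + (-1)*z^4, 1*z + 1*z^3 + 1*z^7 + 1*z^9 + 1*z^13 + 1*z^15 + 1*z^19 + 1*z^21, by simp only [QIV_1, F20]; ring⟩

lemma bIV_1_24 (z : ℤ) : Bz (QIV_1 z) (F24 z) 2 :=
  ⟨(-1) + 1*z + (-1)*z^2 + 1*z^3 + (-1)*z^4, 1*z + 1*z^5 + 1*z^7 + 2*z^11 + 1*z^15 + 1*z^17 + 1*z^21, by simp only [QIV_1, F24]; ring⟩

lemma bIV_1_30 (z : ℤ) : Bz (QIV_1 z) (F30 z) 3 :=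
  ⟨(-1) + 1*z + (-1)*z^2 + 1*z^3 + (-1)*z^4, 1 + 1*z^3 + 1*z^5 + 1*z^7 + 1*z^9 + 1*z^11 + 1*z^13 + 1*z^16 + 1*z^19 + (-1)*z^20 + 1*z^21, by simp only [QIV_1, F30]; ring⟩

lemma bigIV_1 (s : ℤ) (hs : 0 ≤ s) : (1247381779954503988707065856 : ℤ) < QIV_1 (s + 13) := by
  have h : 0 ≤ 6351810112884647446856543381 + 14572083906705239489443365132*s + 13412617889686628175769833160*s^2 + 7887278206456226863264439590*s^3 + 3327309825960962086268529480*s^4 + 1071870394391332716310646258*s^5 + 274041979199502711121842750*s^6 + 57051234251333640910280754*s^7 + 9845465288150884125565261*s^8 + 1426354956509882594037999*s^9 + 175036577274963831020449*s^10 + 18306479602550896448354*s^11 + 1638042970816168979492*s^12 + 125630517615967273884*s^13 + 8258751347670606355*s^14 + 464491743409798314*s^15 + 22264673257307078*s^16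 + 903991464788997*s^17 + 30812881273955*s^18 + 870609311312*s^19 + 20030286275*s^20 + 365743378*s^21 + 5099744*s^22 + 51012*s^23 + 326*s^24 + 1*s^25 := by positivity
  have e : QIV_1 (s + 13) - (1247381779954503988707065856 + 1) = 6351810112884647446856543381 + 14572083906705239489443365132*s + 13412617889686628175769833160*s^2 + 7887278206456226863264439590*s^3 + 3327309825960962086268529480*s^4 + 1071870394391332716310646258*s^5 + 274041979199502711121842750*s^6 + 57051234251333640910280754*s^7 + 9845465288150884125565261*s^8 + 1426354956509882594037999*s^9 + 175036577274963831020449*s^10 + 18306479602550896448354*s^11 + 1638042970816168979492*s^12 + 125630517615967273884*s^13 + 8258751347670606355*s^14 + 464491743409798314*s^15 + 22264673257307078*s^16 + 903991464788997*s^17 + 30812881273955*s^18 +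 870609311312*s^19 + 20030286275*s^20 + 365743378*s^21 + 5099744*s^22 + 51012*s^23 + 326*s^24 + 1*s^25 := by
    simp only [QIV_1]; ring
  linarith

set_option maxHeartbeats 4000000 in
theorem noIV_1 {q : ℕ} (hq : IsPrimePow q) : ¬ (k08 q + a07 q + k0 q + ww q + 1) ∣ NN8 q := by
  intro hd
  have hq2 : 2 ≤ q := hq.two_le
  have hz1 : 1 ≤ q := by omega
  by_cases hB : q < 13
  · refine chk_ok (g := fun q => k08' q + a07' q + k0' q + ww q + 1) (B := 13) (by decide +kernel) hq2 hB ?_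
    show k08' q + a07' q + k0' q + ww q + 1 ∣ NN8 q
    rw [← k08_eq hz1, ← a07_eq hz1, ← k0_eq hz1]
    exact hd
  · obtain ⟨p, k, hp, hk, hpk⟩ := (isPrimePow_nat_iff q).mp hq
    have hd' : ((k08 q + a07 q + k0 q + ww q + 1 : ℕ) : ℤ) ∣ (NN8 q : ℤ) := Int.natCast_dvd_natCast.mpr hd
    have e1 : ((k08 q + a07 q + k0 q + ww q + 1 : ℕ) : ℤ) = (1 + (-1)*(q : ℤ) + 1*(q : ℤ)^2 + (-1)*(q : ℤ)^3 + 1*(q : ℤ)^4) * QIV_1 (q : ℤ) := by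
      push_cast
      rw [k08_cast hz1, a07_cast hz1, k0_cast hz1, ww_cast]
      simp only [QIV_1]
      ring
    rw [e1, NN8_cast hz1, NN8_fac] at hd'
    have hQ := Dvd.dvd.trans (Dvd.intro_left _ rfl) hd'
    have hz : (q : ℤ) = (p : ℤ) ^ k := by rw [← hpk]; push_cast; rfl
    have hqB : (13 : ℤ) ≤ (q : ℤ) := by exact_mod_cast not_lt.mp hB
    have hR : QIV_1 (q : ℤ) = (-2 : ℤ) + (q : ℤ) * ((-1) + 1*(q : ℤ) + 2*(q : ℤ)^4 + 1*(q : ℤ)^5 + 1*(q : ℤ)^7 + (-2)*(q : ℤ)^9 + 1*(q : ℤ)^11 + 1*(q : ℤ)^13 + 2*(q : ℤ)^14 + 1*(q : ℤ)^17 + (-1)*(q : ℤ)^19 + 1*(q : ℤ)^23 + 1*(q : ℤ)^24) := by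
      simp only [QIV_1]; ring
    have hgo := cofree' hp hz hR (nd (c0 := 2) (by linarith) (by norm_num)).2 hQ
    have h1 : QIV_1 (q : ℤ) ∣ 1247381779954503988707065856 := by
      have h2 := chainE (bIV_1_1 _) (bIV_1_2 _) (bIV_1_3 _) (bIV_1_4 _) (bIV_1_5 _) (bIV_1_6 _) (bIV_1_7 _) (bIV_1_8 _) (bIV_1_9 _) (bIV_1_10 _) (bIV_1_12 _) (bIV_1_14 _) (bIV_1_15 _) (bIV_1_18 _) (bIV_1_20 _) (bIV_1_24 _) (bIV_1_30 _) hgo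
      have e2 : ((((((((((((((((((((-2 : ℤ)) * 6^8) * 2^8) * 6^4) * 2^4) * 2^2) * 2^4) * 127^1) * 2^2) * 57^1) * 12^2) * 2^2) * 43^1) * 1^1) * 127^1) * 2^1) * 2^1) * 3^1) * 1) = -1247381779954503988707065856 := by norm_num
      rw [e2, dvd_neg] at h2
      exact h2
    obtain ⟨s, rfl⟩ : ∃ s, q = s + 13 := ⟨q - 13, by omega⟩
    have hbig := bigIV_1 (s : ℤ) (Int.natCast_nonneg s)
    have e3 : ((s + 13 : ℕ) : ℤ) = (s : ℤ) + 13 := by push_cast; ring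
    rw [e3] at h1
    have hle := Int.le_of_dvd (by norm_num) h1
    linarith

end sIV_1

section sIV_2

/-- The cofactor. -/
def QIV_2 (z : ℤ) : ℤ := (-1) + 1*z^3 + 1*z^5 + 1*z^7 + 1*z^9 + 1*z^11 + 1*z^13 + (-1)*z^16 + 1*z^19 + 1*z^20 + 1*z^21

lemma bIV_2_1 (z : ℤ) : Bz (QIV_2 z) (F1 z) 7 :=
  ⟨1, (-8) + (-8)*z + (-8)*z^2 + (-7)*z^3 + (-7)*z^4 + (-6)*z^5 + (-6)*z^6 + (-5)*z^7 + (-5)*z^8 + (-4)*z^9 + (-4)*z^10 + (-3)*z^11 + (-3)*z^12 + (-2)*z^13 + (-2)*z^14 + (-2)*z^15 + (-3)*z^16 + (-3)*z^17 + (-3)*z^18 + (-2)*z^19 + (-1)*z^20, by simp only [QIV_2, F1]; ring⟩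

lemma bIV_2_2 (z : ℤ) : Bz (QIV_2 z) (F2 z) 9 :=
  ⟨(-1), 8 + (-8)*z + 8*z^2 + (-7)*z^3 + 7*z^4 + (-6)*z^5 + 6*z^6 + (-5)*z^7 + 5*z^8 + (-4)*z^9 + 4*z^10 + (-3)*z^11 + 3*z^12 + (-2)*z^13 + 2*z^14 + (-2)*z^15 + 1*z^16 + (-1)*z^17 + 1*z^18 + 1*z^20, by simp only [QIV_2, F2]; ring⟩

lemma bIV_2_3 (z : ℤ) : Bz (QIV_2 z) (F3 z) 1 :=
  ⟨1*z, 1 + (-1)*z^2 + 1*z^3 + (-1)*z^4 + (-1)*z^8 + 1*z^9 + (-1)*z^10 + (-1)*z^14 + 1*z^15 + (-1)*z^20, by simp only [QIV_2, F3]; ring⟩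

lemma bIV_2_4 (z : ℤ) : Bz (QIV_2 z) (F4 z) 1 :=
  ⟨(-1), 1*z^3 + 1*z^7 + 1*z^11 + (-1)*z^16 + 1*z^18 + 1*z^19, by simp only [QIV_2, F4]; ring⟩

lemma bIV_2_5 (z : ℤ) : Bz (QIV_2 z) (F5 z) 1 :=
  ⟨(-1) + (-1)*z^3, 1*z^5 + 1*z^10 + 1*z^20, by simp only [QIV_2, F5]; ring⟩

lemma bIV_2_6 (z : ℤ) : Bz (QIV_2 z) (F6 z) 3 :=
  ⟨(-1)*z, 3 + 2*z + (-1)*z^2 + (-3)*z^3 + (-1)*z^4 + 2*z^5 + 4*z^6 + 2*z^7 + (-1)*z^8 + (-3)*z^9 + (-1)*z^10 + 2*z^11 + 4*z^12 + 2*z^13 + (-1)*z^14 + (-3)*z^15 + (-2)*z^16 + 2*z^18 + 2*z^19 + 1*z^20, by simp only [QIV_2, F6]; ring⟩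

lemma bIV_2_7 (z : ℤ) : Bz (QIV_2 z) (F7 z) 7 :=
  ⟨1 + 2*z + 3*z^2 + (-3)*z^3 + 5*z^4 + (-1)*z^5, 8 + (-6)*z + 1*z^2 + (-7)*z^3 + 7*z^4 + (-8)*z^5 + 6*z^6 + (-2)*z^7 + 5*z^8 + (-10)*z^9 + 4*z^10 + (-4)*z^11 + 3*z^12 + (-5)*z^13 + 9*z^14 + (-5)*z^15 + 3*z^16 + (-4)*z^17 + 3*z^18 + (-5)*z^19 + 1*z^20, by simp only [QIV_2, F7]; ring⟩

lemma bIV_2_8 (z : ℤ) : Bz (QIV_2 z) (F8 z) 1 :=
  ⟨(-3) + 2*z + (-2)*z^3, (-2) + 2*z + 1*z^3 + 1*z^5 + 2*z^7 + 2*z^9 + 1*z^11 + 1*z^13 + (-1)*z^15 + (-1)*z^16 + 1*z^17 + 2*z^19 + 2*z^20, by simp only [QIV_2, F8]; ring⟩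

lemma bIV_2_9 (z : ℤ) : Bz (QIV_2 z) (F9 z) 19 :=
  ⟨(-12) + (-3)*z + 4*z^2 + (-11)*z^3 + 2*z^4 + (-9)*z^5, 7 + (-3)*z + 4*z^2 + (-6)*z^3 + 8*z^4 + (-5)*z^5 + 13*z^6 + 1*z^7 + 24*z^8 + (-1)*z^9 + 14*z^10 + (-13)*z^11 + 11*z^12 + (-9)*z^13 + 12*z^14 + (-16)*z^15 + 3*z^16 + (-4)*z^17 + 18*z^18 + 7*z^19 + 9*z^20, by simp only [QIV_2, F9]; ring⟩

lemma bIV_2_10 (z : ℤ) : Bz (QIV_2 z) (F10 z) 1 :=
  ⟨1 + (-2)*z + 2*z^2 + (-1)*z^3, 2 + (-3)*z^5 + 3*z^10 + (-2)*z^15 + 1*z^20, by simp only [QIV_2, F10]; ring⟩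

lemma bIV_2_12 (z : ℤ) : Bz (QIV_2 z) (F12 z) 1 :=
  ⟨(-2) + 1*z + 2*z^2 + (-2)*z^3, (-1) + 1*z + 1*z^2 + 1*z^3 + 1*z^4 + 1*z^6 + (-1)*z^7 + 1*z^8 + (-1)*z^9 + 1*z^10 + 1*z^12 + 1*z^13 + 1*z^14 + (-1)*z^15 + (-1)*z^17 + 1*z^18 + 2*z^20, by simp only [QIV_2, F12]; ring⟩

lemma bIV_2_14 (z : ℤ) : Bz (QIV_2 z) (F14 z) 1 :=
  ⟨(-1) + 1*z^2 + (-1)*z^3 + 1*z^4 + (-1)*z^5, 1*z^2 + 1*z^3 + 1*z^4 + 1*z^8 + 1*z^12 + 1*z^13 + 1*z^14 + (-1)*z^15 + (-1)*z^16 + 1*z^18 + 1*z^19 + 1*z^20, by simp only [QIV_2, F14]; ring⟩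

lemma bIV_2_15 (z : ℤ) : Bz (QIV_2 z) (F15 z) 30841 :=
  ⟨(-9496) + 1089*z + 5904*z^2 + (-7309)*z^3 + 1476*z^4 + (-1239)*z^5 + (-600)*z^6 + (-129)*z^7, 21345 + 22434*z + 28338*z^2 + 9180*z^3 + 8478*z^4 + (-16418)*z^5 + (-14074)*z^6 + (-18378)*z^7 + 5886*z^8 + 3684*z^9 + 12836*z^10 + 4660*z^11 + 7932*z^12 + (-2046)*z^13 + 5730*z^14 + 7106*z^15 + 9403*z^16 + 3060*z^17 + 2826*z^18 + 858*z^19 + 129*z^20, by simp only [QIV_2, F15]; ring⟩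

lemma bIV_2_18 (z : ℤ) : Bz (QIV_2 z) (F18 z) 3 :=
  ⟨(-1)*z + 2*z^2 + (-3)*z^3 + 2*z^4 + (-1)*z^5, 3 + (-1)*z + 2*z^2 + 2*z^4 + (-1)*z^5 + 1*z^6 + (-1)*z^7 + 2*z^8 + (-3)*z^9 + 2*z^10 + (-1)*z^11 + 1*z^12 + (-1)*z^13 + 2*z^14 + 1*z^16 + 2*z^18 + (-1)*z^19 + 1*z^20, by simp only [QIV_2, F18]; ring⟩

lemma bIV_2_20 (z : ℤ) : Bz (QIV_2 z) (F20 z) 1 :=
  ⟨1*z + (-1)*z^2 + (-1)*z^3 + 2*z^4 + (-1)*z^5 + (-1)*z^6 + 1*z^7, 1 + 1*z + (-1)*z^5 + (-1)*z^11 + 1*z^15 + 1*z^16 + (-1)*z^20, by simp only [QIV_2, F20]; ring⟩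

lemma bIV_2_24 (z : ℤ) : Bz (QIV_2 z) (F24 z) 1 :=
  ⟨1*z + (-1)*z^3 + (-1)*z^5 + 1*z^7, 1 + 1*z + (-1)*z^3 + (-1)*z^9 + 1*z^11 + (-1)*z^13 + 1*z^15 + 1*z^16 + 1*z^17 + (-1)*z^19 + (-1)*z^20, by simp only [QIV_2, F24]; ring⟩

lemma bIV_2_30 (z : ℤ) : Bz (QIV_2 z) (F30 z) 1 :=
  ⟨1*z + (-1)*z^3 + (-1)*z^5 + 1*z^7, 1 + 1*z^16 + (-1)*z^20, by simp only [QIV_2, F30]; ring⟩

lemma bigIV_2 (s : ℤ) (hs : 0 ≤ s) : (247349343217114251388359 : ℤ) < QIV_2 (s + 13) := by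
  have h : 0 ≤ 20181404809661138293359 + 430478479142203600955756*s + 329848537077137537774718*s^2 + 160071784517999398400500*s^3 + 55195036875400477639545*s^4 + 14379924651067378885834*s^5 + 2938380510755431738269*s^6 + 482490826998115758447*s^7 + 64702359792262436517*s^8 + 7161751793770717703*s^9 + 658573412853829343*s^10 + 50467680463260945*s^11 + 3222899819924005*s^12 + 170988269205599*s^13 + 7487802048324*s^14 + 267789192476*s^15 + 7695948194*s^16 + 173471064*s^17 + 2954367*s^18 + 35751*s^19 + 274*s^20 + 1*s^21 := by positivity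
  have e : QIV_2 (s + 13) - (247349343217114251388359 + 1) = 20181404809661138293359 + 430478479142203600955756*s + 329848537077137537774718*s^2 + 160071784517999398400500*s^3 + 55195036875400477639545*s^4 + 14379924651067378885834*s^5 + 2938380510755431738269*s^6 + 482490826998115758447*s^7 + 64702359792262436517*s^8 + 7161751793770717703*s^9 + 658573412853829343*s^10 + 50467680463260945*s^11 + 3222899819924005*s^12 + 170988269205599*s^13 + 7487802048324*s^14 + 267789192476*s^15 + 7695948194*s^16 + 173471064*s^17 + 2954367*s^18 + 35751*s^19 + 274*s^20 + 1*s^21 := by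
    simp only [QIV_2]; ring
  linarith

set_option maxHeartbeats 4000000 in
theorem noIV_2 {q : ℕ} (hq : IsPrimePow q) : ¬ (k08 q + a07 q + k0 q + ww q + 2) ∣ NN8 q := by
  intro hd
  have hq2 : 2 ≤ q := hq.two_le
  have hz1 : 1 ≤ q := by omega
  by_cases hB : q < 13
  · refine chk_ok (g := fun q => k08' q + a07' q + k0' q + ww q + 2) (B := 13) (by decide +kernel) hq2 hB ?_
    show k08' q + a07' q + k0' q + ww q + 2 ∣ NN8 q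
    rw [← k08_eq hz1, ← a07_eq hz1, ← k0_eq hz1]
    exact hd
  · obtain ⟨p, k, hp, hk, hpk⟩ := (isPrimePow_nat_iff q).mp hq
    have hd' : ((k08 q + a07 q + k0 q + ww q + 2 : ℕ) : ℤ) ∣ (NN8 q : ℤ) := Int.natCast_dvd_natCast.mpr hd
    have e1 : ((k08 q + a07 q + k0 q + ww q + 2 : ℕ) : ℤ) = (1 + (-1)*(q : ℤ) + 1*(q : ℤ)^3 + (-1)*(q : ℤ)^4 + 1*(q : ℤ)^5 + (-1)*(q : ℤ)^7 + 1*(q : ℤ)^8) * QIV_2 (q : ℤ) := by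
      push_cast
      rw [k08_cast hz1, a07_cast hz1, k0_cast hz1, ww_cast]
      simp only [QIV_2]
      ring
    rw [e1, NN8_cast hz1, NN8_fac] at hd'
    have hQ := Dvd.dvd.trans (Dvd.intro_left _ rfl) hd'
    have hz : (q : ℤ) = (p : ℤ) ^ k := by rw [← hpk]; push_cast; rfl
    have hqB : (13 : ℤ) ≤ (q : ℤ) := by exact_mod_cast not_lt.mp hB
    have hR : QIV_2 (q : ℤ) = (-1 : ℤ) + (q : ℤ) * (1*(q : ℤ)^2 + 1*(q : ℤ)^4 + 1*(q : ℤ)^6 + 1*(q : ℤ)^8 + 1*(q : ℤ)^10 + 1*(q : ℤ)^12 + (-1)*(q : ℤ)^15 + 1*(q : ℤ)^18 + 1*(q : ℤ)^19 + 1*(q : ℤ)^20) := by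
      simp only [QIV_2]; ring
    have hgo := cofree' hp hz hR (nd (c0 := 1) (by linarith) (by norm_num)).2 hQ
    have h1 : QIV_2 (q : ℤ) ∣ 247349343217114251388359 := by
      have h2 := chainE (bIV_2_1 _) (bIV_2_2 _) (bIV_2_3 _) (bIV_2_4 _) (bIV_2_5 _) (bIV_2_6 _) (bIV_2_7 _) (bIV_2_8 _) (bIV_2_9 _) (bIV_2_10 _) (bIV_2_12 _) (bIV_2_14 _) (bIV_2_15 _) (bIV_2_18 _) (bIV_2_20 _) (bIV_2_24 _) (bIV_2_30 _) hgo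
      have e2 : ((((((((((((((((((((-1 : ℤ)) * 7^8) * 9^8) * 1^4) * 1^4) * 1^2) * 3^4) * 7^1) * 1^2) * 19^1) * 1^2) * 1^2) * 1^1) * 30841^1) * 3^1) * 1^1) * 1^1) * 1^1) * 1) = -247349343217114251388359 := by norm_num
      rw [e2, dvd_neg] at h2
      exact h2
    obtain ⟨s, rfl⟩ : ∃ s, q = s + 13 := ⟨q - 13, by omega⟩
    have hbig := bigIV_2 (s : ℤ) (Int.natCast_nonneg s)
    have e3 : ((s + 13 : ℕ) : ℤ) = (s : ℤ) + 13 := by push_cast; ring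
    rw [e3] at h1
    have hle := Int.le_of_dvd (by norm_num) h1
    linarith

end sIV_2

end ArAux8

end Cfsg.Agent.Lib.MinE8
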