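import Cfsg.Agent.Lib.MinE8.ArI
import Cfsg.Agent.Lib.MinE8.ArII
import Cfsg.Agent.Lib.MinE8.ArIIIa
import Cfsg.Agent.Lib.MinE8.ArIIIb
import Cfsg.Agent.Lib.MinE8.ArIV

/-! Arithmetic. `PLAN.md`, paragraph `Div`. -/

set_option autoImplicit false
set_option maxRecDepth 100000

namespace Cfsg.Agent.Lib.MinE8

open Cfsg.Agent.Lib.MinE6 (k0)

/-- `B = k0 + a0 + e0 + w + 3`. -/
theorem BB8_eq {q : ℕ} (hq : 2 ≤ q) : BB8 q = k08 q + a07 q + k0 q + ww q + 3 := by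
  have h1 := ArAux8.k08_add (show 1 ≤ q by omega)
  have h2 := ArAux8.a07_add (show 1 ≤ q by omega)
  have h3 := ArAux8.k0_add (show 1 ≤ q by omega)
  have h4 : BB8 q = q ^ 29 + q ^ 23 + q ^ 19 + q ^ 17 + q ^ 13 + q ^ 11 + q ^ 7 + q := by
    simp only [BB8]; ring
  simp only [ww]
  omega

/-- `E₆`: `BB q = k0 q + ww q + 1`. -/
theorem BB6_eq {q : ℕ} (hq : 2 ≤ q) : Cfsg.Agent.Lib.MinE6.BB q = k0 q + ww q + 1 := by
  have h3 := ArAux8.k0_add (show 1 ≤ q by omega)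
  have h4 : Cfsg.Agent.Lib.MinE6.BB q = q ^ 11 + q ^ 8 + q ^ 7 + q ^ 5 + q ^ 4 + q := by
    simp only [Cfsg.Agent.Lib.MinE6.BB]; ring
  simp only [ww]
  omega

/-- `B - k0 < q¹⁸`. -/
theorem lt18 {q : ℕ} (hq : 2 ≤ q) : BB8 q ≤ k08 q + q ^ 18 := by
  have h1 := ArAux8.k08_add (show 1 ≤ q by omega)
  have h4 : BB8 q = q ^ 29 + q ^ 23 + q ^ 19 + q ^ 17 + q ^ 13 + q ^ 11 + q ^ 7 + q := by
    simp only [BB8]; ring
  have h3 : q ^ 17 + q ^ 13 + q ^ 11 + q ^ 9 + q ^ 7 + q ^ 5 + q + 1 ≤ q ^ 18 := by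
    obtain ⟨s, rfl⟩ : ∃ s, q = s + 2 := ⟨q - 2, by omega⟩
    exact Nat.le.intro (k := 120157 + 1177839*s + 5377296*s^2 + 15256488*s^3 + 30225438*s^4 + 44481867*s^5 + 50456978*s^6 + 45145551*s^7 + 32318950*s^8 + 18658419*s^9 + 8710394*s^10 + 3281095*s^11 + 990054*s^12 + 236095*s^13 + 43520*s^14 + 5984*s^15 + 578*s^16 + 35*s^17 + 1*s^18) (by ring)
  omega

/-- `m = 1` at level 7. -/
theorem two_a07 {q : ℕ} (hq : 2 ≤ q) : BB8 q ≤ k08 q + 2 * a07 q := by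
  have h1 := ArAux8.k08_add (show 1 ≤ q by omega)
  have h2 := ArAux8.a07_add (show 1 ≤ q by omega)
  have h4 : BB8 q = q ^ 29 + q ^ 23 + q ^ 19 + q ^ 17 + q ^ 13 + q ^ 11 + q ^ 7 + q := by
    simp only [BB8]; ring
  have h3 : q ^ 11 + 2 * q ^ 8 + q ^ 7 + q ^ 5 + 2 * q ^ 4 + q + 3 ≤ q ^ 17 + q ^ 13 + q ^ 9 := by
    obtain ⟨s, rfl⟩ : ∃ s, q = s + 2 := ⟨q - 2, by omega⟩
    exact Nat.le.intro (k := 137019 + 1155759*s + 4588256*s^2 + 11392920*s^3 + 19822300*s^4 + 25646987*s^5 + 25551346*s^6 + 20019407*s^7 + 12486600*s^8 + 6234581*s^9 + 2491610*s^10 + 792375*s^11 + 198042*s^12 + 38081*s^13 + 5440*s^14 + 544*s^15 + 34*s^16 + 1*s^17) (by ring)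
  omega

theorem no_dvd_I {q n : ℕ} (hq : IsPrimePow q) (hn : n ≤ 4) : ¬ (k08 q + n ∣ NN8 q) := by
  interval_cases n
  · exact ArAux8.noI_0 hq
  · exact ArAux8.noI_1 hq
  · exact ArAux8.noI_2 hq
  · exact ArAux8.noI_3 hq
  · exact ArAux8.noI_4 hq

theorem no_dvd_II {q s : ℕ} (hq : IsPrimePow q) (hs : s ≤ 8) : ¬ (k08 q + a07 q + s ∣ NN8 q) := by
  interval_cases s
  · exact ArAux8.noII_0 hq
  · exact ArAux8.noII_1 hq
  · exact ArAux8.noII_2 hq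
  · exact ArAux8.noII_3 hq
  · exact ArAux8.noII_4 hq
  · exact ArAux8.noII_5 hq
  · exact ArAux8.noII_6 hq
  · exact ArAux8.noII_7 hq
  · exact ArAux8.noII_8 hq

theorem no_dvd_III {q t : ℕ} (hq : IsPrimePow q) (ht : t ≤ 12) : ¬ (k08 q + a07 q + k0 q + t ∣ NN8 q) := by
  interval_cases t
  · exact ArAux8.noIII_0 hq
  · exact ArAux8.noIII_1 hq
  · exact ArAux8.noIII_2 hq
  · exact ArAux8.noIII_3 hq
  · exact ArAux8.noIII_4 hq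
  · exact ArAux8.noIII_5 hq
  · exact ArAux8.noIII_6 hq
  · exact ArAux8.noIII_7 hq
  · exact ArAux8.noIII_8 hq
  · exact ArAux8.noIII_9 hq
  · exact ArAux8.noIII_10 hq
  · exact ArAux8.noIII_11 hq
  · exact ArAux8.noIII_12 hq

theorem no_dvd_IV {q u : ℕ} (hq : IsPrimePow q) (hu : u ≤ 2) : ¬ (k08 q + a07 q + k0 q + ww q + u ∣ NN8 q) := by
  interval_cases u
  · exact ArAux8.noIV_0 hq
  · exact ArAux8.noIV_1 hq
  · exact ArAux8.noIV_2 hq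

end Cfsg.Agent.Lib.MinE8
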