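import Cfsg.Agent.Lib.MinE8.Lev6

/-! Arithmetic for `Ar.lean`: generic lemmas. `PLAN.md`, paragraph `Div`. -/

set_option autoImplicit false
set_option linter.unusedSectionVars false
set_option linter.unusedVariables false
set_option maxRecDepth 100000

namespace Cfsg.Agent.Lib.MinE8

open Cfsg.Agent.Lib.MinE6 (k0 gaussN)

namespace ArAux8


/-- Explicit forms, for the kernel check. -/
def k08' (q : ℕ) : ℕ := q ^ 29 + q ^ 23 + q ^ 19 - q ^ 9 - q ^ 5 - 1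
def a07' (q : ℕ) : ℕ := q ^ 17 + q ^ 13 + q ^ 9 - q ^ 8 - q ^ 4 - 1
def k0' (q : ℕ) : ℕ := q ^ 11 + q ^ 8 + q ^ 7 - q ^ 3 - q ^ 2 - 1

lemma k08_add {q : ℕ} (hq : 1 ≤ q) : k08 q + (q ^ 9 + q ^ 5 + 1) = q ^ 29 + q ^ 23 + q ^ 19 := by
  obtain ⟨s, rfl⟩ : ∃ s, q = s + 1 := ⟨q - 1, by omega⟩
  simp only [k08, gauss56, Finset.sum_range_succ, Finset.sum_range_zero, Nat.add_sub_cancel]
  ring

lemma a07_add {q : ℕ} (hq : 1 ≤ q) : a07 q + (q ^ 8 + q ^ 4 + 1) = q ^ 17 + q ^ 13 + q ^ 9 := by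
  obtain ⟨s, rfl⟩ : ∃ s, q = s + 1 := ⟨q - 1, by omega⟩
  simp only [a07, gauss27, Finset.sum_range_succ, Finset.sum_range_zero, Nat.add_sub_cancel]
  ring

lemma k0_add {q : ℕ} (hq : 1 ≤ q) : k0 q + (q ^ 3 + q ^ 2 + 1) = q ^ 11 + q ^ 8 + q ^ 7 := by
  obtain ⟨s, rfl⟩ : ∃ s, q = s + 1 := ⟨q - 1, by omega⟩
  simp only [k0, gaussN, Nat.add_sub_cancel]
  ring

lemma k08_eq {q : ℕ} (hq : 1 ≤ q) : k08 q = k08' q := by
  have h := k08_add hq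
  simp only [k08']
  omega

lemma a07_eq {q : ℕ} (hq : 1 ≤ q) : a07 q = a07' q := by
  have h := a07_add hq
  simp only [a07']
  omega

lemma k0_eq {q : ℕ} (hq : 1 ≤ q) : k0 q = k0' q := by
  have h := k0_add hq
  simp only [k0']
  omega

lemma k08_cast {q : ℕ} (hq : 1 ≤ q) :
    (k08 q : ℤ) = (q : ℤ) ^ 29 + (q : ℤ) ^ 23 + (q : ℤ) ^ 19 - (q : ℤ) ^ 9 - (q : ℤ) ^ 5 - 1 := by
  have h := congrArg (Nat.cast (R := ℤ)) (k08_add hq)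
  push_cast at h
  linarith

lemma a07_cast {q : ℕ} (hq : 1 ≤ q) :
    (a07 q : ℤ) = (q : ℤ) ^ 17 + (q : ℤ) ^ 13 + (q : ℤ) ^ 9 - (q : ℤ) ^ 8 - (q : ℤ) ^ 4 - 1 := by
  have h := congrArg (Nat.cast (R := ℤ)) (a07_add hq)
  push_cast at h
  linarith

lemma k0_cast {q : ℕ} (hq : 1 ≤ q) :
    (k0 q : ℤ) = (q : ℤ) ^ 11 + (q : ℤ) ^ 8 + (q : ℤ) ^ 7 - (q : ℤ) ^ 3 - (q : ℤ) ^ 2 - 1 := by
  have h := congrArg (Nat.cast (R := ℤ)) (k0_add hq)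
  push_cast at h
  linarith

lemma ww_cast {q : ℕ} :
    (ww q : ℤ) = (q : ℤ) ^ 5 + (q : ℤ) ^ 4 + (q : ℤ) ^ 3 + (q : ℤ) ^ 2 + (q : ℤ) := by
  simp only [ww]
  push_cast
  ring

lemma NN8_cast {q : ℕ} (hq : 1 ≤ q) :
    (NN8 q : ℤ) = (q : ℤ) ^ 120 * (((q : ℤ) ^ 2 - 1) * ((q : ℤ) ^ 8 - 1) * ((q : ℤ) ^ 12 - 1) * ((q : ℤ) ^ 14 - 1)
      * ((q : ℤ) ^ 18 - 1) * ((q : ℤ) ^ 20 - 1) * ((q : ℤ) ^ 24 - 1) * ((q : ℤ) ^ 30 - 1)) := by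
  have h (n : ℕ) : ((q ^ n - 1 : ℕ) : ℤ) = (q : ℤ) ^ n - 1 := by
    rw [Nat.cast_sub (Nat.one_le_pow _ _ hq)]
    push_cast
    ring
  simp only [NN8]
  rw [Nat.cast_mul, Nat.cast_mul, Nat.cast_mul, Nat.cast_mul, Nat.cast_mul, Nat.cast_mul, Nat.cast_mul, Nat.cast_mul,
    h, h, h, h, h, h, h, h]
  push_cast
  ring

def F1 (z : ℤ) : ℤ := z - 1
def F2 (z : ℤ) : ℤ := z + 1
def F3 (z : ℤ) : ℤ := z ^ 2 + z + 1
def F4 (z : ℤ) : ℤ := z ^ 2 + 1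
def F5 (z : ℤ) : ℤ := z ^ 4 + z ^ 3 + z ^ 2 + z + 1
def F6 (z : ℤ) : ℤ := z ^ 2 - z + 1
def F7 (z : ℤ) : ℤ := z ^ 6 + z ^ 5 + z ^ 4 + z ^ 3 + z ^ 2 + z + 1
def F8 (z : ℤ) : ℤ := z ^ 4 + 1
def F9 (z : ℤ) : ℤ := z ^ 6 + z ^ 3 + 1
def F10 (z : ℤ) : ℤ := z ^ 4 - z ^ 3 + z ^ 2 - z + 1
def F12 (z : ℤ) : ℤ := z ^ 4 - z ^ 2 + 1
def F14 (z : ℤ) : ℤ := z ^ 6 - z ^ 5 + z ^ 4 - z ^ 3 + z ^ 2 - z + 1
def F15 (z : ℤ) : ℤ := z ^ 8 - z ^ 7 + z ^ 5 - z ^ 4 + z ^ 3 - z + 1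
def F18 (z : ℤ) : ℤ := z ^ 6 - z ^ 3 + 1
def F20 (z : ℤ) : ℤ := z ^ 8 - z ^ 6 + z ^ 4 - z ^ 2 + 1
def F24 (z : ℤ) : ℤ := z ^ 8 - z ^ 4 + 1
def F30 (z : ℤ) : ℤ := z ^ 8 + z ^ 7 - z ^ 5 - z ^ 4 - z ^ 3 + z + 1

lemma NN8_fac (z : ℤ) :
    z ^ 120 * ((z ^ 2 - 1) * (z ^ 8 - 1) * (z ^ 12 - 1) * (z ^ 14 - 1) * (z ^ 18 - 1) * (z ^ 20 - 1) * (z ^ 24 - 1) * (z ^ 30 - 1)) =
      z ^ 120 * (F1 z ^ 8 * (F2 z ^ 8 * (F3 z ^ 4 * (F4 z ^ 4 * (F5 z ^ 2 * (F6 z ^ 4 * (F7 z ^ 1 * (F8 z ^ 2 * (F9 z ^ 1 *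
        (F10 z ^ 2 * (F12 z ^ 2 * (F14 z ^ 1 * (F15 z ^ 1 * (F18 z ^ 1 * (F20 z ^ 1 * (F24 z ^ 1 * (F30 z ^ 1 * 1))))))))))))))))) := by
  have e2 : z ^ 2 - 1 = F1 z * F2 z := by simp only [F1, F2]; ring
  have e8 : z ^ 8 - 1 = F1 z * F2 z * F4 z * F8 z := by simp only [F1, F2, F4, F8]; ring
  have e12 : z ^ 12 - 1 = F1 z * F2 z * F3 z * F4 z * F6 z * F12 z := by simp only [F1, F2, F3, F4, F6, F12]; ring
  have e14 : z ^ 14 - 1 = F1 z * F2 z * F7 z * F14 z := by simp only [F1, F2, F7, F14]; ring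
  have e18 : z ^ 18 - 1 = F1 z * F2 z * F3 z * F6 z * F9 z * F18 z := by simp only [F1, F2, F3, F6, F9, F18]; ring
  have e20 : z ^ 20 - 1 = F1 z * F2 z * F4 z * F5 z * F10 z * F20 z := by simp only [F1, F2, F4, F5, F10, F20]; ring
  have e24 : z ^ 24 - 1 = F1 z * F2 z * F3 z * F4 z * F6 z * F8 z * F12 z * F24 z := by
    simp only [F1, F2, F3, F4, F6, F8, F12, F24]; ring
  have e30 : z ^ 30 - 1 = F1 z * F2 z * F3 z * F5 z * F6 z * F10 z * F15 z * F30 z := by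
    simp only [F1, F2, F3, F5, F6, F10, F15, F30]; ring
  rw [e2, e8, e12, e14, e18, e20, e24, e30]
  ring

/-- Bezout certificates. -/
def Bz (Q F r : ℤ) : Prop := ∃ A B : ℤ, A * Q + B * F = r

lemma step {Q X F r : ℤ} (h : Bz Q F r) (hd : Q ∣ X * F) : Q ∣ X * r := by
  obtain ⟨A, B, h⟩ := h
  have e : X * r = X * A * Q + B * (X * F) := by rw [← h]; ring
  rw [e]
  exact dvd_add (Dvd.intro_left _ rfl) (Dvd.dvd.mul_left hd _)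

lemma step_pow {Q X F r : ℤ} (h : Bz Q F r) (n : ℕ) (hd : Q ∣ X * F ^ n) : Q ∣ X * r ^ n := by
  induction n generalizing X with
  | zero => simpa using hd
  | succ n ih =>
    have h1 : Q ∣ (X * r) * F ^ n := by
      have h2 : Q ∣ (X * F ^ n) * F := by
        have e : X * F ^ n * F = X * F ^ (n + 1) := by ring
        rw [e]; exact hd
      have h3 := step h h2
      have e : X * r * F ^ n = X * F ^ n * r := by ring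
      rw [e]; exact h3
    have h4 := ih h1
    have e : X * r ^ (n + 1) = X * r * r ^ n := by ring
    rw [e]; exact h4

lemma step2 {Q X F r Y : ℤ} (h : Bz Q F r) (n : ℕ) (hd : Q ∣ X * (F ^ n * Y)) : Q ∣ (X * r ^ n) * Y := by
  have e : X * (F ^ n * Y) = (X * Y) * F ^ n := by ring
  rw [e] at hd
  have h2 := step_pow h n hd
  have e2 : (X * r ^ n) * Y = (X * Y) * r ^ n := by ring
  rw [e2]; exact h2

theorem chainE {Q z c r1 r2 r3 r4 r5 r6 r7 r8 r9 r10 r12 r14 r15 r18 r20 r24 r30 : ℤ}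
    (b1 : Bz Q (F1 z) r1) (b2 : Bz Q (F2 z) r2) (b3 : Bz Q (F3 z) r3) (b4 : Bz Q (F4 z) r4) (b5 : Bz Q (F5 z) r5)
    (b6 : Bz Q (F6 z) r6) (b7 : Bz Q (F7 z) r7) (b8 : Bz Q (F8 z) r8) (b9 : Bz Q (F9 z) r9) (b10 : Bz Q (F10 z) r10)
    (b12 : Bz Q (F12 z) r12) (b14 : Bz Q (F14 z) r14) (b15 : Bz Q (F15 z) r15) (b18 : Bz Q (F18 z) r18)
    (b20 : Bz Q (F20 z) r20) (b24 : Bz Q (F24 z) r24) (b30 : Bz Q (F30 z) r30)
    (h : Q ∣ c * (F1 z ^ 8 * (F2 z ^ 8 * (F3 z ^ 4 * (F4 z ^ 4 * (F5 z ^ 2 * (F6 z ^ 4 * (F7 z ^ 1 * (F8 z ^ 2 * (F9 z ^ 1 *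
        (F10 z ^ 2 * (F12 z ^ 2 * (F14 z ^ 1 * (F15 z ^ 1 * (F18 z ^ 1 * (F20 z ^ 1 * (F24 z ^ 1 * (F30 z ^ 1 * 1)))))))))))))))))) :
    Q ∣ ((((((((((((((((((c * r1 ^ 8) * r2 ^ 8) * r3 ^ 4) * r4 ^ 4) * r5 ^ 2) * r6 ^ 4) * r7 ^ 1) * r8 ^ 2) * r9 ^ 1) * r10 ^ 2) *
      r12 ^ 2) * r14 ^ 1) * r15 ^ 1) * r18 ^ 1) * r20 ^ 1) * r24 ^ 1) * r30 ^ 1) * 1) :=
  step2 b30 1 (step2 b24 1 (step2 b20 1 (step2 b18 1 (step2 b15 1 (step2 b14 1 (step2 b12 2 (step2 b10 2 (step2 b9 1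
    (step2 b8 2 (step2 b7 1 (step2 b6 4 (step2 b5 2 (step2 b4 4 (step2 b3 4 (step2 b2 8 (step2 b1 8 h))))))))))))))))

/-- The `q`-part of a divisor: `Q = c + pᵏ R`, `pᵏ ∤ c`. -/
lemma cofree {p : ℕ} (hp : p.Prime) : ∀ (k m : ℕ) (Q c R X : ℤ), Q = c + (p : ℤ) ^ k * R →
    ¬ ((p : ℤ) ^ k ∣ c) → Q ∣ (p : ℤ) ^ m * X → Q ∣ c * X := by
  intro k
  induction k with
  | zero =>
    intro m Q c R X _ hc _
    exact absurd (by simp) hc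
  | succ k ih =>
    intro m Q c R X hQ hc hd
    have hpz : Prime (p : ℤ) := Nat.prime_iff_prime_int.mp hp
    by_cases hpQ : (p : ℤ) ∣ Q
    · have hpc : (p : ℤ) ∣ c := by
        have h1 : (p : ℤ) ∣ (p : ℤ) ^ (k + 1) * R := Dvd.dvd.mul_right (dvd_pow_self _ (by omega)) R
        have h2 : c = Q - (p : ℤ) ^ (k + 1) * R := by rw [hQ]; ring
        rw [h2]; exact dvd_sub hpQ h1
      obtain ⟨Q1, rfl⟩ := hpQ
      obtain ⟨c1, rfl⟩ := hpc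
      have hp0 : (p : ℤ) ≠ 0 := hpz.ne_zero
      have hQ1 : Q1 = c1 + (p : ℤ) ^ k * R := by
        apply mul_left_cancel₀ hp0
        rw [hQ]; ring
      have hc1 : ¬ ((p : ℤ) ^ k ∣ c1) := by
        intro h
        apply hc
        rw [pow_succ']
        exact mul_dvd_mul_left _ h
      cases m with
      | zero =>
        rw [pow_zero, one_mul] at hd
        exact Dvd.dvd.mul_left hd _
      | succ m =>
        have hd1 : Q1 ∣ (p : ℤ) ^ m * X := by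
          have h3 : (p : ℤ) * Q1 ∣ (p : ℤ) * ((p : ℤ) ^ m * X) := by
            rw [pow_succ'] at hd
            rwa [mul_assoc] at hd
          exact (mul_dvd_mul_iff_left hp0).mp h3
        have h4 := ih m Q1 c1 R X hQ1 hc1 hd1
        rw [mul_assoc]
        exact mul_dvd_mul_left _ h4
    · have hcop : IsCoprime (p : ℤ) Q := (Prime.coprime_iff_not_dvd hpz).mpr hpQ
      have h1 : IsCoprime Q ((p : ℤ) ^ m) := (hcop.pow_left).symm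
      have h2 : Q ∣ X := h1.dvd_of_dvd_mul_left hd
      exact Dvd.dvd.mul_left h2 _

lemma cofree' {p k : ℕ} (hp : p.Prime) {z Q c R X : ℤ} (hz : z = (p : ℤ) ^ k) (hR : Q = c + z * R)
    (hc : ¬ z ∣ c) (hd : Q ∣ z ^ 120 * X) : Q ∣ c * X := by
  subst hz
  rw [← pow_mul] at hd
  exact cofree hp k (k * 120) Q c R X hR hc hd

lemma nd {q c0 : ℤ} (hlt : c0 < q) (hc0 : 0 < c0) : ¬ q ∣ c0 ∧ ¬ q ∣ -c0 := by
  constructor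
  · intro h
    have h2 := Int.le_of_dvd hc0 h
    linarith
  · intro h
    have h2 := Int.le_of_dvd hc0 (dvd_neg.mp h)
    linarith

/-- Small `q`: finite check. -/
def chkF (g : ℕ → ℕ) (B : ℕ) : Bool := (List.range B).all fun q => q < 2 || (NN8 q % g q != 0)

lemma chk_ok {g : ℕ → ℕ} {B : ℕ} (h : chkF g B = true) {q : ℕ} (hq : 2 ≤ q) (hB : q < B) : ¬ g q ∣ NN8 q := by
  intro hd
  have h1 := List.all_eq_true.mp h q (List.mem_range.mpr hB)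
  have h2 : q < 2 ∨ NN8 q % g q ≠ 0 := by simpa using h1
  rcases h2 with h2 | h2
  · omega
  · exact h2 (Nat.mod_eq_zero_of_dvd hd)


end ArAux8

end Cfsg.Agent.Lib.MinE8
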