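import Cfsg.Agent.Lib.MinE8.ArBase

/-! Arithmetic for `Ar.lean`: Bezout certificates (python-generated). -/

set_option autoImplicit false
set_option linter.unusedSectionVars false
set_option linter.unusedVariables false
set_option maxRecDepth 100000

namespace Cfsg.Agent.Lib.MinE8

open Cfsg.Agent.Lib.MinE6 (k0 gaussN)

namespace ArAux8

section sI_0

/-- The cofactor. -/
def QI_0 (z : ℤ) : ℤ := 1 + 1*z + 1*z^2 + 1*z^3 + 1*z^4 + 2*z^5 + 2*z^6 + 2*z^7 + 2*z^8 + 3*z^9 + 3*z^10 + 3*z^11 + 3*z^12 + 3*z^13 + 3*z^14 + 3*z^15 + 3*z^16 + 3*z^17 + 3*z^18 + 2*z^19 + 2*z^20 + 2*z^21 + 2*z^22 + 1*z^23 + 1*z^24 + 1*z^25 + 1*z^26 + 1*z^27 + 1*z^28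

lemma bI_0_1 (z : ℤ) : Bz (QI_0 z) (F1 z) 57 :=
  ⟨1, (-56) + (-55)*z + (-54)*z^2 + (-53)*z^3 + (-52)*z^4 + (-50)*z^5 + (-48)*z^6 + (-46)*z^7 + (-44)*z^8 + (-41)*z^9 + (-38)*z^10 + (-35)*z^11 + (-32)*z^12 + (-29)*z^13 + (-26)*z^14 + (-23)*z^15 + (-20)*z^16 + (-17)*z^17 + (-14)*z^18 + (-12)*z^19 + (-10)*z^20 + (-8)*z^21 + (-6)*z^22 + (-5)*z^23 + (-4)*z^24 + (-3)*z^25 + (-2)*z^26 + (-1)*z^27, by simp only [QI_0, F1]; ring⟩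

lemma bI_0_2 (z : ℤ) : Bz (QI_0 z) (F2 z) 1 :=
  ⟨1, (-1)*z + (-1)*z^3 + (-2)*z^5 + (-2)*z^7 + (-3)*z^9 + (-3)*z^11 + (-3)*z^13 + (-3)*z^15 + (-3)*z^17 + (-2)*z^19 + (-2)*z^21 + (-1)*z^23 + (-1)*z^25 + (-1)*z^27, by simp only [QI_0, F2]; ring⟩

lemma bI_0_3 (z : ℤ) : Bz (QI_0 z) (F3 z) 3 :=
  ⟨1 + (-1)*z, 2 + (-2)*z + 2*z^3 + (-2)*z^4 + (-1)*z^5 + 3*z^6 + (-2)*z^7 + (-1)*z^8 + 2*z^9 + (-1)*z^10 + (-1)*z^11 + 2*z^12 + (-1)*z^13 + (-1)*z^14 + 2*z^15 + (-1)*z^16 + (-1)*z^17 + 2*z^18 + (-2)*z^20 + 2*z^21 + (-1)*z^23 + 1*z^24 + (-1)*z^26 + 1*z^27, by simp only [QI_0, F3]; ring⟩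

lemma bI_0_4 (z : ℤ) : Bz (QI_0 z) (F4 z) 5 :=
  ⟨(-1) + (-2)*z, 6 + 3*z + (-3)*z^2 + 6*z^4 + 4*z^5 + 2*z^7 + 6*z^8 + 5*z^9 + 3*z^10 + 4*z^11 + 6*z^12 + 5*z^13 + 3*z^14 + 4*z^15 + 6*z^16 + 5*z^17 + 3*z^18 + 3*z^19 + 3*z^20 + 3*z^21 + 3*z^22 + 2*z^23 + 1*z^25 + 3*z^26 + 2*z^27, by simp only [QI_0, F4]; ring⟩

lemma bI_0_5 (z : ℤ) : Bz (QI_0 z) (F5 z) 11 :=
  ⟨4 + (-4)*z + 1*z^2 + 2*z^3, 7 + (-7)*z + (-1)*z^2 + (-2)*z^3 + 3*z^5 + (-3)*z^6 + (-2)*z^7 + (-4)*z^8 + (-4)*z^9 + 7*z^10 + (-4)*z^11 + (-4)*z^12 + (-4)*z^13 + (-4)*z^14 + 7*z^15 + (-4)*z^16 + (-4)*z^17 + (-4)*z^18 + 3*z^20 + (-3)*z^21 + (-2)*z^22 + (-4)*z^24 + 4*z^25 + (-1)*z^26 + (-2)*z^27, by simp only [QI_0, F5]; ring⟩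

lemma bI_0_6 (z : ℤ) : Bz (QI_0 z) (F6 z) 1 :=
  ⟨(-1) + 1*z, 2 + 2*z + (-2)*z^3 + (-2)*z^4 + 1*z^5 + 3*z^6 + 2*z^7 + (-1)*z^8 + (-2)*z^9 + (-1)*z^10 + 1*z^11 + 2*z^12 + 1*z^13 + (-1)*z^14 + (-2)*z^15 + (-1)*z^16 + 1*z^17 + 2*z^18 + (-2)*z^20 + (-2)*z^21 + 1*z^23 + 1*z^24 + (-1)*z^26 + (-1)*z^27, by simp only [QI_0, F6]; ring⟩

lemma bI_0_7 (z : ℤ) : Bz (QI_0 z) (F7 z) 1 :=
  ⟨1, (-1)*z + (-1)*z^5 + (-1)*z^8 + (-1)*z^9 + (-1)*z^12 + (-1)*z^15 + (-1)*z^16 + (-1)*z^22, by simp only [QI_0, F7]; ring⟩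

lemma bI_0_8 (z : ℤ) : Bz (QI_0 z) (F8 z) 1 :=
  ⟨(-1)*z + 1*z^2 + (-1)*z^3, 1 + 1*z + 1*z^3 + 2*z^6 + 2*z^8 + 2*z^9 + 1*z^10 + 2*z^11 + 1*z^12 + 1*z^13 + 2*z^14 + 1*z^15 + 2*z^16 + 2*z^17 + 1*z^18 + 2*z^19 + 1*z^21 + 1*z^22 + 1*z^24 + 1*z^25 + 1*z^27, by simp only [QI_0, F8]; ring⟩

lemma bI_0_9 (z : ℤ) : Bz (QI_0 z) (F9 z) 57 :=
  ⟨28 + (-14)*z + 7*z^2 + (-4)*z^3 + 2*z^4 + (-1)*z^5, 29 + (-14)*z + (-21)*z^2 + (-46)*z^3 + (-5)*z^4 + (-25)*z^5 + (-15)*z^6 + (-20)*z^7 + 11*z^8 + (-4)*z^9 + (-25)*z^10 + (-43)*z^11 + (-34)*z^12 + (-10)*z^13 + (-22)*z^14 + (-16)*z^15 + (-19)*z^16 + 11*z^17 + (-4)*z^18 + 3*z^19 + (-29)*z^20 + (-13)*z^21 + (-21)*z^22 + 11*z^23 + (-5)*z^24 + 3*z^25 + (-1)*z^26 + 1*z^27, by simp only [QI_0, F9]; ring⟩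

lemma bI_0_10 (z : ℤ) : Bz (QI_0 z) (F10 z) 1 :=
  ⟨1*z^2, 1 + 1*z + (-1)*z^2 + (-2)*z^3 + (-2)*z^4 + (-3)*z^5 + (-3)*z^6 + (-2)*z^7 + (-2)*z^8 + (-2)*z^9 + (-1)*z^10 + (-2)*z^11 + (-4)*z^12 + (-4)*z^13 + (-4)*z^14 + (-5)*z^15 + (-4)*z^16 + (-2)*z^17 + (-2)*z^18 + (-2)*z^19 + (-1)*z^20 + (-1)*z^21 + (-2)*z^22 + (-2)*z^23 + (-2)*z^24 + (-2)*z^25 + (-1)*z^26, by simp only [QI_0, F10]; ring⟩

lemma bI_0_12 (z : ℤ) : Bz (QI_0 z) (F12 z) 1 :=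
  ⟨1 + (-1)*z, (-1)*z^5 + (-1)*z^7 + (-1)*z^9 + 1*z^13 + 1*z^15 + 1*z^23 + 1*z^25, by simp only [QI_0, F12]; ring⟩

lemma bI_0_14 (z : ℤ) : Bz (QI_0 z) (F14 z) 1 :=
  ⟨1, (-1)*z + (-2)*z^2 + (-2)*z^3 + (-2)*z^4 + (-3)*z^5 + (-4)*z^6 + (-4)*z^7 + (-3)*z^8 + (-3)*z^9 + (-4)*z^10 + (-4)*z^11 + (-3)*z^12 + (-2)*z^13 + (-2)*z^14 + (-3)*z^15 + (-3)*z^16 + (-2)*z^17 + (-2)*z^18 + (-2)*z^19 + (-2)*z^20 + (-2)*z^21 + (-1)*z^22, by simp only [QI_0, F14]; ring⟩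

lemma bI_0_15 (z : ℤ) : Bz (QI_0 z) (F15 z) 1 :=
  ⟨1 + 1*z^3 + 1*z^5 + 1*z^6 + (-1)*z^7, (-1)*z + (-2)*z^2 + (-4)*z^3 + (-5)*z^4 + (-8)*z^5 + (-10)*z^6 + (-11)*z^7 + (-10)*z^8 + (-10)*z^9 + (-10)*z^10 + (-10)*z^11 + (-10)*z^12 + (-10)*z^13 + (-10)*z^14 + (-9)*z^15 + (-8)*z^16 + (-7)*z^17 + (-7)*z^18 + (-6)*z^19 + (-6)*z^20 + (-6)*z^21 + (-6)*z^22 + (-4)*z^23 + (-2)*z^24 + 1*z^26 + 1*z^27, by simp only [QI_0, F15]; ring⟩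

lemma bI_0_18 (z : ℤ) : Bz (QI_0 z) (F18 z) 1 :=
  ⟨(-1)*z^2 + 1*z^5, 1 + 1*z^2 + 2*z^3 + 1*z^4 + 1*z^5 + 1*z^6 + 2*z^7 + 1*z^8 + 1*z^10 + 1*z^11 + (-1)*z^16 + (-1)*z^17 + (-1)*z^19 + (-1)*z^20 + (-1)*z^21 + (-1)*z^22 + (-1)*z^23 + (-1)*z^24 + (-1)*z^25 + (-1)*z^26 + (-1)*z^27, by simp only [QI_0, F18]; ring⟩

lemma bI_0_20 (z : ℤ) : Bz (QI_0 z) (F20 z) 5 :=
  ⟨3 + (-4)*z + (-1)*z^2 + 3*z^3 + (-1)*z^4 + (-2)*z^5 + 3*z^6 + 1*z^7, 2 + 1*z + 4*z^2 + 2*z^4 + (-2)*z^5 + (-1)*z^7 + (-3)*z^8 + (-5)*z^9 + (-4)*z^10 + (-7)*z^11 + (-8)*z^12 + (-5)*z^13 + (-9)*z^14 + (-7)*z^15 + (-8)*z^16 + (-10)*z^17 + (-9)*z^18 + (-4)*z^19 + (-9)*z^20 + (-4)*z^21 + (-4)*z^22 + (-6)*z^23 + (-5)*z^24 + (-3)*z^25 + (-4)*z^26 + (-1)*z^27, by simp only [QI_0, F20]; ring⟩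

lemma bI_0_24 (z : ℤ) : Bz (QI_0 z) (F24 z) 73 :=
  ⟨(-3) + (-56)*z + 1*z^2 + 43*z^3 + 27*z^4 + (-7)*z^5 + (-9)*z^6 + (-22)*z^7, 76 + 59*z + 58*z^2 + 15*z^3 + 64*z^4 + 57*z^5 + 121*z^6 + 99*z^7 + 29*z^8 + 15*z^9 + 143*z^10 + 172*z^11 + 32*z^12 + (-2)*z^13 + 69*z^14 + 129*z^15 + 81*z^16 + 61*z^17 + 4*z^18 + 32*z^19 + 68*z^20 + 83*z^21 + (-2)*z^22 + (-10)*z^23 + 11*z^24 + 38*z^25 + 31*z^26 + 22*z^27, by simp only [QI_0, F24]; ring⟩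

lemma bI_0_30 (z : ℤ) : Bz (QI_0 z) (F30 z) 3931 :=
  ⟨1093 + (-1908)*z + 592*z^2 + (-57)*z^3 + (-210)*z^4 + 505*z^5 + (-99)*z^6 + (-63)*z^7, 2838 + (-2023)*z + 2246*z^2 + 872*z^3 + 433*z^4 + 1520*z^5 + 474*z^6 + 609*z^7 + 1828*z^8 + (-80)*z^9 + 512*z^10 + 1548*z^11 + (-570)*z^12 + 1620*z^13 + (-444)*z^14 + (-125)*z^15 + 1416*z^16 + (-801)*z^17 + 233*z^18 + 1170*z^19 + (-2104)*z^20 + 1994*z^21 + (-662)*z^22 + (-286)*z^23 + 372*z^24 + (-442)*z^25 + 99*z^26 + 63*z^27, by simp only [QI_0, F30]; ring⟩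

lemma bigI_0 (s : ℤ) (hs : 0 ≤ s) : (55823879656828997919627159375 : ℤ) < QI_0 (s + 11) := by
  have h : 0 ≤ 102807139609460394090159379521 + 402345900019106272135174802084*s + 492031361407953279607896139830*s^2 + 386287153696233535794285787551*s^3 + 218706439649787568103666668155*s^4 + 95099875135581870021383919555*s^5 + 33024745003981884268726056129*s^6 + 9402704944906594137452958192*s^7 + 2236024290027616981571295432*s^8 + 450157058330210872667526954*s^9 + 77486017443891598783702860*s^10 + 11487205847043621092470361*s^11 + 1474344067566349088920253*s^12 + 164398452384224732111078*s^13 + 15958373777481623035100*s^14 + 1349455253054412283321*s^15 + 99339115422820653713*s^16 + 6353255979648166438*s^17 + 351775463428428306*s^18 + 16775141083349376*s^19 + 683971683411128*s^20 + 23608771590923*s^21 +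 680641516271*s^22 + 16088538995*s^23 + 303707251*s^24 + 4403114*s^25 + 46036*s^26 + 309*s^27 + 1*s^28 := by positivity
  have e : QI_0 (s + 11) - (55823879656828997919627159375 + 1) = 102807139609460394090159379521 + 402345900019106272135174802084*s + 492031361407953279607896139830*s^2 + 386287153696233535794285787551*s^3 + 218706439649787568103666668155*s^4 + 95099875135581870021383919555*s^5 + 33024745003981884268726056129*s^6 + 9402704944906594137452958192*s^7 + 2236024290027616981571295432*s^8 + 450157058330210872667526954*s^9 + 77486017443891598783702860*s^10 + 11487205847043621092470361*s^11 + 1474344067566349088920253*s^12 + 164398452384224732111078*s^13 + 15958373777481623035100*s^14 + 1349455253054412283321*s^15 + 99339115422820653713*s^16 + 6353255979648166438*s^17 + 351775463428428306*s^18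 + 16775141083349376*s^19 + 683971683411128*s^20 + 23608771590923*s^21 + 680641516271*s^22 + 16088538995*s^23 + 303707251*s^24 + 4403114*s^25 + 46036*s^26 + 309*s^27 + 1*s^28 := by
    simp only [QI_0]; ring
  linarith

set_option maxHeartbeats 4000000 in
theorem noI_0 {q : ℕ} (hq : IsPrimePow q) : ¬ (k08 q + 0) ∣ NN8 q := by
  intro hd
  have hq2 : 2 ≤ q := hq.two_le
  have hz1 : 1 ≤ q := by omega
  by_cases hB : q < 11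
  · refine chk_ok (g := fun q => k08' q + 0) (B := 11) (by decide +kernel) hq2 hB ?_
    show k08' q + 0 ∣ NN8 q
    rw [← k08_eq hz1]
    exact hd
  · obtain ⟨p, k, hp, hk, hpk⟩ := (isPrimePow_nat_iff q).mp hq
    have hd' : ((k08 q + 0 : ℕ) : ℤ) ∣ (NN8 q : ℤ) := Int.natCast_dvd_natCast.mpr hd
    have e1 : ((k08 q + 0 : ℕ) : ℤ) = ((-1) + 1*(q : ℤ)) * QI_0 (q : ℤ) := by
      push_cast
      rw [k08_cast hz1]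
      simp only [QI_0]
      ring
    rw [e1, NN8_cast hz1, NN8_fac] at hd'
    have hQ := Dvd.dvd.trans (Dvd.intro_left _ rfl) hd'
    have hz : (q : ℤ) = (p : ℤ) ^ k := by rw [← hpk]; push_cast; rfl
    have hqB : (11 : ℤ) ≤ (q : ℤ) := by exact_mod_cast not_lt.mp hB
    have hR : QI_0 (q : ℤ) = (1 : ℤ) + (q : ℤ) * (1 + 1*(q : ℤ) + 1*(q : ℤ)^2 + 1*(q : ℤ)^3 + 2*(q : ℤ)^4 + 2*(q : ℤ)^5 + 2*(q : ℤ)^6 + 2*(q : ℤ)^7 + 3*(q : ℤ)^8 + 3*(q : ℤ)^9 + 3*(q : ℤ)^10 + 3*(q : ℤ)^11 + 3*(q : ℤ)^12 + 3*(q : ℤ)^13 + 3*(q : ℤ)^14 + 3*(q : ℤ)^15 + 3*(q : ℤ)^16 + 3*(q : ℤ)^17 + 2*(q : ℤ)^18 + 2*(q : ℤ)^19 + 2*(q : ℤ)^20 + 2*(q : ℤ)^21 + 1*(q : ℤ)^22 + 1*(q : ℤ)^23 + 1*(q : ℤ)^24 + 1*(q : ℤ)^25 + 1*(q : ℤ)^26 + 1*(q : ℤ)^27) := by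
      simp only [QI_0]; ring
    have hgo := cofree' hp hz hR (nd (c0 := 1) (by linarith) (by norm_num)).1 hQ
    have h1 : QI_0 (q : ℤ) ∣ 55823879656828997919627159375 := by
      have h2 := chainE (bI_0_1 _) (bI_0_2 _) (bI_0_3 _) (bI_0_4 _) (bI_0_5 _) (bI_0_6 _) (bI_0_7 _) (bI_0_8 _) (bI_0_9 _) (bI_0_10 _) (bI_0_12 _) (bI_0_14 _) (bI_0_15 _) (bI_0_18 _) (bI_0_20 _) (bI_0_24 _) (bI_0_30 _) hgo
      have e2 : ((((((((((((((((((((1 : ℤ)) * 57^8) * 1^8) * 3^4) * 5^4) * 11^2) * 1^4) * 1^1) * 1^2) * 57^1) * 1^2) * 1^2) * 1^1) * 1^1) * 1^1) * 5^1) * 73^1) * 3931^1) * 1) = 55823879656828997919627159375 := by norm_num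
      rwa [e2] at h2
    obtain ⟨s, rfl⟩ : ∃ s, q = s + 11 := ⟨q - 11, by omega⟩
    have hbig := bigI_0 (s : ℤ) (Int.natCast_nonneg s)
    have e3 : ((s + 11 : ℕ) : ℤ) = (s : ℤ) + 11 := by push_cast; ring
    rw [e3] at h1
    have hle := Int.le_of_dvd (by norm_num) h1
    linarith

end sI_0

section sI_1

/-- The cofactor. -/
def QI_1 (z : ℤ) : ℤ := (-1) + (-1)*z^2 + (-1)*z^4 + 1*z^8 + 1*z^10 + 1*z^18 + 1*z^20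

lemma bI_1_1 (z : ℤ) : Bz (QI_1 z) (F1 z) 1 :=
  ⟨1, (-2) + (-2)*z + (-3)*z^2 + (-3)*z^3 + (-4)*z^4 + (-4)*z^5 + (-4)*z^6 + (-4)*z^7 + (-3)*z^8 + (-3)*z^9 + (-2)*z^10 + (-2)*z^11 + (-2)*z^12 + (-2)*z^13 + (-2)*z^14 + (-2)*z^15 + (-2)*z^16 + (-2)*z^17 + (-1)*z^18 + (-1)*z^19, by simp only [QI_1, F1]; ring⟩

lemma bI_1_2 (z : ℤ) : Bz (QI_1 z) (F2 z) 1 :=
  ⟨1, 2 + (-2)*z + 3*z^2 + (-3)*z^3 + 4*z^4 + (-4)*z^5 + 4*z^6 + (-4)*z^7 + 3*z^8 + (-3)*z^9 + 2*z^10 + (-2)*z^11 + 2*z^12 + (-2)*z^13 + 2*z^14 + (-2)*z^15 + 2*z^16 + (-2)*z^17 + 1*z^18 + (-1)*z^19, by simp only [QI_1, F2]; ring⟩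

lemma bI_1_3 (z : ℤ) : Bz (QI_1 z) (F3 z) 1 :=
  ⟨1*z, 1 + (-1)*z^2 + 2*z^3 + (-1)*z^4 + 1*z^6 + (-1)*z^7 + (-1)*z^11 + 1*z^12 + (-1)*z^14 + 1*z^15 + (-1)*z^17 + 1*z^18 + (-1)*z^19, by simp only [QI_1, F3]; ring⟩

lemma bI_1_4 (z : ℤ) : Bz (QI_1 z) (F4 z) 1 :=
  ⟨(-1), (-1)*z^2 + 1*z^8 + 1*z^18, by simp only [QI_1, F4]; ring⟩

lemma bI_1_5 (z : ℤ) : Bz (QI_1 z) (F5 z) 11 :=
  ⟨5 + 9*z + 10*z^2 + 2*z^3, 16 + (-7)*z + 6*z^2 + (-4)*z^3 + 4*z^4 + 12*z^5 + (-8)*z^6 + (-2)*z^7 + (-11)*z^8 + 6*z^10 + (-4)*z^11 + (-1)*z^12 + (-3)*z^13 + 2*z^14 + 6*z^15 + (-4)*z^16 + (-1)*z^17 + (-8)*z^18 + (-2)*z^19, by simp only [QI_1, F5]; ring⟩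

lemma bI_1_6 (z : ℤ) : Bz (QI_1 z) (F6 z) 1 :=
  ⟨(-1)*z, 1 + (-1)*z^2 + (-2)*z^3 + (-1)*z^4 + 1*z^6 + 1*z^7 + 1*z^11 + 1*z^12 + (-1)*z^14 + (-1)*z^15 + 1*z^17 + 1*z^18 + 1*z^19, by simp only [QI_1, F6]; ring⟩

lemma bI_1_7 (z : ℤ) : Bz (QI_1 z) (F7 z) 1 :=
  ⟨1 + 2*z + 1*z^2 + 1*z^3 + 2*z^4 + 1*z^5, 2 + 1*z^3 + 1*z^4 + (-1)*z^6 + 1*z^7 + (-1)*z^8 + (-2)*z^9 + 1*z^14 + (-1)*z^16 + (-1)*z^18 + (-1)*z^19, by simp only [QI_1, F7]; ring⟩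

lemma bI_1_8 (z : ℤ) : Bz (QI_1 z) (F8 z) 1 :=
  ⟨(-1)*z^2, 1 + (-1)*z^2 + (-2)*z^4 + 2*z^8 + 1*z^10 + (-1)*z^12 + (-1)*z^14 + 1*z^16 + 1*z^18, by simp only [QI_1, F8]; ring⟩

lemma bI_1_9 (z : ℤ) : Bz (QI_1 z) (F9 z) 19 :=
  ⟨(-1) + (-5)*z + (-6)*z^2 + 7*z^3 + (-3)*z^4 + (-15)*z^5, 18 + (-5)*z + (-7)*z^2 + (-16)*z^3 + (-5)*z^4 + (-6)*z^5 + (-11)*z^6 + 2*z^7 + 11*z^8 + 17*z^9 + 10*z^10 + (-7)*z^11 + 3*z^12 + (-4)*z^13 + (-1)*z^14 + (-5)*z^15 + (-6)*z^16 + 8*z^17 + 3*z^18 + 15*z^19, by simp only [QI_1, F9]; ring⟩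

lemma bI_1_10 (z : ℤ) : Bz (QI_1 z) (F10 z) 11 :=
  ⟨5 + (-9)*z + 10*z^2 + (-2)*z^3, 16 + 7*z + 6*z^2 + 4*z^3 + 4*z^4 + (-12)*z^5 + (-8)*z^6 + 2*z^7 + (-11)*z^8 + 6*z^10 + 4*z^11 + (-1)*z^12 + 3*z^13 + 2*z^14 + (-6)*z^15 + (-4)*z^16 + 1*z^17 + (-8)*z^18 + 2*z^19, by simp only [QI_1, F10]; ring⟩

lemma bI_1_12 (z : ℤ) : Bz (QI_1 z) (F12 z) 5 :=
  ⟨(-1) + 1*z^2, 4 + 4*z^2 + (-3)*z^6 + (-2)*z^8 + 1*z^10 + 2*z^12 + 1*z^14 + (-1)*z^16 + (-1)*z^18, by simp only [QI_1, F12]; ring⟩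

lemma bI_1_14 (z : ℤ) : Bz (QI_1 z) (F14 z) 1 :=
  ⟨1 + (-2)*z + 1*z^2 + (-1)*z^3 + 2*z^4 + (-1)*z^5, 2 + (-1)*z^3 + 1*z^4 + (-1)*z^6 + (-1)*z^7 + (-1)*z^8 + 2*z^9 + 1*z^14 + (-1)*z^16 + (-1)*z^18 + 1*z^19, by simp only [QI_1, F14]; ring⟩

lemma bI_1_15 (z : ℤ) : Bz (QI_1 z) (F15 z) 181 :=
  ⟨(-58) + (-60)*z + 9*z^2 + 4*z^3 + (-15)*z^4 + 80*z^5 + (-12)*z^6 + (-85)*z^7, 123 + 63*z + 14*z^2 + (-165)*z^3 + (-169)*z^4 + (-219)*z^5 + (-121)*z^6 + (-9)*z^7 + 177*z^8 + 254*z^9 + 219*z^10 + 121*z^11 + 9*z^12 + (-119)*z^13 + (-136)*z^14 + (-52)*z^15 + 44*z^16 + 102*z^17 + 97*z^18 + 85*z^19, by simp only [QI_1, F15]; ring⟩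

lemma bI_1_18 (z : ℤ) : Bz (QI_1 z) (F18 z) 19 :=
  ⟨(-1) + 5*z + (-6)*z^2 + (-7)*z^3 + (-3)*z^4 + 15*z^5, 18 + 5*z + (-7)*z^2 + 16*z^3 + (-5)*z^4 + 6*z^5 + (-11)*z^6 + (-2)*z^7 + 11*z^8 + (-17)*z^9 + 10*z^10 + 7*z^11 + 3*z^12 + 4*z^13 + (-1)*z^14 + 5*z^15 + (-6)*z^16 + (-8)*z^17 + 3*z^18 + (-15)*z^19, by simp only [QI_1, F18]; ring⟩

lemma bI_1_20 (z : ℤ) : Bz (QI_1 z) (F20 z) 1 :=
  ⟨(-1) + 2*z^2 + (-2)*z^4 + 1*z^6, 1*z^2 + 1*z^8 + (-1)*z^12 + 1*z^14 + (-1)*z^18, by simp only [QI_1, F20]; ring⟩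

lemma bI_1_24 (z : ℤ) : Bz (QI_1 z) (F24 z) 1 :=
  ⟨2 + (-2)*z^2 + (-1)*z^4 + 2*z^6, 3 + 2*z^4 + (-1)*z^6 + (-2)*z^8 + 1*z^10 + (-1)*z^12 + 1*z^14 + (-1)*z^16 + (-2)*z^18, by simp only [QI_1, F24]; ring⟩

lemma bI_1_30 (z : ℤ) : Bz (QI_1 z) (F30 z) 181 :=
  ⟨(-58) + 60*z + 9*z^2 + (-4)*z^3 + (-15)*z^4 + (-80)*z^5 + (-12)*z^6 + 85*z^7, 123 + (-63)*z + 14*z^2 + 165*z^3 + (-169)*z^4 + 219*z^5 + (-121)*z^6 + 9*z^7 + 177*z^8 + (-254)*z^9 + 219*z^10 + (-121)*z^11 + 9*z^12 + 119*z^13 + (-136)*z^14 + 52*z^15 + 44*z^16 + (-102)*z^17 + 97*z^18 + (-85)*z^19, by simp only [QI_1, F30]; ring⟩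

lemma bigI_1 (s : ℤ) (hs : 0 ≤ s) : (4328875554025 : ℤ) < QI_1 (s + 5) := by
  have h : 0 ≤ 94853263507823 + 395202656874490*s + 748138445749849*s^2 + 894653329862480*s^3 + 757965091215624*s^4 + 483603516419500*s^5 + 241104492319450*s^6 + 96182812515040*s^7 + 31181718751126*s^8 + 8296132812550*s^9 + 1821350781251*s^10 + 330533125000*s^11 + 49497093750*s^12 + 6083025000*s^13 + 607537500*s^14 + 48552000*s^15 + 3031950*s^16 + 142590*s^17 + 4751*s^18 + 100*s^19 + 1*s^20 := by positivity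
  have e : QI_1 (s + 5) - (4328875554025 + 1) = 94853263507823 + 395202656874490*s + 748138445749849*s^2 + 894653329862480*s^3 + 757965091215624*s^4 + 483603516419500*s^5 + 241104492319450*s^6 + 96182812515040*s^7 + 31181718751126*s^8 + 8296132812550*s^9 + 1821350781251*s^10 + 330533125000*s^11 + 49497093750*s^12 + 6083025000*s^13 + 607537500*s^14 + 48552000*s^15 + 3031950*s^16 + 142590*s^17 + 4751*s^18 + 100*s^19 + 1*s^20 := by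
    simp only [QI_1]; ring
  linarith

set_option maxHeartbeats 4000000 in
theorem noI_1 {q : ℕ} (hq : IsPrimePow q) : ¬ (k08 q + 1) ∣ NN8 q := by
  intro hd
  have hq2 : 2 ≤ q := hq.two_le
  have hz1 : 1 ≤ q := by omega
  by_cases hB : q < 5
  · refine chk_ok (g := fun q => k08' q + 1) (B := 5) (by decide +kernel) hq2 hB ?_
    show k08' q + 1 ∣ NN8 q
    rw [← k08_eq hz1]
    exact hd
  · obtain ⟨p, k, hp, hk, hpk⟩ := (isPrimePow_nat_iff q).mp hq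
    have hd' : ((k08 q + 1 : ℕ) : ℤ) ∣ (NN8 q : ℤ) := Int.natCast_dvd_natCast.mpr hd
    have e1 : ((k08 q + 1 : ℕ) : ℤ) = (1*(q : ℤ)^5 + (-1)*(q : ℤ)^7 + 1*(q : ℤ)^9) * QI_1 (q : ℤ) := by
      push_cast
      rw [k08_cast hz1]
      simp only [QI_1]
      ring
    rw [e1, NN8_cast hz1, NN8_fac] at hd'
    have hQ := Dvd.dvd.trans (Dvd.intro_left _ rfl) hd'
    have hz : (q : ℤ) = (p : ℤ) ^ k := by rw [← hpk]; push_cast; rfl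
    have hqB : (5 : ℤ) ≤ (q : ℤ) := by exact_mod_cast not_lt.mp hB
    have hR : QI_1 (q : ℤ) = (-1 : ℤ) + (q : ℤ) * ((-1)*(q : ℤ) + (-1)*(q : ℤ)^3 + 1*(q : ℤ)^7 + 1*(q : ℤ)^9 + 1*(q : ℤ)^17 + 1*(q : ℤ)^19) := by
      simp only [QI_1]; ring
    have hgo := cofree' hp hz hR (nd (c0 := 1) (by linarith) (by norm_num)).2 hQ
    have h1 : QI_1 (q : ℤ) ∣ 4328875554025 := by
      have h2 := chainE (bI_1_1 _) (bI_1_2 _) (bI_1_3 _) (bI_1_4 _) (bI_1_5 _) (bI_1_6 _) (bI_1_7 _) (bI_1_8 _) (bI_1_9 _) (bI_1_10 _) (bI_1_12 _) (bI_1_14 _) (bI_1_15 _) (bI_1_18 _) (bI_1_20 _) (bI_1_24 _) (bI_1_30 _) hgo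
      have e2 : ((((((((((((((((((((-1 : ℤ)) * 1^8) * 1^8) * 1^4) * 1^4) * 11^2) * 1^4) * 1^1) * 1^2) * 19^1) * 11^2) * 5^2) * 1^1) * 181^1) * 19^1) * 1^1) * 1^1) * 181^1) * 1) = -4328875554025 := by norm_num
      rw [e2, dvd_neg] at h2
      exact h2
    obtain ⟨s, rfl⟩ : ∃ s, q = s + 5 := ⟨q - 5, by omega⟩
    have hbig := bigI_1 (s : ℤ) (Int.natCast_nonneg s)
    have e3 : ((s + 5 : ℕ) : ℤ) = (s : ℤ) + 5 := by push_cast; ring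
    rw [e3] at h1
    have hle := Int.le_of_dvd (by norm_num) h1
    linarith

end sI_1

section sI_2

/-- The cofactor. -/
def QI_2 (z : ℤ) : ℤ := 1 + (-1)*z + 1*z^2 + (-1)*z^3 + 1*z^4 + (-2)*z^5 + 2*z^6 + (-2)*z^7 + 2*z^8 + (-3)*z^9 + 3*z^10 + (-3)*z^11 + 3*z^12 + (-3)*z^13 + 3*z^14 + (-3)*z^15 + 3*z^16 + (-3)*z^17 + 3*z^18 + (-2)*z^19 + 2*z^20 + (-2)*z^21 + 2*z^22 + (-1)*z^23 + 1*z^24 + (-1)*z^25 + 1*z^26 + (-1)*z^27 + 1*z^28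

lemma bI_2_1 (z : ℤ) : Bz (QI_2 z) (F1 z) 1 :=
  ⟨1, (-1)*z + (-1)*z^3 + (-2)*z^5 + (-2)*z^7 + (-3)*z^9 + (-3)*z^11 + (-3)*z^13 + (-3)*z^15 + (-3)*z^17 + (-2)*z^19 + (-2)*z^21 + (-1)*z^23 + (-1)*z^25 + (-1)*z^27, by simp only [QI_2, F1]; ring⟩

lemma bI_2_2 (z : ℤ) : Bz (QI_2 z) (F2 z) 57 :=
  ⟨1, 56 + (-55)*z + 54*z^2 + (-53)*z^3 + 52*z^4 + (-50)*z^5 + 48*z^6 + (-46)*z^7 + 44*z^8 + (-41)*z^9 + 38*z^10 + (-35)*z^11 + 32*z^12 + (-29)*z^13 + 26*z^14 + (-23)*z^15 + 20*z^16 + (-17)*z^17 + 14*z^18 + (-12)*z^19 + 10*z^20 + (-8)*z^21 + 6*z^22 + (-5)*z^23 + 4*z^24 + (-3)*z^25 + 2*z^26 + (-1)*z^27, by simp only [QI_2, F2]; ring⟩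

lemma bI_2_3 (z : ℤ) : Bz (QI_2 z) (F3 z) 1 :=
  ⟨(-1) + (-1)*z, 2 + (-2)*z + 2*z^3 + (-2)*z^4 + (-1)*z^5 + 3*z^6 + (-2)*z^7 + (-1)*z^8 + 2*z^9 + (-1)*z^10 + (-1)*z^11 + 2*z^12 + (-1)*z^13 + (-1)*z^14 + 2*z^15 + (-1)*z^16 + (-1)*z^17 + 2*z^18 + (-2)*z^20 + 2*z^21 + (-1)*z^23 + 1*z^24 + (-1)*z^26 + 1*z^27, by simp only [QI_2, F3]; ring⟩

lemma bI_2_4 (z : ℤ) : Bz (QI_2 z) (F4 z) 5 :=
  ⟨(-1) + 2*z, 6 + (-3)*z + (-3)*z^2 + 6*z^4 + (-4)*z^5 + (-2)*z^7 + 6*z^8 + (-5)*z^9 + 3*z^10 + (-4)*z^11 + 6*z^12 + (-5)*z^13 + 3*z^14 + (-4)*z^15 + 6*z^16 + (-5)*z^17 + 3*z^18 + (-3)*z^19 + 3*z^20 + (-3)*z^21 + 3*z^22 + (-2)*z^23 + (-1)*z^25 + 3*z^26 + (-2)*z^27, by simp only [QI_2, F4]; ring⟩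

lemma bI_2_5 (z : ℤ) : Bz (QI_2 z) (F5 z) 1 :=
  ⟨1*z^2, 1 + (-1)*z + (-1)*z^2 + 2*z^3 + (-2)*z^4 + 3*z^5 + (-3)*z^6 + 2*z^7 + (-2)*z^8 + 2*z^9 + (-1)*z^10 + 2*z^11 + (-4)*z^12 + 4*z^13 + (-4)*z^14 + 5*z^15 + (-4)*z^16 + 2*z^17 + (-2)*z^18 + 2*z^19 + (-1)*z^20 + 1*z^21 + (-2)*z^22 + 2*z^23 + (-2)*z^24 + 2*z^25 + (-1)*z^26, by simp only [QI_2, F5]; ring⟩

lemma bI_2_6 (z : ℤ) : Bz (QI_2 z) (F6 z) 3 :=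
  ⟨1 + 1*z, 2 + 2*z + (-2)*z^3 + (-2)*z^4 + 1*z^5 + 3*z^6 + 2*z^7 + (-1)*z^8 + (-2)*z^9 + (-1)*z^10 + 1*z^11 + 2*z^12 + 1*z^13 + (-1)*z^14 + (-2)*z^15 + (-1)*z^16 + 1*z^17 + 2*z^18 + (-2)*z^20 + (-2)*z^21 + 1*z^23 + 1*z^24 + (-1)*z^26 + (-1)*z^27, by simp only [QI_2, F6]; ring⟩

lemma bI_2_7 (z : ℤ) : Bz (QI_2 z) (F7 z) 1 :=
  ⟨1, 1*z + (-2)*z^2 + 2*z^3 + (-2)*z^4 + 3*z^5 + (-4)*z^6 + 4*z^7 + (-3)*z^8 + 3*z^9 + (-4)*z^10 + 4*z^11 + (-3)*z^12 + 2*z^13 + (-2)*z^14 + 3*z^15 + (-3)*z^16 + 2*z^17 + (-2)*z^18 + 2*z^19 + (-2)*z^20 + 2*z^21 + (-1)*z^22, by simp only [QI_2, F7]; ring⟩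

lemma bI_2_8 (z : ℤ) : Bz (QI_2 z) (F8 z) 1 :=
  ⟨1*z + 1*z^2 + 1*z^3, 1 + (-1)*z + (-1)*z^3 + 2*z^6 + 2*z^8 + (-2)*z^9 + 1*z^10 + (-2)*z^11 + 1*z^12 + (-1)*z^13 + 2*z^14 + (-1)*z^15 + 2*z^16 + (-2)*z^17 + 1*z^18 + (-2)*z^19 + (-1)*z^21 + 1*z^22 + 1*z^24 + (-1)*z^25 + (-1)*z^27, by simp only [QI_2, F8]; ring⟩

lemma bI_2_9 (z : ℤ) : Bz (QI_2 z) (F9 z) 1 :=
  ⟨(-1)*z^2 + (-1)*z^5, 1 + 1*z^2 + (-2)*z^3 + 1*z^4 + (-1)*z^5 + 1*z^6 + (-2)*z^7 + 1*z^8 + 1*z^10 + (-1)*z^11 + (-1)*z^16 + 1*z^17 + 1*z^19 + (-1)*z^20 + 1*z^21 + (-1)*z^22 + 1*z^23 + (-1)*z^24 + 1*z^25 + (-1)*z^26 + 1*z^27, by simp only [QI_2, F9]; ring⟩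

lemma bI_2_10 (z : ℤ) : Bz (QI_2 z) (F10 z) 11 :=
  ⟨4 + 4*z + 1*z^2 + (-2)*z^3, 7 + 7*z + (-1)*z^2 + 2*z^3 + (-3)*z^5 + (-3)*z^6 + 2*z^7 + (-4)*z^8 + 4*z^9 + 7*z^10 + 4*z^11 + (-4)*z^12 + 4*z^13 + (-4)*z^14 + (-7)*z^15 + (-4)*z^16 + 4*z^17 + (-4)*z^18 + 3*z^20 + 3*z^21 + (-2)*z^22 + (-4)*z^24 + (-4)*z^25 + (-1)*z^26 + 2*z^27, by simp only [QI_2, F10]; ring⟩

lemma bI_2_12 (z : ℤ) : Bz (QI_2 z) (F12 z) 1 :=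
  ⟨1 + 1*z, 1*z^5 + 1*z^7 + 1*z^9 + (-1)*z^13 + (-1)*z^15 + (-1)*z^23 + (-1)*z^25, by simp only [QI_2, F12]; ring⟩

lemma bI_2_14 (z : ℤ) : Bz (QI_2 z) (F14 z) 1 :=
  ⟨1, 1*z + 1*z^5 + (-1)*z^8 + 1*z^9 + (-1)*z^12 + 1*z^15 + (-1)*z^16 + (-1)*z^22, by simp only [QI_2, F14]; ring⟩

lemma bI_2_15 (z : ℤ) : Bz (QI_2 z) (F15 z) 3931 :=
  ⟨1093 + 1908*z + 592*z^2 + 57*z^3 + (-210)*z^4 + (-505)*z^5 + (-99)*z^6 + 63*z^7, 2838 + 2023*z + 2246*z^2 + (-872)*z^3 + 433*z^4 + (-1520)*z^5 + 474*z^6 + (-609)*z^7 + 1828*z^8 + 80*z^9 + 512*z^10 + (-1548)*z^11 + (-570)*z^12 + (-1620)*z^13 + (-444)*z^14 + 125*z^15 + 1416*z^16 + 801*z^17 + 233*z^18 + (-1170)*z^19 + (-2104)*z^20 + (-1994)*z^21 + (-662)*z^22 + 286*z^23 + 372*z^24 + 442*z^25 + 99*z^26 + (-63)*z^27, by simp only [QI_2, F15]; ring⟩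

lemma bI_2_18 (z : ℤ) : Bz (QI_2 z) (F18 z) 57 :=
  ⟨28 + 14*z + 7*z^2 + 4*z^3 + 2*z^4 + 1*z^5, 29 + 14*z + (-21)*z^2 + 46*z^3 + (-5)*z^4 + 25*z^5 + (-15)*z^6 + 20*z^7 + 11*z^8 + 4*z^9 + (-25)*z^10 + 43*z^11 + (-34)*z^12 + 10*z^13 + (-22)*z^14 + 16*z^15 + (-19)*z^16 + (-11)*z^17 + (-4)*z^18 + (-3)*z^19 + (-29)*z^20 + 13*z^21 + (-21)*z^22 + (-11)*z^23 + (-5)*z^24 + (-3)*z^25 + (-1)*z^26 + (-1)*z^27, by simp only [QI_2, F18]; ring⟩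

lemma bI_2_20 (z : ℤ) : Bz (QI_2 z) (F20 z) 5 :=
  ⟨3 + 4*z + (-1)*z^2 + (-3)*z^3 + (-1)*z^4 + 2*z^5 + 3*z^6 + (-1)*z^7, 2 + (-1)*z + 4*z^2 + 2*z^4 + 2*z^5 + 1*z^7 + (-3)*z^8 + 5*z^9 + (-4)*z^10 + 7*z^11 + (-8)*z^12 + 5*z^13 + (-9)*z^14 + 7*z^15 + (-8)*z^16 + 10*z^17 + (-9)*z^18 + 4*z^19 + (-9)*z^20 + 4*z^21 + (-4)*z^22 + 6*z^23 + (-5)*z^24 + 3*z^25 + (-4)*z^26 + 1*z^27, by simp only [QI_2, F20]; ring⟩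

lemma bI_2_24 (z : ℤ) : Bz (QI_2 z) (F24 z) 73 :=
  ⟨(-3) + 56*z + 1*z^2 + (-43)*z^3 + 27*z^4 + 7*z^5 + (-9)*z^6 + 22*z^7, 76 + (-59)*z + 58*z^2 + (-15)*z^3 + 64*z^4 + (-57)*z^5 + 121*z^6 + (-99)*z^7 + 29*z^8 + (-15)*z^9 + 143*z^10 + (-172)*z^11 + 32*z^12 + 2*z^13 + 69*z^14 + (-129)*z^15 + 81*z^16 + (-61)*z^17 + 4*z^18 + (-32)*z^19 + 68*z^20 + (-83)*z^21 + (-2)*z^22 + 10*z^23 + 11*z^24 + (-38)*z^25 + 31*z^26 + (-22)*z^27, by simp only [QI_2, F24]; ring⟩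

lemma bI_2_30 (z : ℤ) : Bz (QI_2 z) (F30 z) 1 :=
  ⟨1 + (-1)*z^3 + (-1)*z^5 + 1*z^6 + 1*z^7, 1*z + (-2)*z^2 + 4*z^3 + (-5)*z^4 + 8*z^5 + (-10)*z^6 + 11*z^7 + (-10)*z^8 + 10*z^9 + (-10)*z^10 + 10*z^11 + (-10)*z^12 + 10*z^13 + (-10)*z^14 + 9*z^15 + (-8)*z^16 + 7*z^17 + (-7)*z^18 + 6*z^19 + (-6)*z^20 + 6*z^21 + (-6)*z^22 + 4*z^23 + (-2)*z^24 + 1*z^26 + (-1)*z^27, by simp only [QI_2, F30]; ring⟩

lemma bigI_2 (s : ℤ) (hs : 0 ≤ s) : (55823879656828997919627159375 : ℤ) < QI_2 (s + 11) := by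
  have h : 0 ≤ 76368636398412162088528289705 + 337491458616842579446114925888*s + 415430671290149707397335106208*s^2 + 328289352256678244179451575761*s^3 + 187088516494785914387625074445*s^4 + 81884722875901696160823399105*s^5 + 28621883524958251378985090145*s^6 + 8202492577340797855355878992*s^7 + 1963371272320163841484169460*s^8 + 397851966750796822230199626*s^9 + 68930438834860836522862994*s^10 + 10285636423288914432128623*s^11 + 1328750841618183129128689*s^12 + 149131479149201106741862*s^13 + 14570892584153321310018*s^14 + 1240169476989368713191*s^15 + 91889744191104175605*s^16 + 5915160919016511874*s^17 + 329654141242994802*s^18 + 15822727751577272*s^19 + 649344180490282*s^20 + 22559601569173*s^21 + 654632098705*s^22 + 15574567293*s^23 + 295920351*s^24 + 4318170*s^25 + 45442*s^26 + 307*s^27 + 1*s^28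 := by positivity
  have e : QI_2 (s + 11) - (55823879656828997919627159375 + 1) = 76368636398412162088528289705 + 337491458616842579446114925888*s + 415430671290149707397335106208*s^2 + 328289352256678244179451575761*s^3 + 187088516494785914387625074445*s^4 + 81884722875901696160823399105*s^5 + 28621883524958251378985090145*s^6 + 8202492577340797855355878992*s^7 + 1963371272320163841484169460*s^8 + 397851966750796822230199626*s^9 + 68930438834860836522862994*s^10 + 10285636423288914432128623*s^11 + 1328750841618183129128689*s^12 + 149131479149201106741862*s^13 + 14570892584153321310018*s^14 + 1240169476989368713191*s^15 + 91889744191104175605*s^16 + 5915160919016511874*s^17 + 329654141242994802*s^18 + 15822727751577272*s^19 + 649344180490282*s^20 + 22559601569173*s^21 + 654632098705*s^22 + 15574567293*s^23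 + 295920351*s^24 + 4318170*s^25 + 45442*s^26 + 307*s^27 + 1*s^28 := by
    simp only [QI_2]; ring
  linarith

set_option maxHeartbeats 4000000 in
theorem noI_2 {q : ℕ} (hq : IsPrimePow q) : ¬ (k08 q + 2) ∣ NN8 q := by
  intro hd
  have hq2 : 2 ≤ q := hq.two_le
  have hz1 : 1 ≤ q := by omega
  by_cases hB : q < 11
  · refine chk_ok (g := fun q => k08' q + 2) (B := 11) (by decide +kernel) hq2 hB ?_
    show k08' q + 2 ∣ NN8 q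
    rw [← k08_eq hz1]
    exact hd
  · obtain ⟨p, k, hp, hk, hpk⟩ := (isPrimePow_nat_iff q).mp hq
    have hd' : ((k08 q + 2 : ℕ) : ℤ) ∣ (NN8 q : ℤ) := Int.natCast_dvd_natCast.mpr hd
    have e1 : ((k08 q + 2 : ℕ) : ℤ) = (1 + 1*(q : ℤ)) * QI_2 (q : ℤ) := by
      push_cast
      rw [k08_cast hz1]
      simp only [QI_2]
      ring
    rw [e1, NN8_cast hz1, NN8_fac] at hd'
    have hQ := Dvd.dvd.trans (Dvd.intro_left _ rfl) hd'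
    have hz : (q : ℤ) = (p : ℤ) ^ k := by rw [← hpk]; push_cast; rfl
    have hqB : (11 : ℤ) ≤ (q : ℤ) := by exact_mod_cast not_lt.mp hB
    have hR : QI_2 (q : ℤ) = (1 : ℤ) + (q : ℤ) * ((-1) + 1*(q : ℤ) + (-1)*(q : ℤ)^2 + 1*(q : ℤ)^3 + (-2)*(q : ℤ)^4 + 2*(q : ℤ)^5 + (-2)*(q : ℤ)^6 + 2*(q : ℤ)^7 + (-3)*(q : ℤ)^8 + 3*(q : ℤ)^9 + (-3)*(q : ℤ)^10 + 3*(q : ℤ)^11 + (-3)*(q : ℤ)^12 + 3*(q : ℤ)^13 + (-3)*(q : ℤ)^14 + 3*(q : ℤ)^15 + (-3)*(q : ℤ)^16 + 3*(q : ℤ)^17 + (-2)*(q : ℤ)^18 + 2*(q : ℤ)^19 + (-2)*(q : ℤ)^20 + 2*(q : ℤ)^21 + (-1)*(q : ℤ)^22 + 1*(q : ℤ)^23 + (-1)*(q : ℤ)^24 + 1*(q : ℤ)^25 + (-1)*(q : ℤ)^26 + 1*(q : ℤ)^27) := by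
      simp only [QI_2]; ring
    have hgo := cofree' hp hz hR (nd (c0 := 1) (by linarith) (by norm_num)).1 hQ
    have h1 : QI_2 (q : ℤ) ∣ 55823879656828997919627159375 := by
      have h2 := chainE (bI_2_1 _) (bI_2_2 _) (bI_2_3 _) (bI_2_4 _) (bI_2_5 _) (bI_2_6 _) (bI_2_7 _) (bI_2_8 _) (bI_2_9 _) (bI_2_10 _) (bI_2_12 _) (bI_2_14 _) (bI_2_15 _) (bI_2_18 _) (bI_2_20 _) (bI_2_24 _) (bI_2_30 _) hgo
      have e2 : ((((((((((((((((((((1 : ℤ)) * 1^8) * 57^8) * 1^4) * 5^4) * 1^2) * 3^4) * 1^1) * 1^2) * 1^1) * 11^2) * 1^2) * 1^1) * 3931^1) * 57^1) * 5^1) * 73^1) * 1^1) * 1) = 55823879656828997919627159375 := by norm_num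
      rwa [e2] at h2
    obtain ⟨s, rfl⟩ : ∃ s, q = s + 11 := ⟨q - 11, by omega⟩
    have hbig := bigI_2 (s : ℤ) (Int.natCast_nonneg s)
    have e3 : ((s + 11 : ℕ) : ℤ) = (s : ℤ) + 11 := by push_cast; ring
    rw [e3] at h1
    have hle := Int.le_of_dvd (by norm_num) h1
    linarith

end sI_2

section sI_3

/-- The cofactor. -/
def QI_3 (z : ℤ) : ℤ := 2 + (-2)*z + 2*z^3 + (-2)*z^4 + (-1)*z^5 + 3*z^6 + (-2)*z^7 + (-1)*z^8 + 2*z^9 + (-1)*z^10 + (-1)*z^11 + 2*z^12 + (-1)*z^13 + (-1)*z^14 + 2*z^15 + (-1)*z^16 + (-1)*z^17 + 2*z^18 + (-2)*z^20 + 2*z^21 + (-1)*z^23 + 1*z^24 + (-1)*z^26 + 1*z^27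

lemma bI_3_1 (z : ℤ) : Bz (QI_3 z) (F1 z) 1 :=
  ⟨1, 1 + (-1)*z + (-1)*z^2 + 1*z^3 + (-1)*z^4 + (-2)*z^5 + 1*z^6 + (-1)*z^7 + (-2)*z^8 + (-1)*z^10 + (-2)*z^11 + (-1)*z^13 + (-2)*z^14 + (-1)*z^16 + (-2)*z^17 + (-2)*z^20 + (-1)*z^23 + (-1)*z^26, by simp only [QI_3, F1]; ring⟩

lemma bI_3_2 (z : ℤ) : Bz (QI_3 z) (F2 z) 1 :=
  ⟨1, (-1) + 3*z + (-3)*z^2 + 1*z^3 + 1*z^4 + (-3)*z^6 + 5*z^7 + (-4)*z^8 + 2*z^9 + (-1)*z^10 + 2*z^11 + (-4)*z^12 + 5*z^13 + (-4)*z^14 + 2*z^15 + (-1)*z^16 + 2*z^17 + (-4)*z^18 + 4*z^19 + (-2)*z^20 + 1*z^23 + (-2)*z^24 + 2*z^25 + (-1)*z^26, by simp only [QI_3, F2]; ring⟩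

lemma bI_3_3 (z : ℤ) : Bz (QI_3 z) (F3 z) 28 :=
  ⟨1, 26 + (-24)*z + (-2)*z^2 + 24*z^3 + (-20)*z^4 + (-3)*z^5 + 20*z^6 + (-15)*z^7 + (-4)*z^8 + 17*z^9 + (-12)*z^10 + (-4)*z^11 + 14*z^12 + (-9)*z^13 + (-4)*z^14 + 11*z^15 + (-6)*z^16 + (-4)*z^17 + 8*z^18 + (-4)*z^19 + (-2)*z^20 + 4*z^21 + (-2)*z^22 + (-1)*z^23 + 2*z^24 + (-1)*z^25, by simp only [QI_3, F3]; ring⟩

lemma bI_3_4 (z : ℤ) : Bz (QI_3 z) (F4 z) 13 :=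
  ⟨(-3) + 2*z, 19 + (-10)*z + (-15)*z^2 + 16*z^3 + 5*z^4 + (-15)*z^5 + 6*z^6 + 3*z^7 + (-5)*z^8 + 5*z^9 + (-2)*z^10 + (-6)*z^11 + 10*z^12 + (-1)*z^13 + (-11)*z^14 + 9*z^15 + 4*z^16 + (-10)*z^17 + 4*z^18 + 6*z^19 + (-10)*z^20 + 4*z^21 + 6*z^22 + (-7)*z^23 + (-1)*z^24 + 5*z^25 + (-2)*z^26, by simp only [QI_3, F4]; ring⟩

lemma bI_3_5 (z : ℤ) : Bz (QI_3 z) (F5 z) 1 :=
  ⟨1*z^2, 1 + (-1)*z + (-2)*z^2 + 4*z^3 + (-2)*z^4 + (-1)*z^5 + 3*z^6 + (-3)*z^7 + 3*z^9 + (-2)*z^10 + 1*z^15 + (-3)*z^17 + 3*z^18 + (-2)*z^20 + 2*z^21 + (-1)*z^22 + (-1)*z^23 + 2*z^24 + (-1)*z^25, by simp only [QI_3, F5]; ring⟩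

lemma bI_3_6 (z : ℤ) : Bz (QI_3 z) (F6 z) 2 :=
  ⟨1*z, 2 + (-2)*z^4 + 3*z^6 + (-1)*z^8 + (-1)*z^10 + 2*z^12 + (-1)*z^14 + (-1)*z^16 + 2*z^18 + (-2)*z^20 + 1*z^24 + (-1)*z^26, by simp only [QI_3, F6]; ring⟩

lemma bI_3_7 (z : ℤ) : Bz (QI_3 z) (F7 z) 43 :=
  ⟨20 + 10*z + 15*z^2 + (-9)*z^3 + 3*z^4 + (-3)*z^5, 3 + 17*z + (-30)*z^2 + 18*z^3 + (-12)*z^4 + 26*z^5 + (-30)*z^6 + 12*z^7 + 14*z^8 + (-4)*z^9 + (-21)*z^10 + 9*z^11 + 20*z^12 + (-33)*z^13 + 15*z^14 + 17*z^15 + (-10)*z^16 + (-18)*z^17 + 12*z^18 + (-6)*z^19 + 3*z^21 + 20*z^22 + (-33)*z^23 + 18*z^24 + (-9)*z^25 + 3*z^26, by simp only [QI_3, F7]; ring⟩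

lemma bI_3_8 (z : ℤ) : Bz (QI_3 z) (F8 z) 17 :=
  ⟨5 + 11*z + 14*z^2 + 7*z^3, 7 + (-12)*z + (-6)*z^2 + 4*z^3 + (-5)*z^4 + 11*z^5 + 16*z^6 + 1*z^7 + (-3)*z^8 + (-3)*z^9 + (-5)*z^10 + (-6)*z^11 + 4*z^12 + 7*z^13 + 7*z^15 + (-12)*z^17 + 1*z^18 + (-8)*z^19 + (-11)*z^20 + 10*z^21 + 5*z^22 + (-1)*z^23 + 3*z^24 + (-7)*z^25 + (-7)*z^26, by simp only [QI_3, F8]; ring⟩

lemma bI_3_9 (z : ℤ) : Bz (QI_3 z) (F9 z) 1 :=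
  ⟨1, (-1) + 2*z + (-1)*z^3 + 1*z^5 + (-1)*z^6 + 1*z^10 + (-1)*z^12 + 1*z^14 + (-1)*z^15 + 1*z^20 + (-1)*z^21, by simp only [QI_3, F9]; ring⟩

lemma bI_3_10 (z : ℤ) : Bz (QI_3 z) (F10 z) 181 :=
  ⟨60 + 42*z + 59*z^2 + (-14)*z^3, 61 + 97*z + 2*z^2 + (-8)*z^3 + 34*z^4 + (-27)*z^5 + (-63)*z^6 + 31*z^7 + (-14)*z^8 + 1*z^9 + 116*z^10 + 40*z^11 + (-52)*z^12 + 44*z^13 + (-10)*z^14 + (-137)*z^15 + (-10)*z^16 + 43*z^17 + (-65)*z^18 + (-20)*z^19 + 86*z^20 + (-10)*z^21 + (-17)*z^22 + 13*z^23 + (-56)*z^24 + (-59)*z^25 + 14*z^26, by simp only [QI_3, F10]; ring⟩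

lemma bI_3_12 (z : ℤ) : Bz (QI_3 z) (F12 z) 2 :=
  ⟨1 + 1*z + 1*z^2, 1*z^5 + 1*z^7 + 1*z^9 + (-1)*z^13 + (-1)*z^15 + (-1)*z^23 + (-1)*z^25, by simp only [QI_3, F12]; ring⟩

lemma bI_3_14 (z : ℤ) : Bz (QI_3 z) (F14 z) 127 :=
  ⟨62 + 34*z + 45*z^2 + (-21)*z^3 + 9*z^4 + (-3)*z^5, 3 + 59*z + 34*z^2 + (-14)*z^3 + 4*z^4 + 60*z^5 + 38*z^6 + (-22)*z^7 + (-54)*z^8 + 30*z^9 + 47*z^10 + (-25)*z^11 + (-48)*z^12 + (-41)*z^13 + 19*z^14 + 57*z^15 + (-30)*z^16 + (-50)*z^17 + 28*z^18 + (-14)*z^19 + 4*z^20 + 1*z^21 + (-64)*z^22 + (-33)*z^23 + 18*z^24 + (-9)*z^25 + 3*z^26, by simp only [QI_3, F14]; ring⟩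

lemma bI_3_15 (z : ℤ) : Bz (QI_3 z) (F15 z) 1381 :=
  ⟨351 + 387*z + 495*z^2 + 117*z^3 + (-105)*z^4 + 24*z^5 + (-162)*z^6 + 52*z^7, 679 + 607*z + 391*z^2 + (-234)*z^3 + 210*z^4 + (-376)*z^5 + 104*z^6 + 351*z^8 + 36*z^9 + 108*z^10 + (-378)*z^11 + (-222)*z^12 + (-222)*z^13 + (-222)*z^14 + 106*z^15 + 326*z^16 + 222*z^17 + (-129)*z^18 + (-165)*z^19 + (-601)*z^20 + (-443)*z^21 + (-117)*z^22 + 105*z^23 + (-24)*z^24 + 162*z^25 + (-52)*z^26, by simp only [QI_3, F15]; ring⟩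

lemma bI_3_18 (z : ℤ) : Bz (QI_3 z) (F18 z) 1117 :=
  ⟨323 + 276*z + 388*z^2 + 12*z^3 + 114*z^4 + (-34)*z^5, 471 + 94*z + (-224)*z^2 + 577*z^3 + (-16)*z^4 + 171*z^5 + 97*z^6 + (-108)*z^7 + 414*z^8 + (-64)*z^9 + (-285)*z^10 + 408*z^11 + (-121)*z^12 + (-268)*z^13 + 11*z^14 + 17*z^15 + (-74)*z^16 + (-380)*z^17 + 212*z^18 + (-220)*z^19 + (-327)*z^20 + 157*z^21 + (-184)*z^22 + (-308)*z^23 + 102*z^24 + (-148)*z^25 + 34*z^26, by simp only [QI_3, F18]; ring⟩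

lemma bI_3_20 (z : ℤ) : Bz (QI_3 z) (F20 z) 101 :=
  ⟨71 + 7*z + 25*z^2 + 11*z^3 + (-9)*z^4 + (-8)*z^5 + (-22)*z^6 + 59*z^7, (-41) + 128*z + (-77)*z^2 + 14*z^3 + 132*z^4 + (-81)*z^5 + 18*z^6 + 57*z^7 + (-13)*z^8 + (-75)*z^9 + 139*z^10 + (-86)*z^11 + 6*z^12 + 9*z^13 + (-22)*z^14 + (-83)*z^15 + 87*z^16 + (-20)*z^17 + (-70)*z^18 + 50*z^19 + (-38)*z^20 + (-86)*z^21 + 47*z^22 + 23*z^23 + (-73)*z^24 + 81*z^25 + (-59)*z^26, by simp only [QI_3, F20]; ring⟩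

lemma bI_3_24 (z : ℤ) : Bz (QI_3 z) (F24 z) 146 :=
  ⟨26 + 37*z + 33*z^2 + (-12)*z^3 + (-15)*z^4 + 32*z^5 + (-5)*z^6 + 35*z^7, 94 + (-22)*z + 8*z^2 + 38*z^3 + 78*z^4 + (-82)*z^5 + 131*z^6 + (-62)*z^7 + (-51)*z^8 + 86*z^9 + 81*z^10 + (-176)*z^11 + 12*z^12 + 88*z^13 + (-79)*z^14 + (-10)*z^15 + 23*z^16 + (-62)*z^17 + (-56)*z^18 + 100*z^19 + (-64)*z^20 + (-42)*z^21 + 2*z^22 + 12*z^23 + (-37)*z^24 + 40*z^25 + (-35)*z^26, by simp only [QI_3, F24]; ring⟩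

lemma bI_3_30 (z : ℤ) : Bz (QI_3 z) (F30 z) 61 :=
  ⟨23 + (-17)*z + 11*z^2 + (-5)*z^3 + (-9)*z^4 + (-10)*z^5 + 28*z^6 + 30*z^7, 15 + 65*z + (-121)*z^2 + 122*z^3 + 46*z^4 + (-118)*z^5 + 54*z^6 + 90*z^7 + (-107)*z^8 + 34*z^9 + 62*z^10 + (-114)*z^11 + 78*z^12 + 12*z^13 + (-96)*z^14 + 52*z^15 + 36*z^16 + (-90)*z^17 + 23*z^18 + 21*z^19 + (-25)*z^20 + (-37)*z^21 + 67*z^22 + (-67)*z^23 + 6*z^24 + 32*z^25 + (-30)*z^26, by simp only [QI_3, F30]; ring⟩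

lemma bigI_3 (s : ℤ) (hs : 0 ≤ s) : (161210598214793396224397972984889344 : ℤ) < QI_3 (s + 21) := by
  have h : 0 ≤ 316075254220220559984805194653216216 + 614782268891956911647469651912950938*s + 381278756551167560971121451235995303*s^2 + 151578704259283772402351926976468651*s^3 + 43387553543079818741522048948855485*s^4 + 9521329617515842880753869747567073*s^5 + 1665491842830006372815929894166277*s^6 + 238361498464782142378829469845575*s^7 + 28428065690315372445968048203730*s^8 + 2863046741913443428326363461489*s^9 + 245849772732030422086670001119*s^10 + 18125656091865801430341015968*s^11 + 1152919461749114496327314426*s^12 + 63461769045893270017755509*s^13 + 3027444983899011384112655*s^14 + 125167395616946447757092*s^15 + 4478309541575239980350*s^16 + 138235076687060360657*s^17 + 3663573278084163299*s^18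 + 82785000322286304*s^19 + 1579676773181155*s^20 + 25118995946123*s^21 + 326802104013*s^22 + 3389063453*s^23 + 26945101*s^24 + 154245*s^25 + 566*s^26 + 1*s^27 := by positivity
  have e : QI_3 (s + 21) - (161210598214793396224397972984889344 + 1) = 316075254220220559984805194653216216 + 614782268891956911647469651912950938*s + 381278756551167560971121451235995303*s^2 + 151578704259283772402351926976468651*s^3 + 43387553543079818741522048948855485*s^4 + 9521329617515842880753869747567073*s^5 + 1665491842830006372815929894166277*s^6 + 238361498464782142378829469845575*s^7 + 28428065690315372445968048203730*s^8 + 2863046741913443428326363461489*s^9 + 245849772732030422086670001119*s^10 + 18125656091865801430341015968*s^11 + 1152919461749114496327314426*s^12 + 63461769045893270017755509*s^13 + 3027444983899011384112655*s^14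 + 125167395616946447757092*s^15 + 4478309541575239980350*s^16 + 138235076687060360657*s^17 + 3663573278084163299*s^18 + 82785000322286304*s^19 + 1579676773181155*s^20 + 25118995946123*s^21 + 326802104013*s^22 + 3389063453*s^23 + 26945101*s^24 + 154245*s^25 + 566*s^26 + 1*s^27 := by
    simp only [QI_3]; ring
  linarith

set_option maxHeartbeats 4000000 in
theorem noI_3 {q : ℕ} (hq : IsPrimePow q) : ¬ (k08 q + 3) ∣ NN8 q := by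
  intro hd
  have hq2 : 2 ≤ q := hq.two_le
  have hz1 : 1 ≤ q := by omega
  by_cases hB : q < 21
  · refine chk_ok (g := fun q => k08' q + 3) (B := 21) (by decide +kernel) hq2 hB ?_
    show k08' q + 3 ∣ NN8 q
    rw [← k08_eq hz1]
    exact hd
  · obtain ⟨p, k, hp, hk, hpk⟩ := (isPrimePow_nat_iff q).mp hq
    have hd' : ((k08 q + 3 : ℕ) : ℤ) ∣ (NN8 q : ℤ) := Int.natCast_dvd_natCast.mpr hd
    have e1 : ((k08 q + 3 : ℕ) : ℤ) = (1 + 1*(q : ℤ) + 1*(q : ℤ)^2) * QI_3 (q : ℤ) := by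
      push_cast
      rw [k08_cast hz1]
      simp only [QI_3]
      ring
    rw [e1, NN8_cast hz1, NN8_fac] at hd'
    have hQ := Dvd.dvd.trans (Dvd.intro_left _ rfl) hd'
    have hz : (q : ℤ) = (p : ℤ) ^ k := by rw [← hpk]; push_cast; rfl
    have hqB : (21 : ℤ) ≤ (q : ℤ) := by exact_mod_cast not_lt.mp hB
    have hR : QI_3 (q : ℤ) = (2 : ℤ) + (q : ℤ) * ((-2) + 2*(q : ℤ)^2 + (-2)*(q : ℤ)^3 + (-1)*(q : ℤ)^4 + 3*(q : ℤ)^5 + (-2)*(q : ℤ)^6 + (-1)*(q : ℤ)^7 + 2*(q : ℤ)^8 + (-1)*(q : ℤ)^9 + (-1)*(q : ℤ)^10 + 2*(q : ℤ)^11 + (-1)*(q : ℤ)^12 + (-1)*(q : ℤ)^13 + 2*(q : ℤ)^14 + (-1)*(q : ℤ)^15 + (-1)*(q : ℤ)^16 + 2*(q : ℤ)^17 + (-2)*(q : ℤ)^19 + 2*(q : ℤ)^20 + (-1)*(q : ℤ)^22 + 1*(q : ℤ)^23 + (-1)*(q : ℤ)^25 + 1*(q : ℤ)^26) := by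
      simp only [QI_3]; ring
    have hgo := cofree' hp hz hR (nd (c0 := 2) (by linarith) (by norm_num)).1 hQ
    have h1 : QI_3 (q : ℤ) ∣ 161210598214793396224397972984889344 := by
      have h2 := chainE (bI_3_1 _) (bI_3_2 _) (bI_3_3 _) (bI_3_4 _) (bI_3_5 _) (bI_3_6 _) (bI_3_7 _) (bI_3_8 _) (bI_3_9 _) (bI_3_10 _) (bI_3_12 _) (bI_3_14 _) (bI_3_15 _) (bI_3_18 _) (bI_3_20 _) (bI_3_24 _) (bI_3_30 _) hgo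
      have e2 : ((((((((((((((((((((2 : ℤ)) * 1^8) * 1^8) * 28^4) * 13^4) * 1^2) * 2^4) * 43^1) * 17^2) * 1^1) * 181^2) * 2^2) * 127^1) * 1381^1) * 1117^1) * 101^1) * 146^1) * 61^1) * 1) = 161210598214793396224397972984889344 := by norm_num
      rwa [e2] at h2
    obtain ⟨s, rfl⟩ : ∃ s, q = s + 21 := ⟨q - 21, by omega⟩
    have hbig := bigI_3 (s : ℤ) (Int.natCast_nonneg s)
    have e3 : ((s + 21 : ℕ) : ℤ) = (s : ℤ) + 21 := by push_cast; ring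
    rw [e3] at h1
    have hle := Int.le_of_dvd (by norm_num) h1
    linarith

end sI_3

section sI_4

/-- The cofactor. -/
def QI_4 (z : ℤ) : ℤ := 3 + (-1)*z^5 + (-1)*z^9 + 1*z^19 + 1*z^23 + 1*z^29

lemma bI_4_1 (z : ℤ) : Bz (QI_4 z) (F1 z) 4 :=
  ⟨1, (-1) + (-1)*z + (-1)*z^2 + (-1)*z^3 + (-1)*z^4 + (-2)*z^5 + (-2)*z^6 + (-2)*z^7 + (-2)*z^8 + (-3)*z^9 + (-3)*z^10 + (-3)*z^11 + (-3)*z^12 + (-3)*z^13 + (-3)*z^14 + (-3)*z^15 + (-3)*z^16 + (-3)*z^17 + (-3)*z^18 + (-2)*z^19 + (-2)*z^20 + (-2)*z^21 + (-2)*z^22 + (-1)*z^23 + (-1)*z^24 + (-1)*z^25 + (-1)*z^26 + (-1)*z^27 + (-1)*z^28, by simp only [QI_4, F1]; ring⟩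

lemma bI_4_2 (z : ℤ) : Bz (QI_4 z) (F2 z) 2 :=
  ⟨1, (-1) + 1*z + (-1)*z^2 + 1*z^3 + (-1)*z^4 + 2*z^5 + (-2)*z^6 + 2*z^7 + (-2)*z^8 + 3*z^9 + (-3)*z^10 + 3*z^11 + (-3)*z^12 + 3*z^13 + (-3)*z^14 + 3*z^15 + (-3)*z^16 + 3*z^17 + (-3)*z^18 + 2*z^19 + (-2)*z^20 + 2*z^21 + (-2)*z^22 + 1*z^23 + (-1)*z^24 + 1*z^25 + (-1)*z^26 + 1*z^27 + (-1)*z^28, by simp only [QI_4, F2]; ring⟩

lemma bI_4_3 (z : ℤ) : Bz (QI_4 z) (F3 z) 1 :=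
  ⟨1, (-2) + 2*z + (-2)*z^3 + 2*z^4 + 1*z^5 + (-3)*z^6 + 2*z^7 + 1*z^8 + (-2)*z^9 + 1*z^10 + 1*z^11 + (-2)*z^12 + 1*z^13 + 1*z^14 + (-2)*z^15 + 1*z^16 + 1*z^17 + (-2)*z^18 + 2*z^20 + (-2)*z^21 + 1*z^23 + (-1)*z^24 + 1*z^26 + (-1)*z^27, by simp only [QI_4, F3]; ring⟩

lemma bI_4_4 (z : ℤ) : Bz (QI_4 z) (F4 z) 6 :=
  ⟨1 + 1*z, 3 + (-3)*z + (-3)*z^2 + 3*z^3 + 3*z^4 + (-2)*z^5 + (-2)*z^6 + 2*z^7 + 2*z^8 + (-1)*z^9 + (-1)*z^10 + 1*z^11 + 1*z^12 + (-1)*z^13 + (-1)*z^14 + 1*z^15 + 1*z^16 + (-1)*z^17 + (-1)*z^18 + (-1)*z^23 + (-1)*z^24 + 1*z^25 + 1*z^26 + (-1)*z^27 + (-1)*z^28, by simp only [QI_4, F4]; ring⟩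

lemma bI_4_5 (z : ℤ) : Bz (QI_4 z) (F5 z) 11 :=
  ⟨7 + 2*z + 4*z^2 + 1*z^3, (-10) + 4*z + (-6)*z^2 + 9*z^3 + 3*z^4 + (-3)*z^5 + (-1)*z^6 + (-4)*z^7 + 6*z^8 + 9*z^9 + (-8)*z^10 + 1*z^11 + (-7)*z^12 + 5*z^13 + 9*z^14 + (-8)*z^15 + 1*z^16 + (-7)*z^17 + 5*z^18 + 2*z^19 + (-3)*z^20 + (-1)*z^21 + (-4)*z^22 + (-1)*z^23 + 7*z^24 + (-5)*z^25 + 2*z^26 + (-3)*z^27 + (-1)*z^28, by simp only [QI_4, F5]; ring⟩

lemma bI_4_6 (z : ℤ) : Bz (QI_4 z) (F6 z) 5 :=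
  ⟨1, 2 + 2*z + (-2)*z^3 + (-2)*z^4 + 1*z^5 + 3*z^6 + 2*z^7 + (-1)*z^8 + (-2)*z^9 + (-1)*z^10 + 1*z^11 + 2*z^12 + 1*z^13 + (-1)*z^14 + (-2)*z^15 + (-1)*z^16 + 1*z^17 + 2*z^18 + (-2)*z^20 + (-2)*z^21 + 1*z^23 + 1*z^24 + (-1)*z^26 + (-1)*z^27, by simp only [QI_4, F6]; ring⟩

lemma bI_4_7 (z : ℤ) : Bz (QI_4 z) (F7 z) 547 :=
  ⟨182 + (-61)*z + 20*z^2 + (-7)*z^3 + 2*z^4 + (-1)*z^5, 1 + 182*z + (-243)*z^2 + 81*z^3 + (-27)*z^4 + 191*z^5 + (-246)*z^6 + 82*z^7 + 155*z^8 + (-52)*z^9 + (-165)*z^10 + 55*z^11 + 164*z^12 + (-237)*z^13 + 79*z^14 + 156*z^15 + (-52)*z^16 + (-165)*z^17 + 55*z^18 + (-18)*z^19 + 6*z^20 + (-2)*z^21 + 183*z^22 + (-243)*z^23 + 81*z^24 + (-27)*z^25 + 9*z^26 + (-3)*z^27 + 1*z^28, by simp only [QI_4, F7]; ring⟩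

lemma bI_4_8 (z : ℤ) : Bz (QI_4 z) (F8 z) 82 :=
  ⟨27 + 9*z + 3*z^2 + 1*z^3, 1 + (-27)*z + (-9)*z^2 + (-3)*z^3 + (-1)*z^4 + 54*z^5 + 18*z^6 + 6*z^7 + 2*z^8 + (-27)*z^9 + (-9)*z^10 + (-3)*z^11 + (-1)*z^12 + 27*z^13 + 9*z^14 + 3*z^15 + 1*z^16 + (-27)*z^17 + (-9)*z^18 + (-30)*z^19 + (-10)*z^20 + 24*z^21 + 8*z^22 + 3*z^23 + 1*z^24 + (-27)*z^25 + (-9)*z^26 + (-3)*z^27 + (-1)*z^28, by simp only [QI_4, F8]; ring⟩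

lemma bI_4_9 (z : ℤ) : Bz (QI_4 z) (F9 z) 127 :=
  ⟨58 + (-32)*z + (-13)*z^2 + 17*z^3 + (-5)*z^4 + (-6)*z^5, (-47) + 96*z + 39*z^2 + (-4)*z^3 + (-81)*z^4 + 37*z^5 + 19*z^6 + (-28)*z^7 + (-59)*z^8 + 38*z^9 + 71*z^10 + 9*z^11 + (-40)*z^12 + (-48)*z^13 + 44*z^14 + 2*z^15 + (-23)*z^16 + (-53)*z^17 + 38*z^18 + 13*z^19 + 41*z^20 + (-27)*z^21 + (-7)*z^22 + (-41)*z^23 + 27*z^24 + 7*z^25 + (-17)*z^26 + 5*z^27 + 6*z^28, by simp only [QI_4, F9]; ring⟩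

lemma bI_4_10 (z : ℤ) : Bz (QI_4 z) (F10 z) 461 :=
  ⟨89 + 20*z + (-16)*z^2 + (-5)*z^3, 194 + 134*z + (-12)*z^2 + 63*z^3 + 15*z^4 + (-105)*z^5 + (-25)*z^6 + 16*z^7 + (-84)*z^8 + 69*z^9 + 214*z^10 + 29*z^11 + (-37)*z^12 + 79*z^13 + (-69)*z^14 + (-214)*z^15 + (-29)*z^16 + 37*z^17 + (-79)*z^18 + (-20)*z^19 + 105*z^20 + 25*z^21 + (-16)*z^22 + (-5)*z^23 + (-89)*z^24 + (-109)*z^25 + (-4)*z^26 + 21*z^27 + 5*z^28, by simp only [QI_4, F10]; ring⟩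

lemma bI_4_12 (z : ℤ) : Bz (QI_4 z) (F12 z) 3 :=
  ⟨1, 1*z^5 + 1*z^7 + 1*z^9 + (-1)*z^13 + (-1)*z^15 + (-1)*z^23 + (-1)*z^25, by simp only [QI_4, F12]; ring⟩

lemma bI_4_14 (z : ℤ) : Bz (QI_4 z) (F14 z) 1093 :=
  ⟨364 + (-121)*z + 40*z^2 + (-13)*z^3 + 4*z^4 + (-1)*z^5, 1 + 364*z + 243*z^2 + (-81)*z^3 + 27*z^4 + 355*z^5 + 246*z^6 + (-82)*z^7 + (-337)*z^8 + 112*z^9 + 327*z^10 + (-109)*z^11 + (-328)*z^12 + (-255)*z^13 + 85*z^14 + 336*z^15 + (-112)*z^16 + (-327)*z^17 + 109*z^18 + (-36)*z^19 + 12*z^20 + (-4)*z^21 + (-363)*z^22 + (-243)*z^23 + 81*z^24 + (-27)*z^25 + 9*z^26 + (-3)*z^27 + 1*z^28, by simp only [QI_4, F14]; ring⟩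

lemma bI_4_15 (z : ℤ) : Bz (QI_4 z) (F15 z) 10279 :=
  ⟨2210 + 145*z + 261*z^2 + 83*z^3 + (-654)*z^4 + 600*z^5 + (-543)*z^6 + 275*z^7, 3649 + 3214*z + 2431*z^2 + (-1467)*z^3 + 930*z^4 + (-1526)*z^5 + 932*z^6 + (-811)*z^7 + 2760*z^8 + 145*z^9 + 261*z^10 + (-2127)*z^11 + (-799)*z^12 + (-1871)*z^13 + (-771)*z^14 + 668*z^15 + 1527*z^16 + 1342*z^17 + (-614)*z^18 + (-1584)*z^19 + (-3284)*z^20 + (-2016)*z^21 + (-1032)*z^22 + 585*z^23 + (-29)*z^24 + 597*z^25 + (-332)*z^26 + 268*z^27 + (-275)*z^28, by simp only [QI_4, F15]; ring⟩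

lemma bI_4_18 (z : ℤ) : Bz (QI_4 z) (F18 z) 5149 :=
  ⟨1244 + (-296)*z + 385*z^2 + (-127)*z^3 + 113*z^4 + (-60)*z^5, 1417 + 888*z + (-1155)*z^2 + 1798*z^3 + 549*z^4 + 269*z^5 + 85*z^6 + 46*z^7 + 1297*z^8 + (-356)*z^9 + (-859)*z^10 + 1413*z^11 + (-568)*z^12 + (-792)*z^13 + 56*z^14 + (-212)*z^15 + 67*z^16 + (-1357)*z^17 + 356*z^18 + (-385)*z^19 + (-1117)*z^20 + 183*z^21 + (-325)*z^22 + (-1117)*z^23 + 183*z^24 + (-325)*z^25 + 127*z^26 + (-113)*z^27 + 60*z^28, by simp only [QI_4, F18]; ring⟩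

lemma bI_4_20 (z : ℤ) : Bz (QI_4 z) (F20 z) 4141 :=
  ⟨1731 + (-549)*z + (-222)*z^2 + 135*z^3 + 138*z^4 + 28*z^5 + (-405)*z^6 + 638*z^7, (-1052) + 1647*z + (-386)*z^2 + 1242*z^3 + 252*z^4 + 1242*z^5 + 252*z^6 + (-489)*z^7 + 801*z^8 + (-267)*z^9 + 666*z^10 + (-405)*z^11 + 638*z^12 + (-1731)*z^13 + 549*z^14 + (-1509)*z^15 + 414*z^16 + 84*z^17 + (-163)*z^18 + (-1464)*z^19 + (-117)*z^20 + (-1104)*z^21 + (-224)*z^22 + 84*z^23 + (-163)*z^24 + 267*z^25 + (-666)*z^26 + 405*z^27 + (-638)*z^28, by simp only [QI_4, F20]; ring⟩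

lemma bI_4_24 (z : ℤ) : Bz (QI_4 z) (F24 z) 11113 :=
  ⟨3405 + (-55)*z + (-864)*z^2 + (-35)*z^3 + (-924)*z^4 + 1043*z^5 + (-588)*z^6 + 1674*z^7, 898 + 165*z + 2592*z^2 + 105*z^3 + 3670*z^4 + 441*z^5 + 4301*z^6 + (-5781)*z^7 + 2737*z^8 + 2757*z^9 + 2697*z^10 + (-7338)*z^11 + 706*z^12 + 1392*z^13 + (-561)*z^14 + (-2145)*z^15 + (-357)*z^16 + (-1365)*z^17 + (-3258)*z^18 + 1788*z^19 + (-1008)*z^20 + (-1893)*z^21 + (-2662)*z^22 + 1452*z^23 + (-1639)*z^24 + 924*z^25 + (-1043)*z^26 + 588*z^27 + (-1674)*z^28, by simp only [QI_4, F24]; ring⟩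

lemma bI_4_30 (z : ℤ) : Bz (QI_4 z) (F30 z) 155 :=
  ⟨92 + 17*z + (-27)*z^2 + (-71)*z^3 + (-54)*z^4 + 12*z^5 + 63*z^6 + 43*z^7, (-121) + 70*z + 11*z^2 + 81*z^3 + 30*z^4 + (-14)*z^5 + 4*z^6 + 83*z^7 + (-6)*z^8 + (-17)*z^9 + 27*z^10 + (-21)*z^11 + 37*z^12 + (-77)*z^13 + (-9)*z^14 + 38*z^15 + (-33)*z^16 + (-26)*z^17 + (-28)*z^18 + (-84)*z^19 + 86*z^20 + (-60)*z^21 + (-36)*z^22 + (-33)*z^23 + 5*z^24 + 3*z^25 + 8*z^26 + (-20)*z^27 + (-43)*z^28, by simp only [QI_4, F30]; ring⟩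

lemma bigI_4 (s : ℤ) (hs : 0 ≤ s) : (1818598443225984667593229602589289815558481510400000 : ℤ) < QI_4 (s + 59) := by
  have h : 0 ≤ 444525490967934122478581718919433740238909266621021 + 1112382950700029240586625827007865593583500648681977*s + 263955276436231564510826063471397117912249333151616*s^2 + 40264364202004830693156702429179257727145986262060*s^3 + 4435904530717583296644466416605856365604947965149*s^4 + 375924112771879095816696090167757281538475774905*s^5 + 25486380526864256100596777642426289387493380765*s^6 + 1419338382850139147577526898024953549115652129*s^7 + 66155602590405400309905868610052533493262848*s^8 + 2616323266285194751941063508576653973232172*s^9 + 88688924280802589828259715883519336930946*s^10 + 2596440002056284488299097760800487434630*s^11 + 66011186492935998738914733739488736939*s^12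 + 1463090183024338122399318104751209593*s^13 + 28340729937513197882059025840195422*s^14 + 480351354873057053502241781274390*s^15 + 7123854839218608888682006481619*s^16 + 92333113569130862303959832013*s^17 + 1043312017730268172935532282*s^18 + 10237673679779487567675666*s^19 + 86759946438808671085904*s^20 + 630217528611199239238*s^21 + 3884237464475800177*s^22 + 20036597090147821*s^23 + 84900835127745*s^24 + 287799441111*s^25 + 750454866*s^26 + 1413286*s^27 + 1711*s^28 + 1*s^29 := by positivity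
  have e : QI_4 (s + 59) - (1818598443225984667593229602589289815558481510400000 + 1) = 444525490967934122478581718919433740238909266621021 + 1112382950700029240586625827007865593583500648681977*s + 263955276436231564510826063471397117912249333151616*s^2 + 40264364202004830693156702429179257727145986262060*s^3 + 4435904530717583296644466416605856365604947965149*s^4 + 375924112771879095816696090167757281538475774905*s^5 + 25486380526864256100596777642426289387493380765*s^6 + 1419338382850139147577526898024953549115652129*s^7 + 66155602590405400309905868610052533493262848*s^8 + 2616323266285194751941063508576653973232172*s^9 + 88688924280802589828259715883519336930946*s^10 + 2596440002056284488299097760800487434630*s^11 + 66011186492935998738914733739488736939*s^12 + 1463090183024338122399318104751209593*s^13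 + 28340729937513197882059025840195422*s^14 + 480351354873057053502241781274390*s^15 + 7123854839218608888682006481619*s^16 + 92333113569130862303959832013*s^17 + 1043312017730268172935532282*s^18 + 10237673679779487567675666*s^19 + 86759946438808671085904*s^20 + 630217528611199239238*s^21 + 3884237464475800177*s^22 + 20036597090147821*s^23 + 84900835127745*s^24 + 287799441111*s^25 + 750454866*s^26 + 1413286*s^27 + 1711*s^28 + 1*s^29 := by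
    simp only [QI_4]; ring
  linarith

set_option maxHeartbeats 4000000 in
theorem noI_4 {q : ℕ} (hq : IsPrimePow q) : ¬ (k08 q + 4) ∣ NN8 q := by
  intro hd
  have hq2 : 2 ≤ q := hq.two_le
  have hz1 : 1 ≤ q := by omega
  by_cases hB : q < 59
  · refine chk_ok (g := fun q => k08' q + 4) (B := 59) (by decide +kernel) hq2 hB ?_
    show k08' q + 4 ∣ NN8 q
    rw [← k08_eq hz1]
    exact hd
  · obtain ⟨p, k, hp, hk, hpk⟩ := (isPrimePow_nat_iff q).mp hq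
    have hd' : ((k08 q + 4 : ℕ) : ℤ) ∣ (NN8 q : ℤ) := Int.natCast_dvd_natCast.mpr hd
    have e1 : ((k08 q + 4 : ℕ) : ℤ) = (1) * QI_4 (q : ℤ) := by
      push_cast
      rw [k08_cast hz1]
      simp only [QI_4]
      ring
    rw [e1, NN8_cast hz1, NN8_fac] at hd'
    have hQ := Dvd.dvd.trans (Dvd.intro_left _ rfl) hd'
    have hz : (q : ℤ) = (p : ℤ) ^ k := by rw [← hpk]; push_cast; rfl
    have hqB : (59 : ℤ) ≤ (q : ℤ) := by exact_mod_cast not_lt.mp hB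
    have hR : QI_4 (q : ℤ) = (3 : ℤ) + (q : ℤ) * ((-1)*(q : ℤ)^4 + (-1)*(q : ℤ)^8 + 1*(q : ℤ)^18 + 1*(q : ℤ)^22 + 1*(q : ℤ)^28) := by
      simp only [QI_4]; ring
    have hgo := cofree' hp hz hR (nd (c0 := 3) (by linarith) (by norm_num)).1 hQ
    have h1 : QI_4 (q : ℤ) ∣ 1818598443225984667593229602589289815558481510400000 := by
      have h2 := chainE (bI_4_1 _) (bI_4_2 _) (bI_4_3 _) (bI_4_4 _) (bI_4_5 _) (bI_4_6 _) (bI_4_7 _) (bI_4_8 _) (bI_4_9 _) (bI_4_10 _) (bI_4_12 _) (bI_4_14 _) (bI_4_15 _) (bI_4_18 _) (bI_4_20 _) (bI_4_24 _) (bI_4_30 _) hgo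
      have e2 : ((((((((((((((((((((3 : ℤ)) * 4^8) * 2^8) * 1^4) * 6^4) * 11^2) * 5^4) * 547^1) * 82^2) * 127^1) * 461^2) * 3^2) * 1093^1) * 10279^1) * 5149^1) * 4141^1) * 11113^1) * 155^1) * 1) = 1818598443225984667593229602589289815558481510400000 := by norm_num
      rwa [e2] at h2
    obtain ⟨s, rfl⟩ : ∃ s, q = s + 59 := ⟨q - 59, by omega⟩
    have hbig := bigI_4 (s : ℤ) (Int.natCast_nonneg s)
    have e3 : ((s + 59 : ℕ) : ℤ) = (s : ℤ) + 59 := by push_cast; ring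
    rw [e3] at h1
    have hle := Int.le_of_dvd (by norm_num) h1
    linarith

end sI_4

end ArAux8

end Cfsg.Agent.Lib.MinE8
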