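import Mathlib

/-! Pure combinatorics for a table (generic port of `Lib/MinE6/{Pure,PureCount}.lean`): an invariant function on `F^P` is
supported on the orbits of the rank one vectors. -/

set_option autoImplicit false
set_option linter.unusedSectionVars false
set_option linter.unusedVariables false

namespace Cfsg.Agent.Lib.MinE8.GP

open scoped Classical

/-- One pass comparison of a list with a function. -/
def chkL (code : ℕ → ℕ) (N : ℕ) : List ℕ → ℕ → Bool
  | [], i => Nat.beq i N
  | x :: xs, i => Nat.beq x (code i) && chkL code N xs (i + 1)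

theorem chkL_aux (code : ℕ → ℕ) (N : ℕ) : ∀ (l : List ℕ) (i : ℕ), chkL code N l i = true →
    l.length + i = N ∧ ∀ j, j < l.length → l[j]? = some (code (i + j))
  | [], i, h => by
    have h1 : Nat.beq i N = true := h
    have h2 := Nat.eq_of_beq_eq_true h1
    exact ⟨by simpa using h2, fun j hj => absurd hj (by simp)⟩
  | x :: xs, i, h => by
    have h1 : (Nat.beq x (code i) && chkL code N xs (i + 1)) = true := h
    rw [Bool.and_eq_true] at h1
    have hx := Nat.eq_of_beq_eq_true h1.1
    obtain ⟨h2, h3⟩ := chkL_aux code N xs (i + 1) h1.2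
    refine ⟨by simp only [List.length_cons]; omega, fun j hj => ?_⟩
    cases j with
    | zero => simpa using hx
    | succ j =>
      have h4 := h3 j (by simpa using hj)
      simp only [List.getElem?_cons_succ]
      rw [h4]
      congr 2
      omega

theorem chkL_spec (code : ℕ → ℕ) (N : ℕ) (a : Array ℕ) (h : chkL code N a.toList 0 = true) (d j : ℕ) (hj : j < N) :
    a.getD j d = code j := by
  obtain ⟨h1, h2⟩ := chkL_aux code N a.toList 0 h
  have h3 : j < a.toList.length := by omega
  have h4 := h2 j h3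
  rw [zero_add, Array.getElem?_toList] at h4
  rw [Array.getD_eq_getD_getElem?, h4]
  rfl

variable {F : Type*} [Field F] {P R : Type} [Fintype P] [DecidableEq P] [Fintype R] [DecidableEq R]

/-- The action of a root element on weights. -/
def actG (hs : R → P → Bool) (mv : R → P → P) (sg : R → P → F) (r : R) (t : F) (c : P → F) : P → F :=
  fun T => if hs r T then c T + sg r T * t * c (mv r T) else c T

/-- The finite facts on the tables. `mv (ng r) S` is the neighbour of `S` along `r`. -/
structure Tb (hs : R → P → Bool) (mv : R → P → P) (pw : R → P → ℤ) (ng : R → R) (wd : P → P → ℕ) (pos : R → Bool)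
    (rk : P → ℕ) (d e : ℕ) : Prop where
  hs_mv : ∀ r T, hs r T = true → hs r (mv r T) = false
  mv_nb : ∀ S r, hs (ng r) S = true → mv r (mv (ng r) S) = S
  nb_crit : ∀ S r r', hs (ng r) S = true → hs (ng r') S = true → (hs r' (mv (ng r) S) = true ↔ r' = r)
  not_up : ∀ S r, hs (ng r) S = true → hs r S = false
  side_not : ∀ S r, pw r S = 0 → hs r S = false
  wd_same : ∀ S X r, hs r X = true → pw r S = 0 → wd S (mv r X) = wd S X
  wd_nb : ∀ S r, hs (ng r) S = true → wd S (mv (ng r) S) = 2
  w2 : ∀ S X, wd S X = 2 → ∃ r, hs (ng r) S = true ∧ X = mv (ng r) S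
  wd_cases : ∀ S T, T ≠ S → wd S T = 0 ∨ wd S T = 1 ∨ wd S T = 2
  exists_up : ∀ S, ∃ r, hs (ng r) S = true
  zero_side : ∀ S T r, wd S T = 0 → hs (ng r) T = true → hs r S = true
  opp_S : ∀ S r, hs r S = true → wd S (mv r S) = 2
  opp_X : ∀ S X r, hs r S = true → wd S X = 2 → hs r X = true → wd S (mv r X) = 1
  opp_T : ∀ S T r, wd S T = 0 → hs (ng r) T = true → wd S (mv (ng r) T) = 1
  pw_one : ∀ S r, hs (ng r) S = true → pw r S = 1
  rk_lt : ∀ r T, pos r = true → hs r T = true → rk T < rk (mv r T)
  rk_nb : ∀ S r, hs (ng r) S = true → pos r = false → rk S < rk (mv (ng r) S)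
  rk_inj : ∀ T T', rk T = rk T' → T = T'
  card_up : ∀ S, (Finset.univ.filter fun r => hs (ng r) S = true).card = d
  card_side : ∀ S T, wd S T = 1 → (Finset.univ.filter fun r => hs (ng r) T = true ∧ pw r S = 0).card = e

/-- The invariance. -/
structure InvG (hs : R → P → Bool) (mv : R → P → P) (pw : R → P → ℤ) (sg : R → P → F) (n : (P → F) → ℕ) : Prop where
  A : ∀ r (t : F) c, n c = n (actG hs mv sg r t c)
  torus : ∀ r (s : Fˣ) c, n c = n (fun T => c T * ((s ^ pw r T : Fˣ) : F))

variable {hs : R → P → Bool} {mv : R → P → P} {pw : R → P → ℤ} {ng : R → R} {wd : P → P → ℕ} {pos : R → Bool}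
  {rk : P → ℕ} {d e : ℕ} {sg : R → P → F} {n : (P → F) → ℕ}

lemma act_no {r : R} {T : P} (h : hs r T = false) (t : F) (c : P → F) : actG hs mv sg r t c T = c T := by
  unfold actG
  rw [h]
  simp

lemma act_yes {r : R} {T : P} (h : hs r T = true) (t : F) (c : P → F) :
    actG hs mv sg r t c T = c T + sg r T * t * c (mv r T) := by
  unfold actG
  rw [h]
  simp

lemma act_act (H : Tb hs mv pw ng wd pos rk d e) (r : R) (t : F) (c : P → F) :
    actG hs mv sg r (-t) (actG hs mv sg r t c) = c := by
  funext T
  cases h : hs r T with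
  | false => rw [act_no h, act_no h]
  | true =>
    rw [act_yes h, act_yes h, act_no (H.hs_mv r T h)]
    ring

/-- The product of the root elements in the order of the list. -/
def psi (hs : R → P → Bool) (mv : R → P → P) (sg : R → P → F) (l : List R) (u : R → F) (c : P → F) : P → F :=
  l.foldr (fun p d => actG hs mv sg p (u p) d) c

lemma psi_cons (l : List R) (p : R) (u : R → F) (c : P → F) :
    psi hs mv sg (p :: l) u c = actG hs mv sg p (u p) (psi hs mv sg l u c) := rfl

lemma psi_S {S : P} {l : List R} (hl : ∀ p ∈ l, hs p S = false) (u : R → F) (c : P → F) :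
    psi hs mv sg l u c S = c S := by
  induction l with
  | nil => rfl
  | cons p l ih =>
    rw [psi_cons, act_no (hl p List.mem_cons_self), ih (fun q hq => hl q (List.mem_cons_of_mem _ hq))]

lemma psi_nb (H : Tb hs mv pw ng wd pos rk d e) {S : P} {l : List R} (hn : l.Nodup) (hl : ∀ p ∈ l, hs (ng p) S = true)
    (u : R → F) (c : P → F) {r : R} (hr : hs (ng r) S = true) :
    psi hs mv sg l u c (mv (ng r) S) = c (mv (ng r) S) + (if r ∈ l then sg r (mv (ng r) S) * u r * c S else 0) := by
  induction l with
  | nil => simp [psi]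
  | cons p l ih =>
    have hl' := fun q hq => hl q (List.mem_cons_of_mem _ hq)
    have hp := hl p List.mem_cons_self
    rw [List.nodup_cons] at hn
    rw [psi_cons]
    by_cases h : p = r
    · subst h
      have hcr := (H.nb_crit S p p hr hr).2 rfl
      rw [act_yes hcr, H.mv_nb S p hr, ih hn.2 hl', psi_S (fun q hq => H.not_up S q (hl' q hq)), if_neg hn.1,
        if_pos List.mem_cons_self]
      ring
    · have hcr : hs p (mv (ng r) S) = false := by
        cases h2 : hs p (mv (ng r) S) with
        | false => rfl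
        | true => exact absurd ((H.nb_crit S r p hr hp).1 h2) h
      rw [act_no hcr, ih hn.2 hl']
      congr 1
      have : r ∈ p :: l ↔ r ∈ l := by
        rw [List.mem_cons]
        constructor
        · rintro (h' | h')
          · exact absurd h'.symm h
          · exact h'
        · exact Or.inr
      simp only [this]

lemma sg_ne (hsg : ∀ r T, sg r T = 1 ∨ sg r T = -1) (r : R) (T : P) : sg r T ≠ 0 := by
  rcases hsg r T with h | h <;> rw [h] <;> simp

/-- The coordinates next to `S` vanish. -/
def InvS (wd : P → P → ℕ) (S : P) (c : P → F) : Prop := ∀ X, wd S X = 2 → c X = 0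

lemma normal_form (H : Tb hs mv pw ng wd pos rk d e) (hsg : ∀ r T, sg r T = 1 ∨ sg r T = -1) {S : P} {l : List R}
    (hn : l.Nodup) (hl : ∀ p, p ∈ l ↔ hs (ng p) S = true) {c : P → F} (hc : c S ≠ 0) :
    ∃ u, InvS wd S (psi hs mv sg l u c) := by
  refine ⟨fun p => - c (mv (ng p) S) / (sg p (mv (ng p) S) * c S), ?_⟩
  intro X hX
  obtain ⟨r, hr, rfl⟩ := H.w2 S X hX
  rw [psi_nb H hn (fun p hp => (hl p).1 hp) _ _ hr, if_pos ((hl _).2 hr)]
  have h0 : sg r (mv (ng r) S) ≠ 0 := sg_ne hsg _ _
  field_simp
  ring

lemma n_psi (hI : InvG hs mv pw sg n) (l : List R) (u : R → F) (c : P → F) : n (psi hs mv sg l u c) = n c := by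
  induction l with
  | nil => rfl
  | cons p l ih =>
    rw [psi_cons, ← hI.A, ih]

lemma psi_rev (H : Tb hs mv pw ng wd pos rk d e) (l : List R) (u : R → F) (c : P → F) :
    psi hs mv sg l (fun p => - u p) (psi hs mv sg l.reverse u c) = c := by
  induction l generalizing c with
  | nil => rfl
  | cons p l ih =>
    have h1 : psi hs mv sg (p :: l).reverse u c = psi hs mv sg l.reverse u (actG hs mv sg p (u p) c) := by
      simp [psi, List.foldr_append]
    rw [h1, psi_cons, ih]
    exact act_act H _ _ _

lemma psi_rev' (H : Tb hs mv pw ng wd pos rk d e) (l : List R) (u : R → F) (c : P → F) :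
    psi hs mv sg l.reverse (fun p => - u p) (psi hs mv sg l u c) = c := by
  have := psi_rev (sg := sg) H l.reverse u c
  simpa using this

lemma psi_inj (H : Tb hs mv pw ng wd pos rk d e) (l : List R) (u : R → F) : Function.Injective (psi hs mv sg l u) := by
  intro c d' h
  rw [← psi_rev' (sg := sg) H l u c, h, psi_rev' H]

lemma psi_congr {l : List R} {u v : R → F} (h : ∀ p ∈ l, u p = v p) (c : P → F) :
    psi hs mv sg l u c = psi hs mv sg l v c := by
  induction l with
  | nil => rfl
  | cons p l ih =>
    rw [psi_cons, psi_cons, h p List.mem_cons_self, ih (fun q hq => h q (List.mem_cons_of_mem _ hq))]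

lemma psi_same (H : Tb hs mv pw ng wd pos rk d e) {S : P} {l : List R} (hl : ∀ p ∈ l, pw p S = 0) (u : R → F) {c : P → F}
    (h : InvS wd S c) : InvS wd S (psi hs mv sg l u c) := by
  induction l with
  | nil => exact h
  | cons p l ih =>
    intro X hX
    have ih' := ih (fun q hq => hl q (List.mem_cons_of_mem _ hq))
    have hp := hl p List.mem_cons_self
    rw [psi_cons]
    cases hh : hs p X with
    | true =>
      rw [act_yes hh, ih' X hX, ih' (mv p X) (by rw [H.wd_same S X p hh hp, hX])]
      ring
    | false => rw [act_no hh, ih' X hX]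

/-- Extension by zero. -/
def ext (L : Finset R) (v : {p // p ∈ L} → F) : R → F := fun p => if h : p ∈ L then v ⟨p, h⟩ else 0

lemma ext_mem {L : Finset R} (v : {p // p ∈ L} → F) {p : R} (h : p ∈ L) : ext L v p = v ⟨p, h⟩ := by
  unfold ext
  rw [dif_pos h]

section

variable [Fintype F]

lemma count_ge {α : Type*} [Fintype α] (G : α → (P → F)) (hinj : Function.Injective G) (Q : (P → F) → Prop)
    [DecidablePred Q] (hQ : ∀ a, Q (G a) ∧ 0 < n (G a)) : Fintype.card α ≤ ∑ c : P → F, (if Q c then n c else 0) := by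
  calc Fintype.card α = ∑ _a : α, 1 := by simp
    _ ≤ ∑ a : α, (if Q (G a) then n (G a) else 0) := by
        apply Finset.sum_le_sum
        intro a _
        rw [if_pos (hQ a).1]
        exact (hQ a).2
    _ = ∑ c ∈ Finset.univ.image G, (if Q c then n c else 0) := by
        rw [Finset.sum_image (fun x _ y _ h => hinj h)]
    _ ≤ _ := by
        apply Finset.sum_le_sum_of_subset
        exact Finset.subset_univ _

lemma sum_param {α : Type*} [Fintype α] (G : α → (P → F)) (hinj : Function.Injective G) (Q : (P → F) → Prop)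
    [DecidablePred Q] (hQ : ∀ a, Q (G a)) (hS : ∀ c, Q c → 0 < n c → ∃ a, G a = c) :
    ∑ c : P → F, (if Q c then n c else 0) = ∑ a : α, n (G a) := by
  calc ∑ c : P → F, (if Q c then n c else 0) = ∑ c ∈ Finset.univ.image G, (if Q c then n c else 0) := by
        symm
        apply Finset.sum_subset (Finset.subset_univ _)
        intro c _ hc
        by_cases h : Q c
        · rw [if_pos h]
          by_contra h0
          obtain ⟨a, ha⟩ := hS c h (Nat.pos_of_ne_zero h0)
          exact hc (Finset.mem_image.mpr ⟨a, Finset.mem_univ _, ha⟩)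
        · rw [if_neg h]
    _ = ∑ a : α, (if Q (G a) then n (G a) else 0) := by
        rw [Finset.sum_image (fun x _ y _ h => hinj h)]
    _ = _ := by
        apply Finset.sum_congr rfl
        intro a _
        rw [if_pos (hQ a)]

/-- The moves of `S`. -/
def upF (hs : R → P → Bool) (ng : R → R) (S : P) : Finset R := Finset.univ.filter fun r => hs (ng r) S = true

/-- The moves of `T` which are trivial at `S`. -/
def sideF (hs : R → P → Bool) (pw : R → P → ℤ) (ng : R → R) (S T : P) : Finset R :=
  Finset.univ.filter fun r => hs (ng r) T = true ∧ pw r S = 0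

lemma mem_up {S : P} {r : R} : r ∈ upF hs ng S ↔ hs (ng r) S = true := by
  simp [upF]

lemma mem_side {S T : P} {r : R} : r ∈ sideF hs pw ng S T ↔ (hs (ng r) T = true ∧ pw r S = 0) := by
  simp [sideF]

lemma card_q (L : Finset R) : Fintype.card ({p // p ∈ L} → F) = Fintype.card F ^ L.card := by
  rw [Fintype.card_fun, Fintype.card_coe]

lemma two_le_q : 2 ≤ Fintype.card F := Fintype.one_lt_card

lemma key_w1 (H : Tb hs mv pw ng wd pos rk d e) (hsg : ∀ r T, sg r T = 1 ∨ sg r T = -1) (hI : InvG hs mv pw sg n)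
    (hB : ∀ S, ∑ c : P → F, (if c S ≠ 0 then n c else 0) < Fintype.card F ^ d * Fintype.card F ^ e)
    {S T : P} {c : P → F} (hS : c S ≠ 0) (hinv : InvS wd S c) (hT : wd S T = 1) (hcT : c T ≠ 0) (hpos : 0 < n c) :
    False := by
  have hl9 : ∀ p ∈ (upF hs ng S).toList, hs (ng p) S = true := fun p hp => mem_up.mp (Finset.mem_toList.mp hp)
  have hl4 : ∀ p ∈ (sideF hs pw ng S T).toList, hs (ng p) T = true ∧ pw p S = 0 := fun p hp =>
    mem_side.mp (Finset.mem_toList.mp hp)
  have hnd9 := Finset.nodup_toList (upF hs ng S)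
  have hnd4 := Finset.nodup_toList (sideF hs pw ng S T)
  let D : ({p // p ∈ sideF hs pw ng S T} → F) → (P → F) := fun t => psi hs mv sg (sideF hs pw ng S T).toList (ext _ t) c
  let G : ({p // p ∈ upF hs ng S} → F) × ({p // p ∈ sideF hs pw ng S T} → F) → (P → F) :=
    fun x => psi hs mv sg (upF hs ng S).toList (ext _ x.1) (D x.2)
  have hDS : ∀ t, D t S = c S := fun t => psi_S (fun p hp => H.side_not S p (hl4 p hp).2) _ _
  have hDinv : ∀ t, InvS wd S (D t) := fun t => psi_same H (fun p hp => (hl4 p hp).2) _ hinv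
  have hGS : ∀ x, G x S = c S := fun x => by
    change psi hs mv sg (upF hs ng S).toList (ext _ x.1) (D x.2) S = c S
    rw [psi_S (fun p hp => H.not_up S p (hl9 p hp)), hDS]
  have hGn : ∀ x, n (G x) = n c := fun x => by
    change n (psi hs mv sg (upF hs ng S).toList (ext _ x.1) (D x.2)) = n c
    rw [n_psi hI, n_psi hI]
  have hinj : Function.Injective G := by
    rintro ⟨u, t⟩ ⟨u', t'⟩ h
    have hu : u = u' := by
      funext ⟨p, hp⟩
      have hp' := mem_up.mp hp
      have hpl : p ∈ (upF hs ng S).toList := Finset.mem_toList.mpr hp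
      have e := congrFun h (mv (ng p) S)
      simp only [G] at e
      rw [psi_nb H hnd9 hl9 _ _ hp', psi_nb H hnd9 hl9 _ _ hp', if_pos hpl, if_pos hpl,
        hDinv t _ (H.wd_nb S p hp'), hDinv t' _ (H.wd_nb S p hp'), hDS, hDS, zero_add, zero_add] at e
      have h0 := sg_ne hsg p (mv (ng p) S)
      have e2 : ext (upF hs ng S) u p = ext (upF hs ng S) u' p := by
        exact mul_left_cancel₀ h0 (mul_right_cancel₀ hS e)
      rwa [ext_mem u hp, ext_mem u' hp] at e2
    subst hu
    have hD : D t = D t' := psi_inj H _ _ h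
    have ht : t = t' := by
      funext ⟨p, hp⟩
      have hp' := mem_side.mp hp
      have hpl : p ∈ (sideF hs pw ng S T).toList := Finset.mem_toList.mpr hp
      have e := congrFun hD (mv (ng p) T)
      simp only [D] at e
      have hl4' : ∀ p ∈ (sideF hs pw ng S T).toList, hs (ng p) T = true := fun p hp => (hl4 p hp).1
      rw [psi_nb H hnd4 hl4' _ _ hp'.1, psi_nb H hnd4 hl4' _ _ hp'.1, if_pos hpl, if_pos hpl] at e
      have e' := add_left_cancel e
      have h0 := sg_ne hsg p (mv (ng p) T)
      have e2 : ext (sideF hs pw ng S T) t p = ext (sideF hs pw ng S T) t' p := by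
        exact mul_left_cancel₀ h0 (mul_right_cancel₀ hcT e')
      rwa [ext_mem t hp, ext_mem t' hp] at e2
    rw [ht]
  have hle : Fintype.card (({p // p ∈ upF hs ng S} → F) × ({p // p ∈ sideF hs pw ng S T} → F)) ≤
      ∑ c : P → F, (if c S ≠ 0 then n c else 0) := count_ge (n := n) G hinj (fun d => d S ≠ 0) (fun x => ⟨by
    show G x S ≠ 0
    rw [hGS]; exact hS, by rw [hGn]; exact hpos⟩)
  rw [Fintype.card_prod, card_q, card_q] at hle
  have h1 : (upF hs ng S).card = d := H.card_up S
  have h2 : (sideF hs pw ng S T).card = e := H.card_side S T hT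
  rw [h1, h2] at hle
  exact absurd (hB S) (not_lt.2 hle)

/-- A vector with a nonzero `S`-coordinate, and vanishing neighbours, is supported on `S`. -/
lemma key (H : Tb hs mv pw ng wd pos rk d e) (hsg : ∀ r T, sg r T = 1 ∨ sg r T = -1) (hI : InvG hs mv pw sg n)
    (hB : ∀ S, ∑ c : P → F, (if c S ≠ 0 then n c else 0) < Fintype.card F ^ d * Fintype.card F ^ e)
    {S : P} {c : P → F} (hS : c S ≠ 0) (hinv : InvS wd S c) (hpos : 0 < n c) : c = Pi.single S (c S) := by
  have hall : ∀ T, T ≠ S → c T = 0 := by
    intro T hTS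
    by_contra hcT
    rcases H.wd_cases S T hTS with h0 | h1 | h2
    · by_cases hX : ∃ X, wd S X = 1 ∧ c X ≠ 0
      · obtain ⟨X, hX1, hX2⟩ := hX
        exact key_w1 H hsg hI hB hS hinv hX1 hX2 hpos
      · push Not at hX
        obtain ⟨r, hr⟩ := H.exists_up T
        have hrS := H.zero_side S T r h0 hr
        let d' := actG hs mv sg r 1 c
        have hdS : d' S ≠ 0 := by
          have : d' S = c S := by
            simp only [d']
            rw [act_yes hrS, hinv _ (H.opp_S S r hrS)]
            ring
          rw [this]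
          exact hS
        have hdinv : InvS wd S d' := by
          intro X hX2
          simp only [d']
          cases hh : hs r X with
          | true =>
            rw [act_yes hh, hinv X hX2, hX _ (H.opp_X S X r hrS hX2 hh)]
            ring
          | false => rw [act_no hh, hinv X hX2]
        have hdT : d' (mv (ng r) T) ≠ 0 := by
          have hcr := (H.nb_crit T r r hr hr).2 rfl
          simp only [d']
          rw [act_yes hcr, H.mv_nb T r hr, hX _ (H.opp_T S T r h0 hr), zero_add]
          exact mul_ne_zero (mul_ne_zero (sg_ne hsg _ _) one_ne_zero) hcT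
        have hdn : 0 < n d' := by
          have : n c = n d' := hI.A r 1 c
          rw [← this]
          exact hpos
        exact key_w1 H hsg hI hB hdS hdinv (H.opp_T S T r h0 hr) hdT hdn
    · exact key_w1 H hsg hI hB hS hinv h1 hcT hpos
    · exact hcT (hinv T h2)
  funext T
  by_cases h : T = S
  · subst h
    simp
  · rw [hall T h, Pi.single_eq_of_ne h]

/-- The support of `n`. -/
lemma support (H : Tb hs mv pw ng wd pos rk d e) (hsg : ∀ r T, sg r T = 1 ∨ sg r T = -1) (hI : InvG hs mv pw sg n)
    (hB : ∀ S, ∑ c : P → F, (if c S ≠ 0 then n c else 0) < Fintype.card F ^ d * Fintype.card F ^ e)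
    {S : P} {l : List R} (hn : l.Nodup) (hl : ∀ p, p ∈ l ↔ hs (ng p) S = true) {c : P → F} (hS : c S ≠ 0)
    (hpos : 0 < n c) : ∃ u, c = psi hs mv sg l u (Pi.single S (c S)) := by
  have hlr : ∀ p, p ∈ l.reverse ↔ hs (ng p) S = true := fun p => by rw [List.mem_reverse]; exact hl p
  obtain ⟨u, hu⟩ := normal_form H hsg (List.nodup_reverse.mpr hn) hlr hS
  have hdS : psi hs mv sg l.reverse u c S = c S := psi_S (fun p hp => H.not_up S p ((hlr p).1 hp)) _ _
  have h1 := key H hsg hI hB (c := psi hs mv sg l.reverse u c) (by rw [hdS]; exact hS) hu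
    (by rw [n_psi hI]; exact hpos)
  rw [hdS] at h1
  refine ⟨fun p => - u p, ?_⟩
  rw [← h1]
  exact (psi_rev H l u c).symm

lemma n_single (H : Tb hs mv pw ng wd pos rk d e) (hI : InvG hs mv pw sg n) (S : P) {a : F} (ha : a ≠ 0) :
    n (Pi.single S a) = n (Pi.single S 1) := by
  obtain ⟨r, hr⟩ := H.exists_up S
  rw [hI.torus r (Units.mk0 a ha) (Pi.single S 1)]
  congr 1
  funext T
  by_cases h : T = S
  · subst h
    simp [H.pw_one T r hr]
  · simp [Pi.single_eq_of_ne h]

lemma card_ne : Fintype.card {a : F // a ≠ 0} = Fintype.card F - 1 := by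
  rw [Fintype.card_subtype_compl]
  simp

/-- The value on rank one vectors, from the count. -/
lemma n_single_eq (H : Tb hs mv pw ng wd pos rk d e) (hsg : ∀ r T, sg r T = 1 ∨ sg r T = -1) (hI : InvG hs mv pw sg n)
    (hB : ∀ S, ∑ c : P → F, (if c S ≠ 0 then n c else 0) < Fintype.card F ^ d * Fintype.card F ^ e) {m : ℕ}
    (hE : ∀ T : P, ∑ c : P → F, (if c T ≠ 0 then n c else 0) = (Fintype.card F - 1) * Fintype.card F ^ d * m)
    (S : P) {a : F} (ha : a ≠ 0) : n (Pi.single S a) = m := by
  have hl9 : ∀ p ∈ (upF hs ng S).toList, hs (ng p) S = true := fun p hp => mem_up.mp (Finset.mem_toList.mp hp)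
  have hnd9 := Finset.nodup_toList (upF hs ng S)
  let G : {a : F // a ≠ 0} × ({p // p ∈ upF hs ng S} → F) → (P → F) :=
    fun x => psi hs mv sg (upF hs ng S).toList (ext _ x.2) (Pi.single S x.1.1)
  have hGS : ∀ x, G x S = x.1.1 := fun x => by
    change psi hs mv sg (upF hs ng S).toList (ext _ x.2) (Pi.single S x.1.1) S = _
    rw [psi_S (fun p hp => H.not_up S p (hl9 p hp))]
    simp
  have hinj : Function.Injective G := by
    rintro ⟨⟨a, ha⟩, u⟩ ⟨⟨a', ha'⟩, u'⟩ h
    have e0 : a = a' := by
      have := congrArg (fun f => f S) h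
      simpa only [hGS] using this
    subst e0
    have hu : u = u' := by
      funext ⟨p, hp⟩
      have hp' := mem_up.mp hp
      have hpl : p ∈ (upF hs ng S).toList := Finset.mem_toList.mpr hp
      have e := congrFun h (mv (ng p) S)
      simp only [G] at e
      rw [psi_nb H hnd9 hl9 _ _ hp', psi_nb H hnd9 hl9 _ _ hp', if_pos hpl, if_pos hpl] at e
      have e' := add_left_cancel e
      simp only [Pi.single_eq_same] at e'
      have h0 := sg_ne hsg p (mv (ng p) S)
      have e2 : ext (upF hs ng S) u p = ext (upF hs ng S) u' p := by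
        exact mul_left_cancel₀ h0 (mul_right_cancel₀ ha e')
      rwa [ext_mem u hp, ext_mem u' hp] at e2
    rw [hu]
  have hlm : ∀ p, p ∈ (upF hs ng S).toList ↔ hs (ng p) S = true := fun p => by
    rw [Finset.mem_toList, mem_up]
  have hsum : ∑ c : P → F, (if c S ≠ 0 then n c else 0) = _ := sum_param (n := n) G hinj (fun d => d S ≠ 0) (fun x => by
      show G x S ≠ 0
      rw [hGS]
      exact x.1.2)
    (fun c hc hp => by
      obtain ⟨u, hu⟩ := support H hsg hI hB hnd9 hlm hc hp
      refine ⟨(⟨c S, hc⟩, fun p => u p.1), ?_⟩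
      simp only [G]
      rw [psi_congr (v := u) (fun p hp => ext_mem _ (Finset.mem_toList.mp hp))]
      exact hu.symm)
  have hGn : ∀ x, n (G x) = n (Pi.single S 1) := fun x => by
    change n (psi hs mv sg (upF hs ng S).toList (ext _ x.2) (Pi.single S x.1.1)) = _
    rw [n_psi hI, n_single H hI S x.1.2]
  rw [hE S] at hsum
  simp only [hGn, Finset.sum_const, Finset.card_univ, smul_eq_mul] at hsum
  have hu : (upF hs ng S).card = d := H.card_up S
  rw [Fintype.card_prod, card_ne, card_q, hu] at hsum
  have hq := two_le_q (F := F)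
  have h9 : 0 < (Fintype.card F - 1) * Fintype.card F ^ d := by
    apply Nat.mul_pos
    · omega
    · positivity
  rw [n_single H hI S ha]
  exact (Nat.eq_of_mul_eq_mul_left h9 hsum).symm

end

/-! ### The count -/

/-- The orbit map. -/
noncomputable def orbG (hs : R → P → Bool) (mv : R → P → P) (ng : R → R) (sg : R → P → F) (S : P) (t : R → F) (a : F) : P → F :=
  psi hs mv sg (Finset.univ.filter fun r => hs (ng r) S = true).toList t (Pi.single S a)

/-- `S` is the top coordinate of `c`. -/
def IsTopG (rk : P → ℕ) (c : P → F) (S : P) : Prop := c S ≠ 0 ∧ ∀ T, c T ≠ 0 → rk T ≤ rk S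

lemma exists_unique_top (H : Tb hs mv pw ng wd pos rk d e) {c : P → F} (hc : c ≠ 0) : ∃! S, IsTopG rk c S := by
  obtain ⟨T0, hT0⟩ : ∃ T, c T ≠ 0 := by
    by_contra h
    push Not at h
    exact hc (funext h)
  obtain ⟨S, hS, hmax⟩ := Finset.exists_max_image (Finset.univ.filter fun T => c T ≠ 0) rk ⟨T0, by simp [hT0]⟩
  refine ⟨S, ⟨(Finset.mem_filter.1 hS).2, fun T hT => hmax T (by simp [hT])⟩, ?_⟩
  rintro S' ⟨h1, h2⟩
  apply H.rk_inj
  exact le_antisymm (hmax S' (by simp [h1])) (h2 S (Finset.mem_filter.1 hS).2)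

/-- The moves of the lower neighbours. -/
abbrev PPG (hs : R → P → Bool) (ng : R → R) (pos : R → Bool) (S : P) := {r : R // hs (ng r) S = true ∧ pos r = true}

/-- The number of the lower neighbours. -/
def ellG (hs : R → P → Bool) (ng : R → R) (pos : R → Bool) (S : P) : ℕ :=
  (Finset.univ.filter fun r => hs (ng r) S = true ∧ pos r = true).card

lemma card_PPG (S : P) : Fintype.card (PPG hs ng pos S) = ellG hs ng pos S := by
  unfold ellG
  apply Fintype.card_of_subtype
  simp

/-- The extension by zero. -/
noncomputable def extG (hs : R → P → Bool) (ng : R → R) (pos : R → Bool) (S : P) (t : PPG hs ng pos S → F) : R → F :=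
  fun r => if h : hs (ng r) S = true ∧ pos r = true then t ⟨r, h⟩ else 0

lemma orb_self (H : Tb hs mv pw ng wd pos rk d e) (S : P) (t : R → F) (a : F) : orbG hs mv ng sg S t a S = a := by
  unfold orbG
  rw [psi_S (fun p hp => H.not_up S p (by simpa using Finset.mem_toList.mp hp))]
  simp

lemma orb_nb (H : Tb hs mv pw ng wd pos rk d e) (S : P) (t : R → F) (a : F) {r : R} (hr : hs (ng r) S = true) :
    orbG hs mv ng sg S t a (mv (ng r) S) = sg r (mv (ng r) S) * t r * a := by
  unfold orbG
  have hne : mv (ng r) S ≠ S := by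
    intro h
    have h1 := H.wd_nb S r hr
    have h2 := (H.nb_crit S r r hr hr).2 rfl
    rw [h] at h2
    rw [H.not_up S r hr] at h2
    exact absurd h2 (by simp)
  rw [psi_nb H (Finset.nodup_toList _) (fun p hp => by simpa using Finset.mem_toList.mp hp) _ _ hr,
    if_pos (Finset.mem_toList.mpr (by simpa using hr))]
  simp [hne]

lemma fold_top (H : Tb hs mv pw ng wd pos rk d e) {S : P} (t : R → F) (a : F) (L : List R)
    (ht : ∀ p ∈ L, t p ≠ 0 → pos p = true) :
    ∀ T, psi hs mv sg L t (Pi.single S a) T ≠ 0 → rk T ≤ rk S := by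
  induction L with
  | nil =>
    intro T hT
    simp only [psi, List.foldr_nil] at hT
    by_cases h : T = S
    · rw [h]
    · exact absurd (by simp [h]) hT
  | cons p L ih =>
    have ih' := ih (fun q hq => ht q (List.mem_cons_of_mem _ hq))
    intro T hT
    rw [psi_cons] at hT
    cases h : hs p T with
    | false =>
      rw [act_no h] at hT
      exact ih' _ hT
    | true =>
      rw [act_yes h] at hT
      by_cases h0 : psi hs mv sg L t (Pi.single S a) T = 0
      · rw [h0, zero_add] at hT
        have h1 : t p ≠ 0 := by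
          intro h'
          rw [h'] at hT
          simp at hT
        have h2 := ht p List.mem_cons_self h1
        have h3 : psi hs mv sg L t (Pi.single S a) (mv p T) ≠ 0 := by
          intro h'
          rw [h'] at hT
          simp at hT
        exact (H.rk_lt p T h2 h).le.trans (ih' _ h3)
      · exact ih' _ h0

/-- The count of the lower product. -/
lemma sum_top [Fintype F] (H : Tb hs mv pw ng wd pos rk d e) (hsg : ∀ r T, sg r T = 1 ∨ sg r T = -1)
    (hI : InvG hs mv pw sg n) {m : ℕ} (h1 : ∀ (S : P) (a : F), a ≠ 0 → n (Pi.single S a) = m)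
    (h3 : ∀ (S : P) (c : P → F), c S ≠ 0 → 0 < n c → ∃ t, c = orbG hs mv ng sg S t (c S)) (S : P) :
    ∑ c : P → F, (if IsTopG rk c S then n c else 0) = m * ((Fintype.card F - 1) * Fintype.card F ^ ellG hs ng pos S) := by
  have hsg0 : ∀ r T, sg r T ≠ 0 := sg_ne hsg
  let ψ : Fˣ × (PPG hs ng pos S → F) → (P → F) := fun d => orbG hs mv ng sg S (extG hs ng pos S d.2) (d.1 : F)
  have hinj : Function.Injective ψ := by
    rintro ⟨a, t⟩ ⟨a', t'⟩ h
    have h0 : (a : F) = a' := by
      have := congrFun h S
      simpa [ψ, orb_self H] using this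
    have ha : a = a' := Units.ext h0
    subst ha
    refine Prod.ext rfl (funext ?_)
    rintro ⟨r, hp⟩
    have := congrFun h (mv (ng r) S)
    simp only [ψ] at this
    rw [orb_nb H _ _ _ hp.1, orb_nb H _ _ _ hp.1] at this
    have h3' := mul_right_cancel₀ a.ne_zero this
    have h4 := mul_left_cancel₀ (hsg0 _ _) h3'
    simpa [extG, hp] using h4
  have htop : ∀ d, IsTopG rk (ψ d) S := by
    rintro ⟨a, t⟩
    refine ⟨?_, ?_⟩
    · simp only [ψ, orb_self H]
      exact a.ne_zero
    · apply fold_top H
      intro p hp hne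
      by_contra hlt
      apply hne
      simp only [extG]
      rw [dif_neg]
      rintro ⟨-, h⟩
      exact hlt h
  have hval : ∀ d, n (ψ d) = m := by
    rintro ⟨a, t⟩
    simp only [ψ, orbG]
    rw [n_psi hI]
    exact h1 _ _ a.ne_zero
  have hsurj : ∀ c, IsTopG rk c S → 0 < n c → c ∈ Finset.univ.image ψ := by
    intro c hc hn
    obtain ⟨t, ht⟩ := h3 S c hc.1 hn
    refine Finset.mem_image.2 ⟨(Units.mk0 (c S) hc.1, fun p => t p.1), Finset.mem_univ _, ?_⟩
    simp only [ψ, Units.val_mk0]
    conv_rhs => rw [ht]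
    unfold orbG
    apply psi_congr
    intro p hp
    have hp' : hs (ng p) S = true := by simpa using Finset.mem_toList.mp hp
    unfold extG
    split_ifs with h
    · rfl
    · have hlt : pos p = false := by
        cases hq : pos p with
        | false => rfl
        | true => exact absurd ⟨hp', hq⟩ h
      have hrk := H.rk_nb S p hp' hlt
      have hz : c (mv (ng p) S) = 0 := by
        by_contra hne
        exact absurd (hc.2 _ hne) (not_le.2 hrk)
      have hcoord := orb_nb (sg := sg) H S t (c S) hp'
      have hz' : orbG hs mv ng sg S t (c S) (mv (ng p) S) = 0 := by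
        rw [← ht]
        exact hz
      rw [hcoord] at hz'
      have h5 := (mul_eq_zero.1 hz').resolve_right hc.1
      have h6 := (mul_eq_zero.1 h5).resolve_left (hsg0 _ _)
      exact h6.symm
  have e1 : ∑ c : P → F, (if IsTopG rk c S then n c else 0) = ∑ c ∈ Finset.univ.filter (fun c => IsTopG rk c S), n c := by
    rw [Finset.sum_filter]
  rw [e1]
  have hsub : Finset.univ.image ψ ⊆ Finset.univ.filter (fun c => IsTopG rk c S) := by
    intro c hc
    obtain ⟨d, -, rfl⟩ := Finset.mem_image.1 hc
    exact Finset.mem_filter.2 ⟨Finset.mem_univ _, htop d⟩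
  rw [← Finset.sum_subset hsub (fun c hc hnot => by
    by_contra hne
    exact hnot (hsurj c (Finset.mem_filter.1 hc).2 (Nat.pos_of_ne_zero hne)))]
  rw [Finset.sum_image (fun a _ b _ h => hinj h)]
  simp only [hval]
  rw [Finset.sum_const, Finset.card_univ, Fintype.card_prod, Fintype.card_units, Fintype.card_fun, card_PPG]
  simp only [smul_eq_mul]
  ring

/-- The count. -/
theorem pure_count [Fintype F] (H : Tb hs mv pw ng wd pos rk d e) (hsg : ∀ r T, sg r T = 1 ∨ sg r T = -1)
    (hI : InvG hs mv pw sg n) {m : ℕ} (h1 : ∀ (S : P) (a : F), a ≠ 0 → n (Pi.single S a) = m)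
    (hB : ∀ S, ∑ c : P → F, (if c S ≠ 0 then n c else 0) < Fintype.card F ^ d * Fintype.card F ^ e) :
    ∑ c : P → F, (if c ≠ 0 then n c else 0) =
      m * ((Fintype.card F - 1) * ∑ S : P, Fintype.card F ^ ellG hs ng pos S) := by
  have h3 : ∀ (S : P) (c : P → F), c S ≠ 0 → 0 < n c → ∃ t, c = orbG hs mv ng sg S t (c S) := by
    intro S c hc hp
    have hl : ∀ p, p ∈ (Finset.univ.filter fun r => hs (ng r) S = true).toList ↔ hs (ng p) S = true := by
      intro p
      simp
    exact support H hsg hI hB (Finset.nodup_toList _) hl hc hp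
  have e' : ∀ c : P → F, (if c ≠ 0 then n c else 0) = ∑ S : P, (if IsTopG rk c S then n c else 0) := by
    intro c
    by_cases hc : c = 0
    · subst hc
      simp [IsTopG]
    · rw [if_pos hc]
      obtain ⟨S, hS, huniq⟩ := exists_unique_top H hc
      rw [Finset.sum_eq_single S (fun T _ hT => if_neg (fun h => hT (huniq T h))) (fun h => absurd (Finset.mem_univ S) h), if_pos hS]
  simp_rw [e']
  rw [Finset.sum_comm]
  simp_rw [sum_top H hsg hI h1 h3]
  rw [← Finset.mul_sum, ← Finset.mul_sum]

end Cfsg.Agent.Lib.MinE8.GP
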