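import Cfsg.Agent.Lib.MinE8.Sys
import Cfsg.Agent.Lib.MinE8.InstD
import Cfsg.Agent.Lib.Lie.AxOf
import Cfsg.Agent.Lib.Chev.Mono1
import Cfsg.Agent.S1065

/-! The relations of `SysE8` in `chevE8.group F`. -/

set_option autoImplicit false
set_option maxRecDepth 100000
set_option linter.unusedSectionVars false
set_option linter.unusedVariables false
set_option linter.ambiguousOpen false
set_option linter.unusedSimpArgs false
set_option linter.unreachableTactic false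
set_option linter.style.haveILetI false
set_option linter.style.longLine false

namespace Cfsg.Agent.Lib.MinE8

open Cfsg Lie
open scoped Matrix MatrixGroups
open Cfsg.Agent.Lib.Chev
open Tables Tables2 AxBasic Torus Mono1

namespace InstAux

open InstD

variable {F : Type*} [Field F]

theorem hmemE8 : chevE8 ∈ [chevG2, chevB2, chevD4, chevF4, chevE6, chevE7, chevE8] := by simp

lemma x_eq_xMat8 (r : ℕ) (hr : r < chevE8.nroots) (t : F) : chevE8.x F r t = chevE8.xMat F ⟨r, hr⟩ t := by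
  simp [ChevalleyDatum.x, hr]

variable (ax : Ax chevE8 F)

lemma xG_mem' (r : ℕ) (t : F) : xG ax r t ∈ chevE8.group F := by
  by_cases hr : r < chevE8.nroots
  · exact Subgroup.subset_closure ⟨⟨r, hr⟩, t, by rw [xG_val]; exact x_eq_xMat8 r hr t⟩
  · have : xG ax r t = 1 := Units.ext (by simp [ChevalleyDatum.x, hr])
    rw [this]
    exact one_mem _

/-- The root elements in the group. -/
noncomputable def xE (r : ℕ) (t : F) : ↥(chevE8.group F) := ⟨xG ax r t, xG_mem' ax r t⟩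

lemma nG_mem' (r : ℕ) (t : F) : nG ax r t ∈ chevE8.group F :=
  mul_mem (mul_mem (xG_mem' ax _ _) (xG_mem' ax _ _)) (xG_mem' ax _ _)

lemma hG_mem' (r : ℕ) (t : F) : hG ax r t ∈ chevE8.group F :=
  mul_mem (nG_mem' ax _ _) (nG_mem' ax _ _)

theorem tabE8 : Tab chevE8 := tab_of_mem hmemE8
theorem tab2E8 : Tab2 chevE8 := tab2_of_mem hmemE8

lemma xE_add (r : ℕ) (a b : F) : xE ax r (a + b) = xE ax r a * xE ax r b :=
  Subtype.ext (xG_add ax r a b).symm

/-! ### Commutators -/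

/-- The sign of the commutator. -/
def sgnOf (c : ℤ) : ℤ := if c = -1 then 1 else -1

lemma sgnOf_of {c : ℤ} (h : c = 1 ∨ c = -1) : -c = sgnOf c := by
  rcases h with rfl | rfl <;> decide

lemma sgnOf_sign (c : ℤ) : ((sgnOf c : ℤ) : F) = 1 ∨ ((sgnOf c : ℤ) : F) = -1 := by
  unfold sgnOf
  split_ifs <;> simp

lemma comm_zero {r s : ℕ} (hr : r < 240) (hs : s < 240) (hrs : s ≠ r) (hn : s ≠ chevE8.neg r)
    (h : chevE8.commTerms r s = []) (u t : F) :
    xE ax s u * xE ax r t = xE ax r t * xE ax s u := by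
  apply Subtype.ext
  show xG ax s u * xG ax r t = xG ax r t * xG ax s u
  rw [xG_comm ax (r := r) (s := s) hr hs hrs hn t u]
  simp [ChevalleyDatum.commWord, h, wordG]

lemma comm_one {r s k : ℕ} {c : ℤ} (hr : r < 240) (hs : s < 240) (hrs : s ≠ r) (hn : s ≠ chevE8.neg r)
    (h : chevE8.commTerms r s = [(k, c, 1, 1)]) (hc : c = 1 ∨ c = -1) (u t : F) :
    xE ax s u * xE ax r t = xE ax r t * xE ax s u * xE ax k (((sgnOf c : ℤ) : F) * (t * u)) := by
  apply Subtype.ext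
  show xG ax s u * xG ax r t = xG ax r t * xG ax s u * xG ax k (((sgnOf c : ℤ) : F) * (t * u))
  rw [xG_comm ax (r := r) (s := s) hr hs hrs hn t u]
  simp only [ChevalleyDatum.commWord, h, wordG, List.map_cons, List.map_nil, List.prod_cons, List.prod_nil, mul_one]
  have e0 : ((c : ℤ) : F) * (-t) ^ 1 * u ^ 1 = ((sgnOf c : ℤ) : F) * (t * u) := by
    rw [← sgnOf_of hc]
    push_cast
    ring
  rw [e0]

lemma tt' (T : P8) (u w : F) : xE ax 239 u * xE ax (gam T) w = xE ax (gam T) w * xE ax 239 u := by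
  obtain ⟨h1, h2, h3, h4⟩ := tt_data T
  exact comm_zero ax h1 (by decide) h2 h3 h4 u w

lemma uu' (T T' : P8) (h : T' ≠ cmp T) (u w : F) :
    xE ax (gam T) u * xE ax (gam T') w = xE ax (gam T') w * xE ax (gam T) u := by
  by_cases hT : T = T'
  · subst hT
    rw [← xE_add, ← xE_add, add_comm]
  · obtain ⟨h1, h2, h3, h4, h5⟩ := uu_data T T' hT h
    exact comm_zero ax h1 h2 h3 h4 h5 u w

/-- The sign of the central commutator. -/
def epsE (T : P8) : F := ((sgnOf (cf (gam (cmp T)) (gam T)) : ℤ) : F)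

lemma uc' (T : P8) (u t : F) : xE ax (gam T) u * xE ax (gam (cmp T)) t =
    xE ax (gam (cmp T)) t * xE ax (gam T) u * xE ax 239 (epsE T * (t * u)) := by
  obtain ⟨h1, h2, h3, h4, h5, h6⟩ := uc_data T
  exact comm_one ax h1 h2 h3 h4 h5 h6 u t

/-- The sign of the commutator with the Levi. -/
def sgE (r : R7) (T : P8) : F := ((sgnOf (cf (rr r) (gam T)) : ℤ) : F)

lemma lt' (r : R7) (u w : F) : xE ax 239 u * xE ax (rr r) w = xE ax (rr r) w * xE ax 239 u := by
  obtain ⟨h1, h2, h3, h4⟩ := lt_data r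
  exact comm_zero ax h1 (by decide) h2 h3 h4 u w

lemma lu0' (r : R7) (T : P8) (h : hs r T = false) (u t : F) :
    xE ax (gam T) u * xE ax (rr r) t = xE ax (rr r) t * xE ax (gam T) u := by
  obtain ⟨h1, h2, h3, h4, h5⟩ := lu0_data r T h
  exact comm_zero ax h1 h2 h3 h4 h5 u t

lemma lu' (r : R7) (T : P8) (h : hs r T = true) (u t : F) :
    xE ax (gam T) u * xE ax (rr r) t = xE ax (rr r) t * xE ax (gam T) u * xE ax (gam (mv r T)) (sgE r T * (t * u)) := by
  obtain ⟨h1, h2, h3, h4, h5, h6⟩ := lu_data r T h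
  exact comm_one ax h1 h2 h3 h4 h5 h6 u t

lemma comA' (T T' : P7) (u w : F) : xE ax (aa T) u * xE ax (aa T') w = xE ax (aa T') w * xE ax (aa T) u := by
  by_cases hT : T = T'
  · subst hT
    rw [← xE_add, ← xE_add, add_comm]
  · obtain ⟨h1, h2, h3, h4, h5⟩ := comA_data T T' hT
    exact comm_zero ax h1 h2 h3 h4 h5 u w

/-- The sign of the commutator in `E₇`. -/
def sg7E (r : R6) (T : P7) : F := ((sgnOf (cf (rr (em r)) (aa T)) : ℤ) : F)

lemma la0' (r : R6) (T : P7) (h : hs7 r T = false) (u t : F) :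
    xE ax (aa T) u * xE ax (rr (em r)) t = xE ax (rr (em r)) t * xE ax (aa T) u := by
  obtain ⟨h1, h2, h3, h4, h5⟩ := la0_data r T h
  exact comm_zero ax h1 h2 h3 h4 h5 u t

lemma la' (r : R6) (T : P7) (h : hs7 r T = true) (u t : F) :
    xE ax (aa T) u * xE ax (rr (em r)) t = xE ax (rr (em r)) t * xE ax (aa T) u * xE ax (aa (mv7 r T)) (sg7E r T * (t * u)) := by
  obtain ⟨h1, h2, h3, h4, h5, h6⟩ := la_data r T h
  exact comm_one ax h1 h2 h3 h4 h5 h6 u t

/-! ### Weyl elements -/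

lemma n_conj_aux (i : ℕ) (hi : i < chevE8.rank) (r : ℕ) (hr : r < chevE8.nroots) :
    ∃ η : F, (η = 1 ∨ η = -1) ∧ ∀ u, nG ax (chevE8.simple i) 1 * xG ax r u * (nG ax (chevE8.simple i) 1)⁻¹ =
      xG ax (chevE8.reflectRoot i r) (η * u) := by
  obtain ⟨η, hη, h1, -⟩ := ax.n_simple i r hi hr
  refine ⟨(η : F), ?_, ?_⟩
  · rcases hη with rfl | rfl <;> simp
  · intro u
    have : nG ax (chevE8.simple i) 1 * xG ax r u =
        xG ax (chevE8.reflectRoot i r) ((η : F) * u) * nG ax (chevE8.simple i) 1 :=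
      Units.ext (by simp only [Units.val_mul, nG_val, xG_val]; exact h1 u)
    rw [this, mul_inv_cancel_right]

lemma reflect_lt (i : ℕ) (hi : i < 8) (r : ℕ) (hr : r < 240) : chevE8.reflectRoot i r < 240 :=
  (wF tabE8 i hi ⟨r, hr⟩).isLt

/-- The simple `n` in the group. -/
noncomputable def sE (i : ℕ) : ↥(chevE8.group F) := ⟨nG ax (chevE8.simple i) 1, nG_mem' ax _ _⟩

lemma sE_conj (i : ℕ) (hi : i < 8) (r : ℕ) (hr : r < 240) :
    ∃ η : F, (η = 1 ∨ η = -1) ∧ ∀ u, sE ax i * xE ax r u * (sE ax i)⁻¹ = xE ax (chevE8.reflectRoot i r) (η * u) := by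
  obtain ⟨η, hη, h⟩ := n_conj_aux ax i hi r hr
  exact ⟨η, hη, fun u => Subtype.ext (h u)⟩

lemma mul_sign {a b : F} (ha : a = 1 ∨ a = -1) (hb : b = 1 ∨ b = -1) : a * b = 1 ∨ a * b = -1 := by
  rcases ha with rfl | rfl <;> rcases hb with rfl | rfl <;> simp

lemma foldW_cons (i : ℕ) (l : List ℕ) (s : ℕ) : foldW (i :: l) s = chevE8.reflectRoot i (foldW l s) := rfl

lemma exists_word (l : List ℕ) (hl : ∀ i ∈ l, i < 8) : ∃ g : ↥(chevE8.group F), ∀ s, s < 240 → foldW l s < 240 ∧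
    ∃ η : F, (η = 1 ∨ η = -1) ∧ ∀ u, g * xE ax s u * g⁻¹ = xE ax (foldW l s) (η * u) := by
  induction l with
  | nil =>
    refine ⟨1, fun s hs => ⟨hs, 1, Or.inl rfl, fun u => ?_⟩⟩
    simp [foldW]
  | cons i l ih =>
    obtain ⟨g, hg⟩ := ih (fun k hk => hl k (List.mem_cons_of_mem _ hk))
    have hi : i < 8 := hl i List.mem_cons_self
    refine ⟨sE ax i * g, fun s hs => ?_⟩
    obtain ⟨h1, η, hη, h2⟩ := hg s hs
    obtain ⟨η', hη', h3⟩ := sE_conj ax i hi (foldW l s) h1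
    refine ⟨reflect_lt i hi _ h1, η' * η, mul_sign hη' hη, fun u => ?_⟩
    have e1 : sE ax i * g * xE ax s u * (sE ax i * g)⁻¹ = sE ax i * (g * xE ax s u * g⁻¹) * (sE ax i)⁻¹ := by group
    rw [e1, h2, h3, mul_assoc]
    rfl

lemma fold_fix (l : List ℕ) (hl : ∀ i ∈ l, i < 7) : foldW l 239 = 239 := by
  induction l with
  | nil => rfl
  | cons i l ih =>
    rw [foldW_cons, ih (fun k hk => hl k (List.mem_cons_of_mem _ hk))]
    exact th_fix ⟨i, hl i List.mem_cons_self⟩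

lemma fold_pt (l : List ℕ) (hl : ∀ i ∈ l, i < 7) (T : P8) : ∃ T' : P8, foldW l (gam T) = gam T' := by
  induction l with
  | nil => exact ⟨T, rfl⟩
  | cons i l ih =>
    obtain ⟨T1, h1⟩ := ih (fun k hk => hl k (List.mem_cons_of_mem _ hk))
    obtain ⟨T2, h2⟩ := pt_perm ⟨i, hl i List.mem_cons_self⟩ T1
    refine ⟨T2, ?_⟩
    rw [foldW_cons, h1]
    exact h2

lemma wd_lt8 (r : R7) : ∀ i ∈ wd r, i < 8 := fun i hi => by
  have := wd_lt r i hi
  omega

/-- The Weyl elements of the Levi. -/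
noncomputable def wE (r : R7) : ↥(chevE8.group F) := Classical.choose (exists_word ax (wd r) (wd_lt8 r))

lemma w_conj' (r : R7) (T : P8) :
    ∃ η : F, (η = 1 ∨ η = -1) ∧ ∀ u, wE ax r * xE ax (gam T) u * (wE ax r)⁻¹ = xE ax (gam (swr r T)) (η * u) := by
  obtain ⟨-, η, hη, h2⟩ := Classical.choose_spec (exists_word ax (wd r) (wd_lt8 r)) (gam T) (gam_lt T)
  rw [w_data r T] at h2
  exact ⟨η, hη, h2⟩

lemma w7_conj' (r : R6) (T : P7) :
    ∃ η : F, (η = 1 ∨ η = -1) ∧ ∀ u, wE ax (em r) * xE ax (aa T) u * (wE ax (em r))⁻¹ = xE ax (aa (sw7 r T)) (η * u) := by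
  obtain ⟨-, η, hη, h2⟩ := Classical.choose_spec (exists_word ax (wd (em r)) (wd_lt8 (em r))) (aa T) (aa_lt T)
  rw [w7_data r T] at h2
  exact ⟨η, hη, h2⟩

lemma w_th' (r : R7) :
    ∃ η : F, (η = 1 ∨ η = -1) ∧ ∀ u, wE ax r * xE ax 239 u * (wE ax r)⁻¹ = xE ax 239 (η * u) := by
  obtain ⟨-, η, hη, h2⟩ := Classical.choose_spec (exists_word ax (wd r) (wd_lt8 r)) 239 (by decide)
  rw [fold_fix (wd r) (wd_lt r)] at h2
  exact ⟨η, hη, h2⟩

/-! ### The torus -/

lemma tor_congr {y y' : ℕ → Fˣ} (h : ∀ i, i < 8 → y i = y' i) : (tor chevE8 y : GL chevE8.Idx F) = tor chevE8 y' := by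
  unfold tor
  congr 1
  funext v
  cases v with
  | inl i => rfl
  | inr s =>
    simp only [torD, Sum.elim_inr, chi]
    apply Finset.prod_congr rfl
    intro i hi
    rw [h i (Finset.mem_range.mp hi)]

include ax in
lemma tor_hW_mem (r : ℕ) (hr : r < 240) (c : Fˣ) : tor chevE8 (hW chevE8 r c) ∈ chevE8.group F := by
  rw [← hG_eq_tor ax tabE8 hr c]
  exact hG_mem' ax _ _

/-- The torus of the Levi. -/
noncomputable def hLE (r : R7) (s : Fˣ) : ↥(chevE8.group F) :=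
  ⟨tor chevE8 (hW chevE8 (rr r) s), tor_hW_mem ax _ (rr_lt r) s⟩

lemma tor_hW_conj (r : ℕ) (c : Fˣ) (s : ℕ) (hs : s < 240) (u : F) :
    (tor chevE8 (hW chevE8 r c) : GL chevE8.Idx F) * xG ax s u * (tor chevE8 (hW chevE8 r c))⁻¹ =
      xG ax s (((c ^ pair chevE8 r s : Fˣ) : F) * u) := by
  rw [tor_conj_xG ax tabE8 _ hs u, chi_hW tabE8 r c hs]

lemma hL_gam' (r : R7) (s : Fˣ) (T : P8) (u : F) :
    hLE ax r s * xE ax (gam T) u * (hLE ax r s)⁻¹ = xE ax (gam T) (((s ^ pwr r T : Fˣ) : F) * u) := by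
  apply Subtype.ext
  have := tor_hW_conj ax (rr r) s (gam T) (gam_lt T) u
  rw [pw_data r T] at this
  exact this

lemma h7_a' (r : R6) (s : Fˣ) (T : P7) (u : F) :
    hLE ax (em r) s * xE ax (aa T) u * (hLE ax (em r) s)⁻¹ = xE ax (aa T) (((s ^ pw7 r T : Fˣ) : F) * u) := by
  apply Subtype.ext
  have := tor_hW_conj ax (rr (em r)) s (aa T) (aa_lt T) u
  rw [pw7_data r T] at this
  exact this

lemma hL_th' (r : R7) (s : Fˣ) (u : F) :
    hLE ax r s * xE ax 239 u * (hLE ax r s)⁻¹ = xE ax 239 u := by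
  apply Subtype.ext
  have := tor_hW_conj ax (rr r) s 239 (by decide) u
  rw [pwth_data r] at this
  simp only [zpow_zero, Units.val_one, one_mul] at this
  exact this

/-- `h_β` for a root `β`. -/
noncomputable def hbE (β : ℕ) (hβ : β < 240) (c : Fˣ) : ↥(chevE8.group F) := ⟨tor chevE8 (hW chevE8 β c), tor_hW_mem ax β hβ c⟩

lemma hb_mul' (β : ℕ) (hβ : β < 240) (c c' : Fˣ) : hbE ax β hβ (c * c') = hbE ax β hβ c * hbE ax β hβ c' := by
  apply Subtype.ext
  show tor chevE8 (hW chevE8 β (c * c')) = tor chevE8 (hW chevE8 β c) * tor chevE8 (hW chevE8 β c')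
  rw [← tor_mul]
  congr 1
  funext j
  simp [hW, mul_zpow]

lemma pair_120_239 : pair chevE8 120 239 = 1 := by decide +kernel
lemma pair_120_120 : pair chevE8 120 120 = 2 := by decide +kernel
lemma pair_121_121 : pair chevE8 121 121 = 2 := by decide +kernel

lemma hb_th' (c : Fˣ) (u : F) : hbE ax 120 (by decide) c * xE ax 239 u * (hbE ax 120 (by decide) c)⁻¹ = xE ax 239 ((c : F) * u) := by
  apply Subtype.ext
  have := tor_hW_conj ax 120 c 239 (by decide) u
  rw [pair_120_239, zpow_one] at this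
  exact this

lemma hb_all' (β : ℕ) (hβ : β < 240) (r : ℕ) (hr : r < 240) : ∃ e : ℤ, ∀ (c : Fˣ) (u : F), hbE ax β hβ c * xE ax r u * (hbE ax β hβ c)⁻¹ = xE ax r (((c ^ e : Fˣ) : F) * u) :=
  ⟨pair chevE8 β r, fun c u => Subtype.ext (tor_hW_conj ax β c r hr u)⟩

lemma hb_two (β : ℕ) (hβ : β < 240) (h2 : pair chevE8 β β = 2) (c : Fˣ) (u : F) : hbE ax β hβ c * xE ax β u * (hbE ax β hβ c)⁻¹ = xE ax β ((c : F) ^ 2 * u) := by
  apply Subtype.ext
  have := tor_hW_conj ax β c β hβ u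
  have e : ((c ^ (2 : ℤ) : Fˣ) : F) = (c : F) ^ 2 := by simp
  rw [h2, e] at this
  exact this

/-- `n_β(1)`. -/
noncomputable def nbE (β : ℕ) : ↥(chevE8.group F) := ⟨nG ax β 1, nG_mem' ax _ _⟩

lemma nG_eq_hG_mul' (r : ℕ) (t : F) : nG ax r t = hG ax r t * nG ax r 1 := by
  simp only [hG, mul_assoc, ← nG_inv, inv_mul_cancel, mul_one]

lemma nb_eq' (β β' : ℕ) (hβ : β < 240) (hn : chevE8.neg β = β') (c : Fˣ) : xE ax β c * xE ax β' (-((c : F)⁻¹)) * xE ax β c = hbE ax β hβ c * nbE ax β := by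
  apply Subtype.ext
  show xG ax β c * xG ax β' (-((c : F)⁻¹)) * xG ax β c = tor chevE8 (hW chevE8 β c) * nG ax β 1
  have e1 : xG ax β c * xG ax β' (-((c : F)⁻¹)) * xG ax β c = nG ax β c := by
    simp only [nG, hn]
  rw [e1, nG_eq_hG_mul' ax, hG_eq_tor ax tabE8 hβ]

theorem simple7 : chevE8.simple 7 = 120 := by decide +kernel
theorem simple6 : chevE8.simple 6 = 121 := by decide +kernel

lemma nb_conj' (r : ℕ) (hr : r < 240) :
    ∃ η : F, (η = 1 ∨ η = -1) ∧ ∀ u, nbE ax 120 * xE ax r u * (nbE ax 120)⁻¹ = xE ax (reflB r) (η * u) := by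
  obtain ⟨η, hη, h⟩ := n_conj_aux ax 7 (by decide) r hr
  refine ⟨η, hη, fun u => Subtype.ext ?_⟩
  have h2 := h u
  rw [simple7, refl7 ⟨r, hr⟩] at h2
  exact h2

lemma nb7_conj' (r : ℕ) (hr : r < 240) :
    ∃ η : F, (η = 1 ∨ η = -1) ∧ ∀ u, nbE ax 121 * xE ax r u * (nbE ax 121)⁻¹ = xE ax (reflB7 r) (η * u) := by
  obtain ⟨η, hη, h⟩ := n_conj_aux ax 6 (by decide) r hr
  refine ⟨η, hη, fun u => Subtype.ext ?_⟩
  have h2 := h u
  rw [simple6, refl6 ⟨r, hr⟩] at h2
  exact h2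

lemma conj_tor_hW (i : ℕ) (hi : i < chevE8.rank) (r : ℕ) (hr : r < chevE8.nroots) (c : Fˣ) :
    sG ax i * tor chevE8 (hW chevE8 r c) * (sG ax i)⁻¹ = tor chevE8 (hW chevE8 (chevE8.reflectRoot i r) c) := by
  obtain ⟨e, H⟩ := exists_isNor_sG tabE8 ax tab2E8 hi
  have h1 := H.conj_hG tabE8 ax ⟨r, hr⟩ (t := (c : F)) c.ne_zero
  rw [hG_eq_tor ax tabE8 hr] at h1
  rw [h1]
  have hlt : (wF tabE8 i hi ⟨r, hr⟩ : ℕ) < chevE8.nroots := (wF tabE8 i hi ⟨r, hr⟩).isLt
  have h2 : (e ⟨r, hr⟩ : F) * (c : F) = ((e ⟨r, hr⟩ * c : Fˣ) : F) := rfl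
  rw [h2, hG_eq_tor ax tabE8 hlt, hG_eq_tor ax tabE8 hlt, tor_inv, ← tor_mul, wF_val]
  congr 1
  funext j
  simp [hW, mul_zpow]

lemma nb_hb' (c : Fˣ) : nbE ax 120 * hbE ax 120 (by decide) c * (nbE ax 120)⁻¹ = hbE ax 120 (by decide) c⁻¹ := by
  apply Subtype.ext
  show nG ax 120 1 * tor chevE8 (hW chevE8 120 c) * (nG ax 120 1)⁻¹ = tor chevE8 (hW chevE8 120 c⁻¹)
  have e0 : sG ax 7 = nG ax 120 1 := by rw [sG, simple7]
  have h1 := conj_tor_hW ax 7 (by decide) 120 (by decide) c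
  rw [e0, show chevE8.reflectRoot 7 120 = 119 by decide +kernel] at h1
  rw [h1]
  apply tor_congr
  intro j hj
  show c ^ pair chevE8 119 (chevE8.simple j) = c⁻¹ ^ pair chevE8 120 (chevE8.simple j)
  rw [pair_119 ⟨j, hj⟩, zpow_neg, inv_zpow]

lemma nb7_hb' (c : Fˣ) : nbE ax 121 * hbE ax 121 (by decide) c * (nbE ax 121)⁻¹ = hbE ax 121 (by decide) c⁻¹ := by
  apply Subtype.ext
  show nG ax 121 1 * tor chevE8 (hW chevE8 121 c) * (nG ax 121 1)⁻¹ = tor chevE8 (hW chevE8 121 c⁻¹)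
  have e0 : sG ax 6 = nG ax 121 1 := by rw [sG, simple6]
  have h1 := conj_tor_hW ax 6 (by decide) 121 (by decide) c
  rw [e0, show chevE8.reflectRoot 6 121 = 118 by decide +kernel] at h1
  rw [h1]
  apply tor_congr
  intro j hj
  show c ^ pair chevE8 118 (chevE8.simple j) = c⁻¹ ^ pair chevE8 121 (chevE8.simple j)
  rw [pair_118 ⟨j, hj⟩, zpow_neg, inv_zpow]

/-! ### Conjugacy of roots and generation -/

lemma inv_sign {η : F} (hη : η = 1 ∨ η = -1) (v : F) : η * (η * v) = v := by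
  rcases hη with rfl | rfl <;> simp

lemma lconj' (r : ℕ) (hr : r < 240) :
    ∃ g : ↥(chevE8.group F), ∃ η : F, (η = 1 ∨ η = -1) ∧ ∀ u, g * xE ax 239 u * g⁻¹ = xE ax r (η * u) := by
  obtain ⟨h1, h2⟩ := lw_data ⟨r, hr⟩
  obtain ⟨g, hg⟩ := exists_word ax _ h1
  obtain ⟨-, η, hη, h3⟩ := hg 239 (by decide)
  rw [h2] at h3
  exact ⟨g, η, hη, h3⟩

lemma lconj7' (r : R7) : ∃ g : ↥(chevE8.group F), (∀ T : P8, ∃ (T' : P8) (η : F), (η = 1 ∨ η = -1) ∧ ∀ u, g * xE ax (gam T) u * g⁻¹ = xE ax (gam T') (η * u)) ∧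
    (∃ η : F, (η = 1 ∨ η = -1) ∧ ∀ u, g * xE ax 239 u * g⁻¹ = xE ax 239 (η * u)) ∧
    ∃ η : F, (η = 1 ∨ η = -1) ∧ ∀ u, g * xE ax 121 u * g⁻¹ = xE ax (rr r) (η * u) := by
  obtain ⟨h1, h2⟩ := gw_data r
  obtain ⟨g, hg⟩ := exists_word ax (gw r) (fun i hi => by have := h1 i hi; omega)
  refine ⟨g, fun T => ?_, ?_, ?_⟩
  · obtain ⟨-, η, hη, h3⟩ := hg (gam T) (gam_lt T)
    obtain ⟨T', hT'⟩ := fold_pt (gw r) h1 T
    rw [hT'] at h3
    exact ⟨T', η, hη, h3⟩
  · obtain ⟨-, η, hη, h3⟩ := hg 239 (by decide)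
    rw [fold_fix (gw r) h1] at h3
    exact ⟨η, hη, h3⟩
  · obtain ⟨-, η, hη, h3⟩ := hg 121 (by decide)
    rw [h2] at h3
    exact ⟨η, hη, h3⟩

lemma sE_mem (K : Subgroup ↥(chevE8.group F)) (i : ℕ) (h1 : ∀ u, xE ax (chevE8.simple i) u ∈ K)
    (h2 : ∀ u, xE ax (chevE8.neg (chevE8.simple i)) u ∈ K) : sE ax i ∈ K := by
  have : sE ax i = xE ax (chevE8.simple i) 1 * xE ax (chevE8.neg (chevE8.simple i)) (-(1 : F)⁻¹) * xE ax (chevE8.simple i) 1 := by
    apply Subtype.ext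
    rfl
  rw [this]
  exact mul_mem (mul_mem (h1 _) (h2 _)) (h1 _)

lemma fold_mem (K : Subgroup ↥(chevE8.group F)) (hsK : ∀ i, i < 8 → sE ax i ∈ K) (l : List ℕ) (hl : ∀ i ∈ l, i < 8)
    (s : ℕ) (hs : s < 240) (h : ∀ v, xE ax s v ∈ K) : foldW l s < 240 ∧ ∀ v, xE ax (foldW l s) v ∈ K := by
  induction l with
  | nil => exact ⟨hs, h⟩
  | cons i l ih =>
    obtain ⟨h1, h2⟩ := ih (fun k hk => hl k (List.mem_cons_of_mem _ hk))
    have hi : i < 8 := hl i List.mem_cons_self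
    refine ⟨reflect_lt i hi _ h1, fun v => ?_⟩
    obtain ⟨η, hη, e⟩ := sE_conj ax i hi _ h1
    have := e (η * v)
    rw [inv_sign hη] at this
    show xE ax (chevE8.reflectRoot i (foldW l s)) v ∈ K
    rw [← this]
    exact mul_mem (mul_mem (hsK i hi) (h2 _)) (inv_mem (hsK i hi))

lemma gen' (K : Subgroup ↥(chevE8.group F)) (hrt : ∀ r : R7, ∀ u, xE ax (rr r) u ∈ K)
    (h120 : ∀ u, xE ax 120 u ∈ K) (h119 : ∀ u, xE ax 119 u ∈ K) : K = ⊤ := by
  have hsK : ∀ i, i < 8 → sE ax i ∈ K := by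
    intro i hi
    by_cases h7 : i = 7
    · subst h7
      apply sE_mem
      · rw [simple7]; exact h120
      · rw [simple7, show chevE8.neg 120 = 119 by decide +kernel]; exact h119
    · obtain ⟨r, h1, h2⟩ := simp_data ⟨i, by omega⟩
      apply sE_mem
      · intro u
        have h1' : rr r = chevE8.simple i := h1
        rw [← h1']
        exact hrt r u
      · intro u
        have h2' : rr (ng r) = chevE8.neg (chevE8.simple i) := h2
        rw [← h2']
        exact hrt (ng r) u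
  have hall : ∀ r, r < 240 → ∀ v, xE ax r v ∈ K := by
    intro r hr
    obtain ⟨h1, h2⟩ := gn_data ⟨r, hr⟩
    have := (fold_mem ax K hsK _ h1 120 (by decide) h120).2
    rwa [h2] at this
  have hle : chevE8.group F ≤ K.map (chevE8.group F).subtype := by
    refine (Subgroup.closure_le _).mpr ?_
    rintro g ⟨r, t, hg⟩
    have hr : (r : ℕ) < 240 := r.isLt
    refine ⟨xE ax r t, hall r hr t, ?_⟩
    apply Units.ext
    show chevE8.x F r t = _
    rw [hg]
    exact x_eq_xMat8 (r : ℕ) r.isLt t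
  rw [eq_top_iff]
  intro g _
  obtain ⟨y, hy, hyg⟩ := hle g.2
  have : y = g := Subtype.ext hyg
  rwa [← this]

lemma gen7' (K : Subgroup ↥(chevE8.group F)) (h6 : ∀ (r : R6) u, xE ax (rr (em r)) u ∈ K)
    (ha : ∀ (T : P7) u, xE ax (aa T) u ∈ K) (h118 : ∀ u, xE ax 118 u ∈ K) (r : R7) (u : F) : xE ax (rr r) u ∈ K := by
  have hsK : ∀ i, i < 7 → sE ax i ∈ K := by
    intro i hi
    by_cases h7 : i = 6
    · subst h7
      apply sE_mem
      · rw [simple6]
        intro u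
        have : aa b7 = 121 := by decide +kernel
        rw [← this]
        exact ha b7 u
      · rw [simple6, show chevE8.neg 121 = 118 by decide +kernel]; exact h118
    · obtain ⟨a, b, h1, h2⟩ := simp6_data ⟨i, by omega⟩
      apply sE_mem
      · intro u
        have h1' : rr (em a) = chevE8.simple i := h1
        rw [← h1']
        exact h6 a u
      · intro u
        have h2' : rr (em b) = chevE8.neg (chevE8.simple i) := h2
        rw [← h2']
        exact h6 b u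
  have st : ∀ (l : List ℕ), (∀ i ∈ l, i < 7) → ∀ s, s < 240 → (∀ v, xE ax s v ∈ K) → foldW l s < 240 ∧ ∀ v, xE ax (foldW l s) v ∈ K := by
    intro l
    induction l with
    | nil => intro _ s hs h; exact ⟨hs, h⟩
    | cons i l ih =>
      intro hl s hs h
      obtain ⟨h1, h2⟩ := ih (fun k hk => hl k (List.mem_cons_of_mem _ hk)) s hs h
      have hi : i < 7 := hl i List.mem_cons_self
      refine ⟨reflect_lt i (by omega) _ h1, fun v => ?_⟩
      obtain ⟨η, hη, e⟩ := sE_conj ax i (by omega) _ h1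
      have := e (η * v)
      rw [inv_sign hη] at this
      show xE ax (chevE8.reflectRoot i (foldW l s)) v ∈ K
      rw [← this]
      exact mul_mem (mul_mem (hsK i hi) (h2 _)) (inv_mem (hsK i hi))
  obtain ⟨h1, h2⟩ := gw_data r
  have h121 : ∀ v, xE ax 121 v ∈ K := by
    intro v
    have : aa b7 = 121 := by decide +kernel
    rw [← this]
    exact ha b7 v
  have := (st _ h1 121 (by decide) h121).2 u
  rwa [h2] at this

end InstAux

open InstAux InstD in
/-- The system `SysE8` in `chevE8.group F`: `x r t = ⟨xG ax r t, _⟩`, `hb = tor (hW 120)`, `nb = nG 120 1`, `hb7 = tor (hW 121)`, `nb7 = nG 121 1`, `wL r` = a word of simple reflections, `hL r s = tor (hW (rr r) s)`. -/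
theorem exists_sys (F : Type*) [Field F] : ∃ (ax : Cfsg.Agent.Lib.Chev.AxBasic.Ax chevE8 F) (S : SysE8 F ↥(chevE8.group F)),
    ∀ r t, ((S.x r t : ↥(chevE8.group F)) : GL chevE8.Idx F) = Cfsg.Agent.Lib.Chev.AxBasic.xG ax r t := by
  have ax : Cfsg.Agent.Lib.Chev.AxBasic.Ax chevE8 F := Cfsg.Agent.Lib.Lie.AxOf.ax_of_mem hmemE8
  refine ⟨ax, {
    x := xE ax
    x_add := fun r _ a b => xE_add ax r a b
    tt := tt' ax
    uu := uu' ax
    eps := epsE
    eps_sign := fun T => sgnOf_sign _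
    uc := uc' ax
    sg := sgE
    sg_sign := fun r T => sgnOf_sign _
    lt := lt' ax
    lu0 := lu0' ax
    lu := lu' ax
    wL := wE ax
    w_conj := w_conj' ax
    w_th := w_th' ax
    hL := hLE ax
    hL_gam := hL_gam' ax
    hL_th := hL_th' ax
    hb := hbE ax 120 (by decide)
    hb_mul := hb_mul' ax 120 (by decide)
    hb_th := hb_th' ax
    hb_gam := fun T => hb_all' ax 120 (by decide) (gam T) (gam_lt T)
    hb_all := fun r hr => hb_all' ax 120 (by decide) r hr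
    hb_β := hb_two ax 120 (by decide) pair_120_120
    nb := nbE ax 120
    nb_eq := nb_eq' ax 120 119 (by decide) (by decide +kernel)
    nb_conj := nb_conj' ax
    nb_hb := nb_hb' ax
    lconj := lconj' ax
    gen := gen' ax
    comA := comA' ax
    sg7 := sg7E
    sg7_sign := fun r T => sgnOf_sign _
    la0 := la0' ax
    la := la' ax
    w7_conj := w7_conj' ax
    h7_a := h7_a' ax
    hb7 := hbE ax 121 (by decide)
    hb7_mul := hb_mul' ax 121 (by decide)
    hb7_all := fun r hr => hb_all' ax 121 (by decide) r hr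
    hb7_β := hb_two ax 121 (by decide) pair_121_121
    nb7 := nbE ax 121
    nb7_eq := nb_eq' ax 121 118 (by decide) (by decide +kernel)
    nb7_conj := nb7_conj' ax
    nb7_hb := nb7_hb' ax
    lconj7 := lconj7' ax
    gen7 := gen7' ax
  }, fun r t => rfl⟩

/-- The order of the group divides `NN8 q`. -/
theorem card_dvd (F : Type*) [Field F] [Fintype F] : Nat.card ↥(chevE8.group F) ∣ NN8 (Fintype.card F) := by
  have h := Cfsg.Agent.S1065.result (F := F) rfl
  refine dvd_of_eq ?_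
  rw [h, NN8]
  ring

end Cfsg.Agent.Lib.MinE8
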