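import Cfsg.Agent.Lib.MinE6.Sys
import Cfsg.Agent.Lib.MinE8.Sys
import Cfsg.Agent.Lib.Chev.Mono1
import Cfsg.Agent.Lib.Chev.Ax
import Cfsg.Agent.Lib.Classical.StSLn
import Cfsg.Agent.Lib.Schur.SLnStem
import Cfsg.Agent.Lib.Schur.SLnStem2

/-! The system `SysE` on the `E₆` subgroup of `E₈(F)`: port of `Lib/MinE6/InstA.lean`, `Lib/MinE6/InstB.lean`.
The root `r` of `chevE6` goes to `Rn r = rr (em r)`. -/

set_option autoImplicit false
set_option linter.unusedSectionVars false
set_option linter.unusedVariables false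
set_option linter.ambiguousOpen false
set_option linter.unusedSimpArgs false
set_option linter.unreachableTactic false
set_option linter.style.haveILetI false
set_option linter.style.longLine false
set_option maxRecDepth 100000
set_option synthInstance.maxHeartbeats 400000
set_option synthInstance.maxSize 1000

namespace Cfsg.Agent.Lib.MinE8Inst6

open Cfsg Lie
open scoped Matrix MatrixGroups
open Cfsg.Agent.Lib.Chev
open Tables Tables2 AxBasic Torus Mono1
open Cfsg.Agent.Lib.MinE6 (S3 compl3 mv swp pw gam rt reflB SysE)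
open Cfsg.Agent.Lib.Classical.StSLn (Rel Xc pG x_mem Xc_le inj_all)

variable {F : Type*} [Field F]

theorem hmemE8 : chevE8 ∈ [chevG2, chevB2, chevD4, chevF4, chevE6, chevE7, chevE8] := by simp

/-- The root of `E₈` of a root of `E₆`. -/
def Rn (r : ℕ) : ℕ := Cfsg.Agent.Lib.MinE8.rr (Cfsg.Agent.Lib.MinE8.em ⟨r % 72, Nat.mod_lt _ (by decide)⟩)

lemma Rn_mod (r : ℕ) : Rn (r % 72) = Rn r := by
  simp [Rn, Nat.mod_mod]

theorem Rn_lt_aux : ∀ r : Fin 72, Rn r.val < chevE8.nroots := by decide +kernel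

lemma Rn_lt (r : ℕ) : Rn r < chevE8.nroots := by
  rw [← Rn_mod]
  exact Rn_lt_aux ⟨r % 72, Nat.mod_lt _ (by decide)⟩

lemma x_eq_xMat8 (r : ℕ) (hr : r < chevE8.nroots) (t : F) : chevE8.x F r t = chevE8.xMat F ⟨r, hr⟩ t := by
  simp [ChevalleyDatum.x, hr]

section

variable (ax : Ax chevE8 F)

lemma xG_mem' (r : ℕ) (t : F) : xG ax r t ∈ chevE8.group F := by
  by_cases hr : r < chevE8.nroots
  · exact Subgroup.subset_closure ⟨⟨r, hr⟩, t, by rw [xG_val]; exact x_eq_xMat8 r hr t⟩
  · have : xG ax r t = 1 := Units.ext (by simp [ChevalleyDatum.x, hr])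
    rw [this]
    exact one_mem _

/-- The root elements in `E₈`. -/
noncomputable def xE8 (r : ℕ) (t : F) : ↥(chevE8.group F) := ⟨xG ax r t, xG_mem' ax r t⟩

/-- The subgroup `E₆`. -/
def MM6 : Subgroup ↥(chevE8.group F) := Subgroup.closure {g | ∃ (r : ℕ) (u : F), g = xE8 ax (Rn r) u}

/-- The root elements in `E₆`. -/
noncomputable def xE (r : ℕ) (t : F) : ↥(MM6 ax) := ⟨xE8 ax (Rn r) t, Subgroup.subset_closure ⟨r, t, rfl⟩⟩

/-- The value in `GL`. -/
def val2 : ↥(MM6 ax) →* GL chevE8.Idx F := (chevE8.group F).subtype.comp (MM6 ax).subtype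

lemma ext2 {g h : ↥(MM6 ax)} (H : val2 ax g = val2 ax h) : g = h := Subtype.ext (Subtype.ext H)

lemma val_xE (r : ℕ) (t : F) : val2 ax (xE ax r t) = xG ax (Rn r) t := rfl

theorem tabE8 : Tab chevE8 := tab_of_mem hmemE8
theorem tab2E8 : Tab2 chevE8 := tab2_of_mem hmemE8

lemma xE_add (r : ℕ) (a b : F) : xE ax r (a + b) = xE ax r a * xE ax r b :=
  ext2 ax (xG_add ax _ a b).symm

theorem neg_data : ∀ r, r < 72 → chevE8.neg (Rn r) = Rn (chevE6.neg r) := by decide +kernel
theorem simple_data : ∀ i, i < 6 → chevE8.simple i = Rn (chevE6.simple i) := by decide +kernel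
theorem refl_data : ∀ i, i < 6 → ∀ r, r < 72 → chevE8.reflectRoot i (Rn r) = Rn (chevE6.reflectRoot i r) := by decide +kernel
theorem simple_lt : ∀ i, i < 6 → chevE6.simple i < 72 := by decide +kernel

/-- `n_r(t)`. -/
noncomputable def nE (r : ℕ) (t : F) : ↥(MM6 ax) := xE ax r t * xE ax (chevE6.neg r) (-t⁻¹) * xE ax r t

lemma val_nE (r : ℕ) (hr : r < 72) (t : F) : val2 ax (nE ax r t) = nG ax (Rn r) t := by
  simp only [nE, map_mul, val_xE, nG]
  rw [neg_data r hr]

/-- `h_r(t)`. -/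
noncomputable def hE (r : ℕ) (t : F) : ↥(MM6 ax) := nE ax r t * nE ax r (-1)

lemma val_hE (r : ℕ) (hr : r < 72) (t : F) : val2 ax (hE ax r t) = hG ax (Rn r) t := by
  simp only [hE, map_mul, val_nE ax r hr, hG]

lemma val_hE_tor (r : ℕ) (hr : r < 72) (c : Fˣ) : val2 ax (hE ax r c) = tor chevE8 (hW chevE8 (Rn r) c) := by
  rw [val_hE ax r hr, hG_eq_tor ax tabE8 (Rn_lt r)]

/-! ### Commutators -/

/-- The coefficient of the commutator of two roots, when there is one term. -/
def cf (r s : ℕ) : ℤ := ((chevE8.commTerms (Rn r) (Rn s)).head?.map (fun c => c.2.1)).getD 0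

/-- The sign of the commutator. -/
def sgnOf (c : ℤ) : ℤ := if c = -1 then 1 else -1

lemma sgnOf_of {c : ℤ} (h : c = 1 ∨ c = -1) : -c = sgnOf c := by
  rcases h with rfl | rfl <;> decide

lemma sgnOf_sign (c : ℤ) : ((sgnOf c : ℤ) : F) = 1 ∨ ((sgnOf c : ℤ) : F) = -1 := by
  unfold sgnOf
  split_ifs <;> simp

lemma comm_zero {r s : ℕ} (hrs : Rn s ≠ Rn r) (hn : Rn s ≠ chevE8.neg (Rn r))
    (h : chevE8.commTerms (Rn r) (Rn s) = []) (u t : F) :
    xE ax s u * xE ax r t = xE ax r t * xE ax s u := by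
  apply ext2
  show xG ax (Rn s) u * xG ax (Rn r) t = xG ax (Rn r) t * xG ax (Rn s) u
  rw [xG_comm ax (r := Rn r) (s := Rn s) (Rn_lt r) (Rn_lt s) hrs hn t u]
  simp [ChevalleyDatum.commWord, h, wordG]

lemma comm_one {r s k : ℕ} {c : ℤ} (hrs : Rn s ≠ Rn r) (hn : Rn s ≠ chevE8.neg (Rn r))
    (h : chevE8.commTerms (Rn r) (Rn s) = [(Rn k, c, 1, 1)]) (hc : c = 1 ∨ c = -1) (u t : F) :
    xE ax s u * xE ax r t = xE ax r t * xE ax s u * xE ax k (((sgnOf c : ℤ) : F) * (t * u)) := by
  apply ext2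
  show xG ax (Rn s) u * xG ax (Rn r) t = xG ax (Rn r) t * xG ax (Rn s) u * xG ax (Rn k) (((sgnOf c : ℤ) : F) * (t * u))
  rw [xG_comm ax (r := Rn r) (s := Rn s) (Rn_lt r) (Rn_lt s) hrs hn t u]
  simp only [ChevalleyDatum.commWord, h, wordG, List.map_cons, List.map_nil, List.prod_cons, List.prod_nil, mul_one]
  have e0 : ((c : ℤ) : F) * (-t) ^ 1 * u ^ 1 = ((sgnOf c : ℤ) : F) * (t * u) := by
    rw [← sgnOf_of hc]
    push_cast
    ring
  rw [e0]

theorem tt_data : ∀ T : S3, Rn 71 ≠ Rn (gam T) ∧ Rn 71 ≠ chevE8.neg (Rn (gam T)) ∧ chevE8.commTerms (Rn (gam T)) (Rn 71) = [] := by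
  decide +kernel

theorem uu_data : ∀ T T' : S3, T ≠ T' → T' ≠ compl3 T → Rn (gam T) ≠ Rn (gam T') ∧
    Rn (gam T) ≠ chevE8.neg (Rn (gam T')) ∧ chevE8.commTerms (Rn (gam T')) (Rn (gam T)) = [] := by
  decide +kernel

theorem uc_data : ∀ T : S3, Rn (gam T) ≠ Rn (gam (compl3 T)) ∧
    Rn (gam T) ≠ chevE8.neg (Rn (gam (compl3 T))) ∧
    chevE8.commTerms (Rn (gam (compl3 T))) (Rn (gam T)) = [(Rn 71, cf (gam (compl3 T)) (gam T), 1, 1)] ∧
    (cf (gam (compl3 T)) (gam T) = 1 ∨ cf (gam (compl3 T)) (gam T) = -1) := by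
  decide +kernel

theorem lt_data : ∀ i j : Fin 6, i ≠ j → Rn 71 ≠ Rn (rt i j) ∧ Rn 71 ≠ chevE8.neg (Rn (rt i j)) ∧
    chevE8.commTerms (Rn (rt i j)) (Rn 71) = [] := by
  decide +kernel

theorem lu0_data : ∀ (i j : Fin 6) (T : S3), i ≠ j → ¬ (j ∈ T.1 ∧ i ∉ T.1) → Rn (gam T) ≠ Rn (rt i j) ∧
    Rn (gam T) ≠ chevE8.neg (Rn (rt i j)) ∧ chevE8.commTerms (Rn (rt i j)) (Rn (gam T)) = [] := by
  decide +kernel

theorem lu_data : ∀ (i j : Fin 6) (T : S3), (i ≠ j ∧ j ∈ T.1 ∧ i ∉ T.1) → Rn (gam T) ≠ Rn (rt i j) ∧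
    Rn (gam T) ≠ chevE8.neg (Rn (rt i j)) ∧
    chevE8.commTerms (Rn (rt i j)) (Rn (gam T)) = [(Rn (gam (mv i j T)), cf (rt i j) (gam T), 1, 1)] ∧
    (cf (rt i j) (gam T) = 1 ∨ cf (rt i j) (gam T) = -1) := by
  decide +kernel

lemma tt' (T : S3) (u w : F) : xE ax 71 u * xE ax (gam T) w = xE ax (gam T) w * xE ax 71 u := by
  obtain ⟨h2, h3, h4⟩ := tt_data T
  exact comm_zero ax h2 h3 h4 u w

lemma uu' (T T' : S3) (h : T' ≠ compl3 T) (u w : F) :
    xE ax (gam T) u * xE ax (gam T') w = xE ax (gam T') w * xE ax (gam T) u := by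
  by_cases hT : T = T'
  · subst hT
    rw [← xE_add, ← xE_add, add_comm]
  · obtain ⟨h3, h4, h5⟩ := uu_data T T' hT h
    exact comm_zero ax h3 h4 h5 u w

/-- The sign of the central commutator. -/
def epsE (T : S3) : F := ((sgnOf (cf (gam (compl3 T)) (gam T)) : ℤ) : F)

lemma uc' (T : S3) (u t : F) : xE ax (gam T) u * xE ax (gam (compl3 T)) t =
    xE ax (gam (compl3 T)) t * xE ax (gam T) u * xE ax 71 (epsE T * (t * u)) := by
  obtain ⟨h3, h4, h5, h6⟩ := uc_data T
  exact comm_one ax h3 h4 h5 h6 u t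

/-- The sign of the commutator with the Levi. -/
def sgE (i j : Fin 6) (T : S3) : F := ((sgnOf (cf (rt i j) (gam T)) : ℤ) : F)

lemma lt' (i j : Fin 6) (h : i ≠ j) (u w : F) : xE ax 71 u * xE ax (rt i j) w = xE ax (rt i j) w * xE ax 71 u := by
  obtain ⟨h2, h3, h4⟩ := lt_data i j h
  exact comm_zero ax h2 h3 h4 u w

lemma lu0' (i j : Fin 6) (T : S3) (h : i ≠ j) (h' : ¬ (j ∈ T.1 ∧ i ∉ T.1)) (u t : F) :
    xE ax (gam T) u * xE ax (rt i j) t = xE ax (rt i j) t * xE ax (gam T) u := by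
  obtain ⟨h3, h4, h5⟩ := lu0_data i j T h h'
  exact comm_zero ax h3 h4 h5 u t

lemma lu' (i j : Fin 6) (T : S3) (h : i ≠ j) (hj : j ∈ T.1) (hi : i ∉ T.1) (u t : F) :
    xE ax (gam T) u * xE ax (rt i j) t = xE ax (rt i j) t * xE ax (gam T) u * xE ax (gam (mv i j T)) (sgE i j T * (t * u)) := by
  obtain ⟨h3, h4, h5, h6⟩ := lu_data i j T ⟨h, hj, hi⟩
  exact comm_one ax h3 h4 h5 h6 u t

/-! ### Weyl elements -/

lemma n_conj_aux (i : ℕ) (hi : i < chevE8.rank) (r : ℕ) (hr : r < chevE8.nroots) :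
    ∃ η : F, (η = 1 ∨ η = -1) ∧ ∀ u, nG ax (chevE8.simple i) 1 * xG ax r u * (nG ax (chevE8.simple i) 1)⁻¹ =
      xG ax (chevE8.reflectRoot i r) (η * u) := by
  obtain ⟨η, hη, h1, -⟩ := ax.n_simple i r hi hr
  refine ⟨(η : F), ?_, ?_⟩
  · rcases hη with rfl | rfl <;> simp
  · intro u
    have : nG ax (chevE8.simple i) 1 * xG ax r u =
        xG ax (chevE8.reflectRoot i r) ((η : F) * u) * nG ax (chevE8.simple i) 1 :=
      Units.ext (by simp only [Units.val_mul, nG_val, xG_val]; exact h1 u)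
    rw [this, mul_inv_cancel_right]

theorem reflect_lt : ∀ i, i < 6 → ∀ r, r < 72 → chevE6.reflectRoot i r < 72 := by decide +kernel

/-- The simple `n` in the group. -/
noncomputable def sE (i : ℕ) : ↥(MM6 ax) := nE ax (chevE6.simple i) 1

lemma val_sE (i : ℕ) (hi : i < 6) : val2 ax (sE ax i) = nG ax (chevE8.simple i) 1 := by
  rw [sE, val_nE ax _ (simple_lt i hi), simple_data i hi]

lemma sE_conj (i : ℕ) (hi : i < 6) (r : ℕ) (hr : r < 72) :
    ∃ η : F, (η = 1 ∨ η = -1) ∧ ∀ u, sE ax i * xE ax r u * (sE ax i)⁻¹ = xE ax (chevE6.reflectRoot i r) (η * u) := by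
  obtain ⟨η, hη, h⟩ := n_conj_aux ax i (lt_of_lt_of_le hi (by decide)) (Rn r) (Rn_lt r)
  refine ⟨η, hη, fun u => ext2 ax ?_⟩
  have h2 := h u
  rw [refl_data i hi r hr] at h2
  rw [map_mul, map_mul, map_inv, val_sE ax i hi, val_xE, val_xE]
  exact h2

/-- The action of a word in the simple reflections. -/
def foldW (l : List ℕ) (s : ℕ) : ℕ := l.foldr (fun i s => chevE6.reflectRoot i s) s

lemma mul_sign {a b : F} (ha : a = 1 ∨ a = -1) (hb : b = 1 ∨ b = -1) : a * b = 1 ∨ a * b = -1 := by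
  rcases ha with rfl | rfl <;> rcases hb with rfl | rfl <;> simp

lemma exists_word (l : List ℕ) (hl : ∀ i ∈ l, i < 6) : ∃ g : ↥(MM6 ax), ∀ s, s < 72 → foldW l s < 72 ∧
    ∃ η : F, (η = 1 ∨ η = -1) ∧ ∀ u, g * xE ax s u * g⁻¹ = xE ax (foldW l s) (η * u) := by
  induction l with
  | nil =>
    refine ⟨1, fun s hs => ⟨hs, 1, Or.inl rfl, fun u => ?_⟩⟩
    simp [foldW]
  | cons i l ih =>
    obtain ⟨g, hg⟩ := ih (fun k hk => hl k (List.mem_cons_of_mem _ hk))
    have hi : i < 6 := hl i List.mem_cons_self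
    refine ⟨sE ax i * g, fun s hs => ?_⟩
    obtain ⟨h1, η, hη, h2⟩ := hg s hs
    obtain ⟨η', hη', h3⟩ := sE_conj ax i hi (foldW l s) h1
    refine ⟨reflect_lt i hi _ h1, η' * η, mul_sign hη' hη, fun u => ?_⟩
    have e1 : sE ax i * g * xE ax s u * (sE ax i * g)⁻¹ = sE ax i * (g * xE ax s u * g⁻¹) * (sE ax i)⁻¹ := by group
    rw [e1, h2, h3, mul_assoc]
    rfl

/-- The word of the transposition `(i j)`. -/
def lvA : Array ℕ := #[0, 2, 3, 4, 5]

/-- The word of the transposition `(i j)`: `s_a ⋯ s_{b-2} s_{b-1} s_{b-2} ⋯ s_a`. -/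
def wdW (i j : Fin 6) : List ℕ :=
  let a := min i.val j.val
  let b := max i.val j.val
  let up := (List.range (b - a - 1)).map (fun k => lvA.getD (a + k) 0)
  up ++ [lvA.getD (b - 1) 0] ++ up.reverse

theorem wdW_lt : ∀ (i j : Fin 6), ∀ k ∈ wdW i j, k < 6 := by decide +kernel

theorem w_data : ∀ i j : Fin 6, i ≠ j → (∀ T : S3, foldW (wdW i j) (gam T) = gam (swp i j T)) ∧ foldW (wdW i j) 71 = 71 := by
  decide +kernel

theorem gam_lt : ∀ T : S3, gam T < 72 := by decide +kernel

/-- The Weyl elements of the Levi. -/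
noncomputable def wE (i j : Fin 6) : ↥(MM6 ax) := Classical.choose (exists_word ax (wdW i j) (wdW_lt i j))

lemma w_conj' (i j : Fin 6) (h : i ≠ j) (T : S3) :
    ∃ η : F, (η = 1 ∨ η = -1) ∧ ∀ u, wE ax i j * xE ax (gam T) u * (wE ax i j)⁻¹ = xE ax (gam (swp i j T)) (η * u) := by
  obtain ⟨-, η, hη, h2⟩ := Classical.choose_spec (exists_word ax (wdW i j) (wdW_lt i j)) (gam T) (gam_lt T)
  rw [(w_data i j h).1 T] at h2
  exact ⟨η, hη, h2⟩

lemma w_th' (i j : Fin 6) (h : i ≠ j) :
    ∃ η : F, (η = 1 ∨ η = -1) ∧ ∀ u, wE ax i j * xE ax 71 u * (wE ax i j)⁻¹ = xE ax 71 (η * u) := by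
  obtain ⟨-, η, hη, h2⟩ := Classical.choose_spec (exists_word ax (wdW i j) (wdW_lt i j)) 71 (by decide)
  rw [(w_data i j h).2] at h2
  exact ⟨η, hη, h2⟩

/-! ### The torus -/

lemma tor_congr {y y' : ℕ → Fˣ} (h : ∀ i, i < 8 → y i = y' i) : (tor chevE8 y : GL chevE8.Idx F) = tor chevE8 y' := by
  unfold tor
  congr 1
  funext v
  cases v with
  | inl i => rfl
  | inr s =>
    simp only [torD, Sum.elim_inr, chi]
    apply Finset.prod_congr rfl
    intro i hi
    rw [h i (Finset.mem_range.mp hi)]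

theorem rt_lt : ∀ i j : Fin 6, rt i j < 72 := by decide +kernel

/-- The torus of the Levi. -/
noncomputable def hLE (i j : Fin 6) (s : Fˣ) : ↥(MM6 ax) := hE ax (rt i j) s

theorem pw_data : ∀ (i j : Fin 6) (T : S3), i ≠ j → pair chevE8 (Rn (rt i j)) (Rn (gam T)) = pw i j T := by
  decide +kernel

theorem pw71_data : ∀ (i j : Fin 6), i ≠ j → pair chevE8 (Rn (rt i j)) (Rn 71) = 0 := by
  decide +kernel

lemma tor_hW_conj (r : ℕ) (c : Fˣ) (s : ℕ) (hs : s < chevE8.nroots) (u : F) :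
    (tor chevE8 (hW chevE8 r c) : GL chevE8.Idx F) * xG ax s u * (tor chevE8 (hW chevE8 r c))⁻¹ =
      xG ax s (((c ^ pair chevE8 r s : Fˣ) : F) * u) := by
  rw [tor_conj_xG ax tabE8 _ hs u, chi_hW tabE8 r c hs]

lemma hE_conj (r : ℕ) (hr : r < 72) (c : Fˣ) (s : ℕ) (u : F) :
    hE ax r c * xE ax s u * (hE ax r c)⁻¹ = xE ax s (((c ^ pair chevE8 (Rn r) (Rn s) : Fˣ) : F) * u) := by
  apply ext2
  rw [map_mul, map_mul, map_inv, val_hE_tor ax r hr c, val_xE, val_xE]
  exact tor_hW_conj ax (Rn r) c (Rn s) (Rn_lt s) u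

lemma hL_gam' (i j : Fin 6) (h : i ≠ j) (s : Fˣ) (T : S3) (u : F) :
    hLE ax i j s * xE ax (gam T) u * (hLE ax i j s)⁻¹ = xE ax (gam T) (((s ^ pw i j T : Fˣ) : F) * u) := by
  have := hE_conj ax (rt i j) (rt_lt i j) s (gam T) u
  rw [pw_data i j T h] at this
  exact this

lemma hL_th' (i j : Fin 6) (h : i ≠ j) (s : Fˣ) (u : F) :
    hLE ax i j s * xE ax 71 u * (hLE ax i j s)⁻¹ = xE ax 71 u := by
  have := hE_conj ax (rt i j) (rt_lt i j) s 71 u
  rw [pw71_data i j h] at this
  simp only [zpow_zero, Units.val_one, one_mul] at this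
  exact this

/-- `h_β`. -/
noncomputable def hbE (c : Fˣ) : ↥(MM6 ax) := hE ax 46 c

lemma hb_mul' (c c' : Fˣ) : hbE ax (c * c') = hbE ax c * hbE ax c' := by
  apply ext2
  rw [map_mul]
  show val2 ax (hE ax 46 ((c * c' : Fˣ) : F)) = val2 ax (hE ax 46 c) * val2 ax (hE ax 46 c')
  rw [val_hE_tor ax 46 (by decide), val_hE_tor ax 46 (by decide), val_hE_tor ax 46 (by decide), ← tor_mul]
  congr 1
  funext j
  simp [hW, mul_zpow]

lemma pair_46_71 : pair chevE8 (Rn 46) (Rn 71) = 1 := by decide +kernel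
lemma pair_46_46 : pair chevE8 (Rn 46) (Rn 46) = 2 := by decide +kernel

lemma hb_th' (c : Fˣ) (u : F) : hbE ax c * xE ax 71 u * (hbE ax c)⁻¹ = xE ax 71 ((c : F) * u) := by
  have := hE_conj ax 46 (by decide) c 71 u
  rw [pair_46_71, zpow_one] at this
  exact this

lemma hb_gam' (T : S3) : ∃ e : ℤ, ∀ (c : Fˣ) (u : F), hbE ax c * xE ax (gam T) u * (hbE ax c)⁻¹ = xE ax (gam T) (((c ^ e : Fˣ) : F) * u) :=
  ⟨pair chevE8 (Rn 46) (Rn (gam T)), fun c u => hE_conj ax 46 (by decide) c (gam T) u⟩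

lemma hb_β' (c : Fˣ) (u : F) : hbE ax c * xE ax 46 u * (hbE ax c)⁻¹ = xE ax 46 ((c : F) ^ 2 * u) := by
  have := hE_conj ax 46 (by decide) c 46 u
  have e : ((c ^ (2 : ℤ) : Fˣ) : F) = (c : F) ^ 2 := by simp
  rw [pair_46_46, e] at this
  exact this

/-- `n_β(1)`. -/
noncomputable def nbE : ↥(MM6 ax) := nE ax 46 1

lemma nG_eq_hG_mul' (r : ℕ) (t : F) : nG ax r t = hG ax r t * nG ax r 1 := by
  simp only [hG, mul_assoc, ← nG_inv, inv_mul_cancel, mul_one]

lemma nb_eq' (c : Fˣ) : xE ax 46 c * xE ax 25 (-((c : F)⁻¹)) * xE ax 46 c = hbE ax c * nbE ax := by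
  apply ext2
  rw [map_mul, map_mul, map_mul, val_xE, val_xE]
  show xG ax (Rn 46) c * xG ax (Rn 25) (-((c : F)⁻¹)) * xG ax (Rn 46) c = val2 ax (hE ax 46 c) * val2 ax (nE ax 46 1)
  rw [val_hE_tor ax 46 (by decide), val_nE ax 46 (by decide)]
  have hn : chevE8.neg (Rn 46) = Rn 25 := by decide +kernel
  have e1 : xG ax (Rn 46) c * xG ax (Rn 25) (-((c : F)⁻¹)) * xG ax (Rn 46) c = nG ax (Rn 46) c := by
    simp only [nG, hn]
  rw [e1, nG_eq_hG_mul' ax, hG_eq_tor ax tabE8 (Rn_lt 46)]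

theorem simple1 : chevE8.simple 1 = Rn 46 := by decide +kernel
theorem refl1 : ∀ r, r < 72 → chevE8.reflectRoot 1 (Rn r) = Rn (reflB r) := by decide +kernel

lemma nb_conj' (r : ℕ) (hr : r < 72) :
    ∃ η : F, (η = 1 ∨ η = -1) ∧ ∀ u, nbE ax * xE ax r u * (nbE ax)⁻¹ = xE ax (reflB r) (η * u) := by
  obtain ⟨η, hη, h⟩ := n_conj_aux ax 1 (by decide) (Rn r) (Rn_lt r)
  refine ⟨η, hη, fun u => ext2 ax ?_⟩
  have h2 := h u
  rw [simple1, refl1 r hr] at h2
  rw [map_mul, map_mul, map_inv, val_xE, val_xE]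
  show val2 ax (nE ax 46 1) * _ * (val2 ax (nE ax 46 1))⁻¹ = _
  rw [val_nE ax 46 (by decide)]
  exact h2

lemma conj_tor_hW (i : ℕ) (hi : i < chevE8.rank) (r : ℕ) (hr : r < chevE8.nroots) (c : Fˣ) :
    sG ax i * tor chevE8 (hW chevE8 r c) * (sG ax i)⁻¹ = tor chevE8 (hW chevE8 (chevE8.reflectRoot i r) c) := by
  obtain ⟨e, H⟩ := exists_isNor_sG tabE8 ax tab2E8 hi
  have h1 := H.conj_hG tabE8 ax ⟨r, hr⟩ (t := (c : F)) c.ne_zero
  rw [hG_eq_tor ax tabE8 hr] at h1
  rw [h1]
  have hlt : (wF tabE8 i hi ⟨r, hr⟩ : ℕ) < chevE8.nroots := (wF tabE8 i hi ⟨r, hr⟩).isLt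
  have h2 : (e ⟨r, hr⟩ : F) * (c : F) = ((e ⟨r, hr⟩ * c : Fˣ) : F) := rfl
  rw [h2, hG_eq_tor ax tabE8 hlt, hG_eq_tor ax tabE8 hlt, tor_inv, ← tor_mul, wF_val]
  congr 1
  funext j
  simp [hW, mul_zpow]

theorem pair_25 : ∀ j, j < 8 → pair chevE8 (Rn 25) (chevE8.simple j) = - pair chevE8 (Rn 46) (chevE8.simple j) := by
  decide +kernel

lemma nb_hb' (c : Fˣ) : nbE ax * hbE ax c * (nbE ax)⁻¹ = hbE ax c⁻¹ := by
  apply ext2
  rw [map_mul, map_mul, map_inv]
  show val2 ax (nE ax 46 1) * val2 ax (hE ax 46 c) * (val2 ax (nE ax 46 1))⁻¹ = val2 ax (hE ax 46 ((c⁻¹ : Fˣ) : F))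
  rw [val_nE ax 46 (by decide), val_hE_tor ax 46 (by decide), val_hE_tor ax 46 (by decide)]
  have e0 : sG ax 1 = nG ax (Rn 46) 1 := by rw [sG, simple1]
  have h1 := conj_tor_hW ax 1 (by decide) (Rn 46) (Rn_lt 46) c
  rw [e0, show chevE8.reflectRoot 1 (Rn 46) = Rn 25 by decide +kernel] at h1
  rw [h1]
  apply tor_congr
  intro j hj
  show c ^ pair chevE8 (Rn 25) (chevE8.simple j) = c⁻¹ ^ pair chevE8 (Rn 46) (chevE8.simple j)
  rw [pair_25 j hj, zpow_neg, inv_zpow]

/-! ### Conjugacy of roots and generation -/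

lemma xE_mod (r : ℕ) (t : F) : (MM6 ax).subtype (xE ax (r % 72) t) = xE8 ax (Rn r) t := by
  apply Subtype.ext
  show xG ax (Rn (r % 72)) t = xG ax (Rn r) t
  rw [Rn_mod]

lemma inv_sign {η : F} (hη : η = 1 ∨ η = -1) (v : F) : η * (η * v) = v := by
  rcases hη with rfl | rfl <;> simp

seal xE in
set_option maxHeartbeats 4000000 in
lemma lconj' (r : ℕ) (hr : r < 72) :
    ∃ g : ↥(MM6 ax), ∃ η : F, (η = 1 ∨ η = -1) ∧ ∀ u, g * xE ax 71 u * g⁻¹ = xE ax r (η * u) := by
  let P : ℕ → Prop := fun r => ∃ g : ↥(MM6 ax), ∃ η : F, (η = 1 ∨ η = -1) ∧ ∀ u, g * xE ax 71 u * g⁻¹ = xE ax r (η * u)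
  have st : ∀ (i r c : ℕ), i < 6 → r < 72 → chevE6.reflectRoot i r = c → P r → P c := by
    rintro i r c hi hr rfl ⟨g, η, hη, h⟩
    obtain ⟨η', hη', h3⟩ := sE_conj ax i hi r hr
    refine ⟨sE ax i * g, η' * η, mul_sign hη' hη, fun u => ?_⟩
    have e1 : sE ax i * g * xE ax 71 u * (sE ax i * g)⁻¹ = sE ax i * (g * xE ax 71 u * g⁻¹) * (sE ax i)⁻¹ := by group
    rw [e1, h, h3, mul_assoc]
  have h71 : P 71 := ⟨1, 1, Or.inl rfl, fun u => by simp⟩
  have h70 := st 1 71 70 (by decide +kernel) (by decide +kernel) (by decide +kernel) h71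
  have h69 := st 3 70 69 (by decide +kernel) (by decide +kernel) (by decide +kernel) h70
  have h66 := st 2 69 66 (by decide +kernel) (by decide +kernel) (by decide +kernel) h69
  have h68 := st 4 69 68 (by decide +kernel) (by decide +kernel) (by decide +kernel) h69
  have h55 := st 0 66 55 (by decide +kernel) (by decide +kernel) (by decide +kernel) h66
  have h65 := st 4 66 65 (by decide +kernel) (by decide +kernel) (by decide +kernel) h66
  have h67 := st 5 68 67 (by decide +kernel) (by decide +kernel) (by decide +kernel) h68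
  have h54 := st 4 55 54 (by decide +kernel) (by decide +kernel) (by decide +kernel) h55
  have h63 := st 3 65 63 (by decide +kernel) (by decide +kernel) (by decide +kernel) h65
  have h64 := st 5 65 64 (by decide +kernel) (by decide +kernel) (by decide +kernel) h65
  have h52 := st 3 54 52 (by decide +kernel) (by decide +kernel) (by decide +kernel) h54
  have h53 := st 5 54 53 (by decide +kernel) (by decide +kernel) (by decide +kernel) h54
  have h60 := st 1 63 60 (by decide +kernel) (by decide +kernel) (by decide +kernel) h63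
  have h62 := st 5 63 62 (by decide +kernel) (by decide +kernel) (by decide +kernel) h63
  have h45 := st 1 52 45 (by decide +kernel) (by decide +kernel) (by decide +kernel) h52
  have h49 := st 2 52 49 (by decide +kernel) (by decide +kernel) (by decide +kernel) h52
  have h51 := st 5 52 51 (by decide +kernel) (by decide +kernel) (by decide +kernel) h52
  have h59 := st 5 60 59 (by decide +kernel) (by decide +kernel) (by decide +kernel) h60
  have h61 := st 4 62 61 (by decide +kernel) (by decide +kernel) (by decide +kernel) h62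
  have h41 := st 2 45 41 (by decide +kernel) (by decide +kernel) (by decide +kernel) h45
  have h44 := st 5 45 44 (by decide +kernel) (by decide +kernel) (by decide +kernel) h45
  have h48 := st 5 49 48 (by decide +kernel) (by decide +kernel) (by decide +kernel) h49
  have h50 := st 4 51 50 (by decide +kernel) (by decide +kernel) (by decide +kernel) h51
  have h58 := st 4 59 58 (by decide +kernel) (by decide +kernel) (by decide +kernel) h59
  have h38 := st 3 41 38 (by decide +kernel) (by decide +kernel) (by decide +kernel) h41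
  have h40 := st 5 41 40 (by decide +kernel) (by decide +kernel) (by decide +kernel) h41
  have h43 := st 4 44 43 (by decide +kernel) (by decide +kernel) (by decide +kernel) h44
  have h47 := st 4 48 47 (by decide +kernel) (by decide +kernel) (by decide +kernel) h48
  have h57 := st 3 58 57 (by decide +kernel) (by decide +kernel) (by decide +kernel) h58
  have h36 := st 4 38 36 (by decide +kernel) (by decide +kernel) (by decide +kernel) h38
  have h37 := st 5 38 37 (by decide +kernel) (by decide +kernel) (by decide +kernel) h38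
  have h39 := st 4 40 39 (by decide +kernel) (by decide +kernel) (by decide +kernel) h40
  have h42 := st 3 43 42 (by decide +kernel) (by decide +kernel) (by decide +kernel) h43
  have h46 := st 3 47 46 (by decide +kernel) (by decide +kernel) (by decide +kernel) h47
  have h56 := st 2 57 56 (by decide +kernel) (by decide +kernel) (by decide +kernel) h57
  have h35 := st 5 36 35 (by decide +kernel) (by decide +kernel) (by decide +kernel) h36
  have h34 := st 4 37 34 (by decide +kernel) (by decide +kernel) (by decide +kernel) h37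
  have h32 := st 3 39 32 (by decide +kernel) (by decide +kernel) (by decide +kernel) h39
  have h29 := st 2 42 29 (by decide +kernel) (by decide +kernel) (by decide +kernel) h42
  have h25 := st 1 46 25 (by decide +kernel) (by decide +kernel) (by decide +kernel) h46
  have h15 := st 0 56 15 (by decide +kernel) (by decide +kernel) (by decide +kernel) h56
  have h33 := st 4 35 33 (by decide +kernel) (by decide +kernel) (by decide +kernel) h35
  have h31 := st 3 34 31 (by decide +kernel) (by decide +kernel) (by decide +kernel) h34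
  have h24 := st 1 32 24 (by decide +kernel) (by decide +kernel) (by decide +kernel) h32
  have h28 := st 2 32 28 (by decide +kernel) (by decide +kernel) (by decide +kernel) h32
  have h14 := st 0 29 14 (by decide +kernel) (by decide +kernel) (by decide +kernel) h29
  have h30 := st 3 33 30 (by decide +kernel) (by decide +kernel) (by decide +kernel) h33
  have h23 := st 1 31 23 (by decide +kernel) (by decide +kernel) (by decide +kernel) h31
  have h27 := st 2 31 27 (by decide +kernel) (by decide +kernel) (by decide +kernel) h31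
  have h21 := st 2 24 21 (by decide +kernel) (by decide +kernel) (by decide +kernel) h24
  have h13 := st 0 28 13 (by decide +kernel) (by decide +kernel) (by decide +kernel) h28
  have h22 := st 1 30 22 (by decide +kernel) (by decide +kernel) (by decide +kernel) h30
  have h26 := st 2 30 26 (by decide +kernel) (by decide +kernel) (by decide +kernel) h30
  have h20 := st 2 23 20 (by decide +kernel) (by decide +kernel) (by decide +kernel) h23
  have h12 := st 0 27 12 (by decide +kernel) (by decide +kernel) (by decide +kernel) h27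
  have h10 := st 0 21 10 (by decide +kernel) (by decide +kernel) (by decide +kernel) h21
  have h19 := st 2 22 19 (by decide +kernel) (by decide +kernel) (by decide +kernel) h22
  have h11 := st 0 26 11 (by decide +kernel) (by decide +kernel) (by decide +kernel) h26
  have h9 := st 0 20 9 (by decide +kernel) (by decide +kernel) (by decide +kernel) h20
  have h18 := st 3 20 18 (by decide +kernel) (by decide +kernel) (by decide +kernel) h20
  have h8 := st 0 19 8 (by decide +kernel) (by decide +kernel) (by decide +kernel) h19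
  have h17 := st 3 19 17 (by decide +kernel) (by decide +kernel) (by decide +kernel) h19
  have h7 := st 3 9 7 (by decide +kernel) (by decide +kernel) (by decide +kernel) h9
  have h6 := st 3 8 6 (by decide +kernel) (by decide +kernel) (by decide +kernel) h8
  have h16 := st 4 17 16 (by decide +kernel) (by decide +kernel) (by decide +kernel) h17
  have h4 := st 2 7 4 (by decide +kernel) (by decide +kernel) (by decide +kernel) h7
  have h3 := st 2 6 3 (by decide +kernel) (by decide +kernel) (by decide +kernel) h6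
  have h5 := st 4 6 5 (by decide +kernel) (by decide +kernel) (by decide +kernel) h6
  have h2 := st 4 3 2 (by decide +kernel) (by decide +kernel) (by decide +kernel) h3
  have h1 := st 3 2 1 (by decide +kernel) (by decide +kernel) (by decide +kernel) h2
  have h0 := st 1 1 0 (by decide +kernel) (by decide +kernel) (by decide +kernel) h1
  show P r
  interval_cases r <;> assumption

seal xE in
set_option maxHeartbeats 4000000 in
lemma gen' (K : Subgroup ↥(MM6 ax)) (hrt : ∀ i j : Fin 6, i ≠ j → ∀ u, xE ax (rt i j) u ∈ K)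
    (h46 : ∀ u, xE ax 46 u ∈ K) (h25 : ∀ u, xE ax 25 u ∈ K) : K = ⊤ := by
  have hneg : ∀ i, i < 6 → ((∀ u, xE ax (chevE6.simple i) u ∈ K) ∧ ∀ u, xE ax (chevE6.neg (chevE6.simple i)) u ∈ K) := by
    intro i hi
    interval_cases i
    · exact ⟨hrt 0 1 (by decide), hrt 1 0 (by decide)⟩
    · exact ⟨h46, h25⟩
    · exact ⟨hrt 1 2 (by decide), hrt 2 1 (by decide)⟩
    · exact ⟨hrt 2 3 (by decide), hrt 3 2 (by decide)⟩
    · exact ⟨hrt 3 4 (by decide), hrt 4 3 (by decide)⟩
    · exact ⟨hrt 4 5 (by decide), hrt 5 4 (by decide)⟩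
  have hsK : ∀ i, i < 6 → sE ax i ∈ K := by
    intro i hi
    obtain ⟨h1, h2⟩ := hneg i hi
    have : sE ax i = xE ax (chevE6.simple i) 1 * xE ax (chevE6.neg (chevE6.simple i)) (-(1 : F)⁻¹) * xE ax (chevE6.simple i) 1 := rfl
    rw [this]
    exact mul_mem (mul_mem (h1 _) (h2 _)) (h1 _)
  have st : ∀ (i r c : ℕ), i < 6 → r < 72 → chevE6.reflectRoot i r = c → (∀ v, xE ax r v ∈ K) → ∀ v, xE ax c v ∈ K := by
    rintro i r c hi hr rfl h v
    obtain ⟨η, hη, e⟩ := sE_conj ax i hi r hr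
    have := e (η * v)
    rw [inv_sign hη] at this
    rw [← this]
    exact mul_mem (mul_mem (hsK i hi) (h _)) (inv_mem (hsK i hi))
  have h56 : ∀ v, xE ax 56 v ∈ K := hrt 0 1 (by decide)
  have h57 : ∀ v, xE ax 57 v ∈ K := hrt 0 2 (by decide)
  have h58 : ∀ v, xE ax 58 v ∈ K := hrt 0 3 (by decide)
  have h59 : ∀ v, xE ax 59 v ∈ K := hrt 0 4 (by decide)
  have h60 : ∀ v, xE ax 60 v ∈ K := hrt 0 5 (by decide)
  have h15 : ∀ v, xE ax 15 v ∈ K := hrt 1 0 (by decide)
  have h42 : ∀ v, xE ax 42 v ∈ K := hrt 1 2 (by decide)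
  have h43 : ∀ v, xE ax 43 v ∈ K := hrt 1 3 (by decide)
  have h44 : ∀ v, xE ax 44 v ∈ K := hrt 1 4 (by decide)
  have h45 : ∀ v, xE ax 45 v ∈ K := hrt 1 5 (by decide)
  have h14 : ∀ v, xE ax 14 v ∈ K := hrt 2 0 (by decide)
  have h29 : ∀ v, xE ax 29 v ∈ K := hrt 2 1 (by decide)
  have h39 : ∀ v, xE ax 39 v ∈ K := hrt 2 3 (by decide)
  have h40 : ∀ v, xE ax 40 v ∈ K := hrt 2 4 (by decide)
  have h41 : ∀ v, xE ax 41 v ∈ K := hrt 2 5 (by decide)
  have h13 : ∀ v, xE ax 13 v ∈ K := hrt 3 0 (by decide)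
  have h28 : ∀ v, xE ax 28 v ∈ K := hrt 3 1 (by decide)
  have h32 : ∀ v, xE ax 32 v ∈ K := hrt 3 2 (by decide)
  have h37 : ∀ v, xE ax 37 v ∈ K := hrt 3 4 (by decide)
  have h38 : ∀ v, xE ax 38 v ∈ K := hrt 3 5 (by decide)
  have h12 : ∀ v, xE ax 12 v ∈ K := hrt 4 0 (by decide)
  have h27 : ∀ v, xE ax 27 v ∈ K := hrt 4 1 (by decide)
  have h31 : ∀ v, xE ax 31 v ∈ K := hrt 4 2 (by decide)
  have h34 : ∀ v, xE ax 34 v ∈ K := hrt 4 3 (by decide)
  have h36 : ∀ v, xE ax 36 v ∈ K := hrt 4 5 (by decide)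
  have h11 : ∀ v, xE ax 11 v ∈ K := hrt 5 0 (by decide)
  have h26 : ∀ v, xE ax 26 v ∈ K := hrt 5 1 (by decide)
  have h30 : ∀ v, xE ax 30 v ∈ K := hrt 5 2 (by decide)
  have h33 : ∀ v, xE ax 33 v ∈ K := hrt 5 3 (by decide)
  have h35 : ∀ v, xE ax 35 v ∈ K := hrt 5 4 (by decide)
  have h8 : ∀ v, xE ax 8 v ∈ K := st 1 11 8 (by decide +kernel) (by decide +kernel) (by decide +kernel) h11
  have h9 : ∀ v, xE ax 9 v ∈ K := st 1 12 9 (by decide +kernel) (by decide +kernel) (by decide +kernel) h12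
  have h10 : ∀ v, xE ax 10 v ∈ K := st 1 13 10 (by decide +kernel) (by decide +kernel) (by decide +kernel) h13
  have h24 : ∀ v, xE ax 24 v ∈ K := st 3 25 24 (by decide +kernel) (by decide +kernel) (by decide +kernel) h25
  have h19 : ∀ v, xE ax 19 v ∈ K := st 1 26 19 (by decide +kernel) (by decide +kernel) (by decide +kernel) h26
  have h20 : ∀ v, xE ax 20 v ∈ K := st 1 27 20 (by decide +kernel) (by decide +kernel) (by decide +kernel) h27
  have h21 : ∀ v, xE ax 21 v ∈ K := st 1 28 21 (by decide +kernel) (by decide +kernel) (by decide +kernel) h28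
  have h22 : ∀ v, xE ax 22 v ∈ K := st 1 30 22 (by decide +kernel) (by decide +kernel) (by decide +kernel) h30
  have h23 : ∀ v, xE ax 23 v ∈ K := st 1 31 23 (by decide +kernel) (by decide +kernel) (by decide +kernel) h31
  have h47 : ∀ v, xE ax 47 v ∈ K := st 1 39 47 (by decide +kernel) (by decide +kernel) (by decide +kernel) h39
  have h48 : ∀ v, xE ax 48 v ∈ K := st 1 40 48 (by decide +kernel) (by decide +kernel) (by decide +kernel) h40
  have h49 : ∀ v, xE ax 49 v ∈ K := st 1 41 49 (by decide +kernel) (by decide +kernel) (by decide +kernel) h41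
  have h50 : ∀ v, xE ax 50 v ∈ K := st 1 43 50 (by decide +kernel) (by decide +kernel) (by decide +kernel) h43
  have h51 : ∀ v, xE ax 51 v ∈ K := st 1 44 51 (by decide +kernel) (by decide +kernel) (by decide +kernel) h44
  have h52 : ∀ v, xE ax 52 v ∈ K := st 1 45 52 (by decide +kernel) (by decide +kernel) (by decide +kernel) h45
  have h61 : ∀ v, xE ax 61 v ∈ K := st 1 58 61 (by decide +kernel) (by decide +kernel) (by decide +kernel) h58
  have h62 : ∀ v, xE ax 62 v ∈ K := st 1 59 62 (by decide +kernel) (by decide +kernel) (by decide +kernel) h59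
  have h63 : ∀ v, xE ax 63 v ∈ K := st 1 60 63 (by decide +kernel) (by decide +kernel) (by decide +kernel) h60
  have h6 : ∀ v, xE ax 6 v ∈ K := st 3 8 6 (by decide +kernel) (by decide +kernel) (by decide +kernel) h8
  have h7 : ∀ v, xE ax 7 v ∈ K := st 3 9 7 (by decide +kernel) (by decide +kernel) (by decide +kernel) h9
  have h17 : ∀ v, xE ax 17 v ∈ K := st 3 19 17 (by decide +kernel) (by decide +kernel) (by decide +kernel) h19
  have h18 : ∀ v, xE ax 18 v ∈ K := st 3 20 18 (by decide +kernel) (by decide +kernel) (by decide +kernel) h20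
  have h53 : ∀ v, xE ax 53 v ∈ K := st 3 51 53 (by decide +kernel) (by decide +kernel) (by decide +kernel) h51
  have h54 : ∀ v, xE ax 54 v ∈ K := st 3 52 54 (by decide +kernel) (by decide +kernel) (by decide +kernel) h52
  have h64 : ∀ v, xE ax 64 v ∈ K := st 3 62 64 (by decide +kernel) (by decide +kernel) (by decide +kernel) h62
  have h65 : ∀ v, xE ax 65 v ∈ K := st 3 63 65 (by decide +kernel) (by decide +kernel) (by decide +kernel) h63
  have h3 : ∀ v, xE ax 3 v ∈ K := st 2 6 3 (by decide +kernel) (by decide +kernel) (by decide +kernel) h6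
  have h5 : ∀ v, xE ax 5 v ∈ K := st 4 6 5 (by decide +kernel) (by decide +kernel) (by decide +kernel) h6
  have h4 : ∀ v, xE ax 4 v ∈ K := st 2 7 4 (by decide +kernel) (by decide +kernel) (by decide +kernel) h7
  have h16 : ∀ v, xE ax 16 v ∈ K := st 4 17 16 (by decide +kernel) (by decide +kernel) (by decide +kernel) h17
  have h55 : ∀ v, xE ax 55 v ∈ K := st 4 54 55 (by decide +kernel) (by decide +kernel) (by decide +kernel) h54
  have h67 : ∀ v, xE ax 67 v ∈ K := st 2 64 67 (by decide +kernel) (by decide +kernel) (by decide +kernel) h64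
  have h68 : ∀ v, xE ax 68 v ∈ K := st 2 65 68 (by decide +kernel) (by decide +kernel) (by decide +kernel) h65
  have h66 : ∀ v, xE ax 66 v ∈ K := st 4 65 66 (by decide +kernel) (by decide +kernel) (by decide +kernel) h65
  have h2 : ∀ v, xE ax 2 v ∈ K := st 4 3 2 (by decide +kernel) (by decide +kernel) (by decide +kernel) h3
  have h69 : ∀ v, xE ax 69 v ∈ K := st 4 68 69 (by decide +kernel) (by decide +kernel) (by decide +kernel) h68
  have h1 : ∀ v, xE ax 1 v ∈ K := st 3 2 1 (by decide +kernel) (by decide +kernel) (by decide +kernel) h2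
  have h70 : ∀ v, xE ax 70 v ∈ K := st 3 69 70 (by decide +kernel) (by decide +kernel) (by decide +kernel) h69
  have h0 : ∀ v, xE ax 0 v ∈ K := st 1 1 0 (by decide +kernel) (by decide +kernel) (by decide +kernel) h1
  have h71 : ∀ v, xE ax 71 v ∈ K := st 1 70 71 (by decide +kernel) (by decide +kernel) (by decide +kernel) h70
  have hall : ∀ r, r < 72 → ∀ v, xE ax r v ∈ K := by
    intro r hr
    interval_cases r <;> assumption
  have hle : MM6 ax ≤ K.map (MM6 ax).subtype := by
    refine (Subgroup.closure_le _).mpr ?_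
    rintro g ⟨r, t, rfl⟩
    have hr : r % 72 < 72 := Nat.mod_lt _ (by decide)
    exact ⟨xE ax (r % 72) t, hall _ hr t, xE_mod ax r t⟩
  rw [eq_top_iff]
  intro g _
  obtain ⟨y, hy, hyg⟩ := hle g.2
  have : y = g := Subtype.ext hyg
  rwa [← this]

/-! ### The homomorphism from `SL₆` -/

theorem terms_comm : ∀ i j l : Fin 6, i ≠ j → j ≠ l → i ≠ l →
    chevE8.commTerms (Rn (rt i j)) (Rn (rt j l)) = [(Rn (rt i l), -1, 1, 1)] := by decide +kernel

theorem terms_disj : ∀ i j k l : Fin 6, i ≠ j → k ≠ l → j ≠ k → i ≠ l → (i, j) ≠ (k, l) →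
    chevE8.commTerms (Rn (rt i j)) (Rn (rt k l)) = [] := by decide +kernel

theorem rt_inj : ∀ i j k l : Fin 6, i ≠ j → k ≠ l → Rn (rt i j) = Rn (rt k l) → (i, j) = (k, l) := by decide +kernel

theorem rt_neg : ∀ i j : Fin 6, i ≠ j → chevE8.neg (Rn (rt i j)) = Rn (rt j i) := by decide +kernel

/-- The Steinberg family in `GL`: `x' i j a = x_{rt i j}(-a)`. -/
noncomputable def xS (i j : Fin 6) (a : F) : GL chevE8.Idx F := xG ax (Rn (rt i j)) (-a)

theorem rel_xS : Rel (xS ax : Fin 6 → Fin 6 → F → GL chevE8.Idx F) := by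
  refine ⟨fun i j h t u => ?_, fun i j k l hij hkl hjk hil t u => ?_, fun i j l hij hjl hil t u => ?_⟩
  · simp only [xS]
    rw [xG_add, neg_add]
  · simp only [xS]
    by_cases he : (i, j) = (k, l)
    · obtain ⟨rfl, rfl⟩ := Prod.mk.inj he
      rw [xG_add, xG_add, add_comm]
    · have hrs : Rn (rt i j) ≠ Rn (rt k l) := fun h => he (rt_inj i j k l hij hkl h)
      have hneg : Rn (rt i j) ≠ chevE8.neg (Rn (rt k l)) := by
        rw [rt_neg k l hkl]
        intro h
        have := rt_inj i j l k hij hkl.symm h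
        exact hjk (Prod.mk.inj this).2
      have h := xG_comm ax (r := Rn (rt k l)) (s := Rn (rt i j)) (Rn_lt _) (Rn_lt _) hrs hneg (-u) (-t)
      have e : chevE8.commTerms (Rn (rt k l)) (Rn (rt i j)) = [] :=
        terms_disj k l i j hkl hij hil.symm hjk.symm (fun h => he (Prod.ext (Prod.mk.inj h).1.symm (Prod.mk.inj h).2.symm))
      simp only [ChevalleyDatum.commWord, e, wordG, List.map_nil, List.prod_nil, mul_one] at h
      exact h
  · simp only [xS]
    have hij' : Rn (rt j l) ≠ Rn (rt i j) := fun h => by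
      have := rt_inj j l i j hjl hij h
      exact hij (Prod.mk.inj this).1.symm
    have hneg : Rn (rt j l) ≠ chevE8.neg (Rn (rt i j)) := by
      rw [rt_neg i j hij]
      intro h
      have := rt_inj j l j i hjl hij.symm h
      exact hil (Prod.mk.inj this).2.symm
    have h := xG_comm ax (r := Rn (rt i j)) (s := Rn (rt j l)) (Rn_lt _) (Rn_lt _) hij' hneg t u
    have e := terms_comm i j l hij hjl hil
    simp only [ChevalleyDatum.commWord, e, wordG, List.map_cons, List.map_nil, List.prod_cons, List.prod_nil,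
      mul_one] at h
    have e0 : (((-1 : ℤ) : F)) * (-t) ^ 1 * u ^ 1 = t * u := by push_cast; ring
    rw [e0] at h
    rw [← xG_inv, ← xG_inv, ← xG_inv, inv_inv, inv_inv]
    have hC : xG ax (Rn (rt i l)) (t * u) = (xG ax (Rn (rt i j)) t * xG ax (Rn (rt j l)) u)⁻¹ * (xG ax (Rn (rt j l)) u * xG ax (Rn (rt i j)) t) := by
      rw [h]
      group
    rw [hC]
    group

end

/-- A family with the Steinberg relations over a finite field is the image of the transvections under a homomorphism. -/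
theorem exists_hom_of_rel {J K Γ : Type*} [Fintype J] [DecidableEq J] [Field K] [Finite K] [Group Γ]
    (hn : 3 ≤ Fintype.card J) (x : J → J → K → Γ) (R : Rel x) :
    ∃ f : Matrix.SpecialLinearGroup J K →* Γ, ∀ i j (h : i ≠ j) t,
      f (Matrix.SpecialLinearGroup.transvection h t) = x i j t := by
  classical
  let tt := (Cfsg.Agent.Lib.Schur.SLnStem.tt : J → J → K → Matrix.SpecialLinearGroup J K)
  have Rt : Rel tt := Cfsg.Agent.Lib.Schur.SLnStem.tt_rel
  let y : J → J → K → Γ × Matrix.SpecialLinearGroup J K := fun i j t => (x i j t, tt i j t)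
  have hR : Rel y := by
    refine ⟨fun i j h t u => ?_, fun i j k l hij hkl hjk hil t u => ?_, fun i j l hij hjl hil t u => ?_⟩
    · exact Prod.ext (R.add i j h t u) (Rt.add i j h t u)
    · exact Prod.ext (R.comm i j k l hij hkl hjk hil t u) (Rt.comm i j k l hij hkl hjk hil t u)
    · exact Prod.ext (R.comm2 i j l hij hjl hil t u) (Rt.comm2 i j l hij hjl hil t u)
  let φ : Γ × Matrix.SpecialLinearGroup J K →* Matrix.SpecialLinearGroup J K := MonoidHom.snd _ _
  have h3 : ∀ i j : J, ∃ k, k ≠ i ∧ k ≠ j := by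
    intro i j
    obtain ⟨k, h1, h2⟩ := Cfsg.Agent.Lib.Classical.Transvections.exists_third_index hn i j
    exact ⟨k, h1.symm, h2⟩
  have hinj := inj_all φ hR (fun i j hij t => Cfsg.Agent.Lib.Schur.SLnStem.tt_coe hij t) h3 Finset.univ
  let X := Xc y (pG Finset.univ)
  let φ' : X →* Matrix.SpecialLinearGroup J K := φ.comp X.subtype
  have hbij : Function.Bijective φ' := by
    constructor
    · rw [injective_iff_map_eq_one]
      rintro ⟨g, hg⟩ hg1
      exact Subtype.ext (hinj g hg hg1)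
    · have hNon : Nontrivial J := Fintype.one_lt_card_iff_nontrivial.1 (by omega)
      rw [← MonoidHom.range_eq_top, eq_top_iff,
        ← Cfsg.Agent.Lib.Classical.Transvections.closure_transvections_eq_top (F := K), Subgroup.closure_le]
      rintro _ ⟨i, j, hij, a, rfl⟩
      refine ⟨⟨y i j a, x_mem hij ⟨Finset.mem_univ _, Finset.mem_univ _⟩ a⟩, ?_⟩
      exact Cfsg.Agent.Lib.Schur.SLnStem.tt_of_ne hij a
  let E := MulEquiv.ofBijective φ' hbij
  refine ⟨(MonoidHom.fst _ _).comp (X.subtype.comp E.symm.toMonoidHom), fun i j h t => ?_⟩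
  have h1 : E ⟨y i j t, x_mem h ⟨Finset.mem_univ _, Finset.mem_univ _⟩ t⟩ = Matrix.SpecialLinearGroup.transvection h t :=
    Cfsg.Agent.Lib.Schur.SLnStem.tt_of_ne h t
  have h2 : E.symm (Matrix.SpecialLinearGroup.transvection h t) = ⟨y i j t, x_mem h ⟨Finset.mem_univ _, Finset.mem_univ _⟩ t⟩ := by
    rw [← h1, E.symm_apply_apply]
  change ((E.symm (Matrix.SpecialLinearGroup.transvection h t) : X) : Γ × Matrix.SpecialLinearGroup J K).1 = _
  rw [h2]

/-- The system on `MM6 ax`. -/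
theorem exists_core [Finite F] (ax : Ax chevE8 F) :
    ∃ S6 : SysE F ↥(MM6 ax), ∀ r u, S6.x r u = xE ax r u := by
  have R := rel_xS ax
  let x' : Fin 6 → Fin 6 → F → ↥(MM6 ax) := fun i j a => xE ax (rt i j) (-a)
  have hR : Rel x' := by
    refine ⟨fun i j h t u => ext2 ax (R.add i j h t u), fun i j k l hij hkl hjk hil t u => ext2 ax (R.comm i j k l hij hkl hjk hil t u),
      fun i j l hij hjl hil t u => ext2 ax (R.comm2 i j l hij hjl hil t u)⟩
  obtain ⟨f, hf⟩ := exists_hom_of_rel (by simp) x' hR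
  exact ⟨{
    x := xE ax
    x_add := fun r _ a b => xE_add ax r a b
    tt := tt' ax
    uu := uu' ax
    eps := epsE
    eps_sign := fun T => sgnOf_sign _
    uc := uc' ax
    sg := sgE
    sg_sign := fun i j T => sgnOf_sign _
    lt := lt' ax
    lu0 := lu0' ax
    lu := lu' ax
    wL := wE ax
    w_conj := w_conj' ax
    w_th := w_th' ax
    hL := hLE ax
    hL_gam := hL_gam' ax
    hL_th := hL_th' ax
    hb := hbE ax
    hb_mul := hb_mul' ax
    hb_th := hb_th' ax
    hb_gam := hb_gam' ax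
    hb_β := hb_β' ax
    nb := nbE ax
    nb_eq := nb_eq' ax
    nb_conj := nb_conj' ax
    nb_hb := nb_hb' ax
    lconj := lconj' ax
    gen := gen' ax
    slh := f
    ste := fun _ _ => -1
    ste_sign := fun _ _ => Or.inr rfl
    slh_tr := fun i j h a => by
      rw [hf i j h a]
      show xE ax (rt i j) (-a) = xE ax (rt i j) (-1 * a)
      rw [neg_one_mul]
  }, fun r u => rfl⟩

end Cfsg.Agent.Lib.MinE8Inst6
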