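import Cfsg.Agent.Lib.MinE8.Lev7
import Cfsg.Agent.Lib.MinE6.Rn
import Cfsg.Agent.Lib.MinE6.Ar

/-! The level of `E₆`: `MinE6` applied to the `E₆` subgroup. -/

set_option autoImplicit false
set_option maxRecDepth 100000
set_option linter.unusedSectionVars false
set_option linter.unusedVariables false
set_option linter.style.haveILetI false

namespace Cfsg.Agent.Lib.MinE8

open Module
open scoped Classical

variable {F : Type*} [Field F] {Γ : Type*} [Group Γ] {V : Type} [AddCommGroup V] [Module ℂ V]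
variable {S : SysE8 F Γ} {ρ : Representation ℂ Γ V} {ψ : AddChar F ℂ}

/-- The subgroup `E₆`. -/
def MM (S : SysE8 F Γ) : Subgroup Γ := Subgroup.closure {g | ∃ (r : R6) (u : F), g = S.x (rr (em r)) u}

/-- `q⁵ + q⁴ + q³ + q² + q`. -/
def ww (q : ℕ) : ℕ := q ^ 5 + q ^ 4 + q ^ 3 + q ^ 2 + q

namespace Lev6Aux

lemma rr_lt : ∀ r : R7, rr r < 240 := by decide +kernel

lemma KK_fix {v : V} (hv : v ∈ KK S ρ ψ) :
    (∀ u, ρ (S.x 239 u) v = v) ∧ (∀ T u, ρ (S.x (gam T) u) v = v) ∧ (∀ T u, ρ (S.x (aa T) u) v = v) := by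
  refine ⟨?_, ?_, ?_⟩
  · intro u
    have := hv (239, 0) (mem_clist7.mpr (Or.inl (mem_clist.mpr (Or.inl rfl)))) u
    simpa using this
  · intro T u
    have := hv (gam T, (0 : P8 → F) T) (mem_clist7.mpr (Or.inl (mem_clist.mpr (Or.inr ⟨T, rfl⟩)))) u
    simpa using this
  · intro T u
    have := hv (aa T, (0 : P7 → F) T) (mem_clist7.mpr (Or.inr ⟨T, rfl⟩)) u
    simpa using this

lemma KK_gen (r : R6) (t : F) {v : V} (hv : v ∈ KK S ρ ψ) : ρ (S.x (rr (em r)) t) v ∈ KK S ρ ψ := by
  obtain ⟨h0, h1, h2⟩ := KK_fix hv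
  rw [KK, mem_Wt]
  intro p hp u
  rcases mem_clist7.mp hp with hp | ⟨T, rfl⟩
  · rcases mem_clist.mp hp with rfl | ⟨T, rfl⟩
    · simp only [zero_mul, AddChar.map_zero_eq_one, one_smul]
      rw [← Module.End.mul_apply, ← map_mul, S.lt, map_mul, Module.End.mul_apply, h0]
    · simp only [Pi.zero_apply, zero_mul, AddChar.map_zero_eq_one, one_smul]
      rw [← Module.End.mul_apply, ← map_mul]
      cases hh : hs (em r) T with
      | false => rw [S.lu0 _ T hh, map_mul, Module.End.mul_apply, h1]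
      | true => rw [S.lu _ T hh, map_mul, map_mul, Module.End.mul_apply, Module.End.mul_apply, h1, h1]
  · simp only [Pi.zero_apply, zero_mul, AddChar.map_zero_eq_one, one_smul]
    rw [← Module.End.mul_apply, ← map_mul]
    cases hh : hs7 r T with
    | false => rw [S.la0 r T hh, map_mul, Module.End.mul_apply, h2]
    | true => rw [S.la r T hh, map_mul, map_mul, Module.End.mul_apply, Module.End.mul_apply, h2, h2]

/-- The stabiliser of `K`. -/
def StabK (S : SysE8 F Γ) (ρ : Representation ℂ Γ V) (ψ : AddChar F ℂ) : Subgroup Γ where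
  carrier := {g | (∀ v ∈ KK S ρ ψ, ρ g v ∈ KK S ρ ψ) ∧ (∀ v ∈ KK S ρ ψ, ρ g⁻¹ v ∈ KK S ρ ψ)}
  mul_mem' := by
    rintro a b ⟨ha, ha'⟩ ⟨hb, hb'⟩
    refine ⟨fun v hv => ?_, fun v hv => ?_⟩
    · rw [map_mul, Module.End.mul_apply]; exact ha _ (hb _ hv)
    · rw [mul_inv_rev, map_mul, Module.End.mul_apply]; exact hb' _ (ha' _ hv)
  one_mem' := by
    refine ⟨fun v hv => ?_, fun v hv => ?_⟩ <;> simpa using hv
  inv_mem' := by
    rintro a ⟨ha, ha'⟩
    exact ⟨ha', by simpa using ha⟩

lemma MM_le : MM S ≤ StabK S ρ ψ := by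
  refine (Subgroup.closure_le _).2 ?_
  rintro g ⟨r, u, rfl⟩
  refine ⟨fun v hv => KK_gen r u hv, fun v hv => ?_⟩
  rw [x_inv S _ (rr_lt _) u]
  exact KK_gen r (-u) hv

/-- `MM S` acts on `K`. -/
noncomputable def sigma (S : SysE8 F Γ) (ρ : Representation ℂ Γ V) (ψ : AddChar F ℂ) :
    Representation ℂ (MM S) (KK S ρ ψ) where
  toFun g := LinearMap.restrict (ρ (g : Γ) : V →ₗ[ℂ] V) (fun v hv => (MM_le g.2).1 v hv)
  map_one' := by ext v; simp
  map_mul' a b := by ext v; simp

lemma fix_of_gen {v : V} (h : ∀ (r : R6) (a : F), ρ (S.x (rr (em r)) a) v = v) (g : MM S) : ρ (g : Γ) v = v := by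
  let K : Subgroup Γ :=
    { carrier := {g | ρ g v = v}
      mul_mem' := by
        intro a b ha hb
        show ρ (a * b) v = v
        rw [map_mul, Module.End.mul_apply, hb, ha]
      one_mem' := by
        show ρ 1 v = v
        simp
      inv_mem' := by
        intro a ha
        show ρ a⁻¹ v = v
        conv_lhs => rw [← ha]
        rw [← Module.End.mul_apply, ← map_mul, inv_mul_cancel, map_one]
        rfl }
  exact (Subgroup.closure_le K).2 (by rintro _ ⟨r, u, rfl⟩; exact h r u) g.2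

lemma K0_eq : K0 S ρ ψ = (Representation.invariants (sigma S ρ ψ)).map (KK S ρ ψ).subtype := by
  ext v
  constructor
  · rintro ⟨hv, hv'⟩
    refine ⟨⟨v, hv⟩, ?_, rfl⟩
    intro g
    exact Subtype.ext (fix_of_gen hv' g)
  · rintro ⟨w, hw, rfl⟩
    refine ⟨w.2, fun r a => ?_⟩
    have := hw ⟨S.x (rr (em r)) a, Subgroup.subset_closure ⟨r, a, rfl⟩⟩
    exact congrArg Subtype.val this

/-- The complement of the invariants. -/
theorem exists_compl_rep {G : Type*} [Group G] [Finite G] {W₀ : Type} [AddCommGroup W₀] [Module ℂ W₀]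
    [FiniteDimensional ℂ W₀] (σ : Representation ℂ G W₀) :
    ∃ (W : Submodule ℂ W₀) (τ : Representation ℂ G W),
      finrank ℂ W₀ = finrank ℂ (Representation.invariants σ) + finrank ℂ W ∧
      (∀ w : W, (∀ g, τ g w = w) → w = 0) := by
  classical
  letI : Fintype G := Fintype.ofFinite G
  letI : Invertible ((Fintype.card G : ℕ) : ℂ) :=
    invertibleOfNonzero (by exact_mod_cast Fintype.card_ne_zero)
  have hproj : LinearMap.IsProj (Representation.invariants σ) (Representation.averageMap σ) :=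
    Representation.isProj_averageMap σ
  have hcompl : IsCompl (Representation.invariants σ) (LinearMap.ker (Representation.averageMap σ)) :=
    hproj.isCompl
  have hcomm : ∀ (g : G) (w : W₀), Representation.averageMap σ (σ g w) = Representation.averageMap σ w := by
    intro g w
    rw [Representation.averageMap, ← Representation.asAlgebraHom_single_one, ← Module.End.mul_apply,
      ← map_mul (Representation.asAlgebraHom σ), GroupAlgebra.mul_average_right]
  let W := LinearMap.ker (Representation.averageMap σ)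
  have hst : ∀ g, ∀ w ∈ W, σ g w ∈ W := fun g w hw => by
    rw [LinearMap.mem_ker] at hw ⊢
    rw [hcomm, hw]
  let τ : Representation ℂ G W :=
    { toFun := fun g => LinearMap.restrict (σ g) (hst g)
      map_one' := by ext v; simp
      map_mul' := fun a b => by ext v; simp }
  refine ⟨W, τ, (Submodule.finrank_add_eq_of_isCompl hcompl).symm, ?_⟩
  intro w hw
  have h1 : (w : W₀) ∈ Representation.invariants σ := fun g => congrArg Subtype.val (hw g)
  have h2 : (w : W₀) ∈ W := w.2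
  have h3 := hcompl.disjoint.le_bot ⟨h1, h2⟩
  exact Subtype.ext (by simpa using h3)

end Lev6Aux

/-- `K` is stable under `MM S` (`lt`, `lu0`, `lu`, `la0`, `la`: `actA`, `actA7` fix `0`). The orthogonal (here: the kernel of the averaging map) `W` of `K0` in `K`: `MM S` acts on `W`, no nonzero vector is fixed (`S6.gen` applied to the stabiliser: `MinE6.NoFix`). If `W ≠ 0`: either `MinE6.BB q ≤ dim W`, or `MinE6.red` gives `dim W = MinE6.k0 q + r`, `r = wr (clist 0)` and `MinE6.R_le_four` (`r ≤ 4`) or `MinE6.R_large` (`ww q ≤ r`, `MinE6.w_eq`); as in `MinE6.bound_abs`, without the divisibility. -/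
theorem KK_cases [Fintype F] [Finite Γ] [FiniteDimensional ℂ V] (hψ : ψ ≠ 1)
    (S6 : Cfsg.Agent.Lib.MinE6.SysE F (MM S)) (hS6 : ∀ (r : ℕ) (hr : r < 72) (u : F), ((S6.x r u : MM S) : Γ) = S.x (rr (em ⟨r, hr⟩)) u) :
    ∃ w, finrank ℂ (KK S ρ ψ) = finrank ℂ (K0 S ρ ψ) + w ∧
      (w = 0 ∨ Cfsg.Agent.Lib.MinE6.BB (Fintype.card F) ≤ w ∨
        ∃ r, w = Cfsg.Agent.Lib.MinE6.k0 (Fintype.card F) + r ∧ (r ≤ 4 ∨ ww (Fintype.card F) ≤ r)) := by
  obtain ⟨W, τ, hfin, hτ⟩ := Lev6Aux.exists_compl_rep (Lev6Aux.sigma S ρ ψ)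
  have hK0 : finrank ℂ (K0 S ρ ψ) = finrank ℂ (Representation.invariants (Lev6Aux.sigma S ρ ψ)) := by
    rw [Lev6Aux.K0_eq]
    exact Submodule.finrank_map_subtype_eq _ _
  refine ⟨finrank ℂ W, by rw [hfin, hK0], ?_⟩
  have hq : 2 ≤ Fintype.card F := Fintype.one_lt_card
  have hfix : Cfsg.Agent.Lib.MinE6.NoFix S6 τ := by
    intro v hv1 hv2 hv3
    let K : Subgroup (MM S) :=
      { carrier := {g | τ g v = v}
        mul_mem' := by
          intro a b ha hb
          show τ (a * b) v = v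
          rw [map_mul, Module.End.mul_apply, hb, ha]
        one_mem' := by
          show τ 1 v = v
          simp
        inv_mem' := by
          intro a ha
          show τ a⁻¹ v = v
          conv_lhs => rw [← ha]
          rw [← Module.End.mul_apply, ← map_mul, inv_mul_cancel, map_one]
          rfl }
    have hK : K = ⊤ := S6.gen K (fun i j h u => hv1 i j h u) (fun u => hv2 u) (fun u => hv3 u)
    refine hτ v fun g => ?_
    have : g ∈ K := by rw [hK]; trivial
    exact this
  by_cases hW0 : finrank ℂ W = 0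
  · exact Or.inl hW0
  right
  by_cases hB : Cfsg.Agent.Lib.MinE6.BB (Fintype.card F) ≤ finrank ℂ W
  · exact Or.inl hB
  right
  have hV : Nontrivial W := Module.nontrivial_of_finrank_pos (Nat.pos_of_ne_zero hW0)
  obtain ⟨hl, hk⟩ := Cfsg.Agent.Lib.MinE6.red (S := S6) (ρ := τ) (ψ := ψ) hψ hfix hV (not_le.mp hB)
  refine ⟨_, hk, ?_⟩
  by_cases hL : Cfsg.Agent.Lib.MinE6.LTriv S6 τ ψ
  · exact Or.inl (Cfsg.Agent.Lib.MinE6.R_le_four hψ hfix hL hl)
  · right
    have h1 := Cfsg.Agent.Lib.MinE6.R_large (S := S6) (ρ := τ) hψ hL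
    rw [Cfsg.Agent.Lib.MinE6.w_eq hq] at h1
    exact h1

end Cfsg.Agent.Lib.MinE8
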