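import Cfsg.Agent.Lib.MinE8.Inst
import Cfsg.Agent.Lib.MinE8.Lev6
import Cfsg.Agent.Lib.MinE8.Inst6Core

/-! The system `SysE` on the `E₆` subgroup of `E₈(F)`. PORT of `Lib/MinE6/InstA.lean`, `SLHom`: same proofs with the root `r` of `chevE6` replaced by `rr (em r)`, the tables by `chevE8`. The simple roots of `E₆` are the first six of `E₈` (same Bourbaki order), so `chevE8.reflectRoot i (rr (em r)) = rr (em (chevE6.reflectRoot i r))` for `i < 6` (`decide`). -/

set_option autoImplicit false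
set_option maxRecDepth 100000
set_option linter.unusedSectionVars false
set_option linter.unusedVariables false

namespace Cfsg.Agent.Lib.MinE8

open Cfsg Lie

/-- The `E₆`-system, for the `x` of `exists_sys8`. The instance of `Inst.lean` must expose: `S.x r t = ⟨xG ax r t, _⟩`. Owner of Inst and Inst6: coordinate (e.g. state `exists_sys` with `∃ S, ∀ r t, (S.x r t : GL _ F) = xG ax r t`). -/
theorem exists_sys6 (F : Type*) [Field F] [Fintype F] (S : SysE8 F ↥(chevE8.group F)) (ax : Cfsg.Agent.Lib.Chev.AxBasic.Ax chevE8 F)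
    (hS : ∀ r t, ((S.x r t : ↥(chevE8.group F)) : GL chevE8.Idx F) = Cfsg.Agent.Lib.Chev.AxBasic.xG ax r t) :
    ∃ S6 : Cfsg.Agent.Lib.MinE6.SysE F (MM S), ∀ (r : ℕ) (hr : r < 72) (u : F), ((S6.x r u : MM S) : ↥(chevE8.group F)) = S.x (rr (em ⟨r, hr⟩)) u := by
  have hRn : ∀ (r : ℕ) (hr : r < 72), Cfsg.Agent.Lib.MinE8Inst6.Rn r = rr (em ⟨r, hr⟩) := by
    intro r hr
    simp [Cfsg.Agent.Lib.MinE8Inst6.Rn, Nat.mod_eq_of_lt hr]
  have hEq : MM S = Cfsg.Agent.Lib.MinE8Inst6.MM6 ax := by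
    unfold MM Cfsg.Agent.Lib.MinE8Inst6.MM6
    congr 1
    ext g
    constructor
    · rintro ⟨r, u, rfl⟩
      refine ⟨r.val, u, Subtype.ext ?_⟩
      rw [hS, hRn r.val r.isLt]
      rfl
    · rintro ⟨r, u, rfl⟩
      refine ⟨⟨r % 72, Nat.mod_lt _ (by decide)⟩, u, Subtype.ext ?_⟩
      rw [hS]
      rfl
  obtain ⟨S6, h6⟩ := Cfsg.Agent.Lib.MinE8Inst6.exists_core ax
  rw [hEq]
  refine ⟨S6, fun r hr u => ?_⟩
  rw [h6]
  apply Subtype.ext
  rw [hS, ← hRn r hr]
  rfl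

end Cfsg.Agent.Lib.MinE8
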