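import Cfsg.Agent.Lib.MinE8.Lev8
import Cfsg.Agent.Lib.MinE8.TbE7

/-! The weights of `A` on `R = V^U`. PORT of the first part of `Lib/MinE6/Inv.lean` (`inv_nf`, `dz_zero`). -/

set_option autoImplicit false
set_option maxRecDepth 100000
set_option linter.unusedSectionVars false
set_option linter.unusedVariables false

namespace Cfsg.Agent.Lib.MinE8

open Module
open scoped Classical

variable {F : Type*} [Field F] {Γ : Type*} [Group Γ] {V : Type*} [AddCommGroup V] [Module ℂ V]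
variable {S : SysE8 F Γ} {ρ : Representation ℂ Γ V} {ψ : AddChar F ℂ}

/-- The invariance of a weight function on `F²⁷`. -/
structure InvE7 (sg : R6 → P7 → F) (n : (P7 → F) → ℕ) : Prop where
  A : ∀ r (t : F) c, n c = n (actA7 sg r t c)
  torus : ∀ r (s : Fˣ) c, n c = n (fun T => c T * ((s ^ pw7 r T : Fˣ) : F))
  swap : ∀ r, ∃ ε : P7 → F, (∀ T, ε T = 1 ∨ ε T = -1) ∧ ∀ c, n c = n (fun T => ε T * c (sw7 r T))


namespace Inv7A

lemma act7 (a b : Γ) (v : V) : ρ a (ρ b v) = ρ (a * b) v := by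
  rw [map_mul, Module.End.mul_apply]

lemma mem_R {v : V} : v ∈ Wt S ρ ψ (clist 0) ↔
    (∀ u, ρ (S.x 239 u) v = v) ∧ ∀ T u, ρ (S.x (gam T) u) v = v := by
  rw [mem_Wt]
  constructor
  · intro h
    refine ⟨fun u => ?_, fun T u => ?_⟩
    · have := h (239, 0) (mem_clist.mpr (Or.inl rfl)) u
      simpa using this
    · have := h (gam T, (0 : P8 → F) T) (mem_clist.mpr (Or.inr ⟨T, rfl⟩)) u
      simpa using this
  · rintro ⟨h1, h2⟩ p hp u
    rcases mem_clist.mp hp with rfl | ⟨T, rfl⟩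
    · simpa using h1 u
    · simpa using h2 T u

lemma mem_c7 {c : P7 → F} {v : V} : v ∈ Wt S ρ ψ (clist7 c) ↔
    v ∈ Wt S ρ ψ (clist 0) ∧ ∀ T u, ρ (S.x (aa T) u) v = ψ (c T * u) • v := by
  rw [mem_Wt]
  constructor
  · intro h
    refine ⟨?_, fun T u => h (aa T, c T) (mem_clist7.mpr (Or.inr ⟨T, rfl⟩)) u⟩
    rw [mem_Wt]
    intro p hp u
    exact h p (mem_clist7.mpr (Or.inl hp)) u
  · rintro ⟨h1, h2⟩ p hp u
    rcases mem_clist7.mp hp with hp | ⟨T, rfl⟩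
    · exact (mem_Wt.mp h1) p hp u
    · exact h2 T u

lemma sq_sign7 {e : F} (h : e = 1 ∨ e = -1) : e * e = 1 := by
  rcases h with rfl | rfl <;> ring

theorem mv7_not : ∀ (r : R6) (T : P7), hs7 r T = true → hs7 r (mv7 r T) = false := by
  rw [Tb7.hs_eq, Tb7.mv_eq]
  exact Tb7.c1
theorem sw7_sw7 : ∀ (r : R6) (T : P7), sw7 r (sw7 r T) = T := by
  rw [Tb7.sw_eq]
  exact Tb7.sw_inv
theorem swr_swr : ∀ (r : R7) (T : P8), swr r (swr r T) = T := TbSw.swr_swr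
theorem rr_lt : ∀ r : R7, rr r < 240 := by decide +kernel
theorem aa_lt : ∀ T : P7, aa T < 240 := by decide +kernel
theorem aa_b7 : aa b7 = 121 := by decide +kernel

lemma actA7_actA7 (sg : R6 → P7 → F) (r : R6) (t : F) (c : P7 → F) :
    actA7 sg r (-t) (actA7 sg r t c) = c := by
  funext T
  unfold actA7
  by_cases h : hs7 r T = true
  · rw [if_pos h, if_pos h, if_neg (by rw [mv7_not r T h]; simp)]
    ring
  · rw [if_neg h, if_neg h]

/-- Root elements of `L` stabilise `R`. -/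
lemma x_R (r : R7) (t : F) {v : V} (hv : v ∈ Wt S ρ ψ (clist 0)) : ρ (S.x (rr r) t) v ∈ Wt S ρ ψ (clist 0) := by
  obtain ⟨h1, h2⟩ := mem_R.mp hv
  refine mem_R.mpr ⟨fun u => ?_, fun T u => ?_⟩
  · rw [act7, S.lt r u t, ← act7, h1]
  · by_cases h : hs r T = true
    · rw [act7, S.lu r T h u t]
      simp only [map_mul, Module.End.mul_apply, h2]
    · rw [act7, S.lu0 r T (by simpa using h) u t, ← act7, h2]

/-- Conjugation stabilises `R`. -/
lemma R_stab (g : Γ) (h239 : ∃ η : F, ∀ u, g⁻¹ * S.x 239 u * g = S.x 239 (η * u))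
    (hgam : ∀ T : P8, ∃ (T' : P8) (η : F), ∀ u, g⁻¹ * S.x (gam T) u * g = S.x (gam T') (η * u))
    {v : V} (hv : v ∈ Wt S ρ ψ (clist 0)) : ρ g v ∈ Wt S ρ ψ (clist 0) := by
  obtain ⟨h1, h2⟩ := mem_R.mp hv
  refine mem_R.mpr ⟨fun u => ?_, fun T u => ?_⟩
  · obtain ⟨η, hη⟩ := h239
    have e : S.x 239 u * g = g * S.x 239 (η * u) := by
      rw [← hη u]; group
    rw [act7, e, ← act7, h1]
  · obtain ⟨T', η, hη⟩ := hgam T
    have e : S.x (gam T) u * g = g * S.x (gam T') (η * u) := by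
      rw [← hη u]; group
    rw [act7, e, ← act7, h2]

lemma w_R (r : R7) {v : V} (hv : v ∈ Wt S ρ ψ (clist 0)) : ρ (S.wL r) v ∈ Wt S ρ ψ (clist 0) := by
  refine R_stab (S.wL r) ?_ ?_ hv
  · obtain ⟨η, hs, hη⟩ := S.w_th r
    refine ⟨η, fun u => ?_⟩
    have h5 := hη (η * u)
    rw [← mul_assoc, sq_sign7 hs, one_mul] at h5
    rw [← h5]; group
  · intro T
    obtain ⟨η, hs, hη⟩ := S.w_conj r (swr r T)
    rw [swr_swr] at hη
    refine ⟨swr r T, η, fun u => ?_⟩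
    have h5 := hη (η * u)
    rw [← mul_assoc, sq_sign7 hs, one_mul] at h5
    rw [← h5]; group

lemma w_inv_R (r : R7) {v : V} (hv : v ∈ Wt S ρ ψ (clist 0)) : ρ (S.wL r)⁻¹ v ∈ Wt S ρ ψ (clist 0) := by
  refine R_stab (S.wL r)⁻¹ ?_ ?_ hv
  · obtain ⟨η, hs, hη⟩ := S.w_th r
    refine ⟨η, fun u => ?_⟩
    rw [inv_inv]; exact hη u
  · intro T
    obtain ⟨η, hs, hη⟩ := S.w_conj r T
    refine ⟨swr r T, η, fun u => ?_⟩
    rw [inv_inv]; exact hη u

lemma h_R (r : R7) (s : Fˣ) {v : V} (hv : v ∈ Wt S ρ ψ (clist 0)) : ρ (S.hL r s) v ∈ Wt S ρ ψ (clist 0) := by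
  refine R_stab (S.hL r s) ⟨1, fun u => ?_⟩ (fun T => ?_) hv
  · rw [one_mul]
    conv_lhs => rw [← S.hL_th r s u]
    group
  · refine ⟨T, ((s ^ pwr r T : Fˣ)⁻¹ : Fˣ), fun u => ?_⟩
    have h5 := S.hL_gam r s T (((s ^ pwr r T : Fˣ)⁻¹ : Fˣ) * u)
    rw [← mul_assoc, Units.mul_inv, one_mul] at h5
    rw [← h5]; group

lemma h_inv_R (r : R7) (s : Fˣ) {v : V} (hv : v ∈ Wt S ρ ψ (clist 0)) : ρ (S.hL r s)⁻¹ v ∈ Wt S ρ ψ (clist 0) := by
  refine R_stab (S.hL r s)⁻¹ ⟨1, fun u => ?_⟩ (fun T => ?_) hv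
  · rw [one_mul, inv_inv]
    exact S.hL_th r s u
  · refine ⟨T, ((s ^ pwr r T : Fˣ) : F), fun u => ?_⟩
    rw [inv_inv]
    exact S.hL_gam r s T u

lemma x_map7 (r : R6) (t : F) {c : P7 → F} {v : V} (hv : v ∈ Wt S ρ ψ (clist7 c)) :
    ρ (S.x (rr (em r)) t) v ∈ Wt S ρ ψ (clist7 (actA7 S.sg7 r t c)) := by
  obtain ⟨h0, hT⟩ := mem_c7.mp hv
  refine mem_c7.mpr ⟨x_R _ t h0, fun T u => ?_⟩
  unfold actA7
  by_cases h : hs7 r T = true
  · rw [if_pos h, act7, S.la r T h u t]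
    simp only [map_mul, Module.End.mul_apply, hT, map_smul, smul_smul]
    simp only [← AddChar.map_add_eq_mul]
    congr 2
    ring
  · rw [if_neg h, act7, S.la0 r T (by simpa using h) u t, ← act7, hT, map_smul]

lemma h_conj7 {g : Γ} {r r' : ℕ} {η : F} (h : ∀ u, g * S.x r u * g⁻¹ = S.x r' (η * u)) (u : F) :
    S.x r' (η * u) * g = g * S.x r u := by
  rw [← h u]
  group

lemma h_conj_inv7 {g : Γ} {r r' : ℕ} {η : F} (h : ∀ u, g * S.x r u * g⁻¹ = S.x r' (η * u)) (u : F) :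
    S.x r u * g⁻¹ = g⁻¹ * S.x r' (η * u) := by
  rw [← h u]
  group

/-- A root element of `A` stabilises a weight space. -/
lemma stab7 {A : List (ℕ × F)} (h0 : ∀ p ∈ clist (0 : P8 → F), p ∈ A)
    (hA : ∀ p ∈ A, p ∈ clist (0 : P8 → F) ∨ ∃ T a, p = (aa T, a))
    (T : P7) {v : V} (hv : v ∈ Wt S ρ ψ A) (u : F) : ρ (S.x (aa T) u) v ∈ Wt S ρ ψ A := by
  have hR : v ∈ Wt S ρ ψ (clist 0) := by
    rw [mem_Wt]
    intro p hp w
    exact (mem_Wt.mp hv) p (h0 p hp) w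
  have hR' : ρ (S.x (aa T) u) v ∈ Wt S ρ ψ (clist 0) := x_R (aR T) u hR
  rw [mem_Wt]
  intro p hp w
  rcases hA p hp with hp' | ⟨T', a, rfl⟩
  · exact (mem_Wt.mp hR') p hp' w
  · have ha : ρ (S.x (aa T') w) v = ψ (a * w) • v := (mem_Wt.mp hv) (aa T', a) hp w
    show ρ (S.x (aa T') w) (ρ (S.x (aa T) u) v) = ψ (a * w) • ρ (S.x (aa T) u) v
    rw [act7, S.comA T' T w u, ← act7, ha, map_smul]

/-- The list of an enumeration. -/
noncomputable def lst7 {n : ℕ} (e : Fin n → P7) (c : Fin n → F) : List (ℕ × F) :=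
  List.ofFn fun k => (aa (e k), c k)

theorem wr_iter7 [Fintype F] [FiniteDimensional ℂ V] (hψ : ψ ≠ 1) (n : ℕ) (e : Fin n → P7) (A : List (ℕ × F))
    (h0 : ∀ p ∈ clist (0 : P8 → F), p ∈ A) (hA : ∀ p ∈ A, p ∈ clist (0 : P8 → F) ∨ ∃ T a, p = (aa T, a)) :
    wr S ρ ψ A = ∑ c : Fin n → F, wr S ρ ψ (lst7 e c ++ A) := by
  induction n generalizing A with
  | zero =>
    rw [Fintype.sum_unique]
    simp [lst7]
  | succ n ih =>
    rw [wr_cons (S := S) (ρ := ρ) hψ (aa_lt (e 0)) (l := A) (fun v hv u => stab7 h0 hA (e 0) hv u)]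
    rw [← (Fin.consEquiv (fun _ : Fin (n + 1) => F)).sum_comp, Fintype.sum_prod_type]
    refine Finset.sum_congr rfl (fun a _ => ?_)
    rw [ih (e := fun k => e k.succ) ((aa (e 0), a) :: A) (fun p hp => List.mem_cons_of_mem _ (h0 p hp)) ?_]
    · refine Finset.sum_congr rfl (fun c _ => ?_)
      refine wr_congr S ρ ψ (fun p => ?_)
      simp only [lst7, Fin.consEquiv, List.ofFn_succ, Fin.cons_zero, Fin.cons_succ, List.mem_append, List.mem_cons,
        List.cons_append, Equiv.coe_fn_mk]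
      tauto
    · intro p hp
      rcases List.mem_cons.mp hp with rfl | hp
      · exact Or.inr ⟨_, _, rfl⟩
      · exact hA p hp

end Inv7A

open Inv7A

/-- `x (rr r) t`, `wL r`, `hL r s` stabilise `R` (from `lt`, `lu0`, `lu`, `w_conj`, `w_th`, `hL_gam`, `hL_th`). Then `x (rr (em r)) t` sends the weight `c` of `A` on `R` to `actA7 c` (`la0`, `la`, `comA`), `wL (em r)`, `hL (em r) s` by `w7_conj`, `h7_a`. Compare `MinE6.inv_nf`. -/
theorem inv_nf7 [FiniteDimensional ℂ V] : InvE7 S.sg7 (nf7 S ρ ψ) := by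
  refine ⟨?_, ?_, ?_⟩
  · intro r t c
    show wr S ρ ψ _ = wr S ρ ψ _
    refine wr_eq_of_maps (S.x (rr (em r)) t) (fun v hv => x_map7 r t hv) (fun v hv => ?_)
    rw [x_inv S _ (rr_lt _) t]
    have h := x_map7 r (-t) hv
    rwa [actA7_actA7] at h
  · intro r s c
    show wr S ρ ψ _ = wr S ρ ψ _
    refine wr_eq_of_maps (S.hL (em r) s)⁻¹ (fun v hv => ?_) (fun v hv => ?_)
    · obtain ⟨h0, hT⟩ := mem_c7.mp hv
      refine mem_c7.mpr ⟨h_inv_R _ s h0, fun T u => ?_⟩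
      rw [act7, h_conj_inv7 (S.h7_a r s T) u, ← act7, hT, map_smul]
      congr 2
      ring
    · rw [inv_inv]
      obtain ⟨h0, hT⟩ := mem_c7.mp hv
      refine mem_c7.mpr ⟨h_R _ s h0, fun T u => ?_⟩
      set χ : Fˣ := s ^ pw7 r T with hχ
      have e := h_conj7 (S.h7_a r s T) (((χ⁻¹ : Fˣ) : F) * u)
      rw [← hχ, ← mul_assoc, Units.mul_inv, one_mul] at e
      rw [act7, e, ← act7, hT, map_smul]
      congr 2
      rw [← hχ]
      calc c T * (χ : F) * (((χ⁻¹ : Fˣ) : F) * u) = c T * (((χ : F) * ((χ⁻¹ : Fˣ) : F)) * u) := by ring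
        _ = c T * u := by rw [Units.mul_inv, one_mul]
  · intro r
    choose η hηs hη using fun T => S.w7_conj r T
    refine ⟨fun T => η (sw7 r T), fun T => hηs _, ?_⟩
    intro c
    show wr S ρ ψ _ = wr S ρ ψ _
    refine wr_eq_of_maps (S.wL (em r)) (fun v hv => ?_) (fun v hv => ?_)
    · obtain ⟨h0, hT⟩ := mem_c7.mp hv
      refine mem_c7.mpr ⟨w_R _ h0, fun T u => ?_⟩
      have e := h_conj7 (hη (sw7 r T)) (η (sw7 r T) * u)
      rw [← mul_assoc, sq_sign7 (hηs _), one_mul, sw7_sw7] at e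
      rw [act7, e, ← act7, hT, map_smul]
      congr 2
      ring
    · obtain ⟨h0, hT⟩ := mem_c7.mp hv
      refine mem_c7.mpr ⟨w_inv_R _ h0, fun T u => ?_⟩
      rw [act7, h_conj_inv7 (hη T) u, ← act7, hT, map_smul]
      simp only [sw7_sw7]
      congr 2
      calc η T * c T * (η T * u) = (η T * η T) * (c T * u) := by ring
        _ = c T * u := by rw [sq_sign7 (hηs T), one_mul]

/-- `R` is the sum of the weight spaces of `A` (`comA`, `stab` + `wr_iter` in `MinE6/Inv.lean`). -/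
theorem dim_R [Fintype F] [FiniteDimensional ℂ V] (hψ : ψ ≠ 1) : wr S ρ ψ (clist 0) = ∑ c : P7 → F, nf7 S ρ ψ c := by
  have h := wr_iter7 (S := S) (ρ := ρ) hψ 27 (fun k => k) (clist 0) (fun p hp => hp) (fun p hp => Or.inl hp)
  rw [h]
  refine Finset.sum_congr rfl (fun c _ => ?_)
  refine wr_congr S ρ ψ (fun p => ?_)
  simp only [lst7, List.mem_append, List.mem_ofFn, mem_clist7]
  constructor
  · rintro (⟨k, rfl⟩ | hp)
    · exact Or.inr ⟨k, rfl⟩
    · exact Or.inl hp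
  · rintro (hp | ⟨T, rfl⟩)
    · exact Or.inr hp
    · exact Or.inl ⟨T, rfl⟩

/-- If `A` acts trivially on `R`, so does `L`: `R` is the weight space `0` of `A`, so `x 121` is trivial on `R`; use `lconj7`: `g` stabilises `R`, `g x 121 u g⁻¹ = x (rr r) (η u)`. -/
theorem LTriv_of [Fintype F] [FiniteDimensional ℂ V] (hψ : ψ ≠ 1) (h : ∀ c : P7 → F, c ≠ 0 → nf7 S ρ ψ c = 0) : LTriv S ρ ψ := by
  have h1 : wr S ρ ψ (clist 0) = wr S ρ ψ (clist7 0) := by
    rw [dim_R hψ, Finset.sum_eq_single (0 : P7 → F)]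
    · rfl
    · intro c _ hc
      exact h c hc
    · intro h5
      exact absurd (Finset.mem_univ _) h5
  have hle : Wt S ρ ψ (clist7 0) ≤ Wt S ρ ψ (clist 0) := fun v hv => (mem_c7.mp hv).1
  have heq : Wt S ρ ψ (clist7 0) = Wt S ρ ψ (clist 0) :=
    Submodule.eq_of_le_of_finrank_eq hle h1.symm
  have hfix : ∀ v ∈ Wt S ρ ψ (clist 0), ∀ u, ρ (S.x 121 u) v = v := by
    intro v hv u
    rw [← heq] at hv
    have h5 := (mem_c7.mp hv).2 b7 u
    rw [aa_b7] at h5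
    simpa using h5
  intro r a v hv
  obtain ⟨g, hgam, hth, η, hs, hη⟩ := S.lconj7 r
  have hginv : ρ g⁻¹ v ∈ Wt S ρ ψ (clist 0) := by
    refine R_stab g⁻¹ ?_ ?_ hv
    · obtain ⟨η', -, hη'⟩ := hth
      exact ⟨η', fun u => by rw [inv_inv]; exact hη' u⟩
    · intro T
      obtain ⟨T', η', -, hη'⟩ := hgam T
      exact ⟨T', η', fun u => by rw [inv_inv]; exact hη' u⟩
  have e := hη (η * a)
  rw [← mul_assoc, sq_sign7 hs, one_mul] at e
  rw [← e]
  simp only [map_mul, Module.End.mul_apply]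
  rw [hfix _ hginv]
  rw [← Module.End.mul_apply, ← map_mul, mul_inv_cancel, map_one]
  rfl

end Cfsg.Agent.Lib.MinE8
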