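import Cfsg.Agent.Lib.MinE8.Lev8

/-! The fixed vectors of `A E₆` modulo those of `L`: port of `Lib/MinE6/R4.lean` at level `α₇`. -/

set_option autoImplicit false
set_option maxRecDepth 100000
set_option linter.unusedSectionVars false
set_option linter.unusedVariables false

namespace Cfsg.Agent.Lib.MinE8.K7

open Module
open scoped Classical
open Cfsg.Agent.Lib.OddDeg
open Cfsg.Agent.Lib.MinE8

variable {F : Type*} [Field F] {Γ : Type*} [Group Γ] {V : Type*} [AddCommGroup V] [Module ℂ V]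
variable {S : SysE8 F Γ} {ρ : Representation ℂ Γ V} {ψ : AddChar F ℂ}

/-- `K = R^A`. -/
noncomputable abbrev KK (S : SysE8 F Γ) (ρ : Representation ℂ Γ V) (ψ : AddChar F ℂ) : Submodule ℂ V := Wt S ρ ψ (clist7 0)

/-- `K^{E₆}`. -/
def K0 (S : SysE8 F Γ) (ρ : Representation ℂ Γ V) (ψ : AddChar F ℂ) : Submodule ℂ V where
  carrier := {v | v ∈ KK S ρ ψ ∧ ∀ (r : R6) (a : F), ρ (S.x (rr (em r)) a) v = v}
  add_mem' := by
    rintro a b ⟨ha, ha'⟩ ⟨hb, hb'⟩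
    exact ⟨Submodule.add_mem _ ha hb, fun r u => by rw [map_add, ha', hb']⟩
  zero_mem' := ⟨Submodule.zero_mem _, fun r u => map_zero _⟩
  smul_mem' := by
    rintro c v ⟨hv, hv'⟩
    exact ⟨Submodule.smul_mem _ _ hv, fun r u => by rw [map_smul, hv']⟩

/-- The projection on the character `l` of `x 121`. -/
noncomputable def pil (S : SysE8 F Γ) (ρ : Representation ℂ Γ V) (ψ : AddChar F ℂ) [Fintype F] (l : F) (y : V) : V :=
  (Fintype.card F : ℂ)⁻¹ • ∑ u : F, ψ (-(l * u)) • ρ (S.x 121 u) y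

section
variable [Fintype F] [FiniteDimensional ℂ V]

lemma mem_KK {v : V} : v ∈ KK S ρ ψ ↔ (∀ u, ρ (S.x 239 u) v = v) ∧ (∀ T u, ρ (S.x (gam T) u) v = v) ∧
    ∀ T u, ρ (S.x (aa T) u) v = v := by
  constructor
  · intro h
    refine ⟨fun u => ?_, fun T u => ?_, fun T u => ?_⟩
    · have := h (239, 0) (mem_clist7.2 (Or.inl (mem_clist.2 (Or.inl rfl)))) u
      simpa using this
    · have := h (gam T, 0) (mem_clist7.2 (Or.inl (mem_clist.2 (Or.inr ⟨T, rfl⟩)))) u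
      simpa using this
    · have := h (aa T, 0) (mem_clist7.2 (Or.inr ⟨T, rfl⟩)) u
      simpa using this
  · rintro ⟨h1, h2, h3⟩ p hp u
    rcases mem_clist7.1 hp with hp | ⟨T, rfl⟩
    · rcases mem_clist.1 hp with rfl | ⟨T, rfl⟩
      · simpa using h1 u
      · simpa using h2 T u
    · simpa using h3 T u

lemma aa_b7 : aa b7 = 121 := by decide +kernel

lemma rr_b7 : rr (aR b7) = 121 := by decide +kernel

lemma refl_118 : reflB7 118 = 121 := by decide +kernel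

lemma refl_table_gam : ∀ T : P8, reflB7 (reflB7 (gam T)) = gam T ∧ gam T < 240 ∧ reflB7 (gam T) < 240 ∧
    ∃ T' : P8, reflB7 (gam T) = gam T' := by
  decide +kernel

lemma refl_table_aa : ∀ T : P7, T ≠ b7 → reflB7 (reflB7 (aa T)) = aa T ∧ aa T < 240 ∧ reflB7 (aa T) < 240 ∧
    ((∃ T' : P7, reflB7 (aa T) = aa T') ∨ ∃ r : R6, reflB7 (aa T) = rr (em r)) := by
  decide +kernel

lemma refl_239 : reflB7 (reflB7 239) = 239 ∧ reflB7 239 < 240 ∧ reflB7 239 = 239 := by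
  decide +kernel

lemma aa_lt : ∀ T : P7, aa T < 240 := by decide +kernel
lemma gam_lt : ∀ T : P8, gam T < 240 := by decide +kernel
lemma rr_lt : ∀ r : R7, rr r < 240 := by decide +kernel

/-- `h_{α₇}` preserves being fixed by a root group. -/
lemma hb7_fix {v : V} {r : ℕ} (hr : r < 240) (h : ∀ w, ρ (S.x r w) v = v) (c : Fˣ) (u : F) :
    ρ (S.x r u) (ρ (S.hb7 c) v) = ρ (S.hb7 c) v := by
  obtain ⟨e, he⟩ := S.hb7_all r hr
  have e1 := he c (((c ^ e : Fˣ)⁻¹ : Fˣ) * u)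
  have e2 : ((c ^ e : Fˣ) : F) * (((c ^ e : Fˣ)⁻¹ : Fˣ) * u) = u := by
    rw [← mul_assoc, Units.mul_inv, one_mul]
  rw [e2] at e1
  rw [← e1, ← Module.End.mul_apply, ← map_mul]
  have e3 : S.hb7 c * S.x r (((c ^ e : Fˣ)⁻¹ : Fˣ) * u) * (S.hb7 c)⁻¹ * S.hb7 c =
      S.hb7 c * S.x r (((c ^ e : Fˣ)⁻¹ : Fˣ) * u) := by group
  rw [e3, map_mul, Module.End.mul_apply, h]

theorem hb_K0 {v : V} (hv : v ∈ K0 S ρ ψ) (c : Fˣ) : ρ (S.hb7 c) v ∈ K0 S ρ ψ := by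
  obtain ⟨h0, h4⟩ := hv
  obtain ⟨h1, h2, h3⟩ := mem_KK.1 h0
  refine ⟨mem_KK.2 ⟨fun u => hb7_fix (by norm_num) h1 c u, fun T u => hb7_fix (gam_lt T) (h2 T) c u,
    fun T u => hb7_fix (aa_lt T) (h3 T) c u⟩, fun r u => hb7_fix (rr_lt _) (h4 r) c u⟩

lemma mem_RR' {v : V} : v ∈ RR S ρ ψ ↔ (∀ u, ρ (S.x 239 u) v = v) ∧ ∀ T u, ρ (S.x (gam T) u) v = v := by
  constructor
  · intro h
    constructor
    · intro u
      have := h (239, 0) (mem_clist.2 (Or.inl rfl)) u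
      simpa using this
    · intro T u
      have := h (gam T, 0) (mem_clist.2 (Or.inr ⟨T, rfl⟩)) u
      simpa using this
  · rintro ⟨h1, h2⟩ p hp u
    rcases mem_clist.1 hp with rfl | ⟨T, rfl⟩
    · simpa using h1 u
    · simpa using h2 T u

theorem hb_RL {v : V} (hv : v ∈ RL S ρ ψ) (c : Fˣ) : ρ (S.hb7 c) v ∈ RL S ρ ψ := by
  obtain ⟨h0, h4⟩ := hv
  obtain ⟨h1, h2⟩ := mem_RR'.1 h0
  exact ⟨mem_RR'.2 ⟨fun u => hb7_fix (by norm_num) h1 c u, fun T u => hb7_fix (gam_lt T) (h2 T) c u⟩,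
    fun r u => hb7_fix (rr_lt _) (h4 r) c u⟩

lemma fix_of_refl {v : V} {r : ℕ} (h1 : reflB7 r < 240) (hrr : reflB7 (reflB7 r) = r)
    (h2 : ∀ w, ρ (S.x (reflB7 r) w) v = v) (u : F) : ρ (S.x r u) (ρ S.nb7 v) = ρ S.nb7 v := by
  obtain ⟨η, hη1, hη⟩ := S.nb7_conj (reflB7 r) h1
  rw [hrr] at hη
  have hηη : η * η = 1 := by
    rcases hη1 with rfl | rfl <;> simp
  have e := hη (η * u)
  rw [← mul_assoc, hηη, one_mul] at e
  have e3 : S.x r u * S.nb7 = S.nb7 * S.x (reflB7 r) (η * u) := by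
    rw [← e]
    group
  rw [← Module.End.mul_apply, ← map_mul, e3, map_mul, Module.End.mul_apply, h2]

/-- `n v` is fixed by `x 239`, the `x (gam T)`, and `x (aa T)`, `T ≠ b7`. -/
theorem nb_fix {v : V} (hv : v ∈ K0 S ρ ψ) : (∀ u, ρ (S.x 239 u) (ρ S.nb7 v) = ρ S.nb7 v) ∧
    (∀ T u, ρ (S.x (gam T) u) (ρ S.nb7 v) = ρ S.nb7 v) ∧
    ∀ T, T ≠ b7 → ∀ u, ρ (S.x (aa T) u) (ρ S.nb7 v) = ρ S.nb7 v := by
  obtain ⟨h0, h4⟩ := hv
  obtain ⟨h1, h2, h3⟩ := mem_KK.1 h0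
  refine ⟨?_, ?_, ?_⟩
  · obtain ⟨a, b, c⟩ := refl_239
    apply fix_of_refl b a
    intro w
    rw [c]
    exact h1 w
  · intro T
    obtain ⟨a, -, b, T', c⟩ := refl_table_gam T
    apply fix_of_refl b a
    intro w
    rw [c]
    exact h2 T' w
  · intro T hT
    obtain ⟨a, -, b, c⟩ := refl_table_aa T hT
    apply fix_of_refl b a
    intro w
    rcases c with ⟨T', c⟩ | ⟨r, c⟩
    · rw [c]
      exact h3 T' w
    · rw [c]
      exact h4 r w

lemma pil_apply_x (l a : F) (y : V) : ρ (S.x 121 a) (pil S ρ ψ l y) = ψ (l * a) • pil S ρ ψ l y := by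
  unfold pil
  rw [map_smul, map_sum, smul_comm]
  congr 1
  rw [Finset.smul_sum, ← Equiv.sum_comp (Equiv.addLeft a) (fun u => ψ (l * a) • ψ (-(l * u)) • ρ (S.x 121 u) y)]
  refine Finset.sum_congr rfl fun u _ => ?_
  simp only [Equiv.coe_addLeft]
  rw [map_smul, ← Module.End.mul_apply, ← map_mul, S.x_add 121 (by norm_num), smul_smul, ← AddChar.map_add_eq_mul]
  congr 2
  ring

lemma x_fix_th {y : V} (h : ∀ u, ρ (S.x 239 u) y = y) (w u : F) :
    ρ (S.x 239 u) (ρ (S.x 121 w) y) = ρ (S.x 121 w) y := by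
  have e := S.lt (aR b7) u w
  rw [rr_b7] at e
  rw [← Module.End.mul_apply, ← map_mul, e, map_mul, Module.End.mul_apply, h]

lemma x_fix_gam {y : V} (h : ∀ T u, ρ (S.x (gam T) u) y = y) (T : P8) (w u : F) :
    ρ (S.x (gam T) u) (ρ (S.x 121 w) y) = ρ (S.x 121 w) y := by
  by_cases hs' : hs (aR b7) T = true
  · have e := S.lu (aR b7) T hs' u w
    rw [rr_b7] at e
    rw [← Module.End.mul_apply, ← map_mul, e, map_mul, map_mul, Module.End.mul_apply, Module.End.mul_apply, h, h]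
  · have e := S.lu0 (aR b7) T (by simpa using hs') u w
    rw [rr_b7] at e
    rw [← Module.End.mul_apply, ← map_mul, e, map_mul, Module.End.mul_apply, h]

lemma x_fix_aa {y : V} {T : P7} (h : ∀ u, ρ (S.x (aa T) u) y = y) (w u : F) :
    ρ (S.x (aa T) u) (ρ (S.x 121 w) y) = ρ (S.x 121 w) y := by
  have e := S.comA T b7 u w
  rw [aa_b7] at e
  rw [← Module.End.mul_apply, ← map_mul, e, map_mul, Module.End.mul_apply, h]

/-- The projection of `n v` on the character `l` of `x 121` is in the weight space of `single b7 l`. -/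
theorem pil_mem (hψ : ψ ≠ 1) {v : V} (hv : v ∈ K0 S ρ ψ) (l : F) :
    pil S ρ ψ l (ρ S.nb7 v) ∈ Wt S ρ ψ (clist7 (Pi.single b7 l)) := by
  classical
  obtain ⟨h1, h2, h3⟩ := nb_fix hv
  set y := ρ S.nb7 v with hy
  have hsum : ∀ (r : ℕ) (u : F), (∀ w, ρ (S.x r u) (ρ (S.x 121 w) y) = ρ (S.x 121 w) y) →
      ρ (S.x r u) (pil S ρ ψ l y) = pil S ρ ψ l y := by
    intro r u h
    unfold pil
    rw [map_smul, map_sum]
    congr 1
    refine Finset.sum_congr rfl fun w _ => ?_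
    rw [map_smul]
    congr 1
    exact h w
  intro p hp u
  rcases mem_clist7.1 hp with hp | ⟨T, rfl⟩
  · rcases mem_clist.1 hp with rfl | ⟨T, rfl⟩
    · simp only [zero_mul, AddChar.map_zero_eq_one, one_smul]
      exact hsum _ _ fun w => x_fix_th h1 w u
    · simp only [Pi.zero_apply, zero_mul, AddChar.map_zero_eq_one, one_smul]
      exact hsum _ _ fun w => x_fix_gam h2 T w u
  · by_cases hTβ : T = b7
    · subst hTβ
      simp only [Pi.single_eq_same]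
      rw [aa_b7]
      exact pil_apply_x l u y
    · simp only [Pi.single_eq_of_ne hTβ, zero_mul, AddChar.map_zero_eq_one, one_smul]
      exact hsum _ _ fun w => x_fix_aa (h3 T hTβ) w u

lemma sum_pil (hψ : ψ ≠ 1) (y : V) : ∑ l : F, pil S ρ ψ l y = y := by
  classical
  unfold pil
  rw [← Finset.smul_sum, Finset.sum_comm]
  have h : ∀ u : F, ∑ l : F, ψ (-(l * u)) • ρ (S.x 121 u) y =
      (if u = 0 then (Fintype.card F : ℂ) else 0) • ρ (S.x 121 u) y := by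
    intro u
    rw [← Finset.sum_smul]
    congr 1
    split_ifs with hu
    · subst hu
      simp
    · have := sum_psi_mul (ψ := ψ) hψ (a := -u) (neg_ne_zero.2 hu)
      rw [← this]
      refine Finset.sum_congr rfl fun l _ => ?_
      congr 1
      ring
  simp only [h]
  rw [Finset.sum_eq_single 0]
  · rw [if_pos rfl, smul_smul, inv_mul_cancel₀ (by exact_mod_cast Fintype.card_ne_zero), one_smul, x_zero S 121 (by norm_num), map_one,
      Module.End.one_apply]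
  · intro b _ hb
    rw [if_neg hb, zero_smul]
  · intro h0
    exact absurd (Finset.mem_univ _) h0

/-- If `π_l (n v) = 0` for all `l ≠ 0`, then `v` is fixed by `x 118`, `E₆`, `A`, so `v ∈ R^L`. -/
theorem pil_ne (hψ : ψ ≠ 1) {v : V} (hv : v ∈ K0 S ρ ψ) (hvL : v ∉ RL S ρ ψ) :
    ∃ l : F, l ≠ 0 ∧ pil S ρ ψ l (ρ S.nb7 v) ≠ 0 := by
  classical
  by_contra hc
  push Not at hc
  apply hvL
  have hv' := hv
  obtain ⟨h0, h4⟩ := hv'
  obtain ⟨h1, h2, h3⟩ := mem_KK.1 h0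
  have hy : pil S ρ ψ 0 (ρ S.nb7 v) = ρ S.nb7 v := by
    have h5 := sum_pil (S := S) (ρ := ρ) hψ (ρ S.nb7 v)
    rw [Finset.sum_eq_single 0 (fun b _ hb => hc b hb) (fun h0 => absurd (Finset.mem_univ _) h0)] at h5
    exact h5
  have hy121 : ∀ a, ρ (S.x 121 a) (ρ S.nb7 v) = ρ S.nb7 v := by
    intro a
    rw [← hy, pil_apply_x]
    simp
  have h118 : ∀ u, ρ (S.x 118 u) v = v := by
    intro u
    obtain ⟨η, -, hη⟩ := S.nb7_conj 118 (by norm_num)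
    have e := hη u
    rw [refl_118] at e
    have e2 : S.x 118 u = S.nb7⁻¹ * S.x 121 (η * u) * S.nb7 := by
      rw [← e]
      group
    rw [e2, map_mul, map_mul, Module.End.mul_apply, Module.End.mul_apply, hy121, ← Module.End.mul_apply,
      ← map_mul, inv_mul_cancel, map_one, Module.End.one_apply]
  -- the stabilizer of `v`
  let K : Subgroup Γ :=
    { carrier := {g | ρ g v = v}
      mul_mem' := by
        intro a b ha hb
        show ρ (a * b) v = v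
        rw [map_mul, Module.End.mul_apply, hb, ha]
      one_mem' := by
        show ρ 1 v = v
        rw [map_one, Module.End.one_apply]
      inv_mem' := by
        intro a ha
        show ρ a⁻¹ v = v
        have ha' : ρ a v = v := ha
        conv_lhs => rw [← ha']
        rw [← Module.End.mul_apply, ← map_mul, inv_mul_cancel, map_one, Module.End.one_apply] }
  have hgen := S.gen7 K (fun r u => h4 r u) (fun T u => h3 T u) (fun u => h118 u)
  exact ⟨mem_RR'.2 ⟨h1, h2⟩, fun r a => hgen r a⟩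

/-- `π₀(n v)` is an eigenvector of `h_{α₇}` if `v` is. -/
theorem pil0_eigen {v : V} (hev : ∀ c : Fˣ, ∃ z : ℂ, ρ (S.hb7 c) v = z • v) :
    ∀ c : Fˣ, ∃ z : ℂ, ρ (S.hb7 c) (pil S ρ ψ 0 (ρ S.nb7 v)) = z • pil S ρ ψ 0 (ρ S.nb7 v) := by
  classical
  intro c
  obtain ⟨z, hz⟩ := hev c⁻¹
  refine ⟨z, ?_⟩
  have hn : ρ (S.hb7 c) (ρ S.nb7 v) = z • ρ S.nb7 v := by
    have e := S.nb7_hb c⁻¹
    rw [inv_inv] at e
    have e2 : S.hb7 c * S.nb7 = S.nb7 * S.hb7 c⁻¹ := by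
      rw [← e]
      group
    rw [← Module.End.mul_apply, ← map_mul, e2, map_mul, Module.End.mul_apply, hz, map_smul]
  unfold pil
  rw [map_smul, map_sum, smul_comm]
  congr 1
  rw [Finset.smul_sum]
  have hc2 : ((c : F) ^ 2) ≠ 0 := pow_ne_zero 2 c.ne_zero
  rw [← Equiv.sum_comp (Equiv.mulLeft₀ ((c : F) ^ 2) hc2) (fun u => z • ψ (-(0 * u)) • ρ (S.x 121 u) (ρ S.nb7 v))]
  refine Finset.sum_congr rfl fun u _ => ?_
  simp only [Equiv.mulLeft₀_apply, zero_mul, neg_zero, AddChar.map_zero_eq_one, one_smul]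
  have e3 : S.hb7 c * S.x 121 u = S.x 121 ((c : F) ^ 2 * u) * S.hb7 c := by
    rw [← S.hb7_β c u]
    group
  rw [← Module.End.mul_apply, ← map_mul, e3, map_mul, Module.End.mul_apply, hn, map_smul]

section FAux

lemma KK_x121 {v : V} (hv : v ∈ KK S ρ ψ) (u : F) : ρ (S.x 121 u) v = v := by
  have h := (mem_KK.1 hv).2.2 b7 u
  rwa [aa_b7] at h

lemma rho_eq_zero (g : Γ) {w : V} (h : ρ g w = 0) : w = 0 := by
  have h1 := congrArg (ρ g⁻¹) h
  rw [← Module.End.mul_apply, ← map_mul, inv_mul_cancel, map_one, map_zero] at h1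
  exact h1

lemma hb_one : S.hb7 1 = 1 := by
  have h := S.hb7_mul 1 1
  rw [mul_one] at h
  exact (left_eq_mul.mp h)

lemma hb_inv (c : Fˣ) : (S.hb7 c)⁻¹ = S.hb7 c⁻¹ := by
  rw [inv_eq_iff_mul_eq_one, ← S.hb7_mul, mul_inv_cancel, hb_one]

lemma pil_smul (l : F) (z : ℂ) (y : V) : pil S ρ ψ l (z • y) = z • pil S ρ ψ l y := by
  have h1 : ∀ u : F, ψ (-(l * u)) • ρ (S.x 121 u) (z • y) = z • (ψ (-(l * u)) • ρ (S.x 121 u) y) := by
    intro u
    rw [map_smul, smul_comm]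
  simp only [pil, h1, ← Finset.smul_sum]
  rw [smul_comm]

lemma hb_pil (c : Fˣ) (l : F) (y : V) :
    ρ (S.hb7 c) (pil S ρ ψ l y) = pil S ρ ψ (l * ((c⁻¹ : Fˣ) : F) ^ 2) (ρ (S.hb7 c) y) := by
  unfold pil
  rw [map_smul, map_sum]
  congr 1
  have hc2 : ((c : F) ^ 2) ≠ 0 := pow_ne_zero _ c.ne_zero
  rw [← Equiv.sum_comp (Equiv.mulLeft₀ ((c : F) ^ 2) hc2)
    (fun u : F => ψ (-(l * ((c⁻¹ : Fˣ) : F) ^ 2 * u)) • ρ (S.x 121 u) (ρ (S.hb7 c) y))]
  refine Finset.sum_congr rfl fun u _ => ?_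
  simp only [Equiv.mulLeft₀_apply]
  rw [map_smul]
  have e1 : l * ((c⁻¹ : Fˣ) : F) ^ 2 * ((c : F) ^ 2 * u) = l * u := by
    have hc0 : (c : F) ≠ 0 := c.ne_zero
    rw [Units.val_inv_eq_inv_val]
    field_simp
  rw [e1]
  congr 1
  have e2 : S.hb7 c * S.x 121 u = (S.hb7 c * S.x 121 u * (S.hb7 c)⁻¹) * S.hb7 c := by group
  calc ρ (S.hb7 c) (ρ (S.x 121 u) y) = ρ (S.hb7 c * S.x 121 u) y := by rw [map_mul]; rfl
    _ = ρ ((S.hb7 c * S.x 121 u * (S.hb7 c)⁻¹) * S.hb7 c) y := by rw [← e2]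
    _ = ρ (S.x 121 ((c : F) ^ 2 * u)) (ρ (S.hb7 c) y) := by rw [S.hb7_β, map_mul]; rfl

lemma B_pil_zero (I : IH ρ) (y : V) {w : V} (hw : w ∈ KK S ρ ψ) :
    I.B (pil S ρ ψ 0 y) w = I.B y w := by
  have hq : ((Fintype.card F : ℕ) : ℂ) ≠ 0 := by
    exact_mod_cast Fintype.card_ne_zero
  unfold pil
  rw [I.smul_left, I.sum_left]
  have h1 : ∀ u ∈ (Finset.univ : Finset F), I.B (ψ (-(0 * u)) • ρ (S.x 121 u) y) w = I.B y w := by
    intro u _
    rw [zero_mul, neg_zero, AddChar.map_zero_eq_one, one_smul, I.adj,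
      x_inv S 121 (by norm_num), KK_x121 hw]
  rw [Finset.sum_congr rfl h1, Finset.sum_const, Finset.card_univ, nsmul_eq_mul, ← mul_assoc,
    inv_mul_cancel₀ hq, one_mul]

lemma line_zero (I : IH ρ) {W : Submodule ℂ V} (hW : finrank ℂ W = 1) {a b : V} (ha : a ∈ W)
    (hb : b ∈ W) (hab : I.B a b = 0) : a = 0 ∨ b = 0 := by
  by_cases ha0 : a = 0
  · exact Or.inl ha0
  right
  have hne : (⟨a, ha⟩ : W) ≠ 0 := fun h => ha0 (congrArg Subtype.val h)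
  obtain ⟨t, ht⟩ := (finrank_eq_one_iff_of_nonzero' (⟨a, ha⟩ : W) hne).1 hW ⟨b, hb⟩
  have ht' : t • a = b := congrArg Subtype.val ht
  rw [← ht', I.smul_right] at hab
  have ht0 : t = 0 := by
    rcases mul_eq_zero.1 hab with h | h
    · simpa using h
    · exact absurd h (I.self_ne_zero ha0)
  rw [← ht', ht0, zero_smul]

lemma sq2 {a b : F} (ha : a ≠ 0) (hb : b ≠ 0) (h : quadraticChar F a = quadraticChar F b) :
    ∃ s : Fˣ, b = a * (s : F) ^ 2 := by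
  have h1 : quadraticChar F (a * b) = 1 := by
    rw [map_mul, ← h, ← pow_two, quadraticChar_sq_one ha]
  obtain ⟨w, hw⟩ := (quadraticChar_one_iff_isSquare (mul_ne_zero ha hb)).1 h1
  have hw0 : w ≠ 0 := by
    rintro rfl
    rw [mul_zero] at hw
    exact (mul_ne_zero ha hb) hw
  refine ⟨Units.mk0 (w / a) (div_ne_zero hw0 ha), ?_⟩
  rw [Units.val_mk0]
  field_simp
  rw [pow_two w, ← hw]
  ring

lemma sq3 {a b c : F} (ha : a ≠ 0) (hb : b ≠ 0) (hc : c ≠ 0) :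
    (∃ s : Fˣ, b = a * (s : F) ^ 2) ∨ (∃ s : Fˣ, c = a * (s : F) ^ 2) ∨
      (∃ s : Fˣ, c = b * (s : F) ^ 2) := by
  rcases quadraticChar_dichotomy ha with h1 | h1 <;>
  rcases quadraticChar_dichotomy hb with h2 | h2 <;>
  rcases quadraticChar_dichotomy hc with h3 | h3
  · exact Or.inl (sq2 ha hb (h1.trans h2.symm))
  · exact Or.inl (sq2 ha hb (h1.trans h2.symm))
  · exact Or.inr (Or.inl (sq2 ha hc (h1.trans h3.symm)))
  · exact Or.inr (Or.inr (sq2 hb hc (h2.trans h3.symm)))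
  · exact Or.inr (Or.inr (sq2 hb hc (h2.trans h3.symm)))
  · exact Or.inr (Or.inl (sq2 ha hc (h1.trans h3.symm)))
  · exact Or.inl (sq2 ha hb (h1.trans h2.symm))
  · exact Or.inl (sq2 ha hb (h1.trans h2.symm))

end FAux

/-- For an eigenvector `v` of all `h(s)`: `π_l (n v) ≠ 0` implies `π_{l s²} (n v) ≠ 0`. -/
theorem pil_sq {v : V} (hev : ∀ c : Fˣ, ∃ z : ℂ, ρ (S.hb7 c) v = z • v) {l : F} (hl : pil S ρ ψ l (ρ S.nb7 v) ≠ 0) (s : Fˣ) :
    pil S ρ ψ (l * (s : F) ^ 2) (ρ S.nb7 v) ≠ 0 := by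
  intro h0
  apply hl
  obtain ⟨z, hz⟩ := hev s
  have h1 : ρ (S.hb7 s⁻¹) (ρ S.nb7 v) = z • ρ S.nb7 v := by
    have e : S.hb7 s⁻¹ * S.nb7 = S.nb7 * S.hb7 s := by
      have h := S.nb7_hb s
      rw [← h]
      group
    calc ρ (S.hb7 s⁻¹) (ρ S.nb7 v) = ρ (S.hb7 s⁻¹ * S.nb7) v := by rw [map_mul]; rfl
      _ = ρ (S.nb7 * S.hb7 s) v := by rw [e]
      _ = ρ S.nb7 (ρ (S.hb7 s) v) := by rw [map_mul]; rfl
      _ = z • ρ S.nb7 v := by rw [hz, map_smul]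
  have h2 := hb_pil (S := S) (ρ := ρ) (ψ := ψ) s⁻¹ l (ρ S.nb7 v)
  rw [h1, inv_inv, pil_smul, h0, smul_zero] at h2
  exact rho_eq_zero _ h2

/-- The orthogonality. -/
theorem pil_orth (I : IH ρ) {v₁ v₂ : V} (h1 : v₁ ∈ KK S ρ ψ) (h2 : v₂ ∈ KK S ρ ψ) (hev : ∀ c : Fˣ, ∃ z : ℂ, ρ (S.hb7 c) v₂ = z • v₂)
    (h12 : I.B v₁ v₂ = 0) (h0 : I.B (pil S ρ ψ 0 (ρ S.nb7 v₁)) v₂ = 0) (l : F) :
    I.B (pil S ρ ψ l (ρ S.nb7 v₁)) (pil S ρ ψ l (ρ S.nb7 v₂)) = 0 := by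
  have h25 : ∀ w : F, I.B (ρ (S.x 118 w) v₁) v₂ = 0 := by
    intro w
    by_cases hw : w = 0
    · subst hw
      rw [x_zero S 118 (by norm_num), map_one]
      exact h12
    · have hc0 : -w⁻¹ ≠ 0 := neg_ne_zero.2 (inv_ne_zero hw)
      set c : Fˣ := Units.mk0 (-w⁻¹) hc0 with hc
      have hcv : (c : F) = -w⁻¹ := rfl
      have h1' : -((c : F)⁻¹) = w := by rw [hcv, inv_neg, inv_inv, neg_neg]
      have h2' := S.nb7_eq c
      rw [h1'] at h2'
      have e : S.x 118 w = (S.x 121 (c : F))⁻¹ * (S.hb7 c * S.nb7) * (S.x 121 (c : F))⁻¹ := by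
        rw [← h2']
        group
      rw [e, map_mul, map_mul, Module.End.mul_apply, Module.End.mul_apply,
        x_inv S 121 (by norm_num), KK_x121 h1, I.adj, ← x_inv S 121 (by norm_num), inv_inv,
        KK_x121 h2, map_mul, Module.End.mul_apply, I.adj, hb_inv]
      obtain ⟨z, hz⟩ := hev c⁻¹
      rw [hz, I.smul_right, ← B_pil_zero I _ h2, h0, mul_zero]
  have hn25 : ∀ u : F, I.B (ρ (S.x 121 u) (ρ S.nb7 v₁)) (ρ S.nb7 v₂) = 0 := by
    intro u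
    obtain ⟨η, hη, hconj⟩ := S.nb7_conj 118 (by norm_num)
    have hηη : η * η = 1 := by
      rcases hη with rfl | rfl <;> simp
    have h3 := hconj (η * u)
    rw [refl_118, ← mul_assoc, hηη, one_mul] at h3
    have e : S.x 121 u * S.nb7 = S.nb7 * S.x 118 (η * u) := by
      rw [← h3]
      group
    calc I.B (ρ (S.x 121 u) (ρ S.nb7 v₁)) (ρ S.nb7 v₂)
        = I.B (ρ (S.x 121 u * S.nb7) v₁) (ρ S.nb7 v₂) := by rw [map_mul]; rfl
      _ = I.B (ρ S.nb7 (ρ (S.x 118 (η * u)) v₁)) (ρ S.nb7 v₂) := by rw [e, map_mul]; rfl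
      _ = I.B (ρ (S.x 118 (η * u)) v₁) v₂ := I.inv _ _ _
      _ = 0 := h25 _
  have hz : ∀ u u' : F, I.B (ρ (S.x 121 u) (ρ S.nb7 v₁)) (ρ (S.x 121 u') (ρ S.nb7 v₂)) = 0 := by
    intro u u'
    rw [I.adj', ← Module.End.mul_apply, ← map_mul, x_inv S 121 (by norm_num),
      ← S.x_add 121 (by norm_num)]
    exact hn25 _
  unfold pil
  simp only [I.smul_left, I.smul_right, I.sum_left, I.sum_right, hz, mul_zero,
    Finset.sum_const_zero]

/-- A subspace orthogonal to `R^L` and to eigenvectors contains an eigenvector. -/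
theorem exists_eigen_perp (I : IH ρ) (E : Finset V) (hE : ∀ e ∈ E, ∀ c : Fˣ, ∃ z : ℂ, ρ (S.hb7 c) e = z • e)
    (hd : E.card + finrank ℂ (RL S ρ ψ) < finrank ℂ (K0 S ρ ψ)) :
    ∃ v ∈ K0 S ρ ψ, v ≠ 0 ∧ (∀ c : Fˣ, ∃ z : ℂ, ρ (S.hb7 c) v = z • v) ∧ (∀ e ∈ E, I.B e v = 0) ∧
      ∀ w ∈ RL S ρ ψ, I.B w v = 0 := by
  classical
  let K : Submodule ℂ V :=
    { carrier := {v | v ∈ K0 S ρ ψ ∧ (∀ e ∈ E, I.B e v = 0) ∧ ∀ w ∈ RL S ρ ψ, I.B w v = 0}
      add_mem' := by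
        rintro a b ⟨ha, ha', ha''⟩ ⟨hb, hb', hb''⟩
        refine ⟨Submodule.add_mem _ ha hb, fun e he => ?_, fun w hw => ?_⟩
        · rw [I.add_right, ha' e he, hb' e he, add_zero]
        · rw [I.add_right, ha'' w hw, hb'' w hw, add_zero]
      zero_mem' := ⟨Submodule.zero_mem _, fun e _ => by simp, fun e _ => by simp⟩
      smul_mem' := by
        rintro c a ⟨ha, ha', ha''⟩
        refine ⟨Submodule.smul_mem _ c ha, fun e he => ?_, fun w hw => ?_⟩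
        · rw [I.smul_right, ha' e he, mul_zero]
        · rw [I.smul_right, ha'' w hw, mul_zero] }
  have hK : ∀ v, v ∈ K ↔ v ∈ K0 S ρ ψ ∧ (∀ e ∈ E, I.B e v = 0) ∧ ∀ w ∈ RL S ρ ψ, I.B w v = 0 := fun v => Iff.rfl
  -- `K` is nontrivial
  let b := Module.finBasis ℂ (RL S ρ ψ)
  let Φ : (K0 S ρ ψ) →ₗ[ℂ] ((E ⊕ Fin (finrank ℂ (RL S ρ ψ))) → ℂ) :=
    { toFun := fun v i => Sum.elim (fun e : E => I.B (v : V) e) (fun j => I.B (v : V) (b j : V)) i
      map_add' := by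
        intro a c
        ext i
        rcases i with e | j <;> simp [I.add_left]
      map_smul' := by
        intro c a
        ext i
        rcases i with e | j <;> simp [I.smul_left] }
  have hker : LinearMap.ker Φ ≠ ⊥ := by
    apply LinearMap.ker_ne_bot_of_finrank_lt
    rw [Module.finrank_fintype_fun_eq_card, Fintype.card_sum, Fintype.card_coe, Fintype.card_fin]
    exact hd
  obtain ⟨v₀, hv₀, hv₀0⟩ := Submodule.exists_mem_ne_zero_of_ne_bot hker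
  have hv₀K : (v₀ : V) ∈ K := by
    refine ⟨v₀.2, fun e he => ?_, fun w hw => ?_⟩
    · have h := congrFun (LinearMap.mem_ker.1 hv₀) (Sum.inl ⟨e, he⟩)
      have h' : I.B (v₀ : V) e = 0 := h
      rw [I.symm (v₀ : V) e, h', star_zero]
    · have hj : ∀ j, I.B (v₀ : V) (b j : V) = 0 := fun j => congrFun (LinearMap.mem_ker.1 hv₀) (Sum.inr j)
      have hw' : w = ∑ j, (b.repr ⟨w, hw⟩ j) • (b j : V) := by
        have h := b.sum_repr ⟨w, hw⟩
        have h3 : ((∑ j, b.repr ⟨w, hw⟩ j • b j : RL S ρ ψ) : V) = w := by rw [h]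
        rw [Submodule.coe_sum] at h3
        simp only [Submodule.coe_smul] at h3
        exact h3.symm
      have h3 : I.B (v₀ : V) w = 0 := by
        rw [hw', I.sum_right]
        refine Finset.sum_eq_zero fun j _ => ?_
        rw [I.smul_right, hj, mul_zero]
      rw [I.symm (v₀ : V) w, h3, star_zero]
  have hnt : Nontrivial K := ⟨⟨⟨v₀, hv₀K⟩, 0, fun h => by
    have h' : (v₀ : V) = 0 := congrArg Subtype.val h
    exact hv₀0 (Subtype.ext h')⟩⟩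
  -- a generator of the torus
  obtain ⟨g, hg⟩ := IsCyclic.exists_monoid_generator (α := Fˣ)
  let hbm : Fˣ →* Γ := MonoidHom.mk' S.hb7 S.hb7_mul
  have hst : ∀ v ∈ K, ρ (S.hb7 g) v ∈ K := by
    intro v hv
    refine ⟨hb_K0 hv.1 g, fun e he => ?_, fun w hw => ?_⟩
    · rw [I.adj', hb_inv]
      obtain ⟨z, hz⟩ := hE e he g⁻¹
      rw [hz, I.smul_left, hv.2.1 e he, mul_zero]
    · rw [I.adj', hb_inv]
      exact hv.2.2 _ (hb_RL hw g⁻¹)
  let T : Module.End ℂ K := LinearMap.restrict (ρ (S.hb7 g) : V →ₗ[ℂ] V) hst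
  obtain ⟨μ, hμ⟩ := Module.End.exists_eigenvalue T
  obtain ⟨w, hw⟩ := hμ.exists_hasEigenvector
  have hTw : ρ (S.hb7 g) (w : V) = μ • (w : V) := congrArg Subtype.val hw.apply_eq_smul
  refine ⟨w, w.2.1, fun h => hw.2 (Subtype.ext h), ?_, fun e he => w.2.2.1 e he, fun e he => w.2.2.2 e he⟩
  intro c
  obtain ⟨k, rfl⟩ := (Submonoid.mem_powers_iff _ _).1 (hg c)
  refine ⟨μ ^ k, ?_⟩
  have hpow : S.hb7 (g ^ k) = S.hb7 g ^ k := map_pow hbm g k
  rw [hpow]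
  clear hpow
  induction k with
  | zero => simp
  | succ n ih =>
    rw [pow_succ, map_mul, Module.End.mul_apply, hTw, map_smul, ih, smul_smul, pow_succ, mul_comm]

/-- `dim K^{E₆} ≤ dim R^L + 4`. -/
theorem K0_le [Finite Γ] (hψ : ψ ≠ 1) (hl : ∀ a : F, a ≠ 0 → nf7 S ρ ψ (Pi.single b7 a) = 1) :
    finrank ℂ (K0 S ρ ψ) ≤ finrank ℂ (RL S ρ ψ) + 4 := by
  classical
  obtain ⟨I⟩ := exists_IH ρ
  by_contra hgt
  have hgt' : finrank ℂ (RL S ρ ψ) + 4 < finrank ℂ (K0 S ρ ψ) := not_le.1 hgt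
  have mk : ∀ E : Finset V, (∀ e ∈ E, ∀ c : Fˣ, ∃ z : ℂ, ρ (S.hb7 c) e = z • e) → E.card ≤ 4 →
      ∃ v ∈ K0 S ρ ψ, v ≠ 0 ∧ (∀ c : Fˣ, ∃ z : ℂ, ρ (S.hb7 c) v = z • v) ∧ (∀ e ∈ E, I.B e v = 0) ∧
        ∀ w ∈ RL S ρ ψ, I.B w v = 0 :=
    fun E hE hc => exists_eigen_perp I E hE (by omega)
  have notRL : ∀ {v : V}, v ≠ 0 → (∀ w ∈ RL S ρ ψ, I.B w v = 0) → v ∉ RL S ρ ψ := by
    intro v hv h hvL
    exact I.self_ne_zero hv (h v hvL)
  obtain ⟨v₁, h1, h1n, h1e, -, h1L⟩ := mk ∅ (by simp) (by simp)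
  have hp1e := pil0_eigen (S := S) (ρ := ρ) (ψ := ψ) h1e
  obtain ⟨v₂, h2, h2n, h2e, h2o, h2L⟩ := mk {v₁, pil S ρ ψ 0 (ρ S.nb7 v₁)} (by
      intro e he
      simp only [Finset.mem_insert, Finset.mem_singleton] at he
      rcases he with rfl | rfl
      · exact h1e
      · exact hp1e) (le_trans Finset.card_le_two (by norm_num))
  have hp2e := pil0_eigen (S := S) (ρ := ρ) (ψ := ψ) h2e
  obtain ⟨v₃, h3, h3n, h3e, h3o, h3L⟩ := mk {v₁, pil S ρ ψ 0 (ρ S.nb7 v₁), v₂, pil S ρ ψ 0 (ρ S.nb7 v₂)} (by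
      intro e he
      simp only [Finset.mem_insert, Finset.mem_singleton] at he
      rcases he with rfl | rfl | rfl | rfl
      · exact h1e
      · exact hp1e
      · exact h2e
      · exact hp2e) Finset.card_le_four
  obtain ⟨l₁, hl₁, hp₁⟩ := pil_ne hψ h1 (notRL h1n h1L)
  obtain ⟨l₂, hl₂, hp₂⟩ := pil_ne hψ h2 (notRL h2n h2L)
  obtain ⟨l₃, hl₃, hp₃⟩ := pil_ne hψ h3 (notRL h3n h3L)
  have pair : ∀ {v w : V}, v ∈ K0 S ρ ψ → w ∈ K0 S ρ ψ → (∀ c : Fˣ, ∃ z : ℂ, ρ (S.hb7 c) w = z • w) →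
      I.B v w = 0 → I.B (pil S ρ ψ 0 (ρ S.nb7 v)) w = 0 → ∀ l : F, l ≠ 0 →
      pil S ρ ψ l (ρ S.nb7 v) = 0 ∨ pil S ρ ψ l (ρ S.nb7 w) = 0 := by
    intro v w hv hw hwe h12 h0 l hl0
    exact line_zero I (W := Wt S ρ ψ (clist7 (Pi.single b7 l))) (hl l hl0) (pil_mem hψ hv l)
      (pil_mem hψ hw l) (pil_orth I hv.1 hw.1 hwe h12 h0 l)
  rcases sq3 hl₁ hl₂ hl₃ with ⟨s, hs⟩ | ⟨s, hs⟩ | ⟨s, hs⟩
  · rcases pair h1 h2 h2e (h2o _ (by simp)) (h2o _ (by simp)) l₂ hl₂ with h | h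
    · exact pil_sq h1e hp₁ s (hs ▸ h)
    · exact hp₂ h
  · rcases pair h1 h3 h3e (h3o _ (by simp)) (h3o _ (by simp)) l₃ hl₃ with h | h
    · exact pil_sq h1e hp₁ s (hs ▸ h)
    · exact hp₃ h
  · rcases pair h2 h3 h3e (h3o _ (by simp)) (h3o _ (by simp)) l₃ hl₃ with h | h
    · exact pil_sq h2e hp₂ s (hs ▸ h)
    · exact hp₃ h

end

end Cfsg.Agent.Lib.MinE8.K7
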