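import Cfsg.Agent.Lib.MinE8.Pure7
import Cfsg.Agent.Lib.MinE8.K7

/-! The level of `E₇`. -/

set_option autoImplicit false
set_option maxRecDepth 100000
set_option linter.unusedSectionVars false
set_option linter.unusedVariables false

namespace Cfsg.Agent.Lib.MinE8

open Module
open scoped Classical

variable {F : Type*} [Field F] {Γ : Type*} [Group Γ] {V : Type*} [AddCommGroup V] [Module ℂ V]
variable {S : SysE8 F Γ} {ρ : Representation ℂ Γ V} {ψ : AddChar F ℂ}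

/-- `K = R^A`. -/
noncomputable abbrev KK (S : SysE8 F Γ) (ρ : Representation ℂ Γ V) (ψ : AddChar F ℂ) : Submodule ℂ V := Wt S ρ ψ (clist7 0)

/-- `K^{E₆}`. -/
def K0 (S : SysE8 F Γ) (ρ : Representation ℂ Γ V) (ψ : AddChar F ℂ) : Submodule ℂ V where
  carrier := {v | v ∈ KK S ρ ψ ∧ ∀ (r : R6) (a : F), ρ (S.x (rr (em r)) a) v = v}
  add_mem' := by
    rintro a b ⟨ha, ha'⟩ ⟨hb, hb'⟩
    exact ⟨Submodule.add_mem _ ha hb, fun r u => by rw [map_add, ha', hb']⟩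
  zero_mem' := ⟨Submodule.zero_mem _, fun r u => map_zero _⟩
  smul_mem' := by
    rintro c v ⟨hv, hv'⟩
    exact ⟨Submodule.smul_mem _ _ hv, fun r u => by rw [map_smul, hv']⟩

/-- From `pure_thm7`, `inv_nf7`, `dim_R`, `LTriv_of`. -/
theorem red7 [Fintype F] [FiniteDimensional ℂ V] (hψ : ψ ≠ 1) (hk : wr S ρ ψ (clist 0) < Fintype.card F ^ 18) (hL : ¬ LTriv S ρ ψ) :
    ∃ m, 0 < m ∧ (∀ a : F, a ≠ 0 → nf7 S ρ ψ (Pi.single b7 a) = m) ∧ wr S ρ ψ (clist 0) = m * a07 (Fintype.card F) + nf7 S ρ ψ 0 := by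
  classical
  have hI := inv_nf7 (S := S) (ρ := ρ) (ψ := ψ)
  have hR := dim_R (S := S) (ρ := ρ) (ψ := ψ) hψ
  have hex : ∃ c : P7 → F, c ≠ 0 ∧ 0 < nf7 S ρ ψ c := by
    by_contra hcon
    push Not at hcon
    exact hL (LTriv_of hψ (fun c hc => Nat.le_zero.mp (hcon c hc)))
  obtain ⟨m, hm, h1, h2⟩ := pure_thm7 S.sg7_sign hI (hR ▸ hk) hex
  refine ⟨m, hm, fun a ha => h1 b7 a ha, ?_⟩
  have hsplit : ∑ c : P7 → F, nf7 S ρ ψ c = nf7 S ρ ψ 0 + ∑ c : P7 → F, (if c ≠ 0 then nf7 S ρ ψ c else 0) := by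
    have h : ∀ c : P7 → F, nf7 S ρ ψ c = (if c = 0 then nf7 S ρ ψ c else 0) + (if c ≠ 0 then nf7 S ρ ψ c else 0) := by
      intro c
      by_cases hc : c = 0
      · simp [hc]
      · simp [hc]
    calc ∑ c : P7 → F, nf7 S ρ ψ c
        = ∑ c : P7 → F, ((if c = 0 then nf7 S ρ ψ c else 0) + (if c ≠ 0 then nf7 S ρ ψ c else 0)) :=
          Finset.sum_congr rfl fun c _ => h c
      _ = _ := by
          rw [Finset.sum_add_distrib]
          congr 1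
          rw [Finset.sum_ite_eq' Finset.univ (0 : P7 → F) (nf7 S ρ ψ)]
          simp
  rw [hR, hsplit, h2]
  unfold a07
  ring

/-- `dim K^{E₆} ≤ dim R^L + 4`. Port of `MinE6.R_le_four` at level 7: `n = nb7`, `x 120 → x 121`, `x 119 → x 118`, `hb → hb7`. Let `I` be an invariant form (`Lib/OddDeg/Form`), `K₁` the orthogonal of `RL` in `K0` (`RL ≤ K0`: use `mem_clist7`; `hb7` stabilises `K0`, `RL`, `K₁` by `hb7_all` and `nb7`...). For `v ∈ K0` eigenvector of `hb7`: `y = n v`. `reflB7` sends `239`, all `gam T`, all `aa T` with `T ≠ b7` into `239`, `gam`, `aa`, `rr (em r)` (`decide`), hence `y` is fixed by `x 239`, `x (gam T)`, `x (aa T)`, `T ≠ b7`, so `π_l y ∈ Wt (clist7 (single b7 l))`, a line if `l ≠ 0` (`hl`). If `π_l y = 0` for all `l ≠ 0`, `y` is fixed by `x 121`, so `v` is fixed by `x 118`, `E₆`, `A`, so `v` is fixed by `L` (`gen7` applied to the stabiliser of `v`): `v ∈ RL`. `pil_orth`,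 `pil_sq`, pigeonhole: same as `R_le_four` (eigenvectors `v₁, v₂, v₃ ∈ K₁`, with `E = ∅`, `{v₁, π₀ n v₁}`, `{v₁, π₀ n v₁, v₂, π₀ n v₂}`). -/
theorem K0_le [Fintype F] [Finite Γ] [FiniteDimensional ℂ V] (hψ : ψ ≠ 1) (hl : ∀ a : F, a ≠ 0 → nf7 S ρ ψ (Pi.single b7 a) = 1) :
    finrank ℂ (K0 S ρ ψ) ≤ finrank ℂ (RL S ρ ψ) + 4 := by
  exact K7.K0_le hψ hl

end Cfsg.Agent.Lib.MinE8
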