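import Cfsg.Agent.Lib.MinE8.Red
import Cfsg.Agent.Lib.OddDeg.Form

/-! The fixed vectors of `U L`. PORT of `Lib/MinE6/R4.lean` with `RL` (vectors of `R` fixed by `L`) instead of `R` with `LTriv`. -/

set_option autoImplicit false
set_option maxRecDepth 100000
set_option linter.unusedSectionVars false
set_option linter.unusedVariables false

namespace Cfsg.Agent.Lib.MinE8

open Module
open scoped Classical
open Cfsg.Agent.Lib.OddDeg

variable {F : Type*} [Field F] {Γ : Type*} [Group Γ] {V : Type*} [AddCommGroup V] [Module ℂ V]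
variable {S : SysE8 F Γ} {ρ : Representation ℂ Γ V} {ψ : AddChar F ℂ}

/-- `R = V^U`. -/
noncomputable abbrev RR (S : SysE8 F Γ) (ρ : Representation ℂ Γ V) (ψ : AddChar F ℂ) : Submodule ℂ V := Wt S ρ ψ (clist 0)

/-- `L` acts trivially on `R`. -/
def LTriv (S : SysE8 F Γ) (ρ : Representation ℂ Γ V) (ψ : AddChar F ℂ) : Prop :=
  ∀ r : R7, ∀ a, ∀ v ∈ RR S ρ ψ, ρ (S.x (rr r) a) v = v

/-- `R^L`. -/
def RL (S : SysE8 F Γ) (ρ : Representation ℂ Γ V) (ψ : AddChar F ℂ) : Submodule ℂ V where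
  carrier := {v | v ∈ RR S ρ ψ ∧ ∀ (r : R7) (a : F), ρ (S.x (rr r) a) v = v}
  add_mem' := by
    rintro a b ⟨ha, ha'⟩ ⟨hb, hb'⟩
    exact ⟨Submodule.add_mem _ ha hb, fun r u => by rw [map_add, ha', hb']⟩
  zero_mem' := ⟨Submodule.zero_mem _, fun r u => map_zero _⟩
  smul_mem' := by
    rintro c v ⟨hv, hv'⟩
    exact ⟨Submodule.smul_mem _ _ hv, fun r u => by rw [map_smul, hv']⟩

/-- The projection on the character `l` of `x 120`. -/
noncomputable def pil (S : SysE8 F Γ) (ρ : Representation ℂ Γ V) (ψ : AddChar F ℂ) [Fintype F] (l : F) (y : V) : V :=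
  (Fintype.card F : ℂ)⁻¹ • ∑ u : F, ψ (-(l * u)) • ρ (S.x 120 u) y

namespace R48

section
variable [Fintype F] [FiniteDimensional ℂ V]

lemma mem_RR {v : V} : v ∈ RR S ρ ψ ↔ (∀ u, ρ (S.x 239 u) v = v) ∧ ∀ T u, ρ (S.x (gam T) u) v = v := by
  constructor
  · intro h
    constructor
    · intro u
      have := h (239, 0) (mem_clist.2 (Or.inl rfl)) u
      simpa using this
    · intro T u
      have := h (gam T, 0) (mem_clist.2 (Or.inr ⟨T, rfl⟩)) u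
      simpa using this
  · rintro ⟨h1, h2⟩ p hp u
    rcases mem_clist.1 hp with rfl | ⟨T, rfl⟩
    · simpa using h1 u
    · simpa using h2 T u

lemma gam_b8 : gam b8 = 120 := by decide +kernel

lemma refl_119 : reflB 119 = 120 := by decide +kernel

lemma refl_table : ∀ T : P8, T ≠ b8 → reflB (reflB (gam T)) = gam T ∧ gam T < 240 ∧ reflB (gam T) < 240 ∧
    (reflB (gam T) = 239 ∨ (∃ T' : P8, reflB (gam T) = gam T') ∨ ∃ r : R7, reflB (gam T) = rr r) := by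
  decide +kernel

lemma refl_239 : reflB (reflB 239) = 239 ∧ reflB 239 < 240 ∧ ∃ T' : P8, reflB 239 = gam T' := by
  decide +kernel

/-- `h_β` stabilises `R`. -/
theorem hb_RR {v : V} (hv : v ∈ RR S ρ ψ) (c : Fˣ) : ρ (S.hb c) v ∈ RR S ρ ψ := by
  obtain ⟨h1, h2⟩ := mem_RR.1 hv
  refine mem_RR.2 ⟨fun u => ?_, fun T u => ?_⟩
  · have e := S.hb_th c (((c⁻¹ : Fˣ) : F) * u)
    have e2 : (c : F) * (((c⁻¹ : Fˣ) : F) * u) = u := by simp
    rw [e2] at e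
    rw [← e, ← Module.End.mul_apply, ← map_mul]
    have e3 : S.hb c * S.x 239 (((c⁻¹ : Fˣ) : F) * u) * (S.hb c)⁻¹ * S.hb c =
        S.hb c * S.x 239 (((c⁻¹ : Fˣ) : F) * u) := by group
    rw [e3, map_mul, Module.End.mul_apply, h1]
  · obtain ⟨e, he⟩ := S.hb_gam T
    have e1 := he c (((c ^ e : Fˣ)⁻¹ : Fˣ) * u)
    have e2 : ((c ^ e : Fˣ) : F) * (((c ^ e : Fˣ)⁻¹ : Fˣ) * u) = u := by
      rw [← mul_assoc, Units.mul_inv, one_mul]
    rw [e2] at e1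
    rw [← e1, ← Module.End.mul_apply, ← map_mul]
    have e3 : S.hb c * S.x (gam T) (((c ^ e : Fˣ)⁻¹ : Fˣ) * u) * (S.hb c)⁻¹ * S.hb c =
        S.hb c * S.x (gam T) (((c ^ e : Fˣ)⁻¹ : Fˣ) * u) := by group
    rw [e3, map_mul, Module.End.mul_apply, h2]

lemma rr_lt : ∀ r : R7, rr r < 240 := by decide +kernel

/-- `h_β` stabilises `R^L`. -/
theorem hb_RL {v : V} (hv : v ∈ RL S ρ ψ) (c : Fˣ) : ρ (S.hb c) v ∈ RL S ρ ψ := by
  refine ⟨hb_RR hv.1 c, fun r u => ?_⟩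
  obtain ⟨e, he⟩ := S.hb_all (rr r) (rr_lt r)
  have e1 := he c (((c ^ e : Fˣ)⁻¹ : Fˣ) * u)
  have e2 : ((c ^ e : Fˣ) : F) * (((c ^ e : Fˣ)⁻¹ : Fˣ) * u) = u := by
    rw [← mul_assoc, Units.mul_inv, one_mul]
  rw [e2] at e1
  rw [← e1, ← Module.End.mul_apply, ← map_mul]
  have e3 : S.hb c * S.x (rr r) (((c ^ e : Fˣ)⁻¹ : Fˣ) * u) * (S.hb c)⁻¹ * S.hb c =
      S.hb c * S.x (rr r) (((c ^ e : Fˣ)⁻¹ : Fˣ) * u) := by group
  rw [e3, map_mul, Module.End.mul_apply, hv.2]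

lemma fix_of_refl {v : V} {r : ℕ} (h1 : reflB r < 240) (hrr : reflB (reflB r) = r)
    (h2 : ∀ w, ρ (S.x (reflB r) w) v = v) (u : F) : ρ (S.x r u) (ρ S.nb v) = ρ S.nb v := by
  obtain ⟨η, hη1, hη⟩ := S.nb_conj (reflB r) h1
  rw [hrr] at hη
  have hηη : η * η = 1 := by
    rcases hη1 with rfl | rfl <;> simp
  have e := hη (η * u)
  rw [← mul_assoc, hηη, one_mul] at e
  have e3 : S.x r u * S.nb = S.nb * S.x (reflB r) (η * u) := by
    rw [← e]
    group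
  rw [← Module.End.mul_apply, ← map_mul, e3, map_mul, Module.End.mul_apply, h2]

/-- For `v ∈ R`, if `L` is trivial on `R`: `n v` is fixed by `x 239` and the `x (gam T)`, `T ≠ b8`. By `nb_conj`: `reflB` sends `239` and those `gam T` into the set of the `gam T`, the `rt i j` (`decide`), and `v` is fixed by these. -/
theorem nb_fix {v : V} (hv : v ∈ RL S ρ ψ) : (∀ u, ρ (S.x 239 u) (ρ S.nb v) = ρ S.nb v) ∧
    ∀ T, T ≠ b8 → ∀ u, ρ (S.x (gam T) u) (ρ S.nb v) = ρ S.nb v := by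
  obtain ⟨h1, h2⟩ := mem_RR.1 hv.1
  constructor
  · obtain ⟨a, b, T', c⟩ := refl_239
    apply fix_of_refl b a
    intro w
    rw [c]
    exact h2 T' w
  · intro T hT
    obtain ⟨a, -, b, c⟩ := refl_table T hT
    apply fix_of_refl b a
    intro w
    rcases c with c | ⟨T', c⟩ | ⟨r, c⟩
    · rw [c]
      exact h1 w
    · rw [c]
      exact h2 T' w
    · rw [c]
      exact hv.2 r w

lemma pil_apply_x (l a : F) (y : V) : ρ (S.x 120 a) (pil S ρ ψ l y) = ψ (l * a) • pil S ρ ψ l y := by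
  unfold pil
  rw [map_smul, map_sum, smul_comm]
  congr 1
  rw [Finset.smul_sum, ← Equiv.sum_comp (Equiv.addLeft a) (fun u => ψ (l * a) • ψ (-(l * u)) • ρ (S.x 120 u) y)]
  refine Finset.sum_congr rfl fun u _ => ?_
  simp only [Equiv.coe_addLeft]
  rw [map_smul, ← Module.End.mul_apply, ← map_mul, S.x_add 120 (by norm_num), smul_smul, ← AddChar.map_add_eq_mul]
  congr 2
  ring

lemma pil_fix_aux {y : V} (h71 : ∀ u, ρ (S.x 239 u) y = y) {T : P8} (hT : T ≠ b8)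
    (hy : ∀ u, ρ (S.x (gam T) u) y = y) (w u : F) : ρ (S.x (gam T) u) (ρ (S.x 120 w) y) = ρ (S.x 120 w) y := by
  by_cases hc : b8 = cmp T
  · have e := S.uc T u w
    rw [← hc, gam_b8] at e
    rw [← Module.End.mul_apply, ← map_mul, e, map_mul, map_mul, Module.End.mul_apply, Module.End.mul_apply, h71, hy]
  · have e := S.uu T b8 hc u w
    rw [gam_b8] at e
    rw [← Module.End.mul_apply, ← map_mul, e, map_mul, Module.End.mul_apply, hy]

/-- The projection of `n v` on a nontrivial character `l` of `x 120` is in the line `Wt (clist (single b8 l))`. So two of them are proportional. -/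
theorem pil_mem (hψ : ψ ≠ 1) {v : V} (hv : v ∈ RL S ρ ψ) (l : F) : pil S ρ ψ l (ρ S.nb v) ∈ Wt S ρ ψ (clist (Pi.single b8 l)) := by
  classical
  obtain ⟨h71, hT⟩ := nb_fix hv
  set y := ρ S.nb v with hy
  intro p hp u
  rcases mem_clist.1 hp with rfl | ⟨T, rfl⟩
  · simp only [zero_mul, AddChar.map_zero_eq_one, one_smul]
    unfold pil
    rw [map_smul, map_sum]
    congr 1
    refine Finset.sum_congr rfl fun w _ => ?_
    rw [map_smul]
    congr 1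
    have e := S.tt b8 u w
    rw [gam_b8] at e
    rw [← Module.End.mul_apply, ← map_mul, e, map_mul, Module.End.mul_apply, h71]
  · by_cases hTβ : T = b8
    · subst hTβ
      simp only [Pi.single_eq_same]
      rw [gam_b8]
      exact pil_apply_x l u y
    · simp only [Pi.single_eq_of_ne hTβ, zero_mul, AddChar.map_zero_eq_one, one_smul]
      unfold pil
      rw [map_smul, map_sum]
      congr 1
      refine Finset.sum_congr rfl fun w _ => ?_
      rw [map_smul]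
      congr 1
      exact pil_fix_aux h71 hTβ (hT T hTβ) w u

lemma sum_pil (hψ : ψ ≠ 1) (y : V) : ∑ l : F, pil S ρ ψ l y = y := by
  classical
  unfold pil
  rw [← Finset.smul_sum, Finset.sum_comm]
  have h : ∀ u : F, ∑ l : F, ψ (-(l * u)) • ρ (S.x 120 u) y =
      (if u = 0 then (Fintype.card F : ℂ) else 0) • ρ (S.x 120 u) y := by
    intro u
    rw [← Finset.sum_smul]
    congr 1
    split_ifs with hu
    · subst hu
      simp
    · have := sum_psi_mul (ψ := ψ) hψ (a := -u) (neg_ne_zero.2 hu)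
      rw [← this]
      refine Finset.sum_congr rfl fun l _ => ?_
      congr 1
      ring
  simp only [h]
  rw [Finset.sum_eq_single 0]
  · rw [if_pos rfl, smul_smul, inv_mul_cancel₀ (by exact_mod_cast Fintype.card_ne_zero), one_smul, x_zero S 120 (by norm_num), map_one,
      Module.End.one_apply]
  · intro b _ hb
    rw [if_neg hb, zero_smul]
  · intro h0
    exact absurd (Finset.mem_univ _) h0

/-- If `π_l (n v) = 0` for all `l ≠ 0` and `L` is trivial on `R`, then `n v` is in `R`, and it is fixed by `x 120`, `x 119` (`n⁻¹ x 119 n = x 120 (η ·)`) and `L`: `v = 0` by `NoFix`. -/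
theorem pil_ne (hψ : ψ ≠ 1) (hfix : NoFix S ρ) {v : V} (hv : v ∈ RL S ρ ψ) (hv0 : v ≠ 0) : ∃ l : F, l ≠ 0 ∧ pil S ρ ψ l (ρ S.nb v) ≠ 0 := by
  classical
  by_contra hc
  push Not at hc
  apply hv0
  obtain ⟨h1, h2⟩ := mem_RR.1 hv.1
  have hy : pil S ρ ψ 0 (ρ S.nb v) = ρ S.nb v := by
    have h3 := sum_pil (S := S) (ρ := ρ) hψ (ρ S.nb v)
    rw [Finset.sum_eq_single 0 (fun b _ hb => hc b hb) (fun h0 => absurd (Finset.mem_univ _) h0)] at h3
    exact h3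
  have hy46 : ∀ a, ρ (S.x 120 a) (ρ S.nb v) = ρ S.nb v := by
    intro a
    rw [← hy, pil_apply_x]
    simp
  refine hfix v (fun r u => hv.2 r u) (fun u => ?_) (fun u => ?_)
  · have := h2 b8 u
    rwa [gam_b8] at this
  · obtain ⟨η, -, hη⟩ := S.nb_conj 119 (by norm_num)
    have e := hη u
    rw [refl_119] at e
    have e2 : S.x 119 u = S.nb⁻¹ * S.x 120 (η * u) * S.nb := by
      rw [← e]
      group
    rw [e2, map_mul, map_mul, Module.End.mul_apply, Module.End.mul_apply, hy46, ← Module.End.mul_apply,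
      ← map_mul, inv_mul_cancel, map_one, Module.End.one_apply]

/-- `π₀(n v)` is an eigenvector of `h_β` and lies in `R` if `v` is an eigenvector in `R` and `L` is trivial on `R`. -/
theorem pil0_eigen (hψ : ψ ≠ 1) {v : V} (hv : v ∈ RL S ρ ψ) (hev : ∀ c : Fˣ, ∃ z : ℂ, ρ (S.hb c) v = z • v) :
    pil S ρ ψ 0 (ρ S.nb v) ∈ RR S ρ ψ ∧ ∀ c : Fˣ, ∃ z : ℂ, ρ (S.hb c) (pil S ρ ψ 0 (ρ S.nb v)) = z • pil S ρ ψ 0 (ρ S.nb v) := by
  classical
  constructor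
  · have := pil_mem (S := S) (ρ := ρ) hψ hv 0
    rwa [Pi.single_zero] at this
  · intro c
    obtain ⟨z, hz⟩ := hev c⁻¹
    refine ⟨z, ?_⟩
    have hn : ρ (S.hb c) (ρ S.nb v) = z • ρ S.nb v := by
      have e := S.nb_hb c⁻¹
      rw [inv_inv] at e
      have e2 : S.hb c * S.nb = S.nb * S.hb c⁻¹ := by
        rw [← e]
        group
      rw [← Module.End.mul_apply, ← map_mul, e2, map_mul, Module.End.mul_apply, hz, map_smul]
    unfold pil
    rw [map_smul, map_sum, smul_comm]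
    congr 1
    rw [Finset.smul_sum]
    have hc2 : ((c : F) ^ 2) ≠ 0 := pow_ne_zero 2 c.ne_zero
    rw [← Equiv.sum_comp (Equiv.mulLeft₀ ((c : F) ^ 2) hc2) (fun u => z • ψ (-(0 * u)) • ρ (S.x 120 u) (ρ S.nb v))]
    refine Finset.sum_congr rfl fun u _ => ?_
    simp only [Equiv.mulLeft₀_apply, zero_mul, neg_zero, AddChar.map_zero_eq_one, one_smul]
    have e3 : S.hb c * S.x 120 u = S.x 120 ((c : F) ^ 2 * u) * S.hb c := by
      rw [← S.hb_β c u]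
      group
    rw [← Module.End.mul_apply, ← map_mul, e3, map_mul, Module.End.mul_apply, hn, map_smul]


section FAux

lemma f4_gam_b8_eq : gam b8 = 120 := by decide +kernel

lemma f4_reflB_119 : reflB 119 = 120 := by decide +kernel

lemma f4_RR_x46 {v : V} (hv : v ∈ RR S ρ ψ) (u : F) : ρ (S.x 120 u) v = v := by
  have h := hv (gam b8, (0 : P8 → F) b8) (mem_clist.2 (Or.inr ⟨b8, rfl⟩)) u
  simp only [Pi.zero_apply, zero_mul, AddChar.map_zero_eq_one, one_smul, f4_gam_b8_eq] at h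
  exact h

lemma f4_rho_eq_zero (g : Γ) {w : V} (h : ρ g w = 0) : w = 0 := by
  have h1 := congrArg (ρ g⁻¹) h
  rw [← Module.End.mul_apply, ← map_mul, inv_mul_cancel, map_one, map_zero] at h1
  exact h1

lemma f4_hb_one : S.hb 1 = 1 := by
  have h := S.hb_mul 1 1
  rw [mul_one] at h
  exact (left_eq_mul.mp h)

lemma f4_hb_inv (c : Fˣ) : (S.hb c)⁻¹ = S.hb c⁻¹ := by
  rw [inv_eq_iff_mul_eq_one, ← S.hb_mul, mul_inv_cancel, f4_hb_one]

lemma f4_pil_smul (l : F) (z : ℂ) (y : V) : pil S ρ ψ l (z • y) = z • pil S ρ ψ l y := by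
  have h1 : ∀ u : F, ψ (-(l * u)) • ρ (S.x 120 u) (z • y) = z • (ψ (-(l * u)) • ρ (S.x 120 u) y) := by
    intro u
    rw [map_smul, smul_comm]
  simp only [pil, h1, ← Finset.smul_sum]
  rw [smul_comm]

lemma f4_hb_pil (c : Fˣ) (l : F) (y : V) :
    ρ (S.hb c) (pil S ρ ψ l y) = pil S ρ ψ (l * ((c⁻¹ : Fˣ) : F) ^ 2) (ρ (S.hb c) y) := by
  unfold pil
  rw [map_smul, map_sum]
  congr 1
  have hc2 : ((c : F) ^ 2) ≠ 0 := pow_ne_zero _ c.ne_zero
  rw [← Equiv.sum_comp (Equiv.mulLeft₀ ((c : F) ^ 2) hc2)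
    (fun u : F => ψ (-(l * ((c⁻¹ : Fˣ) : F) ^ 2 * u)) • ρ (S.x 120 u) (ρ (S.hb c) y))]
  refine Finset.sum_congr rfl fun u _ => ?_
  simp only [Equiv.mulLeft₀_apply]
  rw [map_smul]
  have e1 : l * ((c⁻¹ : Fˣ) : F) ^ 2 * ((c : F) ^ 2 * u) = l * u := by
    have hc0 : (c : F) ≠ 0 := c.ne_zero
    rw [Units.val_inv_eq_inv_val]
    field_simp
  rw [e1]
  congr 1
  have e2 : S.hb c * S.x 120 u = (S.hb c * S.x 120 u * (S.hb c)⁻¹) * S.hb c := by group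
  calc ρ (S.hb c) (ρ (S.x 120 u) y) = ρ (S.hb c * S.x 120 u) y := by rw [map_mul]; rfl
    _ = ρ ((S.hb c * S.x 120 u * (S.hb c)⁻¹) * S.hb c) y := by rw [← e2]
    _ = ρ (S.x 120 ((c : F) ^ 2 * u)) (ρ (S.hb c) y) := by rw [S.hb_β, map_mul]; rfl

lemma f4_B_pil_zero (I : IH ρ) (y : V) {w : V} (hw : w ∈ RR S ρ ψ) :
    I.B (pil S ρ ψ 0 y) w = I.B y w := by
  have hq : ((Fintype.card F : ℕ) : ℂ) ≠ 0 := by
    exact_mod_cast Fintype.card_ne_zero
  unfold pil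
  rw [I.smul_left, I.sum_left]
  have h1 : ∀ u ∈ (Finset.univ : Finset F), I.B (ψ (-(0 * u)) • ρ (S.x 120 u) y) w = I.B y w := by
    intro u _
    rw [zero_mul, neg_zero, AddChar.map_zero_eq_one, one_smul, I.adj,
      x_inv S 120 (by norm_num), f4_RR_x46 hw]
  rw [Finset.sum_congr rfl h1, Finset.sum_const, Finset.card_univ, nsmul_eq_mul, ← mul_assoc,
    inv_mul_cancel₀ hq, one_mul]

lemma f4_line_zero (I : IH ρ) {W : Submodule ℂ V} (hW : finrank ℂ W = 1) {a b : V} (ha : a ∈ W)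
    (hb : b ∈ W) (hab : I.B a b = 0) : a = 0 ∨ b = 0 := by
  by_cases ha0 : a = 0
  · exact Or.inl ha0
  right
  have hne : (⟨a, ha⟩ : W) ≠ 0 := fun h => ha0 (congrArg Subtype.val h)
  obtain ⟨t, ht⟩ := (finrank_eq_one_iff_of_nonzero' (⟨a, ha⟩ : W) hne).1 hW ⟨b, hb⟩
  have ht' : t • a = b := congrArg Subtype.val ht
  rw [← ht', I.smul_right] at hab
  have ht0 : t = 0 := by
    rcases mul_eq_zero.1 hab with h | h
    · simpa using h
    · exact absurd h (I.self_ne_zero ha0)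
  rw [← ht', ht0, zero_smul]

lemma f4_sq2 {a b : F} (ha : a ≠ 0) (hb : b ≠ 0) (h : quadraticChar F a = quadraticChar F b) :
    ∃ s : Fˣ, b = a * (s : F) ^ 2 := by
  have h1 : quadraticChar F (a * b) = 1 := by
    rw [map_mul, ← h, ← pow_two, quadraticChar_sq_one ha]
  obtain ⟨w, hw⟩ := (quadraticChar_one_iff_isSquare (mul_ne_zero ha hb)).1 h1
  have hw0 : w ≠ 0 := by
    rintro rfl
    rw [mul_zero] at hw
    exact (mul_ne_zero ha hb) hw
  refine ⟨Units.mk0 (w / a) (div_ne_zero hw0 ha), ?_⟩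
  rw [Units.val_mk0]
  field_simp
  rw [pow_two w, ← hw]
  ring

lemma f4_sq3 {a b c : F} (ha : a ≠ 0) (hb : b ≠ 0) (hc : c ≠ 0) :
    (∃ s : Fˣ, b = a * (s : F) ^ 2) ∨ (∃ s : Fˣ, c = a * (s : F) ^ 2) ∨
      (∃ s : Fˣ, c = b * (s : F) ^ 2) := by
  rcases quadraticChar_dichotomy ha with h1 | h1 <;>
  rcases quadraticChar_dichotomy hb with h2 | h2 <;>
  rcases quadraticChar_dichotomy hc with h3 | h3
  · exact Or.inl (f4_sq2 ha hb (h1.trans h2.symm))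
  · exact Or.inl (f4_sq2 ha hb (h1.trans h2.symm))
  · exact Or.inr (Or.inl (f4_sq2 ha hc (h1.trans h3.symm)))
  · exact Or.inr (Or.inr (f4_sq2 hb hc (h2.trans h3.symm)))
  · exact Or.inr (Or.inr (f4_sq2 hb hc (h2.trans h3.symm)))
  · exact Or.inr (Or.inl (f4_sq2 ha hc (h1.trans h3.symm)))
  · exact Or.inl (f4_sq2 ha hb (h1.trans h2.symm))
  · exact Or.inl (f4_sq2 ha hb (h1.trans h2.symm))

end FAux

/-- For an eigenvector `v` of all `h_β(s)`: `π_l (n v) ≠ 0` implies `π_{l s²} (n v) ≠ 0` (`h_β(s) π_l(y) = π_{l s⁻²}(h_β(s) y)`, `h_β(s) n v = n h_β(s⁻¹) v`). -/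
theorem pil_sq (hψ : ψ ≠ 1) {v : V} (hev : ∀ c : Fˣ, ∃ z : ℂ, ρ (S.hb c) v = z • v) {l : F} (hl : pil S ρ ψ l (ρ S.nb v) ≠ 0) (s : Fˣ) :
    pil S ρ ψ (l * (s : F) ^ 2) (ρ S.nb v) ≠ 0 := by
  intro h0
  apply hl
  obtain ⟨z, hz⟩ := hev s
  have h1 : ρ (S.hb s⁻¹) (ρ S.nb v) = z • ρ S.nb v := by
    have e : S.hb s⁻¹ * S.nb = S.nb * S.hb s := by
      have h := S.nb_hb s
      rw [← h]
      group
    calc ρ (S.hb s⁻¹) (ρ S.nb v) = ρ (S.hb s⁻¹ * S.nb) v := by rw [map_mul]; rfl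
      _ = ρ (S.nb * S.hb s) v := by rw [e]
      _ = ρ S.nb (ρ (S.hb s) v) := by rw [map_mul]; rfl
      _ = z • ρ S.nb v := by rw [hz, map_smul]
  have h2 := f4_hb_pil (S := S) (ρ := ρ) (ψ := ψ) s⁻¹ l (ρ S.nb v)
  rw [h1, inv_inv, f4_pil_smul, h0, smul_zero] at h2
  exact f4_rho_eq_zero _ h2

/-- The orthogonality. Let `v₁, v₂ ∈ R`, `v₂` an eigenvector of `h_β`, `v₂ ⟂ v₁`, `v₂ ⟂ π₀(n v₁)`. Then `⟨π_l (n v₁), π_l (n v₂)⟩ = 0`: it is `(1/q) ∑_u ψ(-l u) ⟨x 120 (u) n v₁, n v₂⟩`,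
`⟨x 120 (u) n v₁, n v₂⟩ = ⟨x 119 (w) v₁, v₂⟩`, `w = η u`; for `w ≠ 0`, `c = -w⁻¹`: `x 119 (w) = x 120 (w⁻¹) (x 120 (c) x 119 (-c⁻¹) x 120 (c)) x 120 (w⁻¹)`, so `⟨x 119 (w) v₁, v₂⟩ = ⟨h_β(c) n v₁, v₂⟩ = ⟨n v₁, h_β(c)⁻¹ v₂⟩` is a multiple of
`⟨n v₁, v₂⟩ = ⟨π₀(n v₁), v₂⟩ = 0`. -/
theorem pil_orth (hψ : ψ ≠ 1) (I : IH ρ) {v₁ v₂ : V} (h1 : v₁ ∈ RR S ρ ψ) (h2 : v₂ ∈ RR S ρ ψ) (hev : ∀ c : Fˣ, ∃ z : ℂ, ρ (S.hb c) v₂ = z • v₂)
    (h12 : I.B v₁ v₂ = 0) (h0 : I.B (pil S ρ ψ 0 (ρ S.nb v₁)) v₂ = 0) (l : F) :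
    I.B (pil S ρ ψ l (ρ S.nb v₁)) (pil S ρ ψ l (ρ S.nb v₂)) = 0 := by
  have h25 : ∀ w : F, I.B (ρ (S.x 119 w) v₁) v₂ = 0 := by
    intro w
    by_cases hw : w = 0
    · subst hw
      rw [x_zero S 119 (by norm_num), map_one]
      exact h12
    · have hc0 : -w⁻¹ ≠ 0 := neg_ne_zero.2 (inv_ne_zero hw)
      set c : Fˣ := Units.mk0 (-w⁻¹) hc0 with hc
      have hcv : (c : F) = -w⁻¹ := rfl
      have h1' : -((c : F)⁻¹) = w := by rw [hcv, inv_neg, inv_inv, neg_neg]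
      have h2' := S.nb_eq c
      rw [h1'] at h2'
      have e : S.x 119 w = (S.x 120 (c : F))⁻¹ * (S.hb c * S.nb) * (S.x 120 (c : F))⁻¹ := by
        rw [← h2']
        group
      rw [e, map_mul, map_mul, Module.End.mul_apply, Module.End.mul_apply,
        x_inv S 120 (by norm_num), f4_RR_x46 h1, I.adj, ← x_inv S 120 (by norm_num), inv_inv,
        f4_RR_x46 h2, map_mul, Module.End.mul_apply, I.adj, f4_hb_inv]
      obtain ⟨z, hz⟩ := hev c⁻¹
      rw [hz, I.smul_right, ← f4_B_pil_zero I _ h2, h0, mul_zero]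
  have hn25 : ∀ u : F, I.B (ρ (S.x 120 u) (ρ S.nb v₁)) (ρ S.nb v₂) = 0 := by
    intro u
    obtain ⟨η, hη, hconj⟩ := S.nb_conj 119 (by norm_num)
    have hηη : η * η = 1 := by
      rcases hη with rfl | rfl <;> simp
    have h3 := hconj (η * u)
    rw [f4_reflB_119, ← mul_assoc, hηη, one_mul] at h3
    have e : S.x 120 u * S.nb = S.nb * S.x 119 (η * u) := by
      rw [← h3]
      group
    calc I.B (ρ (S.x 120 u) (ρ S.nb v₁)) (ρ S.nb v₂)
        = I.B (ρ (S.x 120 u * S.nb) v₁) (ρ S.nb v₂) := by rw [map_mul]; rfl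
      _ = I.B (ρ S.nb (ρ (S.x 119 (η * u)) v₁)) (ρ S.nb v₂) := by rw [e, map_mul]; rfl
      _ = I.B (ρ (S.x 119 (η * u)) v₁) v₂ := I.inv _ _ _
      _ = 0 := h25 _
  have hz : ∀ u u' : F, I.B (ρ (S.x 120 u) (ρ S.nb v₁)) (ρ (S.x 120 u') (ρ S.nb v₂)) = 0 := by
    intro u u'
    rw [I.adj', ← Module.End.mul_apply, ← map_mul, x_inv S 120 (by norm_num),
      ← S.x_add 120 (by norm_num)]
    exact hn25 _
  unfold pil
  simp only [I.smul_left, I.smul_right, I.sum_left, I.sum_right, hz, mul_zero,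
    Finset.sum_const_zero]

/-- A subspace of `R` of positive dimension orthogonal to eigenvectors contains an eigenvector of `h_β`: let `E` be a finite set of eigenvectors, `dim R > |E|`; `R ∩ E^⟂` is nonzero and stable under the cyclic group `h_β(Fˣ)`. -/
theorem exists_eigen_perp (I : IH ρ) (E : Finset V) (hE : ∀ e ∈ E, ∀ c : Fˣ, ∃ z : ℂ, ρ (S.hb c) e = z • e) (hd : E.card < finrank ℂ (RL S ρ ψ)) :
    ∃ v ∈ RL S ρ ψ, v ≠ 0 ∧ (∀ c : Fˣ, ∃ z : ℂ, ρ (S.hb c) v = z • v) ∧ ∀ e ∈ E, I.B e v = 0 := by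
  classical
  let K : Submodule ℂ V :=
    { carrier := {v | v ∈ RL S ρ ψ ∧ ∀ e ∈ E, I.B e v = 0}
      add_mem' := by
        rintro a b ⟨ha, ha'⟩ ⟨hb, hb'⟩
        refine ⟨Submodule.add_mem _ ha hb, fun e he => ?_⟩
        rw [I.add_right, ha' e he, hb' e he, add_zero]
      zero_mem' := ⟨Submodule.zero_mem _, fun e _ => by simp⟩
      smul_mem' := by
        rintro c a ⟨ha, ha'⟩
        refine ⟨Submodule.smul_mem _ c ha, fun e he => ?_⟩
        rw [I.smul_right, ha' e he, mul_zero] }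
  have hK : ∀ v, v ∈ K ↔ v ∈ RL S ρ ψ ∧ ∀ e ∈ E, I.B e v = 0 := fun v => Iff.rfl
  -- `K` is nontrivial
  let Φ : (RL S ρ ψ) →ₗ[ℂ] (E → ℂ) :=
    { toFun := fun v e => I.B (v : V) e
      map_add' := by
        intro a b
        ext e
        simp [I.add_left]
      map_smul' := by
        intro c a
        ext e
        simp [I.smul_left] }
  have hker : LinearMap.ker Φ ≠ ⊥ := by
    apply LinearMap.ker_ne_bot_of_finrank_lt
    rw [Module.finrank_fintype_fun_eq_card, Fintype.card_coe]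
    exact hd
  obtain ⟨v₀, hv₀, hv₀0⟩ := Submodule.exists_mem_ne_zero_of_ne_bot hker
  have hv₀K : (v₀ : V) ∈ K := by
    refine ⟨v₀.2, fun e he => ?_⟩
    have h := congrFun (LinearMap.mem_ker.1 hv₀) ⟨e, he⟩
    have h' : I.B (v₀ : V) e = 0 := h
    rw [I.symm (v₀ : V) e, h', star_zero]
  have hnt : Nontrivial K := ⟨⟨⟨v₀, hv₀K⟩, 0, fun h => by
    have h' : (v₀ : V) = 0 := congrArg Subtype.val h
    exact hv₀0 (Subtype.ext h')⟩⟩
  -- a generator of the torus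
  obtain ⟨g, hg⟩ := IsCyclic.exists_monoid_generator (α := Fˣ)
  let hbm : Fˣ →* Γ := MonoidHom.mk' S.hb S.hb_mul
  have hst : ∀ v ∈ K, ρ (S.hb g) v ∈ K := by
    intro v hv
    refine ⟨hb_RL hv.1 g, fun e he => ?_⟩
    rw [I.adj', f4_hb_inv]
    obtain ⟨z, hz⟩ := hE e he g⁻¹
    rw [hz, I.smul_left, hv.2 e he, mul_zero]
  let T : Module.End ℂ K := LinearMap.restrict (ρ (S.hb g) : V →ₗ[ℂ] V) hst
  obtain ⟨μ, hμ⟩ := Module.End.exists_eigenvalue T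
  obtain ⟨w, hw⟩ := hμ.exists_hasEigenvector
  have hTw : ρ (S.hb g) (w : V) = μ • (w : V) := congrArg Subtype.val hw.apply_eq_smul
  refine ⟨w, w.2.1, fun h => hw.2 (Subtype.ext h), ?_, fun e he => w.2.2 e he⟩
  intro c
  obtain ⟨k, rfl⟩ := (Submonoid.mem_powers_iff _ _).1 (hg c)
  refine ⟨μ ^ k, ?_⟩
  have hpow : S.hb (g ^ k) = S.hb g ^ k := map_pow hbm g k
  rw [hpow]
  clear hpow
  induction k with
  | zero => simp
  | succ n ih =>
    rw [pow_succ, map_mul, Module.End.mul_apply, hTw, map_smul, ih, smul_smul, pow_succ, mul_comm]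

end

end R48

open R48 in
/-- `dim R^L ≤ 4`. Port of `MinE6.R_le_four` and its lemmas (`hb_RR`, `nb_fix`, `pil_mem`, `pil_ne`, `pil0_eigen`, `pil_sq`, `pil_orth`, `exists_eigen_perp`), with `RL` instead of `R`: for `v ∈ RL`, `n v` is fixed by `x 239` and `x (gam T)`, `T ≠ b8`: `reflB` sends these roots into `gam` and `rr`. `pil_ne`: if `π_l (n v) = 0` for all `l ≠ 0`, `n v` is fixed by `x 120`, so `v` is fixed by `x 119`; `v` is fixed by `L`, `x 120`, so `v = 0` by `hfix`. `pil0_eigen`: `π₀ (n v)` is an eigenvector of `h_β` (no need for it to be in `RL`: `exists_eigen_perp` only asks for eigenvectors in `E`; it is applied to the `h_β`-stable subspace `RL`). -/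
theorem RL_le_four [Fintype F] [Finite Γ] [FiniteDimensional ℂ V] (hψ : ψ ≠ 1) (hfix : NoFix S ρ) (hl : ∀ a : F, a ≠ 0 → nfE S ρ ψ (Pi.single b8 a) = 1) :
    finrank ℂ (RL S ρ ψ) ≤ 4 := by
  classical
  obtain ⟨I⟩ := exists_IH ρ
  by_contra hgt
  have hgt' : 4 < finrank ℂ (RL S ρ ψ) := not_le.1 hgt
  have mk : ∀ E : Finset V, (∀ e ∈ E, ∀ c : Fˣ, ∃ z : ℂ, ρ (S.hb c) e = z • e) → E.card ≤ 4 →
      ∃ v ∈ RL S ρ ψ, v ≠ 0 ∧ (∀ c : Fˣ, ∃ z : ℂ, ρ (S.hb c) v = z • v) ∧ ∀ e ∈ E, I.B e v = 0 :=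
    fun E hE hc => exists_eigen_perp I E hE (lt_of_le_of_lt hc hgt')
  obtain ⟨v₁, h1, h1n, h1e, -⟩ := mk ∅ (by simp) (by simp)
  obtain ⟨hp1R, hp1e⟩ := pil0_eigen hψ h1 h1e
  obtain ⟨v₂, h2, h2n, h2e, h2o⟩ := mk {v₁, pil S ρ ψ 0 (ρ S.nb v₁)} (by
      intro e he
      simp only [Finset.mem_insert, Finset.mem_singleton] at he
      rcases he with rfl | rfl
      · exact h1e
      · exact hp1e) (le_trans Finset.card_le_two (by norm_num))
  obtain ⟨hp2R, hp2e⟩ := pil0_eigen hψ h2 h2e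
  obtain ⟨v₃, h3, h3n, h3e, h3o⟩ := mk {v₁, pil S ρ ψ 0 (ρ S.nb v₁), v₂, pil S ρ ψ 0 (ρ S.nb v₂)} (by
      intro e he
      simp only [Finset.mem_insert, Finset.mem_singleton] at he
      rcases he with rfl | rfl | rfl | rfl
      · exact h1e
      · exact hp1e
      · exact h2e
      · exact hp2e) Finset.card_le_four
  obtain ⟨l₁, hl₁, hp₁⟩ := pil_ne hψ hfix h1 h1n
  obtain ⟨l₂, hl₂, hp₂⟩ := pil_ne hψ hfix h2 h2n
  obtain ⟨l₃, hl₃, hp₃⟩ := pil_ne hψ hfix h3 h3n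
  have pair : ∀ {v w : V}, v ∈ RL S ρ ψ → w ∈ RL S ρ ψ → (∀ c : Fˣ, ∃ z : ℂ, ρ (S.hb c) w = z • w) →
      I.B v w = 0 → I.B (pil S ρ ψ 0 (ρ S.nb v)) w = 0 → ∀ l : F, l ≠ 0 →
      pil S ρ ψ l (ρ S.nb v) = 0 ∨ pil S ρ ψ l (ρ S.nb w) = 0 := by
    intro v w hv hw hwe h12 h0 l hl0
    exact f4_line_zero I (W := Wt S ρ ψ (clist (Pi.single b8 l))) (hl l hl0) (pil_mem hψ hv l)
      (pil_mem hψ hw l) (pil_orth hψ I hv.1 hw.1 hwe h12 h0 l)
  rcases f4_sq3 hl₁ hl₂ hl₃ with ⟨s, hs⟩ | ⟨s, hs⟩ | ⟨s, hs⟩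
  · rcases pair h1 h2 h2e (h2o _ (by simp)) (h2o _ (by simp)) l₂ hl₂ with h | h
    · exact pil_sq hψ h1e hp₁ s (hs ▸ h)
    · exact hp₂ h
  · rcases pair h1 h3 h3e (h3o _ (by simp)) (h3o _ (by simp)) l₃ hl₃ with h | h
    · exact pil_sq hψ h1e hp₁ s (hs ▸ h)
    · exact hp₃ h
  · rcases pair h2 h3 h3e (h3o _ (by simp)) (h3o _ (by simp)) l₃ hl₃ with h | h
    · exact pil_sq hψ h2e hp₂ s (hs ▸ h)
    · exact hp₃ h


end Cfsg.Agent.Lib.MinE8
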