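import Cfsg.Agent.Lib.MinE8.Top
import Cfsg.Agent.Lib.MinE8.Inst6
import Cfsg.Agent.Lib.Char.Central

/-! The assembly: port of `MinE6.main`. -/

set_option autoImplicit false
set_option maxRecDepth 100000
set_option linter.unusedSectionVars false
set_option linter.unusedVariables false

namespace Cfsg.Agent.Lib.MinE8

open Module
open Cfsg Lie

/-- The statement. -/
theorem main {F : Type*} [Field F] [Fintype F] (k : ℕ) (ρ : Representation ℂ (Cfsg.Lie.chevE8.group F) (Fin k → ℂ)) (hρ : ρ.IsIrreducible) (hk : 2 ≤ k) :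
    Fintype.card F * (Fintype.card F ^ 12 + 1) * (Fintype.card F ^ 10 + 1) * (Fintype.card F ^ 6 + 1) ≤ k := by
  classical
  obtain ⟨ax, S, hS⟩ := exists_sys F
  obtain ⟨S6, hS6⟩ := exists_sys6 F S ax hS
  obtain ⟨ψ, hψ1⟩ : ∃ ψ : AddChar F ℂ, ψ 1 ≠ 1 := by
    obtain ⟨ψ, hψ⟩ := AddChar.exists_apply_ne_zero.mpr (one_ne_zero (α := F))
    exact ⟨ψ, hψ⟩
  have hψ : ψ ≠ 1 := by
    rintro rfl
    simp at hψ1
  haveI : Nontrivial (Fin k → ℂ) := by
    haveI : Nontrivial (Fin k) := Fin.nontrivial_iff_two_le.2 hk
    infer_instance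
  have hfin : finrank ℂ (Fin k → ℂ) = k := by simp
  have hV : Nontrivial (Fin k → ℂ) := inferInstance
  have hfix : NoFix S ρ := by
    intro v hv1 hv2 hv3
    by_contra hv0
    let K : Subgroup ↥(chevE8.group F) :=
      { carrier := {g | ρ g v = v}
        mul_mem' := by
          intro a b ha hb
          show ρ (a * b) v = v
          rw [map_mul, Module.End.mul_apply, hb, ha]
        one_mem' := by
          show ρ 1 v = v
          simp
        inv_mem' := by
          intro a ha
          show ρ a⁻¹ v = v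
          conv_lhs => rw [← ha]
          rw [← Module.End.mul_apply, ← map_mul, inv_mul_cancel, map_one]
          rfl }
    have hK : K = ⊤ := S.gen K (fun r u => hv1 r u) (fun u => hv2 u) (fun u => hv3 u)
    have hall : ∀ g, ρ g v = v := fun g => by
      have : g ∈ K := by rw [hK]; trivial
      exact this
    let L : Subrepresentation ρ := ⟨Submodule.span ℂ {v}, fun g w hw => by
      obtain ⟨c, rfl⟩ := Submodule.mem_span_singleton.1 hw
      rw [map_smul, hall]
      exact Submodule.smul_mem _ _ (Submodule.mem_span_singleton_self v)⟩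
    rcases hρ.eq_bot_or_eq_top L with h | h
    · have h1 : L.toSubmodule = ⊥ := congrArg Subrepresentation.toSubmodule h
      have h2 : v ∈ L.toSubmodule := Submodule.mem_span_singleton_self v
      rw [h1, Submodule.mem_bot] at h2
      exact hv0 h2
    · have h1 : L.toSubmodule = ⊤ := congrArg Subrepresentation.toSubmodule h
      have h2 : finrank ℂ (Submodule.span ℂ {v}) = 1 := finrank_span_singleton hv0
      have h3 : Submodule.span ℂ {v} = (⊤ : Submodule ℂ (Fin k → ℂ)) := h1
      rw [h3, finrank_top, hfin] at h2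
      omega
  have hd : k ∣ NN8 (Fintype.card F) := by
    haveI : ρ.IsIrreducible := hρ
    have h1 := Cfsg.Agent.Lib.Char.Central.finrank_dvd_card (ρ := ρ)
    rw [hfin] at h1
    exact h1.trans (card_dvd F)
  have h := bound_abs S ρ ψ hψ hfix hV (by rw [hfin]; exact hd) S6 hS6 (FiniteField.isPrimePow_card F)
  rw [hfin] at h
  exact h

end Cfsg.Agent.Lib.MinE8
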