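import Cfsg.Agent.Lib.MinE8.Inv7
import Cfsg.Agent.Lib.MinE8.TbE7

/-! Pure combinatorics on `F²⁷`: the generic theorem of `GenPure` for the tables `TbE7`. -/

set_option autoImplicit false
set_option linter.unusedSectionVars false
set_option linter.unusedVariables false

namespace Cfsg.Agent.Lib.MinE8

open Module
open scoped Classical

variable {F : Type*} [Field F] [Fintype F] {sg : R6 → P7 → F} {n : (P7 → F) → ℕ}

open Tb7 in
/-- PLAN.md, `Pure7`. Each `S` has 16 neighbours, 10 non-neighbours, and no antipode. If `c S ≠ 0`, `n c > 0`: the normal form (16 moves) and, if a non-neighbour `T` has a nonzero coordinate, more moves: too many distinct vectors with `n > 0`, contradiction with `hB`. So `c` is the image of `single S (c S)` by the 16 moves; `n (single S a)` does not depend on `a ≠ 0` (torus) and `S` (swap). -/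
theorem pure_thm7 (hsg : ∀ r T, sg r T = 1 ∨ sg r T = -1) (hI : InvE7 sg n)
    (hB : ∑ c : P7 → F, n c < Fintype.card F ^ 18) (hex : ∃ c : P7 → F, c ≠ 0 ∧ 0 < n c) :
    ∃ m, 0 < m ∧ (∀ (T : P7) (a : F), a ≠ 0 → n (Pi.single T a) = m) ∧
    ∑ c : P7 → F, (if c ≠ 0 then n c else 0) = m * ((Fintype.card F - 1) * gauss27 (Fintype.card F)) := by
  have hII : GP.InvG hs7 mv7 pw7 sg n := ⟨fun r t c => hI.A r t c, fun r s c => hI.torus r s c⟩
  have hq : 2 ≤ Fintype.card F := GP.two_le_q
  have hB' : ∀ S, ∑ c : P7 → F, (if c S ≠ 0 then n c else 0) < Fintype.card F ^ 16 * Fintype.card F ^ 8 := by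
    intro S
    have h1 : ∑ c : P7 → F, (if c S ≠ 0 then n c else 0) ≤ ∑ c : P7 → F, n c := by
      apply Finset.sum_le_sum
      intro c _
      split_ifs <;> omega
    have h2 : Fintype.card F ^ 18 ≤ Fintype.card F ^ 16 * Fintype.card F ^ 8 := by
      rw [← pow_add]
      exact Nat.pow_le_pow_right (by omega) (by norm_num)
    omega
  have hinv : ∀ (r : R6) (T : P7), sw7 r (sw7 r T) = T := by
    rw [sw_eq]
    exact sw_inv
  have hstep : ∀ (r : R6) (S : P7) (a : F), a ≠ 0 → n (Pi.single S a) = n (Pi.single (sw7 r S) 1) := by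
    intro r S a ha
    obtain ⟨ε, hε, hc⟩ := hI.swap r
    have e1 : (fun T => ε T * (Pi.single S a : P7 → F) (sw7 r T)) = Pi.single (sw7 r S) (ε (sw7 r S) * a) := by
      funext T
      by_cases h : T = sw7 r S
      · subst h
        rw [hinv]
        simp
      · have h' : sw7 r T ≠ S := by
          intro h2
          apply h
          rw [← h2, hinv]
        rw [Pi.single_eq_of_ne h', Pi.single_eq_of_ne h]
        simp
    rw [hc (Pi.single S a), e1]
    apply GP.n_single tb hII
    intro h0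
    rcases hε (sw7 r S) with h | h <;> rw [h] at h0 <;> simp [ha] at h0
  have h1 : ∀ (T : P7) (a : F), a ≠ 0 → n (Pi.single T a) = n (Pi.single (0 : P7) (1 : F)) := by
    intro T a ha
    rw [hstep (w0 T) T a ha, hstep (w1 T) _ 1 one_ne_zero]
    have h0 : sw7 (w1 T) (sw7 (w0 T) T) = 0 := by
      rw [sw_eq]
      exact sw_conn T
    rw [h0]
  obtain ⟨c, hc0, hcn⟩ := hex
  obtain ⟨S, hS⟩ : ∃ S, c S ≠ 0 := by
    by_contra h
    push Not at h
    exact hc0 (funext h)
  have hlm : ∀ p, p ∈ (GP.upF hs7 ngF S).toList ↔ hs7 (ngF p) S = true := fun p => by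
    rw [Finset.mem_toList, GP.mem_up]
  obtain ⟨u, hu⟩ := GP.support tb hsg hII hB' (Finset.nodup_toList _) hlm hS hcn
  have hpos : 0 < n (Pi.single (0 : P7) (1 : F)) := by
    rw [← h1 S (c S) hS, ← GP.n_psi hII (GP.upF hs7 ngF S).toList u, ← hu]
    exact hcn
  refine ⟨_, hpos, h1, ?_⟩
  rw [GP.pure_count tb hsg hII h1 hB', sum_ell]

end Cfsg.Agent.Lib.MinE8
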