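import Cfsg.Agent.Lib.MinE8.Inv
import Cfsg.Agent.Lib.MinE8.TbE8

/-! Pure combinatorics on `F⁵⁶`: the generic theorem of `GenPure` for the tables `TbE8`. -/

set_option autoImplicit false
set_option linter.unusedSectionVars false
set_option linter.unusedVariables false

namespace Cfsg.Agent.Lib.MinE8

open Module
open scoped Classical

variable {F : Type*} [Field F] [Fintype F] {sg : R7 → P8 → F} {n : (P8 → F) → ℕ}

open Tb8 in
/-- The support of an invariant function consists of the rank one vectors. PLAN.md, paragraph `Pure`. -/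
theorem pure_thm (hsg : ∀ r T, sg r T = 1 ∨ sg r T = -1) (hI : InvE sg n) {m : ℕ} (hm : 0 < m) (hm2 : m ≤ 2)
    (hE : ∀ T : P8, ∑ c : P8 → F, (if c T ≠ 0 then n c else 0) = (Fintype.card F - 1) * Fintype.card F ^ 27 * m) :
    (∀ (T : P8) (a : F), a ≠ 0 → n (Pi.single T a) = m) ∧
    ∑ c : P8 → F, (if c ≠ 0 then n c else 0) = m * ((Fintype.card F - 1) * gauss56 (Fintype.card F)) := by
  have hII : GP.InvG hs mv pwr sg n := ⟨fun r t c => hI.A r t c, fun r s c => hI.torus r s c⟩
  have hq : 2 ≤ Fintype.card F := GP.two_le_q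
  have hB : ∀ S, ∑ c : P8 → F, (if c S ≠ 0 then n c else 0) < Fintype.card F ^ 27 * Fintype.card F ^ 16 := by
    intro S
    rw [hE S]
    set q := Fintype.card F
    have h1 : (q - 1) * m < q ^ 16 := by
      have h2 : (q - 1) * m ≤ (q - 1) * 2 := Nat.mul_le_mul_left _ hm2
      have h3 : q ^ 2 ≤ q ^ 16 := Nat.pow_le_pow_right (by omega) (by norm_num)
      have h4 : (q - 1) * 2 < q ^ 2 := by
        obtain ⟨x, hx⟩ : ∃ x, q = x + 2 := ⟨q - 2, by omega⟩
        have h6 : q - 1 = x + 1 := by omega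
        rw [h6, hx]
        nlinarith
      omega
    have h5 : 0 < q ^ 27 := by positivity
    calc (q - 1) * q ^ 27 * m = q ^ 27 * ((q - 1) * m) := by ring
      _ < q ^ 27 * q ^ 16 := Nat.mul_lt_mul_of_pos_left h1 h5
  have h1 : ∀ (T : P8) (a : F), a ≠ 0 → n (Pi.single T a) = m := fun T a ha =>
    GP.n_single_eq tb hsg hII hB hE T ha
  refine ⟨h1, ?_⟩
  rw [GP.pure_count tb hsg hII h1 hB, sum_ell]

end Cfsg.Agent.Lib.MinE8
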