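import Cfsg.Agent.Lib.MinE8.Pure8

/-! The reduction when `k < B`. PORT of `Lib/MinE6/Red.lean`. -/

set_option autoImplicit false
set_option maxRecDepth 100000
set_option linter.unusedSectionVars false
set_option linter.unusedVariables false

namespace Cfsg.Agent.Lib.MinE8

open Module
open scoped Classical

variable {F : Type*} [Field F] {Γ : Type*} [Group Γ] {V : Type*} [AddCommGroup V] [Module ℂ V]
variable {S : SysE8 F Γ} {ρ : Representation ℂ Γ V} {ψ : AddChar F ℂ}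

lemma red_ar1 {q : ℕ} (hq : 2 ≤ q) : BB8 q ≤ 3 * ((q - 1) * q ^ 28) := by
  obtain ⟨s, rfl⟩ : ∃ s, q = s + 2 := ⟨q - 2, by omega⟩
  have e : s + 2 - 1 = s + 1 := rfl
  rw [e]
  unfold BB8
  have : 3 * ((s + 1) * (s + 2) ^ 28) = (s + 2) * ((s + 2) ^ 12 + 1) * ((s + 2) ^ 10 + 1) * ((s + 2) ^ 6 + 1) +
      (259381118 * s ^ 0 + 4192338495 * s ^ 1 + 32325705568 * s ^ 2 + 158726611152 * s ^ 3 + 558572651496 * s ^ 4 + 1502422287660 * s ^ 5 + 3215547706418 * s ^ 6 + 5627143003743 * s ^ 7 + 8209074126328 * s ^ 8 + 10125883733108 * s ^ 9 + 10673132144378 * s ^ 10 + 9689394563783 * s ^ 11 + 7620271874150 * s ^ 12 + 5213171672127 * s ^ 13 + 3110660993344 * s ^ 14 + 1621141340576 * s ^ 15 + 738028470038 * s ^ 16 + 293187676307 * s ^ 17 + 101395229114 * s ^ 18 + 30412320399 * s ^ 19 + 7868326312 * s ^ 20 + 1742905868 * s ^ 21 + 327225554 * s ^ 22 + 51367679 * s ^ 23 + 6617520 * s ^ 24 + 681408 *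 s ^ 25 + 53928 * s ^ 26 + 3080 * s ^ 27 + 113 * s ^ 28 + 2 * s ^ 29) := by ring
  omega

lemma red_ar2 {q : ℕ} (hq : 2 ≤ q) : BB8 q ≤ 2 * k08 q := by
  obtain ⟨s, rfl⟩ : ∃ s, q = s + 2 := ⟨q - 2, by omega⟩
  unfold BB8 k08 gauss56
  have e : s + 2 - 1 = s + 1 := rfl
  rw [e]
  simp only [Finset.sum_range_succ, Finset.sum_range_zero]
  have : 2 * ((s + 1) * (s + 2) ^ 28 + (s + 1) * (((s + 2) ^ 9 + 1) * ((s + 2) ^ 5 + 1) *
      (0 + (s + 2) ^ 0 + (s + 2) ^ 1 + (s + 2) ^ 2 + (s + 2) ^ 3 + (s + 2) ^ 4 + (s + 2) ^ 5 + (s + 2) ^ 6 + (s + 2) ^ 7 +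
        (s + 2) ^ 8 + (s + 2) ^ 9 + (s + 2) ^ 10 + (s + 2) ^ 11 + (s + 2) ^ 12 + (s + 2) ^ 13))) =
      (s + 2) * ((s + 2) ^ 12 + 1) * ((s + 2) ^ 10 + 1) * ((s + 2) ^ 6 + 1) +
      (545641276 * s ^ 0 + 7884894111 * s ^ 1 + 55040735936 * s ^ 2 + 247124833920 * s ^ 3 + 801700979796 * s ^ 4 + 2001363973482 * s ^ 5 + 3998184580850 * s ^ 6 + 6562638765375 * s ^ 7 + 9017489382868 * s ^ 8 + 10514971083890 * s ^ 9 + 10510910877434 * s ^ 10 + 9075028657863 * s ^ 11 + 6804879299686 * s ^ 12 + 4448702755391 * s ^ 13 + 2541864215616 * s ^ 14 + 1270848305696 * s ^ 15 + 555972579494 * s ^ 16 + 212572211051 * s ^ 17 + 70856326726 * s ^ 18 + 20510871921 * s ^ 19 + 5127696728 * s ^ 20 + 1098790132 * s ^ 21 + 199779886 * s ^ 22 + 30401281 * s ^ 23 + 3800160 * s ^ 24 + 380016 * s ^ 25 + 29232 * s ^ 26 + 1624 * s ^ 27 + 58 * s ^ 28 + 1 * s ^ 29) := by ring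
  omega

/-- If `k < B`: `d = q²⁸`, the lines have dimension one, `k = k0 + dim V^U`. Port of `MinE6.red`: `(q-1) q²⁸ m ≤ k < B` gives `m ≤ 2` (`BB8 q ≤ 3 (q-1) q²⁸`); `BB8 q ≤ 2 k08 q` gives `m = 1`. -/
theorem red [Fintype F] [FiniteDimensional ℂ V] (hψ : ψ ≠ 1) (hfix : NoFix S ρ) (hV : Nontrivial V) (hk : finrank ℂ V < BB8 (Fintype.card F)) :
    (∀ a : F, a ≠ 0 → nfE S ρ ψ (Pi.single b8 a) = 1) ∧ finrank ℂ V = k08 (Fintype.card F) + wr S ρ ψ (clist 0) := by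
  classical
  have hq2 : 2 ≤ Fintype.card F := Fintype.one_lt_card
  obtain ⟨m, hm1, hm2⟩ := exists_m (S := S) (ρ := ρ) hψ
  have hd := d_pos (S := S) (ρ := ρ) hψ hfix hV
  have hm0 : 0 < m := by
    rcases Nat.eq_zero_or_pos m with h | h
    · rw [hm1, h, mul_zero] at hd
      exact absurd hd (lt_irrefl _)
    · exact h
  have hkeq := k_eq (S := S) (ρ := ρ) (ψ := ψ) hψ
  rw [hm1] at hkeq
  have hm3 : m ≤ 2 := by
    by_contra hc
    have h3 : 3 ≤ m := by omega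
    have h1 : 3 * ((Fintype.card F - 1) * Fintype.card F ^ 28) ≤ (Fintype.card F - 1) * (Fintype.card F ^ 28 * m) := by
      calc 3 * ((Fintype.card F - 1) * Fintype.card F ^ 28) = (Fintype.card F - 1) * (Fintype.card F ^ 28 * 3) := by ring
        _ ≤ _ := Nat.mul_le_mul_left _ (Nat.mul_le_mul_left _ h3)
    have h2 := red_ar1 hq2
    omega
  obtain ⟨h1, h2⟩ := pure_thm S.sg_sign (inv_nf (S := S) (ρ := ρ) (ψ := ψ)) hm0 hm3 hm2
  have hsplit : ∑ c : P8 → F, nfE S ρ ψ c = nfE S ρ ψ 0 + ∑ c : P8 → F, (if c ≠ 0 then nfE S ρ ψ c else 0) := by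
    have h : ∀ c : P8 → F, nfE S ρ ψ c = (if c = 0 then nfE S ρ ψ c else 0) + (if c ≠ 0 then nfE S ρ ψ c else 0) := by
      intro c
      by_cases hc : c = 0
      · simp [hc]
      · simp [hc]
    calc ∑ c : P8 → F, nfE S ρ ψ c
        = ∑ c : P8 → F, ((if c = 0 then nfE S ρ ψ c else 0) + (if c ≠ 0 then nfE S ρ ψ c else 0)) :=
          Finset.sum_congr rfl fun c _ => h c
      _ = _ := by
          rw [Finset.sum_add_distrib]
          congr 1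
          rw [Finset.sum_ite_eq' Finset.univ (0 : P8 → F) (nfE S ρ ψ)]
          simp
  rw [hsplit, h2] at hkeq
  have hn0 : nfE S ρ ψ 0 = wr S ρ ψ (clist 0) := rfl
  rw [hn0] at hkeq
  have hkm : finrank ℂ V = m * k08 (Fintype.card F) + wr S ρ ψ (clist 0) := by
    rw [hkeq]
    unfold k08
    ring
  have hm1' : m = 1 := by
    by_contra hc
    have hm2' : m = 2 := by omega
    rw [hm2'] at hkm
    have h3 := red_ar2 hq2
    omega
  subst hm1'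
  refine ⟨fun a ha => h1 b8 a ha, ?_⟩
  rw [hkm, one_mul]

end Cfsg.Agent.Lib.MinE8
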