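import Cfsg.Agent.Lib.MinE8.Ar

/-! The abstract bound. -/

set_option autoImplicit false
set_option maxRecDepth 100000
set_option linter.unusedSectionVars false
set_option linter.unusedVariables false

namespace Cfsg.Agent.Lib.MinE8

open Module
open scoped Classical

/-- The abstract bound. -/
theorem bound_abs {F : Type*} [Field F] [Fintype F] {Γ : Type*} [Group Γ] [Finite Γ] {V : Type} [AddCommGroup V] [Module ℂ V] [FiniteDimensional ℂ V]
    (S : SysE8 F Γ) (ρ : Representation ℂ Γ V) (ψ : AddChar F ℂ) (hψ : ψ ≠ 1) (hfix : NoFix S ρ) (hV : Nontrivial V)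
    (hd : finrank ℂ V ∣ NN8 (Fintype.card F))
    (S6 : Cfsg.Agent.Lib.MinE6.SysE F (MM S)) (hS6 : ∀ (r : ℕ) (hr : r < 72) (u : F), ((S6.x r u : MM S) : Γ) = S.x (rr (em ⟨r, hr⟩)) u)
    (hqp : IsPrimePow (Fintype.card F)) :
    BB8 (Fintype.card F) ≤ finrank ℂ V := by
  by_contra hc
  have hlt : finrank ℂ V < BB8 (Fintype.card F) := by omega
  have hq : 2 ≤ Fintype.card F := Fintype.one_lt_card
  obtain ⟨hl, hk⟩ := red (S := S) (ρ := ρ) (ψ := ψ) hψ hfix hV hlt
  have hRL := RL_le_four (S := S) (ρ := ρ) (ψ := ψ) hψ hfix hl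
  have hBB := BB8_eq hq
  by_cases hL : LTriv S ρ ψ
  · have e : RL S ρ ψ = RR S ρ ψ := by
      ext v
      constructor
      · exact fun h => h.1
      · exact fun h => ⟨h, fun r a => hL r a v h⟩
    have h4 : wr S ρ ψ (clist 0) ≤ 4 := by
      rw [e] at hRL
      exact hRL
    rw [hk] at hd
    exact no_dvd_I hqp h4 hd
  · have h18 := lt18 hq
    have h2a := two_a07 hq
    obtain ⟨m, hm, hl7, hR⟩ := red7 (S := S) (ρ := ρ) (ψ := ψ) hψ (by omega) hL
    have hm1 : m = 1 := by
      by_contra hne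
      have h2 : 2 ≤ m := by omega
      have : 2 * a07 (Fintype.card F) ≤ m * a07 (Fintype.card F) := Nat.mul_le_mul_right _ h2
      omega
    subst hm1
    rw [one_mul] at hR
    obtain ⟨w, hw, hcases⟩ := KK_cases (S := S) (ρ := ρ) (ψ := ψ) hψ S6 hS6
    have hK0 := K0_le (S := S) (ρ := ρ) (ψ := ψ) hψ hl7
    have hnf : nf7 S ρ ψ 0 = finrank ℂ (KK S ρ ψ) := rfl
    rw [hnf, hw] at hR
    set s := finrank ℂ (K0 S ρ ψ) with hs
    have hs8 : s ≤ 8 := by omega
    have hB6 := BB6_eq hq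
    rw [hk, hR] at hd hlt
    rcases hcases with h0 | h1 | ⟨r, hr, hr' | hr'⟩
    · subst h0
      apply no_dvd_II hqp hs8
      have e : k08 (Fintype.card F) + (a07 (Fintype.card F) + (s + 0)) = k08 (Fintype.card F) + a07 (Fintype.card F) + s := by omega
      rwa [e] at hd
    · have : ∃ u, u ≤ 2 ∧ k08 (Fintype.card F) + (a07 (Fintype.card F) + (s + w)) = k08 (Fintype.card F) + a07 (Fintype.card F) + Cfsg.Agent.Lib.MinE6.k0 (Fintype.card F) + ww (Fintype.card F) + u :=
        ⟨k08 (Fintype.card F) + (a07 (Fintype.card F) + (s + w)) - (k08 (Fintype.card F) + a07 (Fintype.card F) + Cfsg.Agent.Lib.MinE6.k0 (Fintype.card F) + ww (Fintype.card F)), by omega, by omega⟩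
      obtain ⟨u, hu, e⟩ := this
      rw [e] at hd
      exact no_dvd_IV hqp hu hd
    · apply no_dvd_III hqp (t := r + s) (by omega)
      have e : k08 (Fintype.card F) + (a07 (Fintype.card F) + (s + w)) = k08 (Fintype.card F) + a07 (Fintype.card F) + Cfsg.Agent.Lib.MinE6.k0 (Fintype.card F) + (r + s) := by omega
      rwa [e] at hd
    · have : ∃ u, u ≤ 2 ∧ k08 (Fintype.card F) + (a07 (Fintype.card F) + (s + w)) = k08 (Fintype.card F) + a07 (Fintype.card F) + Cfsg.Agent.Lib.MinE6.k0 (Fintype.card F) + ww (Fintype.card F) + u :=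
        ⟨k08 (Fintype.card F) + (a07 (Fintype.card F) + (s + w)) - (k08 (Fintype.card F) + a07 (Fintype.card F) + Cfsg.Agent.Lib.MinE6.k0 (Fintype.card F) + ww (Fintype.card F)), by omega, by omega⟩
      obtain ⟨u, hu, e⟩ := this
      rw [e] at hd
      exact no_dvd_IV hqp hu hd

end Cfsg.Agent.Lib.MinE8
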